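import Mathlib
import Cfsg.Prelude.Def_Solvable
import Cfsg.Agent.Lib.H28.Cj
import Cfsg.Agent.Lib.H28.RelHall
import Cfsg.Agent.Lib.H1.Hall
import Cfsg.Agent.Lib.H1.Solv
import Cfsg.Agent.Lib.H2.BGCop

/-! Groups in which subgroups of the same order are conjugate: lifting through normal Hall subgroups. -/

set_option autoImplicit false
set_option linter.unusedSectionVars false

open Subgroup Cfsg H28.Cj H28.RelHall H28.RelSyl

namespace H45.BgA

/-- abelian subgroups of the same order are conjugate -/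
def HB (G : Type*) [Group G] : Prop :=
  ∀ A B : Subgroup G, IsMulCommutative ↥A → IsMulCommutative ↥B → Nat.card ↥A = Nat.card ↥B →
    ∃ g : G, B = cj g A

/-- subgroups of the same order are conjugate -/
def SO (G : Type*) [Group G] : Prop :=
  ∀ A B : Subgroup G, Nat.card ↥A = Nat.card ↥B → ∃ g : G, B = cj g A

variable {G : Type*} [Group G]

theorem cj_normal (N : Subgroup G) [hN : N.Normal] (g : G) : cj g N = N := by
  ext x
  rw [mem_cj]
  constructor
  · intro h
    have := hN.conj_mem _ h g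
    simpa [mul_assoc] using this
  · intro h
    have := hN.conj_mem _ h g⁻¹
    simpa [mul_assoc] using this

theorem map_cj {G' : Type*} [Group G'] (f : G →* G') (g : G) (A : Subgroup G) :
    (cj g A).map f = cj (f g) (A.map f) := by
  ext x
  constructor
  · rintro ⟨y, hy, rfl⟩
    rw [SetLike.mem_coe, mem_cj] at hy
    rw [mem_cj]
    exact ⟨_, hy, by simp⟩
  · intro hx
    rw [mem_cj] at hx
    obtain ⟨y, hy, hxy⟩ := hx
    refine ⟨g * y * g⁻¹, ?_, ?_⟩
    · rw [SetLike.mem_coe, mem_cj]; simpa [mul_assoc] using hy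
    · rw [map_mul, map_mul, map_inv, hxy]; group

theorem card_inf_hall [Finite G] (N : Subgroup G) [N.Normal] (hcop : (Nat.card N).Coprime N.index)
    (A : Subgroup G) : Nat.card (A ⊓ N : Subgroup G) = Nat.gcd (Nat.card A) (Nat.card N) := by
  have e1 := H1.Hall.card_map_mk_mul_card_inf A N
  have e2 : Nat.card (A.map (QuotientGroup.mk' N)) ∣ N.index := by
    rw [Subgroup.index_eq_card]; exact Subgroup.card_subgroup_dvd_card _
  have e3 : (Nat.card (A.map (QuotientGroup.mk' N))).Coprime (Nat.card N) :=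
    (Nat.Coprime.coprime_dvd_right e2 hcop).symm
  have e4 : Nat.card (A ⊓ N : Subgroup G) ∣ Nat.card N := Subgroup.card_dvd_of_le inf_le_right
  rw [← e1, Nat.Coprime.gcd_mul_left_cancel _ e3, Nat.gcd_eq_left e4]

/-- two subgroups with the same intersection with a normal Hall subgroup `N` and the same join with `N` are
conjugate, if `N` normalizes the intersection. -/
theorem conj_of_sup_eq [Finite G] (hs : Group.IsSolvable G) (N : Subgroup G) [hN : N.Normal]
    (hcop : (Nat.card N).Coprime N.index) (A B : Subgroup G) (hAB : A ⊓ N = B ⊓ N)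
    (hsup : A ⊔ N = B ⊔ N) (hU : N ≤ normalizer ((A ⊓ N : Subgroup G) : Set G)) :
    ∃ g : G, B = cj g A := by
  classical
  set U := A ⊓ N with hUdef
  set Y := A ⊔ N with hY
  have hAU : A ≤ normalizer (U : Set G) := by
    intro a ha
    rw [Subgroup.mem_normalizer_iff]
    intro x
    constructor
    · rintro ⟨h1, h2⟩
      exact ⟨A.mul_mem (A.mul_mem ha h1) (A.inv_mem ha), hN.conj_mem _ h2 a⟩
    · rintro ⟨h1, h2⟩
      have h3 := A.mul_mem (A.mul_mem (A.inv_mem ha) h1) ha
      have h4 := hN.conj_mem _ h2 a⁻¹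
      simp only [mul_assoc, inv_mul_cancel, mul_one, inv_mul_cancel_left, inv_inv] at h3 h4
      exact ⟨h3, h4⟩
  have hYU : Y ≤ normalizer (U : Set G) := sup_le hAU hU
  -- the set of primes
  let π : Set ℕ := {q | q ∣ N.index}
  -- Hall subgroups
  have hall : ∀ C : Subgroup G, C ⊓ N = U → C ⊔ N = Y →
      ∃ C₁, IsPiHallOf π C₁ Y ∧ C₁ ≤ C ∧ U ⊔ C₁ = C := by
    intro C h1 h2
    obtain ⟨C₁, hC₁⟩ := exists_isPiHallOf (G := G) π (H := C) inferInstance
    have hCY : C ≤ Y := by rw [← h2]; exact le_sup_left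
    have hCn : C ≤ normalizer (N : Set G) := le_normalizer_of_normal
    have hidx : C.relIndex Y ∣ Nat.card N := by
      rw [← h2, relIndex_sup_eq' hCn]; exact relIndex_dvd_card _ _
    refine ⟨C₁, isPiHallOf_trans hC₁ hCY ?_, hC₁.1, ?_⟩
    · intro p hp hpπ hd
      have h3 : p ∣ Nat.gcd (Nat.card N) N.index := Nat.dvd_gcd (hd.trans hidx) hpπ
      rw [hcop] at h3
      exact hp.one_lt.ne' (Nat.dvd_one.mp h3)
    · -- U ⊔ C₁ = C
      apply eq_of_le_of_card_ge (sup_le (by rw [← h1]; exact inf_le_left) hC₁.1)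
      -- |C| = |U| * |C : U|, |C:U| | index N
      have hUC : U ≤ C := by rw [← h1]; exact inf_le_left
      have e1 := H1.Hall.card_map_mk_mul_card_inf C N
      rw [h1] at e1
      have e2 : Nat.card (C.map (QuotientGroup.mk' N)) ∣ N.index := by
        rw [Subgroup.index_eq_card]; exact Subgroup.card_subgroup_dvd_card _
      have e3 := relIndex_mul_card hC₁.1
      -- relIndex C₁ C is coprime to every prime dividing index N
      have e4 : (C₁.relIndex C).Coprime (Nat.card (C.map (QuotientGroup.mk' N))) := by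
        apply Nat.coprime_of_dvd
        intro q hq hq1 hq2
        exact hC₁.2.2 q hq (hq2.trans e2) hq1
      have e5 : C₁.relIndex C ∣ Nat.card U := by
        apply Nat.Coprime.dvd_of_dvd_mul_left e4
        rw [e1, ← e3]; exact Dvd.intro _ rfl
      have e6 : Nat.card (C.map (QuotientGroup.mk' N)) ∣ Nat.card C₁ := by
        apply Nat.Coprime.dvd_of_dvd_mul_left e4.symm
        rw [e3, ← e1]; exact Dvd.intro _ rfl
      apply Nat.le_of_dvd Nat.card_pos
      rw [← e1]
      apply Nat.Coprime.mul_dvd_of_dvd_of_dvd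
      · exact Nat.Coprime.coprime_dvd_left e2 (Nat.Coprime.coprime_dvd_right
          (Subgroup.card_dvd_of_le (show U ≤ N from inf_le_right)) hcop.symm)
      · exact e6.trans (Subgroup.card_dvd_of_le le_sup_right)
      · exact Subgroup.card_dvd_of_le le_sup_left
  obtain ⟨A₁, hA₁, hA₁A, hUA⟩ := hall A rfl rfl
  obtain ⟨B₁, hB₁, hB₁B, hUB⟩ := hall B hAB.symm hsup.symm
  obtain ⟨y, hy, hyB⟩ := exists_conj_eq (G := G) inferInstance hA₁ hB₁
  refine ⟨y, ?_⟩
  rw [← hUA, cj_sup, ← hyB, mem_normalizer_iff_cj.mp (hYU hy), hUB]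

theorem lift [Finite G] (hs : Group.IsSolvable G) (N : Subgroup G) [hN : N.Normal]
    (hcop : (Nat.card N).Coprime N.index)
    (h1 : ∀ U : Subgroup G, U ≤ N → N ≤ normalizer (U : Set G))
    (h2 : ∀ U U' : Subgroup G, U ≤ N → U' ≤ N → Nat.card U = Nat.card U' → ∃ g : G, U' = cj g U)
    (h3 : ∀ U : Subgroup G, U ≤ N → SO ↥((normalizer (U : Set G)).map (QuotientGroup.mk' N))) : SO G := by
  intro A B hAB
  obtain ⟨g, hg⟩ := h2 (A ⊓ N) (B ⊓ N) inf_le_right inf_le_right
    (by rw [card_inf_hall N hcop, card_inf_hall N hcop, hAB])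
  suffices key : ∀ A B : Subgroup G, Nat.card A = Nat.card B → A ⊓ N = B ⊓ N → ∃ g : G, B = cj g A by
    obtain ⟨g', hg'⟩ := key (cj g A) B (by rw [card_cj, hAB]) (by rw [hg, cj_inf, cj_normal N g])
    exact ⟨g' * g, by rw [hg', cj_cj]⟩
  clear hAB hg g A B
  intro A B hAB hU
  set U := A ⊓ N with hUdef
  set M := normalizer (U : Set G) with hM
  have hnorm : ∀ C : Subgroup G, C ⊓ N = U → C ≤ M := by
    intro C hC c hc
    rw [hM, Subgroup.mem_normalizer_iff, ← hC]
    intro x
    constructor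
    · rintro ⟨h1, h2⟩
      exact ⟨C.mul_mem (C.mul_mem hc h1) (C.inv_mem hc), hN.conj_mem _ h2 c⟩
    · rintro ⟨h1, h2⟩
      have h3 := C.mul_mem (C.mul_mem (C.inv_mem hc) h1) hc
      have h4 := hN.conj_mem _ h2 c⁻¹
      simp only [mul_assoc, inv_mul_cancel, mul_one, inv_mul_cancel_left, inv_inv] at h3 h4
      exact ⟨h3, h4⟩
  have hAM := hnorm A rfl
  have hBM := hnorm B hU.symm
  have hUN : U ≤ N := inf_le_right
  have hNM : N ≤ M := h1 U hUN
  set f := QuotientGroup.mk' N with hf
  have hAf : A.map f ≤ M.map f := map_mono hAM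
  have hBf : B.map f ≤ M.map f := map_mono hBM
  have hcard : Nat.card ((A.map f).subgroupOf (M.map f)) = Nat.card ((B.map f).subgroupOf (M.map f)) := by
    rw [card_subgroupOf hAf, card_subgroupOf hBf]
    have e1 := H1.Hall.card_map_mk_mul_card_inf A N
    have e2 := H1.Hall.card_map_mk_mul_card_inf B N
    rw [← hU, ← hAB, ← e1] at e2
    exact (Nat.eq_of_mul_eq_mul_right Nat.card_pos e2).symm
  obtain ⟨m', hm'⟩ := h3 U hUN _ _ hcard
  obtain ⟨⟨_, m, hm, rfl⟩, hm''⟩ : ∃ m'' : ↥(M.map f), m'' = m' := ⟨m', rfl⟩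
  have e3 : B.map f = cj (f m) (A.map f) := by
    have e4 := congrArg (Subgroup.map (M.map f).subtype) hm'
    rw [map_cj, ← hm'', subgroupOf_map_subtype, subgroupOf_map_subtype, inf_eq_left.mpr hAf,
      inf_eq_left.mpr hBf] at e4
    exact e4
  rw [← map_cj] at e3
  have e5 : cj m A ⊔ N = B ⊔ N := by
    have := (Subgroup.map_eq_map_iff (f := f)).mp e3
    rw [QuotientGroup.ker_mk'] at this
    exact this.symm
  have e6 : cj m A ⊓ N = U := by
    calc cj m A ⊓ N = cj m A ⊓ cj m N := by rw [cj_normal N m]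
      _ = cj m (A ⊓ N) := (cj_inf _ _ _).symm
      _ = U := mem_normalizer_iff_cj.mp hm
  obtain ⟨g, hg⟩ := conj_of_sup_eq hs N hcop (cj m A) B (by rw [e6, hU]) e5 (by rw [e6]; exact hNM)
  exact ⟨g * m, by rw [hg, cj_cj]⟩

/-- cyclic groups -/
theorem so_of_cyclic [Finite G] (hc : IsCyclic G) : SO G := by
  intro A B h
  refine ⟨1, ?_⟩
  rw [cj_one]
  exact (H2.BGCop.eq_of_card_eq_of_isCyclic (A := (⊤ : Subgroup G))
    (Subgroup.topEquiv (G := G).isCyclic.mpr hc) le_top le_top h).symm

theorem so_of_zgroup [Finite G] [hz : IsZGroup G] : SO G := by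
  have hcyc : IsCyclic (commutator G) := IsZGroup.isCyclic_commutator G
  apply lift inferInstance (commutator G) (IsZGroup.coprime_commutator_index G)
  · intro U hU
    have hUn : U.Normal := by
      have h1 : (U.subgroupOf (commutator G)).Characteristic := by
        rw [Subgroup.characteristic_iff_map_eq]
        intro φ
        apply H2.BGCop.eq_of_card_eq_of_isCyclic (A := (⊤ : Subgroup (commutator G)))
          (Subgroup.topEquiv.isCyclic.mpr hcyc) le_top le_top
        exact Nat.card_congr ((U.subgroupOf (commutator G)).equivMapOfInjective _ φ.injective).toEquiv.symm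
      have h2 : ((U.subgroupOf (commutator G)).map (commutator G).subtype).Normal := inferInstance
      rwa [subgroupOf_map_subtype, inf_eq_left.mpr hU] at h2
    rw [normalizer_eq_top_iff.mpr hUn]; exact le_top
  · intro U U' hU hU' h
    exact ⟨1, by rw [cj_one]; exact (H2.BGCop.eq_of_card_eq_of_isCyclic hcyc hU hU' h).symm⟩
  · intro U hU
    apply so_of_cyclic
    have : IsCyclic (G ⧸ commutator G) := inferInstanceAs (IsCyclic (Abelianization G))
    infer_instance

end H45.BgA
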