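import Cfsg.Agent.Lib.H45.BgA
import Cfsg.Agent.Lib.H58.UniqInv

/-! Elementary abelian groups, quaternion groups. -/

set_option autoImplicit false
set_option linter.unusedSectionVars false

open Subgroup Cfsg H28.Cj H28.RelHall H28.RelSyl H45.BgA

namespace H45.BgB

variable {G : Type*} [Group G]

theorem ord_eq {r : ℕ} (hr : r.Prime) {x : G} (h : x ^ r = 1) (hx : x ≠ 1) : orderOf x = r :=
  haveI := Fact.mk hr
  orderOf_eq_prime h hx

section ea

variable [Finite G] {r : ℕ} {V : Subgroup G}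

theorem card_sup_zpowers (hr : r.Prime) (hV : IsMulCommutative V) (he : ∀ x ∈ V, x ^ r = 1)
    {H : Subgroup G} (hH : H ≤ V) {x : G} (hx : x ∈ V) (hxH : x ∉ H) :
    Nat.card (H ⊔ zpowers x : Subgroup G) = Nat.card H * r := by
  have hx1 : x ≠ 1 := by rintro rfl; exact hxH H.one_mem
  have hox : orderOf x = r := ord_eq hr (he x hx) hx1
  have hxV : zpowers x ≤ V := by rwa [zpowers_le]
  have hcomm : ∀ a ∈ V, ∀ b ∈ V, a * b = b * a := fun a ha b hb =>
    congrArg Subtype.val (mul_comm' (⟨a, ha⟩ : V) ⟨b, hb⟩)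
  have hn : H ≤ normalizer (zpowers x : Set G) := by
    intro h hh
    rw [mem_normalizer_iff_cj]
    ext y
    rw [mem_cj]
    have key : ∀ y ∈ V, h⁻¹ * y * h = y := by
      intro y hy
      rw [mul_assoc, hcomm y hy h (hH hh), inv_mul_cancel_left]
    constructor
    · intro h1
      have h2 := key _ (hxV h1)
      have h3 : h⁻¹ * y * h = y := by
        have : y = h * (h⁻¹ * y * h) * h⁻¹ := by group
        have h4 : y ∈ V := by
          rw [this]; exact V.mul_mem (V.mul_mem (hH hh) (hxV h1)) (V.inv_mem (hH hh))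
        exact key y h4
      rwa [h3] at h1
    · intro h1
      rwa [key y (hxV h1)]
  have h1 := card_sup_mul_card_inf hn
  have h2 : H ⊓ zpowers x = ⊥ := by
    have h3 : Nat.card (H ⊓ zpowers x : Subgroup G) ∣ r := by
      rw [← hox, ← Nat.card_zpowers]; exact Subgroup.card_dvd_of_le inf_le_right
    rcases (Nat.dvd_prime hr).mp h3 with h4 | h4
    · exact Subgroup.card_eq_one.mp h4
    · exfalso
      apply hxH
      have h5 : H ⊓ zpowers x = zpowers x := by
        apply eq_of_le_of_card_ge inf_le_right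
        rw [h4, Nat.card_zpowers, hox]
      have : x ∈ H ⊓ zpowers x := by rw [h5]; exact mem_zpowers x
      exact this.1
  rw [h2, Subgroup.card_bot, mul_one, Nat.card_zpowers, hox] at h1
  exact h1

/-- if `u` normalizes all subgroups of order `r ^ (j + 1) < |V|` then it normalizes all of order `r ^ j` -/
theorem descend (hr : r.Prime) (hV : IsMulCommutative V) (he : ∀ x ∈ V, x ^ r = 1) (u : G) (j : ℕ)
    (hj : r ^ (j + 1) < Nat.card V)
    (h : ∀ W : Subgroup G, W ≤ V → Nat.card W = r ^ (j + 1) → u ∈ normalizer (W : Set G)) :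
    ∀ W : Subgroup G, W ≤ V → Nat.card W = r ^ j → u ∈ normalizer (W : Set G) := by
  intro H hH hc
  have hex : ∀ W : Subgroup G, W ≤ V → Nat.card W < Nat.card V → ∃ x ∈ V, x ∉ W := by
    intro W hW hlt
    by_contra hcon
    push Not at hcon
    have : V ≤ W := hcon
    rw [le_antisymm hW this] at hlt
    exact lt_irrefl _ hlt
  obtain ⟨x, hx, hxH⟩ := hex H hH (by
    rw [hc]; exact lt_of_le_of_lt (Nat.pow_le_pow_right hr.pos (Nat.le_succ j)) hj)
  have hxV : zpowers x ≤ V := by rwa [zpowers_le]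
  have c1 := card_sup_zpowers hr hV he hH hx hxH
  rw [hc, ← pow_succ] at c1
  obtain ⟨y, hy, hyW⟩ := hex (H ⊔ zpowers x) (sup_le hH hxV) (by rw [c1]; exact hj)
  have hyH : y ∉ H := fun h' => hyW (le_sup_left (a := H) h')
  have hyV : zpowers y ≤ V := by rwa [zpowers_le]
  have c2 := card_sup_zpowers hr hV he hH hy hyH
  rw [hc, ← pow_succ] at c2
  have n1 := h _ (sup_le hH hxV) c1
  have n2 := h _ (sup_le hH hyV) c2
  have h3 : (H ⊔ zpowers x) ⊓ (H ⊔ zpowers y) = H := by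
    symm
    apply eq_of_le_of_card_ge (le_inf le_sup_left le_sup_left)
    -- the intersection is a proper subgroup of H ⊔ zpowers y
    set I := (H ⊔ zpowers x) ⊓ (H ⊔ zpowers y) with hI
    have d1 : Nat.card I ∣ r ^ (j + 1) := by
      rw [← c2]; exact Subgroup.card_dvd_of_le inf_le_right
    obtain ⟨k, hk, hk'⟩ := (Nat.dvd_prime_pow hr).mp d1
    rw [hk', hc]
    apply Nat.pow_le_pow_right hr.pos
    by_contra hcon
    have hk2 : k = j + 1 := by omega
    have h4 : I = H ⊔ zpowers y := by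
      apply eq_of_le_of_card_ge inf_le_right
      rw [c2, hk', hk2]
    apply hyW
    have : y ∈ I := by rw [h4]; exact le_sup_right (a := H) (mem_zpowers y)
    exact this.1
  rw [← h3]
  rw [mem_normalizer_iff_cj] at n1 n2 ⊢
  rw [cj_inf, n1, n2]

theorem descend_all (hr : r.Prime) (hV : IsMulCommutative V) (he : ∀ x ∈ V, x ^ r = 1) (u : G) (j : ℕ)
    (hj : r ^ (j + 1) < Nat.card V)
    (h : ∀ W : Subgroup G, W ≤ V → Nat.card W = r ^ (j + 1) → u ∈ normalizer (W : Set G)) :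
    ∀ x ∈ V, u * x * u⁻¹ ∈ zpowers x := by
  induction j with
  | zero =>
    intro x hx
    by_cases hx1 : x = 1
    · subst hx1; simp
    have hox : orderOf x = r := ord_eq hr (he x hx) hx1
    have := h (zpowers x) (by rwa [zpowers_le]) (by rw [Nat.card_zpowers, hox]; simp)
    exact (Subgroup.mem_normalizer_iff.mp this x).mp (mem_zpowers x)
  | succ j ih =>
    exact ih (lt_trans (Nat.pow_lt_pow_right hr.one_lt (by omega)) hj) (descend hr hV he u (j + 1) hj h)

/-- if `u` normalizes all subgroups of `V` of the order of `W`, `1 < W < V`, then it normalizes all cyclic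
subgroups. -/
theorem cyc_of (hr : r.Prime) (hV : IsMulCommutative V) (he : ∀ x ∈ V, x ^ r = 1) (u : G)
    (W : Subgroup G) (hW : W ≤ V) (hW1 : W ≠ ⊥) (hWV : W ≠ V)
    (h : ∀ W' : Subgroup G, W' ≤ V → Nat.card W' = Nat.card W → u ∈ normalizer (W' : Set G)) :
    ∀ x ∈ V, u * x * u⁻¹ ∈ zpowers x := by
  have : Fact r.Prime := ⟨hr⟩
  have hp : IsPGroup r W := by
    intro x
    exact ⟨1, by rw [pow_one]; exact Subtype.ext (he _ (hW x.2))⟩
  obtain ⟨k, hk⟩ := IsPGroup.iff_card.mp hp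
  have hk0 : k ≠ 0 := by
    rintro rfl
    rw [pow_zero] at hk
    exact hW1 (Subgroup.card_eq_one.mp hk)
  obtain ⟨j, rfl⟩ := Nat.exists_eq_succ_of_ne_zero hk0
  apply descend_all hr hV he u j
  · rw [← Nat.succ_eq_add_one, ← hk]
    apply lt_of_le_of_ne (Nat.le_of_dvd Nat.card_pos (Subgroup.card_dvd_of_le hW))
    intro h'
    exact hWV (eq_of_le_of_card_ge hW h'.ge)
  · intro W' hW' hc
    exact h W' hW' (by rw [hc, hk])

theorem centralizes_of_fix (hr : r.Prime) (hV : IsMulCommutative V) (he : ∀ x ∈ V, x ^ r = 1) (u : G)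
    (h : ∀ x ∈ V, u * x * u⁻¹ ∈ zpowers x) {v : G} (hv : v ∈ V) (hv1 : v ≠ 1) (hfix : u * v * u⁻¹ = v) :
    ∀ x ∈ V, u * x * u⁻¹ = x := by
  have hcomm : ∀ a ∈ V, ∀ b ∈ V, a * b = b * a := fun a ha b hb =>
    congrArg Subtype.val (mul_comm' (⟨a, ha⟩ : V) ⟨b, hb⟩)
  intro x hx
  by_cases hxv : x ∈ zpowers v
  · obtain ⟨k, rfl⟩ := mem_zpowers_iff.mp hxv
    rw [← conj_zpow, hfix]
  have hx1 : x ≠ 1 := by rintro rfl; exact hxv (one_mem _)
  have hox : orderOf x = r := ord_eq hr (he x hx) hx1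
  have hov : orderOf v = r := ord_eq hr (he v hv) hv1
  obtain ⟨a, ha⟩ := mem_zpowers_iff.mp (h x hx)
  obtain ⟨m, hm⟩ := mem_zpowers_iff.mp (h (v * x) (V.mul_mem hv hx))
  have hc : Commute v x := hcomm v hv x hx
  rw [hc.mul_zpow] at hm
  have e1 : u * (v * x) * u⁻¹ = v * x ^ a := by
    calc u * (v * x) * u⁻¹ = (u * v * u⁻¹) * (u * x * u⁻¹) := by group
      _ = v * x ^ a := by rw [hfix, ha]
  rw [e1] at hm
  have e2 : v ^ (m - 1) = x ^ (a - m) := by
    have : v ^ m * x ^ m = v * x ^ a := hm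
    calc v ^ (m - 1) = v⁻¹ * (v ^ m * x ^ m) * (x ^ m)⁻¹ := by group
      _ = v⁻¹ * (v * x ^ a) * (x ^ m)⁻¹ := by rw [this]
      _ = x ^ (a - m) := by group
  have h2 : zpowers v ⊓ zpowers x = ⊥ := by
    have h3 : Nat.card (zpowers v ⊓ zpowers x : Subgroup G) ∣ r := by
      rw [← hox, ← Nat.card_zpowers]; exact Subgroup.card_dvd_of_le inf_le_right
    rcases (Nat.dvd_prime hr).mp h3 with h4 | h4
    · exact Subgroup.card_eq_one.mp h4
    · exfalso
      apply hxv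
      have h5 : zpowers v ⊓ zpowers x = zpowers x := by
        apply eq_of_le_of_card_ge inf_le_right
        rw [h4, Nat.card_zpowers, hox]
      have : x ∈ zpowers v ⊓ zpowers x := by rw [h5]; exact mem_zpowers x
      exact this.1
  have h3 : v ^ (m - 1) ∈ zpowers v ⊓ zpowers x :=
    ⟨zpow_mem (mem_zpowers v) _, by rw [e2]; exact zpow_mem (mem_zpowers x) _⟩
  rw [h2, mem_bot] at h3
  have h4 : x ^ (a - m) = 1 := by rw [← e2, h3]
  have h5 : (r : ℤ) ∣ m - 1 := by rw [← hov]; exact orderOf_dvd_iff_zpow_eq_one.mpr h3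
  have h6 : x ^ (m - 1) = 1 := by
    rw [← orderOf_dvd_iff_zpow_eq_one, hox]; exact h5
  rw [← ha]
  calc x ^ a = x ^ (a - m) * x ^ (m - 1) * x := by group
    _ = x := by rw [h4, h6]; group

theorem inverts_of (hV : IsMulCommutative V) {u : G} (hu : u ∈ normalizer (V : Set G))
    (h2 : ∀ x ∈ V, u * (u * x * u⁻¹) * u⁻¹ = x) (hfix : ∀ x ∈ V, u * x * u⁻¹ = x → x = 1) :
    ∀ x ∈ V, u * x * u⁻¹ = x⁻¹ := by
  have hcomm : ∀ a ∈ V, ∀ b ∈ V, a * b = b * a := fun a ha b hb =>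
    congrArg Subtype.val (mul_comm' (⟨a, ha⟩ : V) ⟨b, hb⟩)
  intro x hx
  have hx' : u * x * u⁻¹ ∈ V := (Subgroup.mem_normalizer_iff.mp hu x).mp hx
  have := hfix (x * (u * x * u⁻¹)) (V.mul_mem hx hx') (by
    calc u * (x * (u * x * u⁻¹)) * u⁻¹ = (u * x * u⁻¹) * (u * (u * x * u⁻¹) * u⁻¹) := by group
      _ = (u * x * u⁻¹) * x := by rw [h2 x hx]
      _ = x * (u * x * u⁻¹) := hcomm _ hx' _ hx)
  exact eq_inv_of_mul_eq_one_right this

end ea

section quat

open QuaternionGroup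

theorem xa_mem {m : ℕ} [NeZero m] {i j : ZMod (2 * m)} (h : xa j ∈ zpowers (xa i : QuaternionGroup m)) :
    j = i ∨ j = i + m := by
  classical
  rw [mem_zpowers_iff_mem_range_orderOf, orderOf_xa, Finset.mem_image] at h
  obtain ⟨k, hk, hk'⟩ := h
  rw [Finset.mem_range] at hk
  have h0 : (xa i : QuaternionGroup m) ^ 2 = a (m : ZMod (2 * m)) := xa_sq i
  interval_cases k
  · rw [pow_zero, one_def] at hk'; cases hk'
  · simp at hk'; exact Or.inl hk'.symm
  · rw [h0] at hk'; simp at hk'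
  · rw [pow_succ', h0, xa_mul_a] at hk'
    simp at hk'
    exact Or.inr hk'.symm

variable {S : Type*} [Group S]

theorem exists_two [Finite S] {n : ℕ} (e : S ≃* QuaternionGroup (2 ^ n)) (hn : n ≠ 0) :
    ∃ x y : S, orderOf x = 4 ∧ orderOf y = 4 ∧ x ∉ zpowers y := by
  refine ⟨e.symm (xa 1), e.symm (xa 0), ?_, ?_, ?_⟩
  · rw [MulEquiv.orderOf_eq]; exact orderOf_xa _
  · rw [MulEquiv.orderOf_eq]; exact orderOf_xa _
  · intro h
    obtain ⟨k, hk⟩ := mem_zpowers_iff.mp h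
    rw [← map_zpow] at hk
    have h1 : (xa 1 : QuaternionGroup (2 ^ n)) ∈ zpowers (xa 0 : QuaternionGroup (2 ^ n)) :=
      mem_zpowers_iff.mpr ⟨k, e.symm.injective hk⟩
    have h2 : 1 < 2 ^ n := Nat.one_lt_two_pow hn
    rcases xa_mem h1 with h3 | h3
    · have : ((1 : ℕ) : ZMod (2 * 2 ^ n)) = 0 := by push_cast; exact h3
      rw [ZMod.natCast_eq_zero_iff] at this
      have := Nat.le_of_dvd one_pos this
      omega
    · have : ((2 ^ n : ℕ) : ZMod (2 * 2 ^ n)) = ((1 : ℕ) : ZMod (2 * 2 ^ n)) := by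
        rw [zero_add] at h3; rw [← h3]; push_cast; rfl
      rw [ZMod.natCast_eq_natCast_iff'] at this
      rw [Nat.mod_eq_of_lt (by omega), Nat.mod_eq_of_lt (by omega)] at this
      omega

theorem eq_top_of [Finite S] {n : ℕ} (e : S ≃* QuaternionGroup (2 ^ n)) (K : Subgroup S)
    (hK : ∀ x, orderOf x = 4 → x ∈ K) : K = ⊤ := by
  have hxa : ∀ i, e.symm (xa i) ∈ K := fun i => hK _ (by rw [MulEquiv.orderOf_eq]; exact orderOf_xa _)
  rw [eq_top_iff]
  intro s _
  obtain ⟨q, rfl⟩ := e.symm.surjective s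
  cases q with
  | xa i => exact hxa i
  | a i =>
    have : (a i : QuaternionGroup (2 ^ n)) = xa 0 * xa (i - ((2 ^ n : ℕ) : ZMod (2 * 2 ^ n))) := by
      rw [xa_mul_xa]; congr 1; ring
    rw [this, map_mul]
    exact K.mul_mem (hxa _) (hxa _)

theorem quat_two [Finite G] (hHB : HB G) (T : Subgroup G) [hT : T.Normal] {n : ℕ}
    (e : T ≃* QuaternionGroup (2 ^ n)) (hn : n ≠ 0) : n = 1 := by
  obtain ⟨k, rfl⟩ := Nat.exists_eq_succ_of_ne_zero hn
  set m := 2 ^ (k + 1) with hm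
  have hm2 : m = 2 * 2 ^ k := by rw [hm, pow_succ']
  have hkpos : 0 < 2 ^ k := by positivity
  set c : QuaternionGroup m := a ((2 ^ k : ℕ) : ZMod (2 * m)) with hc
  have hc2 : c ^ 2 ≠ 1 := by
    rw [hc, pow_two, a_mul_a, one_def]
    intro h
    have h1 := QuaternionGroup.a.inj h
    have h2 : ((2 ^ k + 2 ^ k : ℕ) : ZMod (2 * m)) = 0 := by push_cast; push_cast at h1; exact h1
    rw [ZMod.natCast_eq_zero_iff] at h2
    have := Nat.le_of_dvd (by positivity) h2
    omega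
  have hc4 : c ^ 4 = 1 := by
    have : c ^ 4 = (c * c) * (c * c) := by rw [show (4 : ℕ) = 2 * 2 from rfl, pow_mul, pow_two, pow_two]
    rw [this, hc, a_mul_a, a_mul_a, one_def]
    congr 1
    have h2 : ((2 ^ k + 2 ^ k + (2 ^ k + 2 ^ k) : ℕ) : ZMod (2 * m)) = 0 := by
      rw [ZMod.natCast_eq_zero_iff]; exact ⟨1, by omega⟩
    push_cast at h2 ⊢; exact h2
  have hoc : orderOf c = 4 := by
    have : Fact (Nat.Prime 2) := ⟨Nat.prime_two⟩
    exact orderOf_eq_prime_pow (p := 2) (n := 1) (by simpa using hc2) (by simpa using hc4)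
  set c' : G := ((e.symm c : T) : G) with hc'
  set x' : G := ((e.symm (xa 0) : T) : G) with hx'
  have ho1 : orderOf c' = 4 := by rw [hc', Subgroup.orderOf_coe, MulEquiv.orderOf_eq, hoc]
  have ho2 : orderOf x' = 4 := by rw [hx', Subgroup.orderOf_coe, MulEquiv.orderOf_eq]; exact orderOf_xa _
  obtain ⟨g, hg⟩ := hHB (zpowers c') (zpowers x') inferInstance inferInstance
    (by rw [Nat.card_zpowers, Nat.card_zpowers, ho1, ho2])
  -- zpowers c' is normalized by T
  have hnc : ∀ t : T, (t : G) * c' * (t : G)⁻¹ ∈ zpowers c' := by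
    intro t
    have h1 : e t * c * (e t)⁻¹ = c ∨ e t * c * (e t)⁻¹ = c⁻¹ := by
      cases e t with
      | a i => left; rw [mul_inv_eq_iff_eq_mul, hc, a_mul_a, a_mul_a, add_comm]
      | xa i =>
        right
        rw [mul_inv_eq_iff_eq_mul, hc, xa_mul_a]
        show _ = a (-_) * xa i
        rw [a_mul_xa]; congr 1; ring
    have h2 : (t : G) * c' * (t : G)⁻¹ = ((t * e.symm c * t⁻¹ : T) : G) := by push_cast; rfl
    have h3 : t * e.symm c * t⁻¹ = e.symm (e t * c * (e t)⁻¹) := by simp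
    rw [h2, h3]
    rcases h1 with h1 | h1
    · rw [h1]; exact mem_zpowers _
    · rw [h1, map_inv]; exact inv_mem (mem_zpowers c')
  have hnc' : ∀ t : T, ∀ y ∈ zpowers c', (t : G) * y * (t : G)⁻¹ ∈ zpowers c' := by
    rintro t _ ⟨j, rfl⟩
    show (t : G) * c' ^ j * (t : G)⁻¹ ∈ zpowers c'
    rw [← conj_zpow]
    exact zpow_mem (hnc t) j
  set a' : G := ((e.symm (a 1) : T) : G) with ha'
  have h1 : a' * x' * a'⁻¹ ∈ zpowers x' := by
    rw [hg, mem_cj]
    have hx0 : g⁻¹ * x' * g ∈ zpowers c' := by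
      rw [← mem_cj, ← hg]; exact mem_zpowers _
    have ht : g⁻¹ * a' * g ∈ T := by
      have := hT.conj_mem a' (e.symm (a 1)).2 g⁻¹
      simpa using this
    have := hnc' ⟨_, ht⟩ _ hx0
    have h2 : g⁻¹ * (a' * x' * a'⁻¹) * g = (g⁻¹ * a' * g) * (g⁻¹ * x' * g) * (g⁻¹ * a' * g)⁻¹ := by group
    rw [h2]; exact this
  have h2 : (xa (-2) : QuaternionGroup m) ∈ zpowers (xa 0 : QuaternionGroup m) := by
    obtain ⟨j, hj⟩ := mem_zpowers_iff.mp h1
    have h3 : e.symm (xa 0) ^ j = e.symm (a 1) * e.symm (xa 0) * (e.symm (a 1))⁻¹ := by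
      apply Subtype.ext; push_cast; exact hj
    rw [← map_zpow, ← map_mul, ← map_inv, ← map_mul] at h3
    refine mem_zpowers_iff.mpr ⟨j, ?_⟩
    rw [e.symm.injective h3, a_mul_xa]
    show xa _ * a (-1) = _
    rw [xa_mul_a]; congr 1; ring
  rcases xa_mem h2 with h3 | h3
  · exfalso
    have h4 : ((2 : ℕ) : ZMod (2 * m)) = 0 := by
      push_cast
      linear_combination -h3
    rw [ZMod.natCast_eq_zero_iff] at h4
    have := Nat.le_of_dvd (by norm_num) h4
    omega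
  · have h4 : ((m + 2 : ℕ) : ZMod (2 * m)) = 0 := by
      push_cast
      linear_combination -h3
    rw [ZMod.natCast_eq_zero_iff] at h4
    have := Nat.le_of_dvd (by omega) h4
    have h5 : 2 ^ k ≤ 1 := by omega
    have h6 : k = 0 := by
      by_contra hk
      have := Nat.one_lt_two_pow hk
      omega
    rw [h6]

/-- facts on the quaternion group of order 8 -/
structure Q8 (T : Subgroup G) : Prop where
  card : Nat.card T = 8
  conj : ∀ x ∈ T, ∀ y ∈ T, y * x * y⁻¹ = x ∨ y * x * y⁻¹ = x⁻¹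
  inv : ∀ x ∈ T, ∀ y ∈ T, x ^ 2 ≠ 1 → y ^ 2 = 1 → y = 1 ∨ y = x ^ 2
  four : ∀ x ∈ T, x ^ 4 = 1
  gen : ∃ a ∈ T, ∃ b ∈ T, a ^ 2 ≠ 1 ∧ b ^ 2 ≠ 1 ∧ (a * b) ^ 2 ≠ 1 ∧ a * b * a⁻¹ * b⁻¹ = a ^ 2 ∧
    a ^ 2 = b ^ 2 ∧ ∀ x ∈ T, ∃ i j : ℕ, x = a ^ i * b ^ j

theorem q8_of (T : Subgroup G) (e : T ≃* QuaternionGroup 2) : Q8 T := by
  have hconj : ∀ x y : QuaternionGroup 2, y * x * y⁻¹ = x ∨ y * x * y⁻¹ = x⁻¹ := by decide
  have hinv : ∀ x y : QuaternionGroup 2, x ^ 2 ≠ 1 → y ^ 2 = 1 → y = 1 ∨ y = x ^ 2 := by decide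
  have hfour : ∀ x : QuaternionGroup 2, x ^ 4 = 1 := by decide
  have hgen : ∃ a b : QuaternionGroup 2, a ^ 2 ≠ 1 ∧ b ^ 2 ≠ 1 ∧ (a * b) ^ 2 ≠ 1 ∧
      a * b * a⁻¹ * b⁻¹ = a ^ 2 ∧ a ^ 2 = b ^ 2 ∧ ∀ x, ∃ i : Fin 4, ∃ j : Fin 4, x = a ^ (i : ℕ) * b ^ (j : ℕ) :=
    ⟨a 1, xa 0, by decide, by decide, by decide, by decide, by decide, by decide⟩
  have tr : ∀ x : T, ∀ k : ℕ, e x ^ k = 1 ↔ (x : G) ^ k = 1 := by
    intro x k
    rw [← map_pow, map_eq_one_iff e e.injective]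
    exact ⟨fun h => by rw [← Subgroup.coe_pow, h]; rfl, fun h => Subtype.ext (by push_cast; exact h)⟩
  refine ⟨?_, ?_, ?_, ?_, ?_⟩
  · rw [Nat.card_congr e.toEquiv, Nat.card_eq_fintype_card, QuaternionGroup.card]
  · intro x hx y hy
    have := hconj (e ⟨x, hx⟩) (e ⟨y, hy⟩)
    rw [← map_mul, ← map_inv, ← map_mul, ← map_inv] at this
    rcases this with h | h
    · exact Or.inl (congrArg Subtype.val (e.injective h))
    · exact Or.inr (congrArg Subtype.val (e.injective h))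
  · intro x hx y hy h1 h2
    have := hinv (e ⟨x, hx⟩) (e ⟨y, hy⟩) (fun h => h1 ((tr ⟨x, hx⟩ 2).mp h)) ((tr ⟨y, hy⟩ 2).mpr h2)
    rcases this with h | h
    · left
      have := (map_eq_one_iff e e.injective).mp h
      exact congrArg Subtype.val this
    · right
      rw [← map_pow] at h
      exact congrArg Subtype.val (e.injective h)
  · intro x hx
    exact (tr ⟨x, hx⟩ 4).mp (hfour _)
  · obtain ⟨a, b, h1, h2, h3, h4, h5, h6⟩ := hgen
    refine ⟨(e.symm a : T), (e.symm a).2, (e.symm b : T), (e.symm b).2, ?_, ?_, ?_, ?_, ?_, ?_⟩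
    · intro h; apply h1; have := (tr (e.symm a) 2).mpr h; simpa using this
    · intro h; apply h2; have := (tr (e.symm b) 2).mpr h; simpa using this
    · intro h; apply h3; have := (tr (e.symm a * e.symm b) 2).mpr (by push_cast; exact h); simpa using this
    · have : e.symm a * e.symm b * (e.symm a)⁻¹ * (e.symm b)⁻¹ = e.symm a ^ 2 := by
        rw [← map_mul, ← map_inv, ← map_mul, ← map_inv, ← map_mul, ← map_pow, h4]
      exact congrArg Subtype.val this
    · have : e.symm a ^ 2 = e.symm b ^ 2 := by rw [← map_pow, ← map_pow, h5]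
      exact congrArg Subtype.val this
    · intro x hx
      obtain ⟨i, j, hij⟩ := h6 (e ⟨x, hx⟩)
      refine ⟨i, j, ?_⟩
      have : (⟨x, hx⟩ : T) = e.symm a ^ (i : ℕ) * e.symm b ^ (j : ℕ) := by
        rw [← map_pow, ← map_pow, ← map_mul, ← hij]; simp
      exact congrArg Subtype.val this

end quat

end H45.BgB
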