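import Cfsg.Agent.Lib.H45.BgB
import Cfsg.Agent.Lib.H2.GenCent
import Cfsg.Agent.Lib.H1.Fts
import Cfsg.Agent.Lib.H11.CyclicNormal

/-! Primes with noncyclic elementary abelian subgroups: normality of the Sylow subgroup. -/

set_option autoImplicit false
set_option linter.unusedSectionVars false

open Subgroup Cfsg H28.Cj H28.RelHall H28.RelSyl H45.BgA H45.BgB

namespace H45.BgC

universe u

/-- commuting elements of order `p` generate the same subgroup -/
def NE (G : Type*) [Group G] (p : ℕ) : Prop :=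
  ∀ x y : G, orderOf x = p → orderOf y = p → x * y = y * x → zpowers x = zpowers y

section basic

variable {G : Type*} [Group G] [Finite G] {p : ℕ} [hp : Fact p.Prime]

theorem exists_gen_of_card (H : Subgroup G) (hH : Nat.card H = p) : ∃ x, orderOf x = p ∧ H = zpowers x := by
  obtain ⟨x, hx⟩ := exists_prime_orderOf_dvd_card' (G := H) p (by rw [hH])
  refine ⟨x, by rw [← hx, Subgroup.orderOf_coe], ?_⟩
  symm
  apply Subgroup.eq_of_le_of_card_ge
  · rw [zpowers_le]; exact x.2
  · rw [hH, Nat.card_zpowers, Subgroup.orderOf_coe, hx]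

theorem uniq_of_NE (h : NE G p) (P : Subgroup G) (hP : IsPGroup p P) :
    ∀ H K : Subgroup P, Nat.card H = p → Nat.card K = p → H = K := by
  suffices key : ∃ Z : Subgroup P, ∀ H : Subgroup P, Nat.card H = p → H = Z by
    obtain ⟨Z, hZ⟩ := key
    intro H K hH hK
    rw [hZ H hH, hZ K hK]
  rcases subsingleton_or_nontrivial P with hs | hn
  · exact ⟨⊥, fun H hH => Subsingleton.elim _ _⟩
  have := hP.center_nontrivial
  have hcp : IsPGroup p (center P) := hP.to_subgroup _
  have hdvd : p ∣ Nat.card (center P) := by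
    rcases hcp.card_eq_or_dvd with h | h
    · exact absurd h (Finite.one_lt_card).ne'
    · exact h
  obtain ⟨z, hz⟩ := exists_prime_orderOf_dvd_card' p hdvd
  refine ⟨zpowers (z : P), ?_⟩
  intro H hH
  obtain ⟨x, hx, rfl⟩ := exists_gen_of_card (p := p) H hH
  have h1 := h (x : G) ((z : P) : G) (by rw [Subgroup.orderOf_coe, hx])
    (by rw [Subgroup.orderOf_coe, Subgroup.orderOf_coe, hz]) (by
      have := (mem_center_iff.mp z.2 x)
      exact congrArg Subtype.val this)
  have h2 : (zpowers x).map P.subtype = (zpowers (z : P)).map P.subtype := by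
    rw [MonoidHom.map_zpowers, MonoidHom.map_zpowers]; exact h1
  exact Subgroup.map_injective P.subtype_injective h2

theorem cyc_or_quat (h : NE G p) (P : Subgroup G) (hP : IsPGroup p P) :
    IsCyclic P ∨ (p = 2 ∧ ∃ n : ℕ, n ≠ 0 ∧ Nonempty (P ≃* QuaternionGroup (2 ^ n))) := by
  rcases H1.UniqueSub.cyclic_or_quaternion p hP (uniq_of_NE h P hP) with h1 | ⟨h1, n, ⟨e⟩⟩
  · exact Or.inl h1
  · by_cases hn : n = 0
    · left
      subst hn
      rw [pow_zero] at e
      have : IsCyclic (QuaternionGroup 1) := QuaternionGroup.quaternionGroup_one_isCyclic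
      exact e.symm.isCyclic.mp this
    · exact Or.inr ⟨h1, n, hn, ⟨e⟩⟩

/-- a witness of `¬ NE` -/
theorem exists_EE (h : ¬ NE G p) : ∃ A : Subgroup G, IsMulCommutative A ∧ (∀ a ∈ A, a ^ p = 1) ∧ ¬ IsCyclic A ∧
    ∃ x ∈ A, ∃ y ∈ A, orderOf x = p ∧ orderOf y = p ∧ x * y = y * x ∧ zpowers x ≠ zpowers y := by
  unfold NE at h
  push Not at h
  obtain ⟨x, y, hx, hy, hxy, hne⟩ := h
  have hcomm : ∀ a ∈ ({x, y} : Set G), ∀ b ∈ ({x, y} : Set G), a * b = b * a := by
    rintro a (rfl | rfl) b (rfl | rfl)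
    · rfl
    · exact hxy
    · exact hxy.symm
    · rfl
  have hA : IsMulCommutative (closure ({x, y} : Set G)) := Subgroup.isMulCommutative_closure hcomm
  have hxA : x ∈ closure ({x, y} : Set G) := subset_closure (by simp)
  have hyA : y ∈ closure ({x, y} : Set G) := subset_closure (by simp)
  refine ⟨closure {x, y}, hA, ?_, ?_, x, hxA, y, hyA, hx, hy, hxy, hne⟩
  · intro a ha
    induction ha using closure_induction with
    | mem a ha =>
      rcases ha with rfl | rfl
      · rw [← hx]; exact pow_orderOf_eq_one _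
      · rw [← hy]; exact pow_orderOf_eq_one _
    | one => exact one_pow p
    | mul a b ha hb ha' hb' =>
      have hc : Commute a b := congrArg Subtype.val (mul_comm' (⟨a, ha⟩ : closure ({x, y} : Set G)) ⟨b, hb⟩)
      rw [hc.mul_pow, ha', hb', mul_one]
    | inv a ha ha' => rw [inv_pow, ha', inv_one]
  · intro hc
    apply hne
    apply H2.BGCop.eq_of_card_eq_of_isCyclic hc
    · rwa [zpowers_le]
    · rwa [zpowers_le]
    · rw [Nat.card_zpowers, Nat.card_zpowers, hx, hy]

theorem pow_eq_one (hHB : HB G) (h : ¬ NE G p) (g : G) (k : ℕ) (hg : g ^ p ^ k = 1) : g ^ p = 1 := by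
  obtain ⟨A, hA, hAp, -, x, hxA, y, hyA, hx, hy, hxy, hne⟩ := exists_EE h
  have hpp : p.Prime := hp.out
  obtain ⟨m, hm, hm'⟩ := (Nat.dvd_prime_pow hpp).mp (orderOf_dvd_of_pow_eq_one hg)
  by_contra hcon
  have hm2 : 2 ≤ m := by
    by_contra hlt
    have : m = 0 ∨ m = 1 := by omega
    rcases this with rfl | rfl
    · rw [pow_zero, orderOf_eq_one_iff] at hm'
      exact hcon (by rw [hm', one_pow])
    · rw [pow_one] at hm'
      exact hcon (by rw [← hm']; exact pow_orderOf_eq_one g)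
  -- an element of order p ^ 2
  have ho : orderOf (g ^ p ^ (m - 2)) = p ^ 2 := by
    rw [orderOf_pow_of_dvd (pow_pos hpp.pos _).ne' (by rw [hm']; exact pow_dvd_pow p (by omega)), hm',
      Nat.pow_div (by omega) hpp.pos]
    congr 1; omega
  set g' := g ^ p ^ (m - 2) with hg'
  -- the subgroup of order p ^ 2
  have hyx : y ∉ zpowers x := by
    intro hmem
    apply hne
    symm
    apply Subgroup.eq_of_le_of_card_ge
    · rwa [zpowers_le]
    · rw [Nat.card_zpowers, Nat.card_zpowers, hx, hy]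
  have hc := card_sup_zpowers hpp hA hAp (H := zpowers x) (by rwa [zpowers_le]) hyA hyx
  rw [Nat.card_zpowers, hx, ← pow_two] at hc
  have hle : zpowers x ⊔ zpowers y ≤ A := sup_le (by rwa [zpowers_le]) (by rwa [zpowers_le])
  have hBc : IsMulCommutative ↥(zpowers x ⊔ zpowers y) :=
    ⟨⟨fun a b => by
      apply Subtype.ext
      have := congrArg Subtype.val (mul_comm' (⟨a, hle a.2⟩ : A) ⟨b, hle b.2⟩)
      push_cast
      exact this⟩⟩
  obtain ⟨c, hc'⟩ := hHB (zpowers x ⊔ zpowers y) (zpowers g') hBc inferInstance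
    (by rw [hc, Nat.card_zpowers, ho])
  have h1 : g' ∈ cj c (zpowers x ⊔ zpowers y) := by rw [← hc']; exact mem_zpowers _
  rw [mem_cj] at h1
  have h2 := hAp _ (hle h1)
  have h3 : (c⁻¹ * g' * c) ^ p = c⁻¹ * g' ^ p * c := by
    have := conj_pow (i := p) (a := c⁻¹) (b := g')
    simpa using this
  rw [h3] at h2
  have h4 : g' ^ p = 1 := by
    have : c * (c⁻¹ * g' ^ p * c) * c⁻¹ = 1 := by rw [h2]; group
    simpa [mul_assoc] using this
  have h5 : orderOf g' ∣ p := orderOf_dvd_of_pow_eq_one h4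
  rw [ho] at h5
  have := Nat.le_of_dvd hpp.pos h5
  have := hpp.one_lt
  nlinarith

theorem star (hHB : HB G) (L : Subgroup G) [hL : L.Normal] {u : G} (hu : u ∈ L) (hu' : orderOf u = p) (x : G)
    (hx : x ^ p = 1) : x ∈ L := by
  by_cases hx1 : x = 1
  · rw [hx1]; exact L.one_mem
  have hox : orderOf x = p := orderOf_eq_prime hx hx1
  obtain ⟨g, hg⟩ := hHB (zpowers u) (zpowers x) inferInstance inferInstance
    (by rw [Nat.card_zpowers, Nat.card_zpowers, hu', hox])
  have h1 : x ∈ cj g (zpowers u) := by rw [← hg]; exact mem_zpowers x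
  rw [mem_cj] at h1
  have h2 : zpowers u ≤ L := by rwa [zpowers_le]
  have := hL.conj_mem _ (h2 h1) g
  simpa [mul_assoc] using this

theorem pCore_facts (hHB : HB G) (h : ¬ NE G p) (hne : pCore p G ≠ ⊥) :
    (∀ x : G, ∀ k : ℕ, x ^ p ^ k = 1 → x ∈ pCore p G) ∧ IsMulCommutative (pCore p G) ∧
      (∀ x ∈ pCore p G, x ^ p = 1) ∧ (Nat.card (pCore p G)).Coprime (pCore p G).index := by
  set T := pCore p G with hT
  have hTp : IsPGroup p T := H1.Cores.isPGroup_pCore p
  have hexp : ∀ x ∈ T, x ^ p = 1 := by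
    intro x hx
    obtain ⟨k, hk⟩ := hTp ⟨x, hx⟩
    exact pow_eq_one hHB h x k (by have := congrArg Subtype.val hk; simpa using this)
  have hnt : Nontrivial T := by rwa [Subgroup.nontrivial_iff_ne_bot]
  have := hTp.center_nontrivial
  set Z : Subgroup G := (center T).map T.subtype with hZ
  have hZn : Z.Normal := inferInstance
  obtain ⟨z, hz⟩ := exists_ne (1 : center T)
  have hzo : orderOf ((z : T) : G) = p := by
    apply orderOf_eq_prime (hexp _ (z : T).2)
    intro h'
    apply hz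
    apply Subtype.ext; apply Subtype.ext; exact h'
  have hzZ : ((z : T) : G) ∈ Z := ⟨(z : T), z.2, rfl⟩
  have hall : ∀ x : G, ∀ k : ℕ, x ^ p ^ k = 1 → x ∈ Z := fun x k hk =>
    star hHB Z hzZ hzo x (pow_eq_one hHB h x k hk)
  have hZT : Z ≤ T := map_subtype_le _
  have hTZ : T ≤ Z := fun x hx => hall x 1 (by rw [pow_one]; exact hexp x hx)
  refine ⟨fun x k hk => hZT (hall x k hk), ?_, hexp, ?_⟩
  · refine ⟨⟨fun a b => ?_⟩⟩
    obtain ⟨a', ha', haa⟩ := hTZ a.2
    have h1 : a' = a := Subtype.ext haa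
    rw [h1] at ha'
    exact (mem_center_iff.mp ha' b).symm
  · obtain ⟨P⟩ : Nonempty (Sylow p G) := inferInstance
    have h1 : T = P := by
      apply le_antisymm (H1.Cores.pCore_le_sylow P)
      intro x hx
      obtain ⟨k, hk⟩ := P.isPGroup' ⟨x, hx⟩
      exact hZT (hall x k (by have := congrArg Subtype.val hk; simpa using this))
    rw [h1]
    exact P.card_coprime_index

theorem mem_commutator (hHB : HB G) (h : ¬ NE G p) (x : G) (hx : x ^ p = 1) : x ∈ _root_.commutator G := by
  obtain ⟨A, hA, hAp, -, x₀, hxA, y₀, hyA, hx₀, hy₀, hxy, hne⟩ := exists_EE h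
  by_cases hd : p ∣ Nat.card (_root_.commutator G)
  · obtain ⟨u, hu⟩ := exists_prime_orderOf_dvd_card' p hd
    exact star hHB (_root_.commutator G) u.2 (by rw [Subgroup.orderOf_coe, hu]) x hx
  · exfalso
    obtain ⟨g, hg⟩ := hHB (zpowers x₀) (zpowers y₀) inferInstance inferInstance
      (by rw [Nat.card_zpowers, Nat.card_zpowers, hx₀, hy₀])
    have h1 : g * x₀ * g⁻¹ ∈ zpowers y₀ := by
      rw [hg, conj_mem_cj]; exact mem_zpowers x₀
    have h2 : g * x₀ * g⁻¹ * x₀⁻¹ ∈ _root_.commutator G := by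
      rw [_root_.commutator_def]
      exact commutator_mem_commutator (mem_top g) (mem_top x₀)
    have h3 : (g * x₀ * g⁻¹ * x₀⁻¹) ^ p = 1 :=
      hAp _ (A.mul_mem ((show zpowers y₀ ≤ A by rwa [zpowers_le]) h1) (A.inv_mem hxA))
    have h4 : g * x₀ * g⁻¹ * x₀⁻¹ = 1 := by
      by_contra hne1
      have ho := orderOf_eq_prime h3 hne1
      apply hd
      rw [← ho, ← Subgroup.orderOf_mk _ h2]
      exact orderOf_dvd_natCard _
    have h5 : g * x₀ * g⁻¹ = x₀ := by
      rw [mul_inv_eq_one] at h4; exact h4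
    rw [h5] at h1
    apply hne
    apply Subgroup.eq_of_le_of_card_ge
    · rwa [zpowers_le]
    · rw [Nat.card_zpowers, Nat.card_zpowers, hx₀, hy₀]

end basic

section quotient

variable {G : Type*} [Group G] [Finite G]

theorem lift_ab (hs : Group.IsSolvable G) (V : Subgroup G) [V.Normal] (hcop : (Nat.card V).Coprime V.index)
    (B : Subgroup (G ⧸ V)) (hB : IsMulCommutative B) : ∃ A : Subgroup G, IsMulCommutative A ∧
      A.map (QuotientGroup.mk' V) = B ∧ Nat.card A = Nat.card B ∧ A ⊓ V = ⊥ := by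
  set C := B.comap (QuotientGroup.mk' V) with hC
  have hcard : Nat.card C = Nat.card B * Nat.card V := by
    rw [hC, H1.Cores.card_comap_mk', mul_comm]
  have hBi : Nat.card B ∣ V.index := by rw [Subgroup.index_eq_card]; exact Subgroup.card_subgroup_dvd_card _
  have hco : (Nat.card B).Coprime (Nat.card V) := (Nat.Coprime.coprime_dvd_right hBi hcop).symm
  obtain ⟨H, hH⟩ := H1.Hall.exists_card_eq (G := C) inferInstance _ _ hcard hco
  set A := H.map C.subtype with hA
  have hAc : Nat.card A = Nat.card B := by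
    rw [hA, ← hH]; exact (Nat.card_congr (H.equivMapOfInjective _ C.subtype_injective).toEquiv).symm
  have hAV : A ⊓ V = ⊥ := (Subgroup.disjoint_of_coprime_natCard (by rw [hAc]; exact hco)).eq_bot
  have hmap : A.map (QuotientGroup.mk' V) = B := by
    apply Subgroup.eq_of_le_of_card_ge
    · rw [map_le_iff_le_comap]; exact map_subtype_le H
    · have := H1.Hall.card_map_mk_of_disjoint hAV
      rw [this, hAc]
  refine ⟨A, ⟨⟨fun a b => ?_⟩⟩, hmap, hAc, hAV⟩
  apply Subtype.ext
  push_cast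
  have h1 : (a : G) * b * (a : G)⁻¹ * (b : G)⁻¹ ∈ A ⊓ V := by
    refine Subgroup.mem_inf.mpr ⟨A.mul_mem (A.mul_mem (A.mul_mem a.2 b.2) (A.inv_mem a.2)) (A.inv_mem b.2), ?_⟩
    rw [← QuotientGroup.eq_one_iff]
    have ha : (QuotientGroup.mk' V (a : G)) ∈ B := by rw [← hmap]; exact ⟨a, a.2, rfl⟩
    have hb : (QuotientGroup.mk' V (b : G)) ∈ B := by rw [← hmap]; exact ⟨b, b.2, rfl⟩
    have hc : (QuotientGroup.mk' V (a : G)) * (QuotientGroup.mk' V (b : G)) =
        (QuotientGroup.mk' V (b : G)) * (QuotientGroup.mk' V (a : G)) :=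
      congrArg Subtype.val (mul_comm' (⟨_, ha⟩ : B) ⟨_, hb⟩)
    show (QuotientGroup.mk' V ((a : G) * b * (a : G)⁻¹ * (b : G)⁻¹)) = 1
    rw [map_mul, map_mul, map_mul, map_inv, map_inv, hc]; group
  rw [hAV, mem_bot] at h1
  rw [mul_inv_eq_one] at h1
  rw [mul_inv_eq_iff_eq_mul] at h1
  exact h1

theorem hb_quotient (hs : Group.IsSolvable G) (hHB : HB G) (V : Subgroup G) [V.Normal]
    (hcop : (Nat.card V).Coprime V.index) : HB (G ⧸ V) := by
  intro A B hA hB hc
  obtain ⟨A₀, hA₀, hA1, hA2, -⟩ := lift_ab hs V hcop A hA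
  obtain ⟨B₀, hB₀, hB1, hB2, -⟩ := lift_ab hs V hcop B hB
  obtain ⟨g, hg⟩ := hHB A₀ B₀ hA₀ hB₀ (by rw [hA2, hB2, hc])
  exact ⟨QuotientGroup.mk' V g, by rw [← hB1, hg, map_cj, hA1]⟩

end quotient

section main

variable {G : Type*} [Group G] [Finite G]

/-- an abelian noncyclic group acting on `Q8` with odd prime exponent -/
theorem quat_case {p : ℕ} (hp : p.Prime) (hp2 : p ≠ 2) {R : Subgroup G} [hR : R.Normal] (q : Q8 R)
    {A : Subgroup G} (hA : IsMulCommutative A) (hAp : ∀ a ∈ A, a ^ p = 1) (hAc : ¬ IsCyclic A)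
    (hcop : (Nat.card A).Coprime (Nat.card R))
    (hst : ∀ a ∈ A, a ≠ 1 → a ∈ centralizer (R : Set G) → A ≤ centralizer (R : Set G)) :
    A ≤ centralizer (R : Set G) := by
  by_contra hcon
  have hno : ∀ a ∈ A, a ≠ 1 → a ∉ centralizer (R : Set G) := fun a ha ha1 h => hcon (hst a ha ha1 h)
  apply hcon
  rw [Subgroup.le_centralizer_iff]
  have hAR : A ≤ normalizer (R : Set G) := le_normalizer_of_normal
  have hgen := H2.GenCent.main A R hA hAc hAR hcop
  rw [← hgen]
  refine iSup₂_le ?_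
  rintro a ⟨haA, ha1⟩
  have hmemC : ∀ c : G, c ∈ R ⊓ centralizer {a} ↔ c ∈ R ∧ a * c = c * a := by
    intro c
    rw [mem_inf, mem_centralizer_singleton_iff]
    exact ⟨fun h => ⟨h.1, h.2.symm⟩, fun h => ⟨h.1, h.2.symm⟩⟩
  have hCne : R ⊓ centralizer {a} ≠ R := by
    intro h
    apply hno a haA ha1
    rw [mem_centralizer_iff]
    intro r hr
    have : r ∈ R ⊓ centralizer {a} := by rw [h]; exact hr
    exact ((hmemC r).mp this).2.symm
  have hcard4 : Nat.card (R ⊓ centralizer {a} : Subgroup G) ≤ 4 := by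
    have h1 : Nat.card (R ⊓ centralizer {a} : Subgroup G) ∣ 8 := by
      rw [← q.card]; exact Subgroup.card_dvd_of_le inf_le_left
    have h2 : Nat.card (R ⊓ centralizer {a} : Subgroup G) ≠ 8 := by
      intro h
      apply hCne
      apply Subgroup.eq_of_le_of_card_ge inf_le_left
      rw [h, q.card]
    obtain ⟨k, hk⟩ := h1
    have hk0 : k ≠ 0 := by rintro rfl; omega
    have hk1 : k ≠ 1 := by rintro rfl; omega
    have : 2 ≤ k := by omega
    nlinarith
  intro c hc
  rw [mem_centralizer_iff]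
  intro b hb
  obtain ⟨hcR, hac⟩ := (hmemC c).mp hc
  have hba : b * a = a * b := congrArg Subtype.val (mul_comm' (⟨b, hb⟩ : A) ⟨a, haA⟩)
  have hc'R : b * c * b⁻¹ ∈ R := hR.conj_mem c hcR b
  have hc' : b * c * b⁻¹ ∈ R ⊓ centralizer {a} := by
    rw [hmemC]
    refine ⟨hc'R, ?_⟩
    have hab' : a * b = b * a := hba.symm
    have hab'' : a * b⁻¹ = b⁻¹ * a := by
      rw [eq_inv_mul_iff_mul_eq, ← mul_assoc, hba, mul_inv_cancel_right]
    calc a * (b * c * b⁻¹) = (a * b) * c * b⁻¹ := by group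
      _ = b * (a * c) * b⁻¹ := by rw [hab']; group
      _ = b * c * (a * b⁻¹) := by rw [hac]; group
      _ = b * c * b⁻¹ * a := by rw [hab'']; group
  have key : b * c * b⁻¹ = c ∨ b * c * b⁻¹ = c⁻¹ := by
    by_cases hc2 : c ^ 2 = 1
    · left
      by_cases hc1 : c = 1
      · rw [hc1]; group
      obtain ⟨x, hx, _, _, hx2, _⟩ := q.gen
      have e1 := (q.inv x hx c hcR hx2 hc2).resolve_left hc1
      have e2 := (q.inv x hx (b * c * b⁻¹) hc'R hx2 (by rw [conj_pow, hc2]; group)).resolve_left (by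
        intro h; apply hc1; have := congrArg (fun t => b⁻¹ * t * b) h; simpa [mul_assoc] using this)
      rw [e2, ← e1]
    · have ho : orderOf c = 4 := by
        have : Fact (Nat.Prime 2) := ⟨Nat.prime_two⟩
        exact orderOf_eq_prime_pow (p := 2) (n := 1) (by simpa using hc2) (by simpa using q.four c hcR)
      have h1 : zpowers c = R ⊓ centralizer {a} := by
        apply Subgroup.eq_of_le_of_card_ge
        · rwa [zpowers_le]
        · rw [Nat.card_zpowers, ho]; exact hcard4
      rw [← h1] at hc'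
      classical
      rw [mem_zpowers_iff_mem_range_orderOf, ho, Finset.mem_image] at hc'
      obtain ⟨k, hk, hk'⟩ := hc'
      rw [Finset.mem_range] at hk
      have hsq : (b * c * b⁻¹) ^ 2 ≠ 1 := by
        rw [conj_pow]; intro h; apply hc2
        have := congrArg (fun t => b⁻¹ * t * b) h; simpa [mul_assoc] using this
      interval_cases k
      · exfalso; apply hsq; rw [← hk']; simp
      · left; rw [← hk', pow_one]
      · exfalso; apply hsq; rw [← hk', ← pow_mul]; exact q.four c hcR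
      · right; rw [← hk']; rw [eq_inv_iff_mul_eq_one, ← pow_succ]; exact q.four c hcR
  have h2 : Commute (b ^ 2) c := by
    have : b ^ 2 * c * (b ^ 2)⁻¹ = c := by
      have e : b ^ 2 * c * (b ^ 2)⁻¹ = b * (b * c * b⁻¹) * b⁻¹ := by rw [pow_two]; group
      rw [e]
      rcases key with h | h
      · rw [h, h]
      · rw [h]
        have : b * c⁻¹ * b⁻¹ = (b * c * b⁻¹)⁻¹ := by group
        rw [this, h, inv_inv]
    exact mul_inv_eq_iff_eq_mul.mp this
  have h3 : b = (b ^ 2) ^ ((p + 1) / 2) := by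
    have hodd : Odd p := hp.odd_of_ne_two hp2
    obtain ⟨m, hm⟩ := hodd
    have : (p + 1) / 2 = m + 1 := by omega
    rw [this, ← pow_mul]
    have e : 2 * (m + 1) = p + 1 := by omega
    rw [e, pow_succ, hAp b hb, one_mul]
  rw [h3]
  exact (h2.pow_left _).eq

end main

end H45.BgC
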