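import Cfsg.Agent.Lib.H45.BgC

/-! Main induction: a prime with a noncyclic elementary abelian subgroup has a normal Sylow subgroup. -/

set_option autoImplicit false
set_option linter.unusedSectionVars false

open Subgroup Cfsg H28.Cj H28.RelHall H28.RelSyl H45.BgA H45.BgB H45.BgC

namespace H45.BgD

universe u

theorem pCore_ne_bot_aux (p : ℕ) [hp : Fact p.Prime] (k : ℕ) : ∀ (G : Type u) [Group G] [Finite G],
    Nat.card G = k → Group.IsSolvable G → HB G → ¬ NE G p → pCore p G ≠ ⊥ := by
  induction k using Nat.strong_induction_on with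
  | _ k ih =>
  intro G _ _ hk hs hHB hne hbot
  obtain ⟨A, hA, hAp, hAc, x₀, hxA, y₀, hyA, hx₀, hy₀, hxy, hxyne⟩ := exists_EE hne
  have hAcomm : ∀ a ∈ A, ∀ b ∈ A, a * b = b * a := fun a ha b hb =>
    congrArg Subtype.val (mul_comm' (⟨a, ha⟩ : A) ⟨b, hb⟩)
  have hAP : IsPGroup p A := by
    intro a; exact ⟨1, by rw [pow_one]; exact Subtype.ext (hAp a a.2)⟩
  have hst : ∀ R : Subgroup G, R.Normal → ∀ a ∈ A, a ≠ 1 → a ∈ centralizer (R : Set G) →
      A ≤ centralizer (R : Set G) := by
    intro R hR a ha ha1 hac b hb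
    exact star (p := p) hHB (centralizer (R : Set G)) hac (orderOf_eq_prime (hAp a ha) ha1) b (hAp b hb)
  have claim : ∀ r : ℕ, r.Prime → A ≤ centralizer (pCore r G : Set G) := by
    intro r hr
    have hrf : Fact r.Prime := ⟨hr⟩
    by_cases hrp : r = p
    · subst hrp
      rw [hbot]
      intro a _
      rw [mem_centralizer_iff]
      intro h hh
      rw [SetLike.mem_coe, mem_bot] at hh
      rw [hh]; simp
    set R := pCore r G with hR
    have hRp : IsPGroup r R := H1.Cores.isPGroup_pCore r
    have hcop : (Nat.card A).Coprime (Nat.card R) :=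
      IsPGroup.coprime_card_of_ne p r (Ne.symm hrp) A R hAP hRp
    by_cases hNE : NE G r
    · rcases cyc_or_quat hNE R hRp with hcyc | ⟨hr2, n, hn, ⟨e⟩⟩
      · have h1 := H11.CyclicNormal.commutator_le_centralizer_of_cyclic_normal R
        exact fun a ha => h1 (mem_commutator hHB hne a (hAp a ha))
      · have hn1 := quat_two hHB R e hn
        subst hn1
        have q : Q8 R := q8_of R e
        exact quat_case hp.out (by rintro rfl; exact hrp hr2) q hA hAp hAc hcop (hst R inferInstance)
    · by_cases hRbot : R = ⊥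
      · rw [hRbot]
        intro a _
        rw [mem_centralizer_iff]
        intro h hh
        rw [SetLike.mem_coe, mem_bot] at hh
        rw [hh]; simp
      obtain ⟨hall, hRc, hRe, hRcop⟩ := pCore_facts hHB hNE hRbot
      by_contra hcon
      have hno : ∀ a ∈ A, a ≠ 1 → a ∉ centralizer (R : Set G) := fun a ha ha1 h =>
        hcon (hst R inferInstance a ha ha1 h)
      -- the quotient
      have hlt : Nat.card (G ⧸ R) < k := by
        rw [← hk, ← Subgroup.card_mul_index R, ← Subgroup.index_eq_card]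
        have h1 : 1 < Nat.card R := by
          rw [Finite.one_lt_card_iff_nontrivial]; exact (Subgroup.nontrivial_iff_ne_bot R).mpr hRbot
        have h2 : 0 < R.index := Nat.pos_of_ne_zero Subgroup.index_ne_zero_of_finite
        nlinarith
      have hAR : ∀ a ∈ A, a ∈ R → a = 1 := by
        intro a ha haR
        have h1 : orderOf a ∣ p := orderOf_dvd_of_pow_eq_one (hAp a ha)
        have h2 : orderOf a ∣ r := orderOf_dvd_of_pow_eq_one (hRe a haR)
        have h3 : p.Coprime r := (Nat.coprime_primes hp.out hr).mpr (Ne.symm hrp)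
        have h4 : orderOf a ∣ 1 := by rw [← h3]; exact Nat.dvd_gcd h1 h2
        exact orderOf_eq_one_iff.mp (Nat.dvd_one.mp h4)
      have hne' : ¬ NE (G ⧸ R) p := by
        intro hNE'
        have ho : ∀ a ∈ A, a ≠ 1 → orderOf (QuotientGroup.mk' R a) = p := by
          intro a ha ha1
          apply orderOf_eq_prime
          · rw [← map_pow, hAp a ha, map_one]
          · intro h
            exact ha1 (hAR a ha ((QuotientGroup.eq_one_iff a).mp h))
        have hx1 : x₀ ≠ 1 := by rintro rfl; rw [orderOf_one] at hx₀; exact hp.out.one_lt.ne hx₀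
        have hy1 : y₀ ≠ 1 := by rintro rfl; rw [orderOf_one] at hy₀; exact hp.out.one_lt.ne hy₀
        have h1 := hNE' _ _ (ho x₀ hxA hx1) (ho y₀ hyA hy1) (by rw [← map_mul, hxy, map_mul])
        have h2 : QuotientGroup.mk' R x₀ ∈ zpowers (QuotientGroup.mk' R y₀) := by
          rw [← h1]; exact mem_zpowers _
        obtain ⟨j, hj⟩ := mem_zpowers_iff.mp h2
        rw [← map_zpow] at hj
        have h3 : (y₀ ^ j)⁻¹ * x₀ ∈ R := QuotientGroup.eq.mp hj
        have h4 := hAR _ (A.mul_mem (A.inv_mem (A.zpow_mem hyA j)) hxA) h3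
        have h5 : x₀ = y₀ ^ j := (inv_mul_eq_one.mp h4).symm
        apply hxyne
        apply Subgroup.eq_of_le_of_card_ge
        · rw [zpowers_le, h5]; exact zpow_mem (mem_zpowers y₀) j
        · rw [Nat.card_zpowers, Nat.card_zpowers, hx₀, hy₀]
      have hHBq : HB (G ⧸ R) := hb_quotient hs hHB R hRcop
      have hq := ih _ hlt (G ⧸ R) rfl inferInstance hHBq hne'
      obtain ⟨qall, qc, -, -⟩ := pCore_facts hHBq hne' hq
      set L := (pCore p (G ⧸ R)).comap (QuotientGroup.mk' R) with hL
      have hLn : L.Normal := inferInstance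
      have hAL : A ≤ L := by
        intro a ha
        rw [hL, mem_comap]
        exact qall _ 1 (by rw [pow_one, ← map_pow, hAp a ha, map_one])
      have hLc : ∀ l ∈ L, ∀ a ∈ L, a * l * a⁻¹ * l⁻¹ ∈ R := by
        intro l hl a ha
        rw [hL, mem_comap] at hl ha
        rw [← QuotientGroup.eq_one_iff]
        have hc : QuotientGroup.mk' R a * QuotientGroup.mk' R l =
            QuotientGroup.mk' R l * QuotientGroup.mk' R a :=
          congrArg Subtype.val (mul_comm' (⟨_, ha⟩ : pCore p (G ⧸ R)) ⟨_, hl⟩)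
        show QuotientGroup.mk' R (a * l * a⁻¹ * l⁻¹) = 1
        rw [map_mul, map_mul, map_mul, map_inv, map_inv, hc]; group
      have hRcomm : ∀ a ∈ R, ∀ b ∈ R, a * b = b * a := fun a ha b hb =>
        congrArg Subtype.val (mul_comm' (⟨a, ha⟩ : R) ⟨b, hb⟩)
      -- an element with nontrivial fixed points
      have hgen := H2.GenCent.main A R hA hAc le_normalizer_of_normal hcop
      have hex : ∃ a ∈ A, a ≠ 1 ∧ R ⊓ centralizer {a} ≠ ⊥ := by
        by_contra hcon2
        push Not at hcon2
        apply hRbot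
        rw [← hgen, eq_bot_iff]
        refine iSup₂_le ?_
        rintro a ⟨ha, ha1⟩
        rw [hcon2 a ha ha1]
      obtain ⟨a, ha, ha1, hW⟩ := hex
      set W := R ⊓ centralizer {a} with hWdef
      have hmemW : ∀ c : G, c ∈ W ↔ c ∈ R ∧ a * c = c * a := by
        intro c
        rw [hWdef, mem_inf, mem_centralizer_singleton_iff]
        exact ⟨fun h => ⟨h.1, h.2.symm⟩, fun h => ⟨h.1, h.2.symm⟩⟩
      have hWR : W ≤ R := inf_le_left
      have hWne : W ≠ R := by
        intro h
        apply hno a ha ha1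
        rw [mem_centralizer_iff]
        intro c hc
        have : c ∈ W := by rw [h]; exact hc
        exact ((hmemW c).mp this).2.symm
      have hLW : L ≤ normalizer (W : Set G) := by
        apply H1.Coprime.le_normalizer_of_conj_mem
        intro l hl w hw
        obtain ⟨hwR, haw⟩ := (hmemW w).mp hw
        rw [hmemW]
        have hRn : R.Normal := inferInstance
        refine ⟨hRn.conj_mem w hwR l, ?_⟩
        -- a l w l⁻¹ = ρ l a w l⁻¹ ...
        have hρ := hLc l hl a (hAL ha)
        set ρ := a * l * a⁻¹ * l⁻¹ with hρdef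
        have e1 : a * l = ρ * l * a := by rw [hρdef]; group
        have hw' : l * w * l⁻¹ ∈ R := hRn.conj_mem w hwR l
        have e2 : ρ * (l * w * l⁻¹) = (l * w * l⁻¹) * ρ := hRcomm _ hρ _ hw'
        calc a * (l * w * l⁻¹) = (a * l) * w * l⁻¹ := by group
          _ = ρ * l * (a * w) * l⁻¹ := by rw [e1]; group
          _ = ρ * (l * w * l⁻¹) * (l * a * l⁻¹) := by rw [haw]; group
          _ = (l * w * l⁻¹) * (ρ * l * a) * l⁻¹ := by rw [e2]; group
          _ = (l * w * l⁻¹) * (a * l) * l⁻¹ := by rw [e1]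
          _ = l * w * l⁻¹ * a := by group
      have hcyc := cyc_of hr hRc hRe a W hWR hW hWne (by
        intro W' hW' hc
        have hab : ∀ Z : Subgroup G, Z ≤ R → IsMulCommutative Z := fun Z hZ =>
          ⟨⟨fun a b => Subtype.ext (by push_cast; exact hRcomm _ (hZ a.2) _ (hZ b.2))⟩⟩
        obtain ⟨g, hg⟩ := hHB W W' (hab W hWR) (hab W' hW') hc.symm
        have h1 : cj g L ≤ cj g (normalizer (W : Set G)) := cj_le_cj.mpr hLW
        rw [cj_normal L g, cj_normalizer, ← hg] at h1
        exact h1 (hAL ha))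
      have hWnt : Nontrivial W := (Subgroup.nontrivial_iff_ne_bot W).mpr hW
      obtain ⟨⟨v, hv⟩, hv1⟩ := exists_ne (1 : W)
      have hv1' : v ≠ 1 := fun h => hv1 (Subtype.ext h)
      obtain ⟨hvR, hav⟩ := (hmemW v).mp hv
      have hfix := centralizes_of_fix hr hRc hRe a hcyc hvR hv1' (by rw [hav]; group)
      apply hno a ha ha1
      rw [mem_centralizer_iff]
      intro c hc
      have := hfix c hc
      rw [mul_inv_eq_iff_eq_mul] at this
      exact this.symm
  -- conclusion
  have hAF : A ≤ centralizer (fittingSubgroup G : Set G) := by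
    rw [Subgroup.le_centralizer_iff, H1.Cores.fittingSubgroup_eq_iSup_pCore]
    refine iSup_le ?_
    intro r
    rw [Subgroup.le_centralizer_iff]
    exact claim r r.2
  have h1 := H1.Solv.centralizer_fitting_le hs (hAF hxA)
  have h2 := H1.Fts.mem_pCore_of_mem_fitting (p := p) h1 (k := 1) (by rw [pow_one]; exact hAp x₀ hxA)
  rw [hbot, mem_bot] at h2
  rw [h2, orderOf_one] at hx₀
  exact hp.out.one_lt.ne hx₀

theorem pCore_ne_bot {G : Type u} [Group G] [Finite G] (hs : Group.IsSolvable G) (hHB : HB G) (p : ℕ)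
    [hp : Fact p.Prime] (h : ¬ NE G p) : pCore p G ≠ ⊥ :=
  pCore_ne_bot_aux p _ G rfl hs hHB h

end H45.BgD
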