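import Cfsg.Agent.Lib.H45.BgD

/-! The largest abelian normal Hall subgroup and the quotient by it. -/

set_option autoImplicit false
set_option linter.unusedSectionVars false

open Subgroup Cfsg H28.Cj H28.RelHall H28.RelSyl H45.BgA H45.BgB H45.BgC H45.BgD

namespace H45.BgE

universe u

theorem exists_N {G : Type u} [Group G] [Finite G] (hs : Group.IsSolvable G) (hHB : HB G) :
    ∃ N : Subgroup G, N.Normal ∧ IsMulCommutative N ∧ (Nat.card N).Coprime N.index ∧
      ∀ p : ℕ, p.Prime → ¬ NE G p → p ∣ Nat.card N := by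
  let 𝒮 : Set (Subgroup G) := {N | N.Normal ∧ IsMulCommutative N ∧ (Nat.card N).Coprime N.index}
  have hne : 𝒮.Nonempty := ⟨⊥, inferInstance, inferInstance, by simp⟩
  obtain ⟨N, ⟨hNn, hNc, hNcop⟩, hmax⟩ := 𝒮.toFinite.exists_maximal hne
  refine ⟨N, hNn, hNc, hNcop, ?_⟩
  intro p hpp hNE
  have hp : Fact p.Prime := ⟨hpp⟩
  by_contra hd
  obtain ⟨hall, hPc, hPe, hPcop⟩ := pCore_facts hHB hNE (pCore_ne_bot hs hHB p hNE)
  set P := pCore p G with hP
  have hPp : IsPGroup p P := H1.Cores.isPGroup_pCore p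
  have hPn : P.Normal := inferInstance
  have hPbot : P ≠ ⊥ := pCore_ne_bot hs hHB p hNE
  have hco : (Nat.card N).Coprime (Nat.card P) := by
    obtain ⟨n, hn⟩ := IsPGroup.iff_card.mp hPp
    rw [hn]
    exact Nat.Coprime.pow_right n ((Nat.Prime.coprime_iff_not_dvd hpp).mpr hd).symm
  have hdisj : N ⊓ P = ⊥ := (Subgroup.disjoint_of_coprime_natCard hco).eq_bot
  have hcomm : ∀ a ∈ N, ∀ b ∈ P, a * b = b * a := by
    intro a ha b hb
    exact (Subgroup.commute_of_normal_of_disjoint N P hNn hPn (disjoint_iff.mpr hdisj) a b ha hb).eq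
  have hNN : ∀ a ∈ N, ∀ b ∈ N, a * b = b * a := fun a ha b hb =>
    congrArg Subtype.val (mul_comm' (⟨a, ha⟩ : N) ⟨b, hb⟩)
  have hPP : ∀ a ∈ P, ∀ b ∈ P, a * b = b * a := fun a ha b hb =>
    congrArg Subtype.val (mul_comm' (⟨a, ha⟩ : P) ⟨b, hb⟩)
  have hmem : (N ⊔ P) ∈ 𝒮 := by
    refine ⟨inferInstance, ?_, ?_⟩
    · have h1 : (N ⊔ P) ≤ centralizer ((N ⊔ P : Subgroup G) : Set G) := by
        have hN1 : N ≤ centralizer ((N ⊔ P : Subgroup G) : Set G) := by
          rw [Subgroup.le_centralizer_iff]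
          refine sup_le ?_ ?_
          · intro a ha; rw [mem_centralizer_iff]; intro b hb; exact hNN b hb a ha
          · intro a ha; rw [mem_centralizer_iff]; intro b hb; exact hcomm b hb a ha
        have hP1 : P ≤ centralizer ((N ⊔ P : Subgroup G) : Set G) := by
          rw [Subgroup.le_centralizer_iff]
          refine sup_le ?_ ?_
          · intro a ha; rw [mem_centralizer_iff]; intro b hb; exact (hcomm a ha b hb).symm
          · intro a ha; rw [mem_centralizer_iff]; intro b hb; exact hPP b hb a ha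
        exact sup_le hN1 hP1
      exact Subgroup.le_centralizer_iff_isMulCommutative.mp h1
    · have h1 : Nat.card (N ⊔ P : Subgroup G) = Nat.card N * Nat.card P :=
        H1.Hall.card_sup_of_disjoint_normal hdisj
      rw [h1]
      apply Nat.Coprime.mul_left
      · exact Nat.Coprime.coprime_dvd_right (Subgroup.index_dvd_of_le le_sup_left) hNcop
      · exact Nat.Coprime.coprime_dvd_right (Subgroup.index_dvd_of_le le_sup_right) hPcop
  have h2 : N ⊔ P ≤ N := hmax hmem le_sup_left
  have h3 : P ≤ N := le_sup_right.trans h2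
  have h4 : N ⊓ P = P := inf_eq_right.mpr h3
  rw [hdisj] at h4
  exact hPbot h4.symm

theorem NE_quotient {G : Type u} [Group G] [Finite G] (hs : Group.IsSolvable G) (N : Subgroup G) [N.Normal]
    (hcop : (Nat.card N).Coprime N.index) (p : ℕ) [hp : Fact p.Prime] (h : ¬ NE G p → p ∣ Nat.card N) :
    NE (G ⧸ N) p := by
  intro x y hx hy hxy
  have hd : ¬ p ∣ Nat.card N := by
    intro hd
    have h1 : p ∣ N.index := by
      rw [Subgroup.index_eq_card, ← hx]; exact orderOf_dvd_natCard _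
    have h2 : p ∣ 1 := by rw [← hcop]; exact Nat.dvd_gcd hd h1
    exact hp.out.one_lt.ne' (Nat.dvd_one.mp h2)
  have hNE : NE G p := by by_contra hcon; exact hd (h hcon)
  have hcomm : ∀ a ∈ ({x, y} : Set (G ⧸ N)), ∀ b ∈ ({x, y} : Set (G ⧸ N)), a * b = b * a := by
    rintro a (rfl | rfl) b (rfl | rfl)
    · rfl
    · exact hxy
    · exact hxy.symm
    · rfl
  obtain ⟨A, hA, hmap, -, hAN⟩ := lift_ab hs N hcop (closure ({x, y} : Set (G ⧸ N)))
    (Subgroup.isMulCommutative_closure hcomm)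
  have hxm : x ∈ A.map (QuotientGroup.mk' N) := by rw [hmap]; exact subset_closure (by simp)
  have hym : y ∈ A.map (QuotientGroup.mk' N) := by rw [hmap]; exact subset_closure (by simp)
  obtain ⟨x', hx'A, rfl⟩ := hxm
  obtain ⟨y', hy'A, rfl⟩ := hym
  have ho : ∀ a ∈ A, orderOf (QuotientGroup.mk' N a) = p → orderOf a = p := by
    intro a ha hoa
    apply orderOf_eq_prime
    · have h1 : a ^ p ∈ A ⊓ N := by
        refine Subgroup.mem_inf.mpr ⟨A.pow_mem ha p, ?_⟩
        rw [← QuotientGroup.eq_one_iff]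
        show QuotientGroup.mk' N (a ^ p) = 1
        rw [map_pow, ← hoa]; exact pow_orderOf_eq_one _
      rwa [hAN, mem_bot] at h1
    · rintro rfl
      rw [map_one, orderOf_one] at hoa
      exact hp.out.one_lt.ne hoa
  have h1 := hNE x' y' (ho x' hx'A hx) (ho y' hy'A hy)
    (congrArg Subtype.val (mul_comm' (⟨x', hx'A⟩ : A) ⟨y', hy'A⟩))
  rw [← MonoidHom.map_zpowers, ← MonoidHom.map_zpowers, h1]

theorem struct {Y : Type u} [Group Y] [Finite Y] (hs : Group.IsSolvable Y) (hHB : HB Y)
    (hNE : ∀ p : ℕ, p.Prime → NE Y p) (S : Sylow 2 Y) (hS : ¬ IsCyclic S) :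
    (S : Subgroup Y).Normal ∧ Nonempty ((S : Subgroup Y) ≃* QuaternionGroup 2) := by
  have h2 : Fact (Nat.Prime 2) := ⟨Nat.prime_two⟩
  obtain ⟨n, hn, ⟨e⟩⟩ := ((cyc_or_quat (hNE 2 Nat.prime_two) (S : Subgroup Y) S.isPGroup').resolve_left hS).2
  have huniq := uniq_of_NE (hNE 2 Nat.prime_two) (S : Subgroup Y) S.isPGroup'
  set T := pCore 2 Y with hT
  have hTp : IsPGroup 2 T := H1.Cores.isPGroup_pCore 2
  have hTn : T.Normal := inferInstance
  have hTS : T ≤ (S : Subgroup Y) := H1.Cores.pCore_le_sylow S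
  have stepa : ∃ t ∈ T, orderOf t = 4 := by
    by_contra hcon
    push Not at hcon
    have hcyc : ∀ r : ℕ, r.Prime → IsCyclic (pCore r Y) := by
      intro r hr
      have : Fact r.Prime := ⟨hr⟩
      rcases cyc_or_quat (hNE r hr) (pCore r Y) (H1.Cores.isPGroup_pCore r) with h | ⟨rfl, m, hm, ⟨e'⟩⟩
      · exact h
      · exfalso
        obtain ⟨x, _, hx, _⟩ := exists_two e' hm
        exact hcon x x.2 (by rw [Subgroup.orderOf_coe, hx])
    have hDF : _root_.commutator Y ≤ centralizer (fittingSubgroup Y : Set Y) := by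
      rw [Subgroup.le_centralizer_iff, H1.Cores.fittingSubgroup_eq_iSup_pCore]
      refine iSup_le ?_
      intro r
      rw [Subgroup.le_centralizer_iff]
      have := hcyc r r.2
      exact H11.CyclicNormal.commutator_le_centralizer_of_cyclic_normal _
    obtain ⟨x, y, hx, hy, hxy⟩ := exists_two e hn
    have hx' : orderOf (x : Y) = 4 := by rw [Subgroup.orderOf_coe, hx]
    have hy' : orderOf (y : Y) = 4 := by rw [Subgroup.orderOf_coe, hy]
    obtain ⟨g, hg⟩ := hHB (zpowers (y : Y)) (zpowers (x : Y)) inferInstance inferInstance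
      (by rw [Nat.card_zpowers, Nat.card_zpowers, hx', hy'])
    have h1 : g * (y : Y) * g⁻¹ ∈ zpowers (x : Y) := by
      rw [hg, conj_mem_cj]; exact mem_zpowers _
    have hxS : zpowers (x : Y) ≤ (S : Subgroup Y) := by rw [zpowers_le]; exact x.2
    have hd : g * (y : Y) * g⁻¹ * (y : Y)⁻¹ ∈ _root_.commutator Y := by
      rw [_root_.commutator_def]
      exact commutator_mem_commutator (mem_top g) (mem_top (y : Y))
    set d := g * (y : Y) * g⁻¹ * (y : Y)⁻¹ with hddef
    have hdS : d ∈ (S : Subgroup Y) := mul_mem (hxS h1) (inv_mem y.2)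
    have hdF : d ∈ fittingSubgroup Y := H1.Solv.centralizer_fitting_le hs (hDF hd)
    obtain ⟨k, hk⟩ := S.isPGroup' ⟨d, hdS⟩
    have hdT : d ∈ T := H1.Fts.mem_pCore_of_mem_fitting (p := 2) hdF (k := k)
      (by have := congrArg Subtype.val hk; simpa using this)
    have hd2 : d ^ 2 = 1 := by
      obtain ⟨m, hm⟩ := (IsPGroup.iff_orderOf.mp hTp) ⟨d, hdT⟩
      rw [Subgroup.orderOf_mk] at hm
      by_contra hcon2
      have hm2 : 2 ≤ m := by
        by_contra hlt
        have : m = 0 ∨ m = 1 := by omega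
        rcases this with rfl | rfl
        · rw [pow_zero, orderOf_eq_one_iff] at hm
          exact hcon2 (by rw [hm, one_pow])
        · rw [pow_one] at hm
          exact hcon2 (by rw [← hm]; exact pow_orderOf_eq_one d)
      apply hcon (d ^ 2 ^ (m - 2)) (T.pow_mem hdT _)
      rw [orderOf_pow_of_dvd (pow_pos two_pos _).ne' (by rw [hm]; exact pow_dvd_pow 2 (by omega)), hm,
        Nat.pow_div (by omega) two_pos]
      have : m - (m - 2) = 2 := by omega
      rw [this]; norm_num
    have h5 : d ∈ zpowers (y : Y) := by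
      by_cases hd1 : d = 1
      · rw [hd1]; exact one_mem _
      have hod : orderOf (⟨d, hdS⟩ : (S : Subgroup Y)) = 2 := by
        rw [Subgroup.orderOf_mk]; exact orderOf_eq_prime hd2 hd1
      have hoy : orderOf (y ^ 2) = 2 := by
        rw [orderOf_pow_of_dvd two_ne_zero (by rw [hy]; norm_num), hy]
      have h6 := huniq (zpowers (⟨d, hdS⟩ : (S : Subgroup Y))) (zpowers (y ^ 2))
        (by rw [Nat.card_zpowers, hod]) (by rw [Nat.card_zpowers, hoy])
      have h7 : (⟨d, hdS⟩ : (S : Subgroup Y)) ∈ zpowers (y ^ 2) := by rw [← h6]; exact mem_zpowers _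
      obtain ⟨j, hj⟩ := mem_zpowers_iff.mp h7
      have h8 := congrArg Subtype.val hj
      push_cast at h8
      rw [← h8]
      exact zpow_mem (pow_mem (mem_zpowers (y : Y)) 2) j
    have h6 : g * (y : Y) * g⁻¹ ∈ zpowers (y : Y) := by
      have : g * (y : Y) * g⁻¹ = d * y := by rw [hddef]; group
      rw [this]; exact mul_mem h5 (mem_zpowers _)
    have h7 : zpowers (g * (y : Y) * g⁻¹) = zpowers (x : Y) := by
      apply Subgroup.eq_of_le_of_card_ge
      · rwa [zpowers_le]
      · rw [Nat.card_zpowers, Nat.card_zpowers, hx']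
        have : orderOf (g * (y : Y) * g⁻¹) = orderOf (y : Y) := by
          have h9 := MulEquiv.orderOf_eq (MulAut.conj g) (y : Y)
          simpa using h9
        rw [this, hy']
    have h8 : (x : Y) ∈ zpowers (y : Y) := by
      have h9 : (x : Y) ∈ zpowers (g * (y : Y) * g⁻¹) := by rw [h7]; exact mem_zpowers _
      exact (show zpowers (g * (y : Y) * g⁻¹) ≤ zpowers (y : Y) by rwa [zpowers_le]) h9
    apply hxy
    obtain ⟨j, hj⟩ := mem_zpowers_iff.mp h8
    exact mem_zpowers_iff.mpr ⟨j, Subtype.ext (by push_cast; exact hj)⟩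
  obtain ⟨t, htT, hto⟩ := stepa
  have hall : ∀ x : Y, orderOf x = 4 → x ∈ T := by
    intro x hx
    obtain ⟨g, hg⟩ := hHB (zpowers t) (zpowers x) inferInstance inferInstance
      (by rw [Nat.card_zpowers, Nat.card_zpowers, hx, hto])
    have h1 : x ∈ cj g (zpowers t) := by rw [← hg]; exact mem_zpowers x
    rw [mem_cj] at h1
    have h2 : zpowers t ≤ T := by rwa [zpowers_le]
    have := hTn.conj_mem _ (h2 h1) g
    simpa [mul_assoc] using this
  have hK := eq_top_of e (T.subgroupOf (S : Subgroup Y)) (by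
    intro x hx
    rw [mem_subgroupOf]
    exact hall x (by rw [Subgroup.orderOf_coe, hx]))
  have hST : (S : Subgroup Y) ≤ T := subgroupOf_eq_top.mp hK
  have hSeq : (S : Subgroup Y) = T := le_antisymm hST hTS
  have hSn : (S : Subgroup Y).Normal := by rw [hSeq]; exact hTn
  have hn1 := quat_two hHB (S : Subgroup Y) e hn
  subst hn1
  exact ⟨hSn, ⟨e⟩⟩

end H45.BgE
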