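import Cfsg.Agent.Lib.H45.BgE

/-! Fusion of the subgroups of order four of the quaternion Sylow subgroup of the quotient. -/

set_option autoImplicit false
set_option linter.unusedSectionVars false

open Subgroup Cfsg H28.Cj H28.RelHall H28.RelSyl H45.BgA H45.BgB H45.BgC H45.BgD H45.BgE

namespace H45.BgF

universe u

variable {G : Type u} [Group G] [Finite G]

theorem le_of_primePow {U K : Subgroup G}
    (h : ∀ p : ℕ, p.Prime → ∀ x ∈ U, ∀ k : ℕ, x ^ p ^ k = 1 → x ∈ K) : U ≤ K := by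
  have h1 : (K.subgroupOf U).index = 1 := by
    by_contra hne
    obtain ⟨p, hpp, hd⟩ := Nat.exists_prime_and_dvd hne
    have hp : Fact p.Prime := ⟨hpp⟩
    obtain ⟨P⟩ : Nonempty (Sylow p U) := inferInstance
    have hPK : (P : Subgroup U) ≤ K.subgroupOf U := by
      intro x hx
      obtain ⟨k, hk⟩ := P.isPGroup' ⟨x, hx⟩
      rw [mem_subgroupOf]
      have h2 := congrArg Subtype.val hk
      have h3 := congrArg Subtype.val h2
      exact h p hpp x x.2 k (by simpa using h3)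
    exact P.not_dvd_index (hd.trans (Subgroup.index_dvd_of_le hPK))
  rw [Subgroup.index_eq_one, subgroupOf_eq_top] at h1
  exact h1

theorem norm_le (hHB : HB G) (N : Subgroup G) [hNn : N.Normal] (hNc : IsMulCommutative N)
    (hN2 : ¬ 2 ∣ Nat.card N) (Q : Subgroup G) (q : Q8 Q) (hQN : (Q ⊔ N).Normal) (U : Subgroup G) (hU : U ≤ N)
    (hQU : Q ≤ normalizer (U : Set G)) :
    normalizer ((U ⊓ centralizer (Q : Set G) : Subgroup G) : Set G) ≤ normalizer (U : Set G) := by
  intro g hg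
  suffices hs : U ≤ cj g⁻¹ U by
    have := inv_mem (mem_normalizer_of_le_cj hs)
    rwa [inv_inv] at this
  have hNN : ∀ a ∈ N, ∀ b ∈ N, a * b = b * a := fun a ha b hb =>
    congrArg Subtype.val (mul_comm' (⟨a, ha⟩ : N) ⟨b, hb⟩)
  apply le_of_primePow
  intro p hpp x hxU k hxk
  have hp : Fact p.Prime := ⟨hpp⟩
  rw [mem_cj, inv_inv]
  have hNnil : Group.IsNilpotent N := by
    letI : CommGroup N := { (inferInstance : Group N) with mul_comm := fun a b => mul_comm' a b }
    exact CommGroup.isNilpotent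
  have hNF : N ≤ fittingSubgroup G := H1.Cores.le_fittingSubgroup hNn hNnil
  have hxP : x ∈ pCore p G := H1.Fts.mem_pCore_of_mem_fitting (hNF (hU hxU)) hxk
  set V := N ⊓ pCore p G with hV
  have hVn : V.Normal := inferInstance
  have hxV : x ∈ V := ⟨hU hxU, hxP⟩
  have hVp : IsPGroup p V := (H1.Cores.isPGroup_pCore p).to_le inf_le_right
  have hVN : V ≤ N := inf_le_left
  have hVc : IsMulCommutative V := ⟨⟨fun a b => Subtype.ext (by push_cast; exact hNN _ (hVN a.2) _ (hVN b.2))⟩⟩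
  by_cases hc : Q ≤ centralizer (V : Set G)
  · have h1 : x ∈ U ⊓ centralizer (Q : Set G) := by
      refine ⟨hxU, ?_⟩
      show x ∈ centralizer (Q : Set G)
      rw [mem_centralizer_iff]
      intro y hy
      exact (mem_centralizer_iff.mp (hc hy) x hxV).symm
    exact ((Subgroup.mem_normalizer_iff.mp hg x).mp h1).1
  -- otherwise the intersection is normal
  set W := U ⊓ V with hW
  have hxW : x ∈ W := ⟨hxU, hxV⟩
  suffices hWn : W.Normal from (hWn.conj_mem x hxW g).1
  have hWV : W ≤ V := inf_le_right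
  by_cases hW1 : W = ⊥
  · rw [hW1]; infer_instance
  by_cases hW2 : W = V
  · rw [hW2]; infer_instance
  by_cases hNE : NE G p
  · rcases cyc_or_quat hNE V hVp with hcyc | ⟨rfl, n, hn, ⟨e⟩⟩
    · exact H11.CyclicNormal.normal_of_le_cyclic_normal V W hWV
    · exfalso
      have h1 : 2 ∣ Nat.card V := by
        rw [Nat.card_congr e.toEquiv, Nat.card_eq_fintype_card, QuaternionGroup.card]
        exact ⟨2 * 2 ^ n, by ring⟩
      exact hN2 (h1.trans (Subgroup.card_dvd_of_le hVN))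
  exfalso
  have hVe : ∀ y ∈ V, y ^ p = 1 := by
    intro y hy
    obtain ⟨m, hm⟩ := hVp ⟨y, hy⟩
    exact pow_eq_one hHB hNE y m (by have := congrArg Subtype.val hm; simpa using this)
  have hab : ∀ Z : Subgroup G, Z ≤ N → IsMulCommutative Z := fun Z hZ =>
    ⟨⟨fun a b => Subtype.ext (by push_cast; exact hNN _ (hZ a.2) _ (hZ b.2))⟩⟩
  have hLW : Q ⊔ N ≤ normalizer (W : Set G) := by
    apply sup_le
    · intro y hy
      have h1 := mem_normalizer_iff_cj.mp (hQU hy)
      rw [mem_normalizer_iff_cj, hW, cj_inf, h1, cj_normal V y]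
    · apply H1.Coprime.le_normalizer_of_conj_mem
      intro a ha w hw
      have h1 : a * w * a⁻¹ = w := by
        rw [hNN a ha w (hVN (hWV hw)), mul_inv_cancel_right]
      rw [h1]; exact hw
  have hcyc : ∀ u ∈ Q, ∀ y ∈ V, u * y * u⁻¹ ∈ zpowers y := by
    intro u hu
    apply cyc_of hpp hVc hVe u W hWV hW1 hW2
    intro W' hW' hcard
    obtain ⟨h, hh⟩ := hHB W W' (hab W (hWV.trans hVN)) (hab W' (hW'.trans hVN)) hcard.symm
    have h1 : cj h (Q ⊔ N) ≤ cj h (normalizer (W : Set G)) := cj_le_cj.mpr hLW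
    rw [cj_normal (Q ⊔ N) h, cj_normalizer, ← hh] at h1
    exact h1 (le_sup_left (a := Q) hu)
  obtain ⟨a, ha, b, hb, ha2, hb2, hab2, hcom, hsq, hgen⟩ := q.gen
  have hVconj : ∀ u y : G, y ∈ V → u * y * u⁻¹ ∈ V := fun u y hy => hVn.conj_mem y hy u
  -- the actions of `a` and `b` commute
  have hcomm2 : ∀ y ∈ V, a * (b * y * b⁻¹) * a⁻¹ = b * (a * y * a⁻¹) * b⁻¹ := by
    intro y hy
    obtain ⟨i, hi⟩ := mem_zpowers_iff.mp (hcyc a ha y hy)
    obtain ⟨j, hj⟩ := mem_zpowers_iff.mp (hcyc b hb y hy)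
    rw [← hi, ← hj, ← conj_zpow, ← conj_zpow, ← hi, ← hj, ← zpow_mul, ← zpow_mul, mul_comm]
  have hz : ∀ y ∈ V, a ^ 2 * y * (a ^ 2)⁻¹ = y := by
    intro y hy
    have h1 := hcomm2 ((b * a)⁻¹ * y * (b * a)) (by
      have := hVconj (b * a)⁻¹ y hy
      rwa [inv_inv] at this)
    rw [← hcom]
    calc a * b * a⁻¹ * b⁻¹ * y * (a * b * a⁻¹ * b⁻¹)⁻¹
        = a * (b * ((b * a)⁻¹ * y * (b * a)) * b⁻¹) * a⁻¹ := by group
      _ = b * (a * ((b * a)⁻¹ * y * (b * a)) * a⁻¹) * b⁻¹ := h1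
      _ = y := by group
  have habQ : a * b ∈ Q := Q.mul_mem ha hb
  have hab4 : (a * b) ^ 2 = a ^ 2 := by
    have h1 : ((a * b) ^ 2) ^ 2 = 1 := by rw [← pow_mul]; exact q.four _ habQ
    exact (q.inv a ha ((a * b) ^ 2) (Q.pow_mem habQ 2) ha2 h1).resolve_left hab2
  have hu2 : ∀ u : G, u ^ 2 = a ^ 2 → ∀ y ∈ V, u * (u * y * u⁻¹) * u⁻¹ = y := by
    intro u hu y hy
    have h1 := hz y hy
    rw [← hu] at h1
    calc u * (u * y * u⁻¹) * u⁻¹ = u ^ 2 * y * (u ^ 2)⁻¹ := by rw [pow_two]; group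
      _ = y := h1
  -- an element of order four centralizing `V` gives a contradiction
  have hfin : ∀ u ∈ Q, u ^ 2 ≠ 1 → (∀ y ∈ V, u * y * u⁻¹ = y) → False := by
    intro u hu hu1 hcent
    have h2 : Fact (Nat.Prime 2) := ⟨Nat.prime_two⟩
    have hord : ∀ w ∈ Q, w ^ 2 ≠ 1 → orderOf w = 4 := by
      intro w hw hw2
      exact orderOf_eq_prime_pow (p := 2) (n := 1) (by simpa using hw2) (by simpa using q.four w hw)
    have huC : u ∈ centralizer (V : Set G) := by
      rw [mem_centralizer_iff]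
      intro y hy
      have := hcent y hy
      rw [mul_inv_eq_iff_eq_mul] at this
      exact this.symm
    have hCn : (centralizer (V : Set G)).Normal := inferInstance
    have hall : ∀ w ∈ Q, w ^ 2 ≠ 1 → w ∈ centralizer (V : Set G) := by
      intro w hw hw2
      obtain ⟨h, hh⟩ := hHB (zpowers u) (zpowers w) inferInstance inferInstance
        (by rw [Nat.card_zpowers, Nat.card_zpowers, hord u hu hu1, hord w hw hw2])
      have h1 : w ∈ cj h (zpowers u) := by rw [← hh]; exact mem_zpowers w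
      rw [mem_cj] at h1
      have h3 : zpowers u ≤ centralizer (V : Set G) := by rwa [zpowers_le]
      have := hCn.conj_mem _ (h3 h1) h
      simpa [mul_assoc] using this
    apply hc
    intro w hw
    obtain ⟨i, j, rfl⟩ := hgen w hw
    exact mul_mem (pow_mem (hall a ha ha2) i) (pow_mem (hall b hb hb2) j)
  have hfix : ∀ u ∈ Q, u ^ 2 ≠ 1 → ∀ y ∈ V, u * y * u⁻¹ = y → y = 1 := by
    intro u hu hu1 y hy hy'
    by_contra hy1
    exact hfin u hu hu1 (centralizes_of_fix hpp hVc hVe u (hcyc u hu) hy hy1 hy')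
  have hinv : ∀ u ∈ Q, u ^ 2 = a ^ 2 → ∀ y ∈ V, u * y * u⁻¹ = y⁻¹ := by
    intro u hu hu1
    exact inverts_of hVc (le_normalizer_of_normal (H := V) (K := ⊤) (mem_top u)) (hu2 u hu1)
      (hfix u hu (by rw [hu1]; exact ha2))
  apply hfin (a * b) habQ hab2
  intro y hy
  have h1 := hinv b hb hsq.symm y hy
  have h2 := hinv a ha rfl y⁻¹ (V.inv_mem hy)
  calc a * b * y * (a * b)⁻¹ = a * (b * y * b⁻¹) * a⁻¹ := by group
    _ = a * y⁻¹ * a⁻¹ := by rw [h1]
    _ = y := by rw [h2, inv_inv]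

end H45.BgF
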