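import Cfsg.Agent.Lib.H45.BgF

/-! The main theorem: abelian subgroups of equal order conjugate implies all subgroups of equal order conjugate. -/

set_option autoImplicit false
set_option linter.unusedSectionVars false

open Subgroup Cfsg H28.Cj H28.RelHall H28.RelSyl H45.BgA H45.BgB H45.BgC H45.BgD H45.BgE H45.BgF

namespace H45.BgG

universe u

variable {G : Type u} [Group G] [Finite G]

theorem lift_sub (hs : Group.IsSolvable G) (V : Subgroup G) [V.Normal] (hcop : (Nat.card V).Coprime V.index)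
    (B : Subgroup (G ⧸ V)) : ∃ A : Subgroup G,
      A.map (QuotientGroup.mk' V) = B ∧ Nat.card A = Nat.card B ∧ A ⊓ V = ⊥ := by
  set C := B.comap (QuotientGroup.mk' V) with hC
  have hcard : Nat.card C = Nat.card B * Nat.card V := by
    rw [hC, H1.Cores.card_comap_mk', mul_comm]
  have hBi : Nat.card B ∣ V.index := by rw [Subgroup.index_eq_card]; exact Subgroup.card_subgroup_dvd_card _
  have hco : (Nat.card B).Coprime (Nat.card V) := (Nat.Coprime.coprime_dvd_right hBi hcop).symm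
  obtain ⟨H, hH⟩ := H1.Hall.exists_card_eq (G := C) inferInstance _ _ hcard hco
  set A := H.map C.subtype with hA
  have hAc : Nat.card A = Nat.card B := by
    rw [hA, ← hH]; exact (Nat.card_congr (H.equivMapOfInjective _ C.subtype_injective).toEquiv).symm
  have hAV : A ⊓ V = ⊥ := (Subgroup.disjoint_of_coprime_natCard (by rw [hAc]; exact hco)).eq_bot
  refine ⟨A, ?_, hAc, hAV⟩
  apply Subgroup.eq_of_le_of_card_ge
  · rw [map_le_iff_le_comap]; exact map_subtype_le H
  · have := H1.Hall.card_map_mk_of_disjoint hAV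
    rw [this, hAc]

theorem conj_four (hs : Group.IsSolvable G) (hHB : HB G) (N : Subgroup G) [hNn : N.Normal]
    (hNc : IsMulCommutative N) (hcop : (Nat.card N).Coprime N.index) (S : Subgroup (G ⧸ N))
    (hSn : S.Normal) (e : S ≃* QuaternionGroup 2) (U : Subgroup G) (hU : U ≤ N)
    (hSM : S ≤ (normalizer (U : Set G)).map (QuotientGroup.mk' N)) (V₁ V₂ : Subgroup (G ⧸ N)) (h1 : V₁ ≤ S)
    (h2 : V₂ ≤ S) (c1 : Nat.card V₁ = 4) (c2 : Nat.card V₂ = 4) :
    ∃ m ∈ (normalizer (U : Set G)).map (QuotientGroup.mk' N), V₂ = cj m V₁ := by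
  have h2p : Fact (Nat.Prime 2) := ⟨Nat.prime_two⟩
  set π := QuotientGroup.mk' N with hπ
  obtain ⟨Q, hQmap, hQc, hQN⟩ := lift_sub hs N hcop S
  have hNN : ∀ a ∈ N, ∀ b ∈ N, a * b = b * a := fun a ha b hb =>
    congrArg Subtype.val (mul_comm' (⟨a, ha⟩ : N) ⟨b, hb⟩)
  have hScard : Nat.card S = 8 := (q8_of S e).card
  have hN2 : ¬ 2 ∣ Nat.card N := by
    intro hd
    have h3 : 2 ∣ N.index := by
      rw [Subgroup.index_eq_card]
      refine Dvd.dvd.trans ?_ (Subgroup.card_subgroup_dvd_card S)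
      rw [hScard]; norm_num
    have h4 : 2 ∣ 1 := by rw [← hcop]; exact Nat.dvd_gcd hd h3
    omega
  -- `Q` is a quaternion group
  have hinj : Function.Injective (π.comp Q.subtype) := by
    rw [injective_iff_map_eq_one]
    intro x hx
    have h3 : (x : G) ∈ Q ⊓ N := Subgroup.mem_inf.mpr ⟨x.2, (QuotientGroup.eq_one_iff _).mp hx⟩
    rw [hQN, mem_bot] at h3
    exact Subtype.ext h3
  have hrange : (π.comp Q.subtype).range = S := by
    rw [MonoidHom.range_comp, Subgroup.range_subtype, hQmap]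
  have q : Q8 Q := q8_of Q (((MonoidHom.ofInjective hinj).trans (MulEquiv.subgroupCongr hrange)).trans e)
  have hQNn : (Q ⊔ N).Normal := by
    have h3 : Q ⊔ N = S.comap π := by rw [← hQmap, QuotientGroup.comap_map_mk', sup_comm]
    rw [h3]; infer_instance
  have hNU : N ≤ normalizer (U : Set G) := by
    apply H1.Coprime.le_normalizer_of_conj_mem
    intro a ha w hw
    have h3 : a * w * a⁻¹ = w := by rw [hNN a ha w (hU hw), mul_inv_cancel_right]
    rw [h3]; exact hw
  have hQU : Q ≤ normalizer (U : Set G) := by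
    intro x hx
    have h3 : π x ∈ S := by rw [← hQmap]; exact ⟨x, hx, rfl⟩
    obtain ⟨m, hm, hmx⟩ := hSM h3
    have h4 : m⁻¹ * x ∈ N := QuotientGroup.eq.mp hmx
    have h5 : x = m * (m⁻¹ * x) := by group
    rw [h5]
    exact mul_mem hm (hNU h4)
  set U₀ := U ⊓ centralizer (Q : Set G) with hU₀
  have hU₀N : U₀ ≤ N := inf_le_left.trans hU
  have hle := norm_le hHB N hNc hN2 Q q hQNn U hU hQU
  -- lifts of `V₁, V₂`
  have hlift : ∀ V : Subgroup (G ⧸ N), V ≤ S → Nat.card V = 4 → ∃ A : Subgroup G, IsMulCommutative A ∧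
      A.map π = V ∧ A ⊓ N = U₀ ∧ Nat.card A = 4 * Nat.card U₀ := by
    intro V hV hVc
    set E := V.comap π ⊓ Q with hE
    have hEQ : E ≤ Q := inf_le_right
    have hEN : E ⊓ N = ⊥ := by
      rw [eq_bot_iff, ← hQN]; exact inf_le_inf_right N hEQ
    have hEmap : E.map π = V := by
      apply le_antisymm
      · rw [map_le_iff_le_comap]; exact inf_le_left
      · intro v hv
        have h3 : v ∈ Q.map π := by rw [hQmap]; exact hV hv
        obtain ⟨x, hx, rfl⟩ := h3
        exact ⟨x, ⟨hv, hx⟩, rfl⟩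
    have hEc : Nat.card E = 4 := by
      have := H1.Hall.card_map_mk_of_disjoint hEN
      rw [← this, ← hVc]
      show Nat.card (E.map π) = Nat.card V
      rw [hEmap]
    have hEcomm : IsMulCommutative E :=
      IsPGroup.isMulCommutative_of_card_eq_prime_sq (p := 2) (by rw [hEc]; norm_num)
    have hEE : ∀ a ∈ E, ∀ b ∈ E, a * b = b * a := fun a ha b hb =>
      congrArg Subtype.val (mul_comm' (⟨a, ha⟩ : E) ⟨b, hb⟩)
    have hEU : ∀ a ∈ E, ∀ b ∈ U₀, a * b = b * a := by
      intro a ha b hb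
      exact mem_centralizer_iff.mp (Subgroup.mem_inf.mp hb).2 a (hEQ ha)
    have hEn : E ≤ normalizer (U₀ : Set G) := by
      apply H1.Coprime.le_normalizer_of_conj_mem
      intro a ha w hw
      have h3 : a * w * a⁻¹ = w := by rw [hEU a ha w hw, mul_inv_cancel_right]
      rw [h3]; exact hw
    have hEU0 : E ⊓ U₀ = ⊥ := by
      rw [eq_bot_iff, ← hEN]; exact inf_le_inf_left E hU₀N
    have hcard := card_sup_mul_card_inf hEn
    rw [hEU0, Subgroup.card_bot, mul_one, hEc] at hcard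
    have hmap : (E ⊔ U₀).map π = V := by
      rw [Subgroup.map_sup, hEmap]
      have : U₀.map π = ⊥ := by
        rw [Subgroup.map_eq_bot_iff, hπ, QuotientGroup.ker_mk']; exact hU₀N
      rw [this, sup_bot_eq]
    refine ⟨E ⊔ U₀, ?_, hmap, ?_, hcard⟩
    · have h1 : (E ⊔ U₀) ≤ centralizer ((E ⊔ U₀ : Subgroup G) : Set G) := by
        have hE1 : E ≤ centralizer ((E ⊔ U₀ : Subgroup G) : Set G) := by
          rw [Subgroup.le_centralizer_iff]
          refine sup_le ?_ ?_
          · intro a ha; rw [mem_centralizer_iff]; intro b hb; exact hEE b hb a ha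
          · intro a ha; rw [mem_centralizer_iff]; intro b hb; exact hEU b hb a ha
        have hU1 : U₀ ≤ centralizer ((E ⊔ U₀ : Subgroup G) : Set G) := by
          rw [Subgroup.le_centralizer_iff]
          refine sup_le ?_ ?_
          · intro a ha; rw [mem_centralizer_iff]; intro b hb; exact (hEU a ha b hb).symm
          · intro a ha; rw [mem_centralizer_iff]; intro b hb
            exact hNN b (hU₀N hb) a (hU₀N ha)
        exact sup_le hE1 hU1
      exact Subgroup.le_centralizer_iff_isMulCommutative.mp h1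
    · symm
      apply Subgroup.eq_of_le_of_card_ge (le_inf le_sup_right hU₀N)
      have h3 := H1.Hall.card_map_mk_mul_card_inf (E ⊔ U₀) N
      have h4 : Nat.card ((E ⊔ U₀).map (QuotientGroup.mk' N)) = 4 := by
        rw [← hVc]; exact congrArg (fun H : Subgroup (G ⧸ N) => Nat.card H) hmap
      rw [h4, hcard] at h3
      omega
  obtain ⟨A₁, hA₁c, hA₁m, hA₁N, hA₁k⟩ := hlift V₁ h1 c1
  obtain ⟨A₂, hA₂c, hA₂m, hA₂N, hA₂k⟩ := hlift V₂ h2 c2
  obtain ⟨g, hg⟩ := hHB A₁ A₂ hA₁c hA₂c (by rw [hA₁k, hA₂k])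
  have hgU : g ∈ normalizer (U₀ : Set G) := by
    rw [mem_normalizer_iff_cj]
    calc cj g U₀ = cj g (A₁ ⊓ N) := by rw [hA₁N]
      _ = cj g A₁ ⊓ cj g N := cj_inf _ _ _
      _ = U₀ := by rw [← hg, cj_normal N g, hA₂N]
  refine ⟨π g, ⟨g, hle hgU, rfl⟩, ?_⟩
  rw [← hA₂m, hg, map_cj, hA₁m]

theorem NE_sub {Y : Type u} [Group Y] [Finite Y] {p : ℕ} (h : NE Y p) (M : Subgroup Y) : NE M p := by
  intro x y hx hy hxy
  have h1 := h (x : Y) (y : Y) (by rw [Subgroup.orderOf_coe, hx]) (by rw [Subgroup.orderOf_coe, hy])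
    (congrArg Subtype.val hxy)
  have h2 : (zpowers x).map M.subtype = (zpowers y).map M.subtype := by
    rw [MonoidHom.map_zpowers, MonoidHom.map_zpowers]; exact h1
  exact Subgroup.map_injective M.subtype_injective h2

theorem zgroup_of_odd {Y : Type u} [Group Y] [Finite Y] (hNE : ∀ p : ℕ, p.Prime → NE Y p)
    (hodd : ¬ 8 ∣ Nat.card Y) : IsZGroup Y := by
  refine ⟨fun p hp P => ?_⟩
  have hpf : Fact p.Prime := ⟨hp⟩
  rcases cyc_or_quat (hNE p hp) (P : Subgroup Y) P.isPGroup' with h | ⟨rfl, n, hn, ⟨e⟩⟩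
  · exact h
  · exfalso
    apply hodd
    have h1 : Nat.card (P : Subgroup Y) ∣ Nat.card Y := Subgroup.card_subgroup_dvd_card _
    refine Dvd.dvd.trans ?_ h1
    rw [Nat.card_congr e.toEquiv, Nat.card_eq_fintype_card, QuaternionGroup.card]
    obtain ⟨m, rfl⟩ := Nat.exists_eq_succ_of_ne_zero hn
    exact ⟨2 ^ m, by rw [Nat.succ_eq_add_one, pow_succ]; ring⟩

end H45.BgG
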