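import Cfsg.Agent.Lib.H45.BgG

/-! The main theorem. -/

set_option autoImplicit false
set_option linter.unusedSectionVars false

open Subgroup Cfsg H28.Cj H28.RelHall H28.RelSyl H45.BgA H45.BgB H45.BgC H45.BgD H45.BgE H45.BgF H45.BgG

namespace H45.BgH

universe u

theorem main {G : Type u} [Group G] [Finite G] (hs : Group.IsSolvable G) (hHB : HB G) : SO G := by
  have h2p : Fact (Nat.Prime 2) := ⟨Nat.prime_two⟩
  obtain ⟨N, hNn, hNc, hcop, hNd⟩ := exists_N hs hHB
  have hNN : ∀ a ∈ N, ∀ b ∈ N, a * b = b * a := fun a ha b hb =>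
    congrArg Subtype.val (mul_comm' (⟨a, ha⟩ : N) ⟨b, hb⟩)
  have hab : ∀ Z : Subgroup G, Z ≤ N → IsMulCommutative Z := fun Z hZ =>
    ⟨⟨fun a b => Subtype.ext (by push_cast; exact hNN _ (hZ a.2) _ (hZ b.2))⟩⟩
  apply lift hs N hcop
  · intro U hU
    apply H1.Coprime.le_normalizer_of_conj_mem
    intro a ha w hw
    have h3 : a * w * a⁻¹ = w := by rw [hNN a ha w (hU hw), mul_inv_cancel_right]
    rw [h3]; exact hw
  · intro U U' hU hU' h
    exact hHB U U' (hab U hU) (hab U' hU') h
  intro U hU
  have hNEq : ∀ p : ℕ, p.Prime → NE (G ⧸ N) p := fun p hp =>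
    haveI : Fact p.Prime := ⟨hp⟩
    NE_quotient hs N hcop p (hNd p hp)
  have hHBq := hb_quotient hs hHB N hcop
  by_cases hcyc : ∀ S : Sylow 2 (G ⧸ N), IsCyclic S
  · have hz : IsZGroup (G ⧸ N) := by
      refine ⟨fun p hp P => ?_⟩
      have hpf : Fact p.Prime := ⟨hp⟩
      rcases cyc_or_quat (hNEq p hp) (P : Subgroup (G ⧸ N)) P.isPGroup' with h | ⟨rfl, _⟩
      · exact h
      · exact hcyc P
    exact so_of_zgroup
  push Not at hcyc
  obtain ⟨S, hS⟩ := hcyc
  obtain ⟨hSn, ⟨e⟩⟩ := struct (Y := G ⧸ N) inferInstance hHBq hNEq S hS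
  have q := q8_of (S : Subgroup (G ⧸ N)) e
  by_cases hSM : (S : Subgroup (G ⧸ N)) ≤ (normalizer (U : Set G)).map (QuotientGroup.mk' N)
  · have hfour : ∀ V₁ V₂ : Subgroup (G ⧸ N), V₁ ≤ S → V₂ ≤ S → Nat.card V₁ = 4 → Nat.card V₂ = 4 →
        ∃ m ∈ (normalizer (U : Set G)).map (QuotientGroup.mk' N), V₂ = cj m V₁ :=
      fun V₁ V₂ => conj_four hs hHB N hNc hcop (S : Subgroup (G ⧸ N)) hSn e U hU hSM V₁ V₂
    generalize (normalizer (U : Set G)).map (QuotientGroup.mk' N) = M at hSM hfour ⊢
    set N' := (S : Subgroup (G ⧸ N)).subgroupOf M with hN'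
    have hN'n : N'.Normal := inferInstance
    have hN'c : Nat.card N' = 8 := by rw [hN', card_subgroupOf hSM, q.card]
    have hcop' : (Nat.card N').Coprime N'.index := by
      rw [hN', card_subgroupOf hSM]
      exact Nat.Coprime.coprime_dvd_right (Subgroup.relIndex_dvd_index_of_normal _ _) S.card_coprime_index
    apply lift (G := M) inferInstance N' hcop'
    · intro U' hU'
      apply H1.Coprime.le_normalizer_of_conj_mem
      intro a ha w hw
      have h3 := q.conj (w : G ⧸ N) (hU' hw) (a : G ⧸ N) ha
      rcases h3 with h3 | h3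
      · have : a * w * a⁻¹ = w := Subtype.ext h3
        rw [this]; exact hw
      · have : a * w * a⁻¹ = w⁻¹ := Subtype.ext h3
        rw [this]; exact inv_mem hw
    · intro U' U'' hU' hU'' hc
      have e1 : U'.map M.subtype ≤ S := by
        rintro _ ⟨x, hx, rfl⟩; exact hU' hx
      have e2 : U''.map M.subtype ≤ S := by
        rintro _ ⟨x, hx, rfl⟩; exact hU'' hx
      have k1 : Nat.card (U'.map M.subtype) = Nat.card U' :=
        (Nat.card_congr (U'.equivMapOfInjective _ M.subtype_injective).toEquiv).symm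
      have k2 : Nat.card (U''.map M.subtype) = Nat.card U'' :=
        (Nat.card_congr (U''.equivMapOfInjective _ M.subtype_injective).toEquiv).symm
      have hdvd : Nat.card (U'.map M.subtype) ∣ 2 ^ 3 := by
        have := Subgroup.card_dvd_of_le e1
        rw [q.card] at this
        exact this
      obtain ⟨k, hk, hk'⟩ := (Nat.dvd_prime_pow Nat.prime_two).mp hdvd
      have hk'' : Nat.card (U''.map M.subtype) = 2 ^ k := by rw [k2, ← hc, ← k1, hk']
      have hfin : U''.map M.subtype = U'.map M.subtype → ∃ g : M, U'' = cj g U' := by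
        intro h
        refine ⟨1, ?_⟩
        rw [cj_one]
        exact Subgroup.map_injective M.subtype_injective h
      have hcases : k = 0 ∨ k = 1 ∨ k = 2 ∨ k = 3 := by omega
      rcases hcases with rfl | rfl | rfl | rfl
      · apply hfin
        rw [pow_zero] at hk' hk''
        rw [Subgroup.card_eq_one.mp hk', Subgroup.card_eq_one.mp hk'']
      · apply hfin
        rw [pow_one] at hk' hk''
        obtain ⟨x, hx, hx'⟩ := exists_gen_of_card (p := 2) _ hk'
        obtain ⟨y, hy, hy'⟩ := exists_gen_of_card (p := 2) _ hk''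
        have hxS : x ∈ (S : Subgroup (G ⧸ N)) := e1 (by rw [hx']; exact mem_zpowers x)
        have hyS : y ∈ (S : Subgroup (G ⧸ N)) := e2 (by rw [hy']; exact mem_zpowers y)
        obtain ⟨a, ha, _, _, ha2, _⟩ := q.gen
        have hx1 : x ≠ 1 := by rintro rfl; rw [orderOf_one] at hx; omega
        have hy1 : y ≠ 1 := by rintro rfl; rw [orderOf_one] at hy; omega
        have ex := (q.inv a ha x hxS ha2 (by rw [← hx]; exact pow_orderOf_eq_one x)).resolve_left hx1
        have ey := (q.inv a ha y hyS ha2 (by rw [← hy]; exact pow_orderOf_eq_one y)).resolve_left hy1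
        rw [hx', hy', ex, ey]
      · obtain ⟨m, hm, hm'⟩ := hfour _ _ e1 e2 (by rw [hk']; norm_num) (by rw [hk'']; norm_num)
        refine ⟨⟨m, hm⟩, ?_⟩
        apply Subgroup.map_injective M.subtype_injective
        rw [hm', map_cj]
        rfl
      · apply hfin
        have f1 : U'.map M.subtype = S := Subgroup.eq_of_le_of_card_ge e1 (by rw [hk', q.card]; norm_num)
        have f2 : U''.map M.subtype = S := Subgroup.eq_of_le_of_card_ge e2 (by rw [hk'', q.card]; norm_num)
        rw [f1, f2]
    · intro U' hU'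
      have hz : IsZGroup (M ⧸ N') := by
        apply zgroup_of_odd
        · intro p hp
          haveI : Fact p.Prime := ⟨hp⟩
          exact NE_quotient inferInstance N' hcop' p (fun h => absurd (NE_sub (hNEq p hp) M) h)
        · intro h8
          rw [← Subgroup.index_eq_card] at h8
          have h9 : 8 ∣ 1 := by
            rw [← hcop', hN'c]
            exact Nat.dvd_gcd dvd_rfl h8
          omega
      exact so_of_zgroup
  · generalize (normalizer (U : Set G)).map (QuotientGroup.mk' N) = M at hSM ⊢
    have hz : IsZGroup M := by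
      apply zgroup_of_odd (fun p hp => NE_sub (hNEq p hp) M)
      intro h8
      apply hSM
      obtain ⟨P⟩ : Nonempty (Sylow 2 M) := inferInstance
      have h1 : 2 ^ 3 ∣ Nat.card (P : Subgroup M) := P.pow_dvd_card_of_pow_dvd_card h8
      have hP' : IsPGroup 2 ((P : Subgroup M).map M.subtype) := P.isPGroup'.map _
      obtain ⟨S', hS'⟩ := hP'.exists_le_sylow
      have huniq := Sylow.unique_of_normal S hSn
      have hSS : S' = S := Subsingleton.elim _ _
      rw [hSS] at hS'
      have k1 : Nat.card ((P : Subgroup M).map M.subtype) = Nat.card (P : Subgroup M) :=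
        (Nat.card_congr ((P : Subgroup M).equivMapOfInjective _ M.subtype_injective).toEquiv).symm
      have h2 : (P : Subgroup M).map M.subtype = S := by
        apply Subgroup.eq_of_le_of_card_ge hS'
        rw [q.card, k1]
        exact Nat.le_of_dvd Nat.card_pos h1
      rw [← h2]
      exact map_subtype_le _
    exact so_of_zgroup

end H45.BgH
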