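import Mathlib
import Cfsg.Agent.Lib.H22.RGDExtra
import Cfsg.Agent.Lib.H22.RGDCard
import Cfsg.Agent.Lib.H22.Coord

/-!
# Curtis–Richen theory 1: the operators `T`, weight vectors

Modular representations of a finite group with a system of root subgroups in the defining
characteristic.
-/

set_option autoImplicit false
set_option linter.unusedSectionVars false
set_option linter.style.haveILetI false

open H22.RGD H22.Coord

namespace H45.CR

section gen

variable {G : Type*} [Group G] {k : Type*} [Field k] {V : Type*} [AddCommGroup V] [Module k V]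
variable (ρ : Representation k G V)

theorem rmul (a b : G) (v : V) : ρ (a * b) v = ρ a (ρ b v) := by
  rw [map_mul]; rfl

theorem rone (v : V) : ρ 1 v = v := by
  rw [map_one]; rfl

theorem rinv_r (a : G) (v : V) : ρ a⁻¹ (ρ a v) = v := by
  rw [← rmul, inv_mul_cancel, rone]

theorem r_rinv (a : G) (v : V) : ρ a (ρ a⁻¹ v) = v := by
  rw [← rmul, mul_inv_cancel, rone]

variable [Finite G]

/-- The sum over a subgroup. -/
noncomputable def sm (K : Subgroup G) (v : V) : V :=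
  letI := Fintype.ofFinite K
  ∑ u : K, ρ (u : G) v

theorem sm_eq (K : Subgroup G) [Fintype K] (v : V) : sm ρ K v = ∑ u : K, ρ (u : G) v := by
  unfold sm
  convert rfl

theorem sm_add (K : Subgroup G) (v w : V) : sm ρ K (v + w) = sm ρ K v + sm ρ K w := by
  letI := Fintype.ofFinite K
  rw [sm_eq, sm_eq, sm_eq, ← Finset.sum_add_distrib]
  exact Finset.sum_congr rfl fun _ _ => map_add _ _ _

theorem sm_smul (K : Subgroup G) (c : k) (v : V) : sm ρ K (c • v) = c • sm ρ K v := by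
  letI := Fintype.ofFinite K
  rw [sm_eq, sm_eq, Finset.smul_sum]
  exact Finset.sum_congr rfl fun _ _ => map_smul _ _ _

theorem sm_zero (K : Subgroup G) : sm ρ K (0 : V) = 0 := by
  have := sm_smul ρ K 0 0
  rwa [zero_smul, zero_smul] at this

/-- `sm` as a linear map. -/
noncomputable def smL (K : Subgroup G) : V →ₗ[k] V where
  toFun := sm ρ K
  map_add' := sm_add ρ K
  map_smul' := sm_smul ρ K

@[simp] theorem smL_apply (K : Subgroup G) (v : V) : smL ρ K v = sm ρ K v := rfl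

theorem sm_sum {ι : Type*} (s : Finset ι) (K : Subgroup G) (f : ι → V) :
    sm ρ K (∑ i ∈ s, f i) = ∑ i ∈ s, sm ρ K (f i) := map_sum (smL ρ K) f s

/-- left translation -/
theorem r_sm {K : Subgroup G} {a : G} (ha : a ∈ K) (v : V) : ρ a (sm ρ K v) = sm ρ K v := by
  letI := Fintype.ofFinite K
  rw [sm_eq, map_sum]
  refine Fintype.sum_equiv (Equiv.mulLeft (⟨a, ha⟩ : K)) _ _ fun u => ?_
  rw [← rmul]; rfl

/-- right translation -/
theorem sm_r {K : Subgroup G} {a : G} (ha : a ∈ K) (v : V) : sm ρ K (ρ a v) = sm ρ K v := by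
  letI := Fintype.ofFinite K
  rw [sm_eq, sm_eq]
  refine Fintype.sum_equiv (Equiv.mulRight (⟨a, ha⟩ : K)) _ _ fun u => ?_
  rw [← rmul]; rfl

theorem sm_bot (v : V) : sm ρ (⊥ : Subgroup G) v = v := by
  letI := Fintype.ofFinite (⊥ : Subgroup G)
  rw [sm_eq, Fintype.sum_unique]
  exact rone ρ v

theorem sm_cj (K : Subgroup G) (g : G) (v : V) : sm ρ (cj g K) (ρ g v) = ρ g (sm ρ K v) := by
  letI := Fintype.ofFinite K
  letI := Fintype.ofFinite (cj g K)
  rw [sm_eq, sm_eq, map_sum]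
  symm
  refine Fintype.sum_equiv (K.equivMapOfInjective _ (MulAut.conj g).injective).toEquiv _ _ fun u => ?_
  rw [← rmul, ← rmul]
  congr 2
  show g * u = (g * u * g⁻¹) * g
  group

/-- product decomposition -/
theorem sm_mul {K A B : Subgroup G} (h1 : ∀ a ∈ A, ∀ b ∈ B, a * b ∈ K)
    (h2 : ∀ u ∈ K, ∃ a ∈ A, ∃ b ∈ B, u = a * b) (h3 : A ⊓ B = ⊥) (v : V) :
    sm ρ K v = sm ρ A (sm ρ B v) := by
  letI := Fintype.ofFinite K
  letI := Fintype.ofFinite A
  letI := Fintype.ofFinite B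
  rw [sm_eq, sm_eq, sm_eq]
  simp_rw [map_sum, ← rmul]
  rw [← Fintype.sum_prod_type']
  symm
  refine Fintype.sum_bijective (fun p : A × B => (⟨p.1 * p.2, h1 _ p.1.2 _ p.2.2⟩ : K))
    ⟨?_, ?_⟩ _ _ fun p => rfl
  · rintro ⟨a, b⟩ ⟨a', b'⟩ e
    have e' : (a : G) * b = a' * b' := congrArg Subtype.val e
    have h4 : (a' : G)⁻¹ * a = b' * (b : G)⁻¹ := by
      have : (a : G) = a' * b' * (b : G)⁻¹ := by rw [← e']; simp
      rw [this]; simp [mul_assoc]
    have h5 : (a' : G)⁻¹ * a ∈ A ⊓ B :=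
      ⟨A.mul_mem (A.inv_mem a'.2) a.2, by rw [h4]; exact B.mul_mem b'.2 (B.inv_mem b.2)⟩
    rw [h3, Subgroup.mem_bot] at h5
    have h6 : (a : G) = a' := (inv_mul_eq_one.1 h5).symm
    rw [h6] at e'
    exact Prod.ext (Subtype.ext h6) (Subtype.ext (mul_left_cancel e'))
  · rintro ⟨u, hu⟩
    obtain ⟨a, ha, b, hb, e⟩ := h2 u hu
    exact ⟨(⟨a, ha⟩, ⟨b, hb⟩), Subtype.ext e.symm⟩

/-- the sum over a subgroup fixing the vector -/
theorem sm_of_fix {K : Subgroup G} {v : V} (h : ∀ u ∈ K, ρ u v = v) :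
    sm ρ K v = (Nat.card K : k) • v := by
  letI := Fintype.ofFinite K
  rw [sm_eq, Finset.sum_congr rfl fun (u : K) _ => h u u.2, Finset.sum_const, Finset.card_univ,
    Nat.card_eq_fintype_card, Nat.cast_smul_eq_nsmul]

end gen

section sys

variable {G : Type*} [Group G] [Finite G] {Φ I : Type*} [Finite Φ] {C : RootComb Φ I} (S : Sys G C)
variable {k : Type*} [Field k] {V : Type*} [AddCommGroup V] [Module k V] (ρ : Representation k G V)

/-- The rank one operators. -/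
noncomputable def Ti (i : I) (v : V) : V := sm ρ (S.X (C.simple i)) (ρ (S.n i) v)

/-- The operator attached to an element of `N`. -/
noncomputable def T (w : Equiv.Perm Φ) (g : G) (v : V) : V := sm ρ (S.Um w⁻¹) (ρ g v)

/-- Fixed by `U`. -/
def Fix (v : V) : Prop := ∀ u ∈ S.U, ρ u v = v

theorem Ti_smul (i : I) (c : k) (v : V) : Ti S ρ i (c • v) = c • Ti S ρ i v := by
  unfold Ti
  rw [map_smul, sm_smul]

theorem Ti_zero (i : I) : Ti S ρ i (0 : V) = 0 := by
  unfold Ti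
  rw [map_zero, sm_zero]

theorem Ti_sum {ι : Type*} (s : Finset ι) (i : I) (f : ι → V) :
    Ti S ρ i (∑ j ∈ s, f j) = ∑ j ∈ s, Ti S ρ i (f j) := by
  unfold Ti
  rw [map_sum, sm_sum]

/-- the product rule -/
theorem T_mul {w : Equiv.Perm Φ} {g : G} (hg : S.Rep g w) (i : I)
    (hi : C.pos (w⁻¹ (C.simple i))) (v : V) :
    T S ρ (C.refl i * w) (S.n i * g) v = Ti S ρ i (T S ρ w g v) := by
  unfold T Ti
  have e1 : (C.refl i * w)⁻¹ = w⁻¹ * C.refl i := by rw [mul_inv_rev, C.refl_inv]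
  have hw' : w⁻¹ ∈ C.W := C.W.inv_mem hg.2.1
  have hc : cj (S.n i)⁻¹ (S.Um w⁻¹) = cj (S.n i) (S.Um w⁻¹) := by
    rw [cj_inv_eq_iff, ← cj_mul]
    exact (S.H_le_stab_iSup _ (S.n_sq i)).symm
  have hle : cj (S.n i) (S.Um w⁻¹) ≤ S.Ui i := by
    rw [← S.n_stab_Ui i]
    exact cj_mono (S.Um_le_Ui hi)
  rw [e1, rmul, ← sm_cj ρ (S.Um w⁻¹) (S.n i)]
  refine sm_mul ρ ?_ ?_ ?_ _
  · intro a ha b hb
    have h1 : (a * b)⁻¹ ∈ S.Um (w⁻¹ * C.refl i) := by
      rw [S.mem_Um_mul_refl hw' hi]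
      rw [← hc, mem_cj, inv_inv] at hb
      refine ⟨(S.n i * b * (S.n i)⁻¹)⁻¹, (S.Um _).inv_mem hb, a⁻¹, (S.X _).inv_mem ha, ?_⟩
      simp [mul_assoc]
    simpa using (S.Um _).inv_mem h1
  · intro u hu
    have h1 := (S.Um _).inv_mem hu
    rw [S.mem_Um_mul_refl hw' hi] at h1
    obtain ⟨b, hb, x, hx, e⟩ := h1
    refine ⟨x⁻¹, (S.X _).inv_mem hx, (S.n i)⁻¹ * b⁻¹ * S.n i, ?_, ?_⟩
    · rw [← hc, mem_cj, inv_inv]
      have := (S.Um w⁻¹).inv_mem hb
      simpa [mul_assoc] using this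
    · rw [← inv_inv u, e]; simp [mul_assoc]
  · rw [eq_bot_iff, ← S.Ui_inf_X i]
    exact le_inf (inf_le_right.trans hle) inf_le_left

theorem T_one (v : V) : T S ρ 1 1 v = v := by
  unfold T
  rw [inv_one, S.Um_one, sm_bot, rone]

theorem T_len_zero {w : Equiv.Perm Φ} {g : G} (hg : S.Rep g w) (h0 : C.len w = 0) (v : V) :
    T S ρ w g v = ρ g v := by
  have h1 : w = 1 := S.eq_one_of_len_zero hg.2.1 h0
  subst h1
  unfold T
  rw [inv_one, S.Um_one, sm_bot]

/-- descent form of the product rule -/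
theorem T_desc {w : Equiv.Perm Φ} {g : G} (hg : S.Rep g w) (i : I)
    (hi : ¬ C.pos (w⁻¹ (C.simple i))) (v : V) :
    T S ρ w g v = Ti S ρ i (T S ρ (C.refl i * w) ((S.n i)⁻¹ * g) v) ∧
      S.Rep ((S.n i)⁻¹ * g) (C.refl i * w) ∧ C.len (C.refl i * w) + 1 = C.len w := by
  have h1 : S.Rep ((S.n i)⁻¹ * g) (C.refl i * w) := by
    have := (S.rep_n i).inv.mul hg
    rwa [C.refl_inv] at this
  refine ⟨?_, h1, C.len_refl_mul_of_neg hg.2.1 i hi⟩
  rw [← T_mul S ρ h1 i ?_ v]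
  · congr 1
    · rw [← mul_assoc, C.refl_mul_self, one_mul]
    · simp
  · rw [mul_inv_rev, C.refl_inv, Equiv.Perm.mul_apply, C.refl_simple, C.W_neg (C.W.inv_mem hg.2.1),
      C.pos_neg]
    exact hi

variable {S ρ}

theorem Fix.smul {v : V} (h : Fix S ρ v) (c : k) : Fix S ρ (c • v) := fun u hu => by
  rw [map_smul, h u hu]

theorem Fix.add {v w : V} (h : Fix S ρ v) (h' : Fix S ρ w) : Fix S ρ (v + w) := fun u hu => by
  rw [map_add, h u hu, h' u hu]

theorem Fix.sum {ι : Type*} (s : Finset ι) {f : ι → V} (h : ∀ j ∈ s, Fix S ρ (f j)) :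
    Fix S ρ (∑ j ∈ s, f j) := fun u hu => by
  rw [map_sum]
  exact Finset.sum_congr rfl fun j hj => h j hj u hu

theorem Fix.H {v : V} (hv : Fix S ρ v) {h : G} (hh : h ∈ S.H) : Fix S ρ (ρ h v) := by
  intro u hu
  have : u * h = h * (h⁻¹ * u * h) := by group
  rw [← rmul, this, rmul, hv _ (inv_conj_mem_of_stabSub (S.H_le_stab_U hh) hu)]

theorem Fix.Ti {v : V} (hv : Fix S ρ v) (i : I) : Fix S ρ (Ti S ρ i v) := by
  intro u hu
  obtain ⟨a, ha, x, hx, rfl⟩ := (S.mem_U_iff i).1 hu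
  unfold H45.CR.Ti
  rw [rmul, r_sm ρ hx]
  letI := Fintype.ofFinite (S.X (C.simple i))
  rw [sm_eq, map_sum]
  refine Finset.sum_congr rfl fun y _ => ?_
  have h1 : (y : G)⁻¹ * a * y ∈ S.Ui i :=
    inv_conj_mem_of_stabSub (S.X_simple_le_stab_Ui i y.2) ha
  have h2 : (S.n i)⁻¹ * ((y : G)⁻¹ * a * y) * S.n i ∈ S.Ui i :=
    inv_conj_mem_of_stabSub (S.n_stab_Ui i) h1
  have e : a * y * S.n i = y * S.n i * ((S.n i)⁻¹ * ((y : G)⁻¹ * a * y) * S.n i) := by group
  rw [← rmul, ← rmul, ← rmul, e, rmul, hv _ (S.Ui_le_U i h2)]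

theorem Fix.T {v : V} (hv : Fix S ρ v) : ∀ {w : Equiv.Perm Φ} {g : G}, S.Rep g w →
    Fix S ρ (T S ρ w g v) := by
  have key : ∀ n, ∀ (w : Equiv.Perm Φ) (g : G), S.Rep g w → C.len w = n →
      Fix S ρ (H45.CR.T S ρ w g v) := by
    intro n
    induction n with
    | zero =>
      intro w g hg h0
      rw [T_len_zero S ρ hg h0]
      exact hv.H (S.mem_H_of_len_zero hg h0)
    | succ n ih =>
      intro w g hg h0
      obtain ⟨i, hi⟩ := S.exists_left_descent hg.2.1 (by omega)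
      obtain ⟨e, h1, h2⟩ := T_desc S ρ hg i hi v
      rw [e]
      exact (ih _ _ h1 (by omega)).Ti i
  intro w g hg
  exact key _ w g hg rfl

variable (S) in
/-- conjugation by an element of `N` on `H` -/
def cH {g : G} (hg : g ∈ S.N) : S.H →* S.H where
  toFun h := ⟨g⁻¹ * h * g, S.N_inv_conj_H hg h.2⟩
  map_one' := Subtype.ext (by simp)
  map_mul' a b := Subtype.ext (by simp [mul_assoc])

@[simp] theorem cH_coe {g : G} (hg : g ∈ S.N) (h : S.H) : ((cH S hg h : S.H) : G) = g⁻¹ * h * g := rfl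

variable (S ρ) in
/-- `v` is a `U`-fixed vector with `H`-character `χ`. -/
structure Wt (χ : S.H →* kˣ) (v : V) : Prop where
  fix : Fix S ρ v
  eig : ∀ h : S.H, ρ (h : G) v = (χ h : k) • v

theorem Wt.T {χ : S.H →* kˣ} {v : V} (hv : Wt S ρ χ v) {w : Equiv.Perm Φ} {g : G}
    (hg : S.Rep g w) : Wt S ρ (χ.comp (cH S hg.1)) (T S ρ w g v) := by
  refine ⟨hv.fix.T hg, fun h => ?_⟩
  have h1 : cj (h : G) (S.Um w⁻¹) = S.Um w⁻¹ := S.H_le_stab_iSup _ h.2
  unfold H45.CR.T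
  have e : ρ (h : G) (ρ g v) = (χ (cH S hg.1 h) : k) • ρ g v := by
    have e1 : (h : G) * g = g * (g⁻¹ * h * g) := by group
    rw [← rmul, e1, rmul, ← cH_coe hg.1, hv.eig, map_smul]
  rw [← sm_cj, h1, e, sm_smul]
  rfl

theorem Wt.Ti {χ : S.H →* kˣ} {v : V} (hv : Wt S ρ χ v) (i : I) :
    Wt S ρ (χ.comp (cH S (S.n_mem_N i))) (Ti S ρ i v) := by
  have h1 := hv.T (S.rep_n i)
  have h2 : H45.CR.T S ρ (C.refl i) (S.n i) v = H45.CR.Ti S ρ i v := by
    have h3 := T_mul S ρ (w := 1) (g := 1) ⟨S.N.one_mem, C.W.one_mem, by simp⟩ i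
      (by simpa using C.simple_pos i) v
    rwa [T_one, mul_one, mul_one] at h3
  rwa [h2] at h1

/-! ### the quadratic relation -/

variable (S) in
theorem exists_tau (i : I) (x : S.X (C.simple i)) (hx : x ≠ 1) :
    ∃ h : S.H, ∃ a ∈ S.X (C.simple i), ∃ b ∈ S.X (C.simple i),
      S.n i * x * (S.n i)⁻¹ = a * (S.n i * h) * b := by
  have h1 : S.n i * x * (S.n i)⁻¹ ∈ S.X (C.neg (C.simple i)) := by
    rw [← S.cj_n_simple]; exact conj_mem_cj x.2
  have h2 : S.n i * x * (S.n i)⁻¹ ≠ 1 := by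
    intro h; apply hx
    apply Subtype.ext
    have : (x : G) = (S.n i)⁻¹ * (S.n i * x * (S.n i)⁻¹) * S.n i := by simp [mul_assoc]
    rw [this, h]; simp
  obtain ⟨a, ha, h, hh, b, hb, e⟩ := S.rank_one i _ h1 h2
  exact ⟨⟨h, hh⟩, a, ha, b, hb, e⟩

open Classical in
variable (S) in
/-- the torus part of `n_i x n_i⁻¹` -/
noncomputable def tau (i : I) (x : S.X (C.simple i)) : S.H :=
  if hx : x = 1 then 1 else (exists_tau S i x hx).choose

theorem tau_spec (i : I) (x : S.X (C.simple i)) (hx : x ≠ 1) :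
    ∃ a ∈ S.X (C.simple i), ∃ b ∈ S.X (C.simple i),
      S.n i * x * (S.n i)⁻¹ = a * (S.n i * tau S i x) * b := by
  unfold tau
  rw [dif_neg hx]
  exact (exists_tau S i x hx).choose_spec

theorem tau_unique (i : I) {a b a' b' h h' : G} (ha : a ∈ S.X (C.simple i))
    (hb : b ∈ S.X (C.simple i)) (ha' : a' ∈ S.X (C.simple i)) (hb' : b' ∈ S.X (C.simple i))
    (hh : h ∈ S.H) (hh' : h' ∈ S.H) (e : a * (S.n i * h) * b = a' * (S.n i * h') * b') : h = h' := by
  have h1 : ¬ C.pos (C.refl i (C.simple i)) := by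
    rw [C.refl_simple, C.pos_neg]; exact fun h => h (C.simple_pos i)
  have hUm : S.X (C.simple i) ≤ S.Um (C.refl i) := S.X_le_Um (C.simple_pos i) h1
  have h2 := S.normal_form_unique (b := a * (S.n i * h * (S.n i)⁻¹))
    (b' := a' * (S.n i * h' * (S.n i)⁻¹)) (u := b) (u' := b') (S.rep_n i)
    (S.B.mul_mem (S.U_le_B (S.X_le_U (C.simple_pos i) ha))
      (S.H_le_B (S.N_conj_H (S.n_mem_N i) hh)))
    (S.B.mul_mem (S.U_le_B (S.X_le_U (C.simple_pos i) ha'))
      (S.H_le_B (S.N_conj_H (S.n_mem_N i) hh'))) (hUm hb) (hUm hb')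
    (by simpa [mul_assoc] using e)
  have h3 := h2.1
  have h4 : a'⁻¹ * a = (S.n i * h' * (S.n i)⁻¹) * (S.n i * h * (S.n i)⁻¹)⁻¹ := by
    have : a = a' * (S.n i * h' * (S.n i)⁻¹) * (S.n i * h * (S.n i)⁻¹)⁻¹ := by
      rw [← h3, mul_inv_cancel_right]
    rw [this]; group
  have h5 : a'⁻¹ * a = 1 := S.eq_one_of_mem_U_H
    (S.X_le_U (C.simple_pos i) ((S.X _).mul_mem ((S.X _).inv_mem ha') ha))
    (by rw [h4]; exact S.H.mul_mem (S.N_conj_H (S.n_mem_N i) hh')
          (S.H.inv_mem (S.N_conj_H (S.n_mem_N i) hh)))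
  rw [h5] at h4
  have h6 := (mul_inv_eq_one.1 h4.symm).symm
  exact mul_left_cancel (mul_right_cancel h6)

theorem tau_eq (i : I) (x : S.X (C.simple i)) (hx : x ≠ 1) {a b h : G} (ha : a ∈ S.X (C.simple i))
    (hb : b ∈ S.X (C.simple i)) (hh : h ∈ S.H)
    (e : S.n i * x * (S.n i)⁻¹ = a * (S.n i * h) * b) : (tau S i x : G) = h := by
  obtain ⟨a', ha', b', hb', e'⟩ := tau_spec i x hx
  exact tau_unique i ha' hb' ha hb (tau S i x).2 hh (e'.symm.trans e)

open Classical in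
variable (S) in
/-- the quadratic coefficient -/
noncomputable def ci (i : I) (χ : S.H →* kˣ) : k :=
  letI := Fintype.ofFinite (S.X (C.simple i))
  ∑ x : S.X (C.simple i), if x = 1 then 0 else
    ((χ (tau S i x) : k) * (χ ⟨S.n i * S.n i, S.n_sq i⟩ : k))

/-- `n_i x n_i v` for a weight vector -/
theorem nxn {χ : S.H →* kˣ} {v : V} (hv : Wt S ρ χ v) (i : I) (x : S.X (C.simple i)) (hx : x ≠ 1) :
    ∃ a ∈ S.X (C.simple i), ρ (S.n i) (ρ (x : G) (ρ (S.n i) v)) =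
      ((χ (tau S i x) : k) * (χ ⟨S.n i * S.n i, S.n_sq i⟩ : k)) • ρ a (ρ (S.n i) v) := by
  obtain ⟨a, ha, b, hb, e⟩ := tau_spec i x hx
  refine ⟨a, ha, ?_⟩
  have e1 : S.n i * x * S.n i = a * (S.n i * (tau S i x * (b * (S.n i * S.n i)))) := by
    have : S.n i * x * S.n i = S.n i * x * (S.n i)⁻¹ * (S.n i * S.n i) := by group
    rw [this, e]; group
  have e2 : ρ (S.n i * S.n i) v = (χ ⟨S.n i * S.n i, S.n_sq i⟩ : k) • v :=
    hv.eig ⟨S.n i * S.n i, S.n_sq i⟩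
  rw [← rmul, ← rmul, e1, rmul, rmul, rmul, rmul, e2, map_smul,
    hv.fix b (S.X_le_U (C.simple_pos i) hb), map_smul, hv.eig, map_smul, map_smul, map_smul,
    map_smul, smul_smul, mul_comm]

theorem Ti_Ti {p : ℕ} [CharP k p] (hp : IsPGroup p S.U) {χ : S.H →* kˣ} {v : V} (hv : Wt S ρ χ v)
    (hp1 : p.Prime) (i : I) : Ti S ρ i (Ti S ρ i v) = ci S i χ • Ti S ρ i v := by
  classical
  letI := Fintype.ofFinite (S.X (C.simple i))
  have hcard : (Nat.card (S.X (C.simple i)) : k) = 0 := by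
    haveI := Fact.mk hp1
    have h1 : IsPGroup p (S.X (C.simple i)) := hp.to_le (S.X_le_U (C.simple_pos i))
    obtain ⟨m, hm⟩ := IsPGroup.iff_card.1 h1
    have h2 : m ≠ 0 := by
      rintro rfl
      rw [pow_zero] at hm
      exact S.nontriv (C.simple i) (Subgroup.card_eq_one.1 hm)
    rw [hm, Nat.cast_pow, CharP.cast_eq_zero, zero_pow h2]
  have e1 : Ti S ρ i (Ti S ρ i v) = ∑ x : S.X (C.simple i),
      sm ρ (S.X (C.simple i)) (ρ (S.n i) (ρ (x : G) (ρ (S.n i) v))) := by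
    rw [← sm_sum]
    unfold Ti
    rw [sm_eq ρ (S.X (C.simple i)) (ρ (S.n i) v), map_sum]
  rw [e1]
  have e2 : ∀ x : S.X (C.simple i), sm ρ (S.X (C.simple i)) (ρ (S.n i) (ρ (x : G) (ρ (S.n i) v))) =
      (if x = 1 then (0 : k) else
        ((χ (tau S i x) : k) * (χ ⟨S.n i * S.n i, S.n_sq i⟩ : k))) • Ti S ρ i v := by
    intro x
    by_cases hx : x = 1
    · rw [if_pos hx, zero_smul, hx]
      have e3 : ρ (S.n i) (ρ ((1 : S.X (C.simple i)) : G) (ρ (S.n i) v)) =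
          (χ ⟨S.n i * S.n i, S.n_sq i⟩ : k) • v := by
        rw [OneMemClass.coe_one, rone, ← rmul]
        exact hv.eig ⟨S.n i * S.n i, S.n_sq i⟩
      rw [e3, sm_smul, sm_of_fix ρ (fun u hu => hv.fix u (S.X_le_U (C.simple_pos i) hu)), hcard,
        zero_smul, smul_zero]
    · rw [if_neg hx]
      obtain ⟨a, ha, e⟩ := nxn hv i x hx
      rw [e, sm_smul, sm_r ρ ha]
      rfl
  rw [Finset.sum_congr rfl fun x _ => e2 x, ← Finset.sum_smul]
  rfl

/-! ### existence of weight vectors -/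

variable (S ρ) in
/-- A weight vector. -/
structure WV (χ : S.H →* kˣ) (μ : I → k) (v : V) : Prop where
  wt : Wt S ρ χ v
  eig : ∀ i, Ti S ρ i v = μ i • v

theorem exists_WV_of_Wt {p : ℕ} [CharP k p] (hp1 : p.Prime) (hp : IsPGroup p S.U) {χ : S.H →* kˣ}
    {v : V} (hv : Wt S ρ χ v) (h0 : v ≠ 0) :
    ∃ (χ' : S.H →* kˣ) (μ : I → k) (v' : V), v' ≠ 0 ∧ WV S ρ χ' μ v' := by
  classical
  let P : Set (G × Equiv.Perm Φ) := {x | S.Rep x.1 x.2 ∧ T S ρ x.2 x.1 v ≠ 0}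
  have hP : P.Nonempty := ⟨(1, 1), ⟨S.N.one_mem, C.W.one_mem, by simp⟩, by
    show T S ρ 1 1 v ≠ 0
    rw [T_one]; exact h0⟩
  obtain ⟨⟨g, w⟩, ⟨hg, hgv⟩, hmax⟩ := (Set.toFinite P).exists_maximalFor
    (fun x => C.len x.2) P hP
  simp only at hg hgv
  have hWt := hv.T hg
  have key : ∀ i, ∃ c : k, Ti S ρ i (T S ρ w g v) = c • T S ρ w g v := by
    intro i
    by_cases hi : C.pos (w⁻¹ (C.simple i))
    · refine ⟨0, ?_⟩
      rw [zero_smul, ← T_mul S ρ hg i hi]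
      by_contra hne
      have h1 : (S.n i * g, C.refl i * w) ∈ P := ⟨(S.rep_n i).mul hg, hne⟩
      have h2 := C.len_refl_mul_of_pos hg.2.1 i hi
      have h3 := hmax h1 (by simp only; omega)
      simp only at h3
      omega
    · obtain ⟨e, h1, h2⟩ := T_desc S ρ hg i hi v
      refine ⟨ci S i (χ.comp (cH S h1.1)), ?_⟩
      rw [e]
      exact Ti_Ti hp (hv.T h1) hp1 i
  choose μ hμ using key
  exact ⟨_, μ, _, hgv, hWt, hμ⟩

variable (ρ) in
/-- a common eigenvector of a finite commutative group -/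
theorem exists_eig [IsAlgClosed k] {A : Subgroup G} (hA : ∀ a ∈ A, ∀ b ∈ A, a * b = b * a)
    [FiniteDimensional k V] (W : Submodule k V) (hW : W ≠ ⊥) (hst : ∀ a ∈ A, ∀ v ∈ W, ρ a v ∈ W) :
    ∃ v ∈ W, v ≠ 0 ∧ ∀ a ∈ A, ∃ c : k, ρ a v = c • v := by
  classical
  -- a minimal invariant subspace
  let P : Set (Submodule k V) := {W' | W' ≤ W ∧ W' ≠ ⊥ ∧ ∀ a ∈ A, ∀ v ∈ W', ρ a v ∈ W'}
  obtain ⟨W', ⟨hle, hne, hst'⟩, hmin⟩ : ∃ W' ∈ P, ∀ W'' ∈ P, W'' ≤ W' → W' ≤ W'' := by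
    obtain ⟨W', hW', hm⟩ := WellFounded.has_min (wellFounded_lt (α := Submodule k V)) P
      ⟨W, le_rfl, hW, hst⟩
    refine ⟨W', hW', fun W'' h'' hle => ?_⟩
    rcases hle.lt_or_eq with h | h
    · exact absurd h (hm W'' h'')
    · rw [h]
  obtain ⟨v, hv, hv0⟩ := Submodule.exists_mem_ne_zero_of_ne_bot hne
  refine ⟨v, hle hv, hv0, fun a ha => ?_⟩
  haveI : Nontrivial W' := ⟨⟨⟨v, hv⟩, 0, fun h => hv0 (congrArg Subtype.val h)⟩⟩
  let f : Module.End k W' := (ρ a).restrict (hst' a ha)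
  obtain ⟨c, hc⟩ := Module.End.exists_eigenvalue f
  obtain ⟨x, hx⟩ := hc.exists_hasEigenvector
  have hx0 : (x : V) ≠ 0 := fun h => hx.2 (Subtype.ext h)
  have hxe : ρ a (x : V) = c • (x : V) := congrArg Subtype.val hx.apply_eq_smul
  refine ⟨c, ?_⟩
  have h1 : W' ≤ W' ⊓ LinearMap.ker (ρ a - c • LinearMap.id) := by
    refine hmin _ ⟨inf_le_left.trans hle, ?_, ?_⟩ inf_le_left
    · intro h
      apply hx0
      have : (x : V) ∈ W' ⊓ LinearMap.ker (ρ a - c • LinearMap.id) :=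
        ⟨x.2, by
          rw [SetLike.mem_coe, LinearMap.mem_ker, LinearMap.sub_apply, hxe]
          simp⟩
      rwa [h, Submodule.mem_bot] at this
    · rintro b hb y ⟨hy1, hy2⟩
      refine ⟨hst' b hb y hy1, ?_⟩
      rw [SetLike.mem_coe, LinearMap.mem_ker, LinearMap.sub_apply, LinearMap.smul_apply, LinearMap.id_apply,
        sub_eq_zero] at hy2 ⊢
      rw [← rmul, hA a ha b hb, rmul, hy2, map_smul]
  have h2 := (h1 hv).2
  rwa [SetLike.mem_coe, LinearMap.mem_ker, LinearMap.sub_apply, LinearMap.smul_apply, LinearMap.id_apply,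
    sub_eq_zero] at h2

/-- the character of a common eigenvector -/
theorem exists_char {A : Subgroup G} {v : V} (hv : v ≠ 0) (h : ∀ a ∈ A, ∃ c : k, ρ a v = c • v) :
    ∃ χ : A →* kˣ, ∀ a : A, ρ (a : G) v = (χ a : k) • v := by
  have h' : ∀ a : A, ∃ c : k, ρ (a : G) v = c • v := fun a => h a a.2
  choose c hc using h'
  have huniq : ∀ x y : k, x • v = y • v → x = y := fun x y h => smul_left_injective k hv h
  have h1 : c 1 = 1 := by
    apply huniq
    rw [← hc, OneMemClass.coe_one, rone, one_smul]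
  have hm : ∀ a b, c (a * b) = c a * c b := by
    intro a b
    apply huniq
    rw [← hc, Subgroup.coe_mul, rmul, hc b, map_smul, hc a, smul_smul, mul_comm]
  let χ : A →* k := { toFun := c, map_one' := h1, map_mul' := hm }
  exact ⟨χ.toHomUnits, fun a => hc a⟩

variable (ρ) in
theorem exists_fix_aux {p : ℕ} [Fact p.Prime] [CharP k p] [Module (ZMod p) V] {P : Subgroup G}
    (hP : IsPGroup p P) (W : Submodule k V) {v : V} (hv : v ∈ W) (hv0 : v ≠ 0)
    (hst : ∀ a ∈ P, ∀ v ∈ W, ρ a v ∈ W) :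
    ∃ v ∈ W, v ≠ 0 ∧ ∀ a ∈ P, ρ a v = v := by
  have hpY : ∀ y : V, p • y = 0 := by
    intro y
    rw [← Nat.cast_smul_eq_nsmul k, CharP.cast_eq_zero, zero_smul]
  set Y : Submodule (ZMod p) V := Submodule.span (ZMod p) (Set.range fun g : P => ρ (g : G) v) with hY
  haveI : Module.Finite (ZMod p) Y :=
    FiniteDimensional.span_of_finite (ZMod p) (Set.finite_range fun g : P => ρ (g : G) v)
  haveI : Finite Y := Module.finite_of_finite (ZMod p)
  have hYst : ∀ g : P, ∀ y ∈ Y, ρ (g : G) y ∈ Y := by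
    intro g y hy
    let f : V →ₗ[ZMod p] V := (ρ (g : G)).toAddMonoidHom.toZModLinearMap p
    have h1 : Y.map f ≤ Y := by
      rw [hY, Submodule.map_span_le]
      rintro _ ⟨x, rfl⟩
      refine Submodule.subset_span ⟨g * x, ?_⟩
      show ρ ((g : G) * x) v = ρ (g : G) (ρ (x : G) v)
      rw [rmul]
    exact h1 ⟨y, hy, rfl⟩
  have hYW : ∀ y ∈ Y, y ∈ W := by
    intro y hy
    rw [hY] at hy
    induction hy using Submodule.span_induction with
    | mem x hx => obtain ⟨g, rfl⟩ := hx; exact hst g g.2 v hv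
    | zero => exact W.zero_mem
    | add x y _ _ hx hy => exact W.add_mem hx hy
    | smul a x _ hx =>
      have : a • x = (a.val) • x := by
        conv_lhs => rw [← ZMod.natCast_zmod_val a]
        exact Nat.cast_smul_eq_nsmul (ZMod p) _ _
      rw [this]
      exact W.nsmul_mem hx _
  letI : MulAction P Y :=
    { smul := fun g y => ⟨ρ (g : G) y, hYst g y y.2⟩
      one_smul := fun y => Subtype.ext (rone ρ _)
      mul_smul := fun a b y => Subtype.ext (rmul ρ _ _ _) }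
  have hvY : v ∈ Y := Submodule.subset_span ⟨1, rone ρ v⟩
  have hdvd : p ∣ Nat.card Y := by
    have h1 : addOrderOf (⟨v, hvY⟩ : Y) = p := by
      apply addOrderOf_eq_prime
      · exact Subtype.ext (hpY v)
      · intro h; exact hv0 (congrArg Subtype.val h)
    have h2 := addOrderOf_dvd_natCard (⟨v, hvY⟩ : Y)
    rwa [h1] at h2
  obtain ⟨b, hb, hne⟩ := hP.exists_fixed_point_of_prime_dvd_card_of_fixed_point Y hdvd
    (a := 0) (fun g => Subtype.ext (map_zero (ρ (g : G))))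
  exact ⟨b, hYW b b.2, fun h => hne (Subtype.ext h.symm), fun a ha => congrArg Subtype.val (hb ⟨a, ha⟩)⟩

variable (ρ) in
/-- a `p`-group acting in characteristic `p` fixes a nonzero vector -/
theorem exists_fix {p : ℕ} [CharP k p] (hp1 : p.Prime) {P : Subgroup G} (hP : IsPGroup p P)
    (W : Submodule k V) (hW : W ≠ ⊥) (hst : ∀ a ∈ P, ∀ v ∈ W, ρ a v ∈ W) :
    ∃ v ∈ W, v ≠ 0 ∧ ∀ a ∈ P, ρ a v = v := by
  haveI := Fact.mk hp1
  obtain ⟨v, hv, hv0⟩ := Submodule.exists_mem_ne_zero_of_ne_bot hW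
  have hpY : ∀ y : V, p • y = 0 := by
    intro y
    rw [← Nat.cast_smul_eq_nsmul k, CharP.cast_eq_zero, zero_smul]
  letI : Module (ZMod p) V := AddCommGroup.zmodModule hpY
  exact exists_fix_aux ρ hP W hv hv0 hst

variable (S ρ) in
/-- existence of weight vectors -/
theorem exists_WV [IsAlgClosed k] [FiniteDimensional k V] [Nontrivial V] {p : ℕ} [CharP k p]
    (hp1 : p.Prime) (hp : IsPGroup p S.U) (hH : ∀ a ∈ S.H, ∀ b ∈ S.H, a * b = b * a) :
    ∃ (χ : S.H →* kˣ) (μ : I → k) (v : V), v ≠ 0 ∧ WV S ρ χ μ v := by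
  let W : Submodule k V :=
    { carrier := {v | Fix S ρ v}
      add_mem' := fun ha hb => ha.add hb
      zero_mem' := fun u _ => map_zero (ρ u)
      smul_mem' := fun c _ hv => hv.smul c }
  have hW : W ≠ ⊥ := by
    obtain ⟨v, -, hv0, hv⟩ := exists_fix ρ hp1 hp (⊤ : Submodule k V) top_ne_bot
      (fun _ _ _ _ => Submodule.mem_top)
    intro h
    apply hv0
    have : v ∈ W := hv
    rwa [h, Submodule.mem_bot] at this
  obtain ⟨v, hv, hv0, he⟩ := exists_eig ρ hH W hW (fun a ha v hv => Fix.H hv ha)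
  obtain ⟨χ, hχ⟩ := exists_char hv0 he
  exact exists_WV_of_Wt hp1 hp ⟨hv, hχ⟩ hv0

end sys

end H45.CR
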