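import Mathlib
import Cfsg.Agent.Lib.H47.SysSt
import Cfsg.Agent.Lib.H47.SysRad
import Cfsg.Agent.Lib.H47.SysCent
import Cfsg.Agent.Lib.H1.SZ
import Cfsg.Agent.Lib.H1.Hall

/-!
# Centralisers of unipotent radicals in groups with a root group system (helper45)
-/

set_option autoImplicit false
set_option linter.unusedVariables false
set_option linter.unusedSectionVars false
set_option linter.unusedSimpArgs false

namespace H45.LemZ

open H22.RGD H22.Coord H47.SysSt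
open scoped Pointwise

universe u

/-- a `p`-regular element of `N H` is conjugate into `H` -/
theorem conj_into {G : Type*} [Group G] [Finite G] {p : ℕ} [hp : Fact p.Prime] (N H : Subgroup G) [N.Normal] (hN : IsPGroup p N)
    (hH : ¬ p ∣ Nat.card H) {x : G} (hx : x ∈ N ⊔ H) (hreg : ¬ p ∣ orderOf x) : ∃ u ∈ N, u * x * u⁻¹ ∈ H := by
  have hpK : ¬ p ∣ Nat.card (Subgroup.zpowers x) := by rw [Nat.card_zpowers]; exact hreg
  have hdis : ∀ K : Subgroup G, ¬ p ∣ Nat.card K → N ⊓ K = ⊥ := by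
    intro K hK
    have h1 : IsPGroup p (N ⊓ K : Subgroup G) := hN.to_le inf_le_left
    obtain ⟨n, hn⟩ := IsPGroup.iff_card.1 h1
    rcases Nat.eq_zero_or_pos n with h0 | h0
    · rw [h0, pow_zero] at hn
      exact Subgroup.card_eq_one.1 hn
    · exfalso
      apply hK
      refine dvd_trans (dvd_pow_self p h0.ne') ?_
      rw [← hn]
      exact Subgroup.card_dvd_of_le inf_le_right
  set L := N ⊔ Subgroup.zpowers x with hL
  have hNL : N ≤ L := le_sup_left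
  have hLH : L ≤ N ⊔ H := sup_le le_sup_left (by rw [Subgroup.zpowers_le]; exact hx)
  have hmod := H1.Hall.modular_law hNL hLH
  have hrel1 : N.relIndex L = Nat.card (Subgroup.zpowers x) := by
    rw [hL, sup_comm, Subgroup.relIndex_sup_right, ← Subgroup.inf_relIndex_right, hdis _ hpK, Subgroup.relIndex_bot_left]
  have hpH' : ¬ p ∣ Nat.card (L ⊓ H : Subgroup G) := fun h => hH (h.trans (Subgroup.card_dvd_of_le inf_le_right))
  have hrel2 : N.relIndex L = Nat.card (L ⊓ H : Subgroup G) := by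
    conv_lhs => rw [hmod]
    rw [sup_comm, Subgroup.relIndex_sup_right, ← Subgroup.inf_relIndex_right, hdis _ hpH', Subgroup.relIndex_bot_left]
  have hNnil : Group.IsNilpotent N := hN.isNilpotent
  have hsolv : Group.IsSolvable N := inferInstance
  obtain ⟨g, hg, e⟩ := H1.SZ.conj_of_card_rel L N hNL (by rw [Subgroup.normalizer_eq_top]; exact le_top) (by
      rw [hrel1]
      obtain ⟨n, hn⟩ := IsPGroup.iff_card.1 hN
      rw [hn]
      exact Nat.Coprime.pow_left _ ((Nat.Prime.coprime_iff_not_dvd hp.out).2 hpK)) (Or.inl hsolv)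
    (L ⊓ H) (Subgroup.zpowers x) inf_le_left le_sup_right hrel2.symm hrel1.symm
  refine ⟨g⁻¹, N.inv_mem hg, ?_⟩
  have h1 : x ∈ MulAut.conj g • (L ⊓ H) := by rw [e]; exact Subgroup.mem_zpowers x
  rw [H1.SZ.mem_conj_smul] at h1
  rw [inv_inv]
  exact h1.2

section comb

variable {Φ I : Type*} [Fintype I] [DecidableEq I] [Finite Φ] {C : RootComb Φ I} (Z : CoordSys C)

include Z in
theorem ge_of_nonpos {r : Φ} (h : ∀ i, Z.pair i r ≤ 0) (n : ℕ) : ∀ {w : Equiv.Perm Φ}, w ∈ C.W → C.len w = n →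
    ∀ j, Z.co r j ≤ Z.co (w r) j := by
  induction n with
  | zero =>
    intro w hw h0 j
    rw [Z.eq_one_of_len_zero hw h0]
    exact le_rfl
  | succ n ih =>
    intro w hw hn j
    obtain ⟨i, hi⟩ := Z.exists_right_descent hw (by omega)
    have hlen := C.len_mul_refl_of_neg w i (C.W_neg hw) hi
    have hri : C.refl i ∈ C.W := Subgroup.subset_closure ⟨i, rfl⟩
    have hw' : w * C.refl i ∈ C.W := C.W.mul_mem hw hri
    have h1 := ih hw' (by omega) j
    have h2 := Z.co_mul_refl hw' i r j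
    have e1 : (w * C.refl i) (C.refl i r) = w r := by
      rw [Equiv.Perm.mul_apply, C.refl_refl]
    rw [e1] at h2
    have h3 : 0 ≤ Z.co ((w * C.refl i) (C.simple i)) j := by
      apply Z.pos_nonneg
      rw [Equiv.Perm.mul_apply, C.refl_simple, C.W_neg hw, C.pos_neg]
      exact hi
    have h4 := mul_nonneg_of_nonpos_of_nonpos (h i) (neg_nonpos.2 h3)
    have h5 := h i
    nlinarith

include Z in
theorem exists_pair_pos {r : Φ} (hr : C.pos r) : ∃ i, 0 < Z.pair i r := by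
  by_contra hcon
  push Not at hcon
  obtain ⟨w, hw, hneg⟩ := Z.exists_longest
  obtain ⟨j, hj⟩ := Z.exists_co_pos hr
  have h1 := ge_of_nonpos Z hcon _ hw rfl j
  have h2 := Z.neg_nonpos (hneg r hr) j
  omega

/-- the height -/
def ht (r : Φ) : ℤ := ∑ j, Z.co r j

theorem ht_pos {r : Φ} (hr : C.pos r) : 0 < ht Z r := by
  unfold ht
  obtain ⟨j, hj⟩ := Z.exists_co_pos hr
  exact Finset.sum_pos' (fun i _ => Z.pos_nonneg r hr i) ⟨j, Finset.mem_univ _, hj⟩

theorem ht_refl (i : I) (r : Φ) : ht Z (C.refl i r) = ht Z r - Z.pair i r := by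
  unfold ht
  rw [Finset.sum_congr rfl fun j _ => Z.co_refl' i r j, Finset.sum_sub_distrib, Finset.sum_ite_eq' Finset.univ i,
    if_pos (Finset.mem_univ _)]

include Z in
/-- distinct positive roots are separated by the Weyl group -/
theorem separate (n : ℕ) : ∀ {r s : Φ}, C.pos r → C.pos s → r ≠ s → ht Z s ≤ n →
    ∃ v ∈ C.W, ¬ C.pos (v r) ∧ C.pos (v s) := by
  have hri : ∀ i, C.refl i ∈ C.W := fun i => Subgroup.subset_closure ⟨i, rfl⟩
  induction n with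
  | zero =>
    intro r s hr hs hrs hn
    have := ht_pos Z hs
    simp at hn
    omega
  | succ n ih =>
    intro r s hr hs hrs hn
    by_cases hsim : ∃ i, s = C.simple i
    · obtain ⟨i, rfl⟩ := hsim
      obtain ⟨w, hw, hneg⟩ := Z.exists_longest
      refine ⟨w * C.refl i, C.W.mul_mem hw (hri i), ?_, ?_⟩
      · rw [Equiv.Perm.mul_apply]
        exact hneg _ (C.refl_pos i r hr hrs)
      · rw [Equiv.Perm.mul_apply, C.refl_simple, C.W_neg hw, C.pos_neg]
        exact hneg _ hs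
    · push Not at hsim
      obtain ⟨i, hi⟩ := exists_pair_pos Z hs
      have hs' : C.pos (C.refl i s) := C.refl_pos i s hs (hsim i)
      by_cases hri' : r = C.simple i
      · refine ⟨C.refl i, hri i, ?_, hs'⟩
        rw [hri', C.refl_simple]
        exact C.not_pos_neg _ (C.simple_pos i)
      · have hr' : C.pos (C.refl i r) := C.refl_pos i r hr hri'
        have hne : C.refl i r ≠ C.refl i s := fun h => hrs ((C.refl i).injective h)
        have hht : ht Z (C.refl i s) ≤ n := by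
          rw [ht_refl]; push_cast at hn; omega
        obtain ⟨v, hv, h1, h2⟩ := ih hr' hs' hne hht
        exact ⟨v * C.refl i, C.W.mul_mem hv (hri i), h1, h2⟩

/-- connectedness: for distinct `k`, `j` there are roots `r`, `r + α_j` involving `α_k` -/
def Conn : Prop := ∀ k j : I, j ≠ k → ∃ r s : Φ, 0 < Z.co r k ∧ 0 < Z.co s k ∧
  ∀ l, Z.co s l = Z.co r l + if l = j then 1 else 0

theorem eq_one_of_fix (hc : Conn Z) (k : I) {w : Equiv.Perm Φ} (hw : w ∈ C.W) (h : ∀ r, 0 < Z.co r k → w r = r) : w = 1 := by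
  apply Z.ext_of_simple hw C.W.one_mem
  intro j
  rw [Equiv.Perm.one_apply]
  by_cases hjk : j = k
  · subst hjk
    apply h
    rw [Z.co_simple, if_pos rfl]
    exact one_pos
  · obtain ⟨r, s, hr, hs, hrs⟩ := hc k j hjk
    apply Z.co_inj
    funext l
    have h1 := Z.co_of_mem hw r l
    have h2 := Z.co_of_mem hw s l
    rw [h r hr] at h1
    rw [h s hs] at h2
    have h3 : ∑ i, Z.co s i * Z.co (w (C.simple i)) l = ∑ i, Z.co r i * Z.co (w (C.simple i)) l + Z.co (w (C.simple j)) l := by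
      rw [Finset.sum_congr rfl fun i _ => by rw [hrs i, add_mul], Finset.sum_add_distrib]
      congr 1
      simp
    rw [h3, ← h1, hrs l] at h2
    rw [Z.co_simple]
    omega

end comb

section grp

variable {G : Type*} [Group G] {Φ I : Type*} [Fintype I] [DecidableEq I] [Finite Φ] {C : RootComb Φ I}
variable (S : Sys G C) (Z : CoordSys C)

include Z in
/-- an element of `U` conjugating a nontrivial element of a positive root group into a positive root group -/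
theorem eq_of_conj {r s : Φ} (hr : C.pos r) (hs : C.pos s) {u x : G} (hu : u ∈ S.U) (hx : x ∈ S.X r) (hx1 : x ≠ 1)
    (h : u * x * u⁻¹ ∈ S.X s) : r = s := by
  by_contra hrs
  obtain ⟨v, hv, hvr, hvs⟩ := separate Z (ht Z s).toNat hr hs hrs (by have := ht_pos Z hs; omega)
  obtain ⟨g, hg⟩ := S.exists_rep' hv
  obtain ⟨a, ha, hga, b, hb, rfl⟩ := S.U_decomp hg hu
  have h1 : g * (b * x * b⁻¹) * g⁻¹ ∈ S.V := by
    apply S.cj_Um_le_V hg
    apply conj_mem_cj
    exact (S.Um v).mul_mem ((S.Um v).mul_mem hb (S.X_le_Um hr hvr hx)) ((S.Um v).inv_mem hb)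
  have h2 : g * (a * b * x * (a * b)⁻¹) * g⁻¹ ∈ S.U := by
    apply S.X_le_U hvs
    rw [← hg.2.2]
    exact conj_mem_cj h
  have h3 : g * (b * x * b⁻¹) * g⁻¹ ∈ S.U := by
    have e : g * (b * x * b⁻¹) * g⁻¹ = (g * a * g⁻¹)⁻¹ * (g * (a * b * x * (a * b)⁻¹) * g⁻¹) * (g * a * g⁻¹) := by group
    rw [e]
    exact S.U.mul_mem (S.U.mul_mem (S.U.inv_mem hga) h2) hga
  have h4 := S.eq_one_of_mem_B_V (S.U_le_B h3) h1
  apply hx1
  have e : x = b⁻¹ * (g⁻¹ * (g * (b * x * b⁻¹) * g⁻¹) * g) * b := by group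
  rw [e, h4]; group

/-- elements of `Γ` centralising a unipotent radical: conjugate to an element of `B` -/
theorem mem_B_of_centralizes (hc : Conn Z)
    (hcj : ∀ J : Set I, ∀ g ∈ S.par J, ∀ x ∈ RJ S Z J, g * x * g⁻¹ ∈ RJ S Z J) {k : I} {x : G} (hx : x ∈ S.Γ)
    (h : ∀ y ∈ RJ S Z {k}ᶜ, x * y = y * x) : ∃ b ∈ S.B, b * x * b⁻¹ ∈ S.B := by
  obtain ⟨b₁, hb₁, m, hm, b₂, hb₂, rfl⟩ := S.bruhat hx
  refine ⟨b₂, hb₂, ?_⟩
  have hle : ∀ r, 0 < Z.co r k → S.X r ≤ RJ S Z {k}ᶜ := by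
    intro r hr
    exact le_iSup (fun s : {s // C.pos s ∧ ∃ i ∉ ({k}ᶜ : Set I), Z.co s i ≠ 0} => S.X s) ⟨r, Z.pos_of_co_pos hr, k, by simp, by omega⟩
  have hB : ∀ y ∈ RJ S Z {k}ᶜ, b₂⁻¹ * y * b₂ ∈ RJ S Z {k}ᶜ := by
    intro y hy
    have := hcj {k}ᶜ b₂⁻¹ (S.B_le_par _ (S.B.inv_mem hb₂)) y hy
    rwa [inv_inv] at this
  have hB' : ∀ y ∈ RJ S Z {k}ᶜ, b₂ * y * b₂⁻¹ ∈ RJ S Z {k}ᶜ := fun y hy => hcj {k}ᶜ b₂ (S.B_le_par _ hb₂) y hy
  have h1 : ∀ y ∈ RJ S Z {k}ᶜ, (b₂ * (b₁ * m * b₂) * b₂⁻¹) * y = y * (b₂ * (b₁ * m * b₂) * b₂⁻¹) := by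
    intro y hy
    have h2 := h _ (hB y hy)
    calc (b₂ * (b₁ * m * b₂) * b₂⁻¹) * y = b₂ * ((b₁ * m * b₂) * (b₂⁻¹ * y * b₂)) * b₂⁻¹ := by group
      _ = b₂ * ((b₂⁻¹ * y * b₂) * (b₁ * m * b₂)) * b₂⁻¹ := by rw [h2]
      _ = _ := by group
  obtain ⟨u, hu, t, ht', e⟩ := S.mem_B.1 (S.B.mul_mem hb₂ hb₁)
  obtain ⟨w, hw⟩ := S.exists_rep hm
  have hmt := (S.rep_H ht').mul hw
  rw [one_mul] at hmt
  have e2 : b₂ * (b₁ * m * b₂) * b₂⁻¹ = u * (t * m) := by
    calc b₂ * (b₁ * m * b₂) * b₂⁻¹ = (b₂ * b₁) * m := by group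
      _ = _ := by rw [e]; group
  rw [e2] at h1 ⊢
  have hfix : ∀ r, 0 < Z.co r k → w r = r := by
    intro r hr
    obtain ⟨y, hy, hy1⟩ := (Subgroup.bot_or_exists_ne_one (S.X r)).resolve_left (S.nontriv r)
    have hyR := hle r hr hy
    have h3 := h1 y hyR
    -- (t m) y (t m)⁻¹ = u⁻¹ y u
    have h4 : (t * m) * y * (t * m)⁻¹ = u⁻¹ * y * u := by
      calc (t * m) * y * (t * m)⁻¹ = u⁻¹ * (u * (t * m) * y) * (t * m)⁻¹ := by group
        _ = u⁻¹ * (y * (u * (t * m))) * (t * m)⁻¹ := by rw [h3]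
        _ = _ := by group
    have h5 : (t * m) * y * (t * m)⁻¹ ∈ S.X (w r) := by
      rw [← hmt.2.2]; exact conj_mem_cj hy
    have hrp := Z.pos_of_co_pos hr
    have hU : u⁻¹ * y * u ∈ S.U := S.U.mul_mem (S.U.mul_mem (S.U.inv_mem hu) (S.X_le_U hrp hy)) hu
    have hwp : C.pos (w r) := by
      by_contra hn
      rw [h4] at h5
      have h6 := S.eq_one_of_mem_B_V (S.U_le_B hU) (S.X_le_V hn h5)
      apply hy1
      have e3 : y = u * (u⁻¹ * y * u) * u⁻¹ := by group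
      rw [e3, h6]; group
    rw [h4] at h5
    have h7 : u⁻¹ * y * u⁻¹⁻¹ ∈ S.X (w r) := by rw [inv_inv]; exact h5
    exact (eq_of_conj S Z hrp hwp (S.U.inv_mem hu) hy hy1 h7).symm
  have hw1 := eq_one_of_fix Z hc k hw.2.1 hfix
  rw [hw1] at hmt
  exact S.B.mul_mem (S.U_le_B hu) (S.H_le_B (S.mem_H_of_rep_one hmt))

theorem conj_into_H [Finite G] {p : ℕ} [hp : Fact p.Prime] (hU : IsPGroup p S.U) (hH : ¬ p ∣ Nat.card S.H) {x : G}
    (hx : x ∈ S.B) (hreg : ¬ p ∣ orderOf x) : ∃ u ∈ S.U, u * x * u⁻¹ ∈ S.H := by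
  have hBU : S.B ≤ stabSub S.U := by
    refine sup_le ?_ S.H_le_stab_U
    intro y hy
    rw [mem_stabSub]; exact cj_eq_self_of_mem hy
  have hN : (S.U.subgroupOf S.B).Normal := by
    constructor
    intro y hy g
    rw [Subgroup.mem_subgroupOf] at hy ⊢
    exact conj_mem_of_stabSub (hBU g.2) hy
  obtain ⟨u, hu, h⟩ := conj_into (p := p) (S.U.subgroupOf S.B) (S.H.subgroupOf S.B)
    (hU.of_equiv (Subgroup.subgroupOfEquivOfLe S.U_le_B).symm)
    (by rw [Nat.card_congr (Subgroup.subgroupOfEquivOfLe S.H_le_B).toEquiv]; exact hH) (x := ⟨x, hx⟩) (by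
      rw [← Subgroup.subgroupOf_sup S.U_le_B S.H_le_B]
      exact hx) (by rw [← Subgroup.orderOf_coe]; exact hreg)
  exact ⟨u, hu, h⟩

/-- `p`-regular elements of `Γ` centralising a unipotent radical are conjugate under `B` to elements of `H` centralising it -/
theorem conj_H_of_centralizes [Finite G] {p : ℕ} [hp : Fact p.Prime] (hU : IsPGroup p S.U) (hH : ¬ p ∣ Nat.card S.H) (hc : Conn Z)
    (hcj : ∀ J : Set I, ∀ g ∈ S.par J, ∀ x ∈ RJ S Z J, g * x * g⁻¹ ∈ RJ S Z J) {J : Set I} (hJ : J ≠ Set.univ) {x : G} (hx : x ∈ S.Γ)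
    (hreg : ¬ p ∣ orderOf x) (h : ∀ y ∈ RJ S Z J, x * y = y * x) :
    ∃ b ∈ S.B, b * x * b⁻¹ ∈ S.H ∧ ∃ k : I, ∀ r, 0 < Z.co r k → ∀ y ∈ S.X r, (b * x * b⁻¹) * y = y * (b * x * b⁻¹) := by
  obtain ⟨k, hk⟩ := (Set.ne_univ_iff_exists_notMem J).1 hJ
  have hle : RJ S Z {k}ᶜ ≤ RJ S Z J := by
    refine iSup_le ?_
    rintro ⟨r, hr, i, hi, hri⟩
    have hik : i = k := by simpa using hi
    rw [hik] at hri
    exact le_iSup (fun s : {s // C.pos s ∧ ∃ i ∉ J, Z.co s i ≠ 0} => S.X s) ⟨r, hr, k, hk, hri⟩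
  have h' : ∀ y ∈ RJ S Z {k}ᶜ, x * y = y * x := fun y hy => h y (hle hy)
  obtain ⟨b, hb, hxb⟩ := mem_B_of_centralizes S Z hc hcj hx h'
  have hreg' : ¬ p ∣ orderOf (b * x * b⁻¹) := by
    have : orderOf (b * x * b⁻¹) = orderOf x := by
      have := MulEquiv.orderOf_eq (MulAut.conj b) x
      rwa [MulAut.conj_apply] at this
    rw [this]; exact hreg
  obtain ⟨u, hu, hxu⟩ := conj_into_H S hU hH hxb hreg'
  refine ⟨u * b, S.B.mul_mem (S.U_le_B hu) hb, ?_, k, ?_⟩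
  · have e : u * b * x * (u * b)⁻¹ = u * (b * x * b⁻¹) * u⁻¹ := by group
    rw [e]; exact hxu
  · intro r hr y hy
    have hyR : y ∈ RJ S Z {k}ᶜ :=
      le_iSup (fun s : {s // C.pos s ∧ ∃ i ∉ ({k}ᶜ : Set I), Z.co s i ≠ 0} => S.X s) ⟨r, Z.pos_of_co_pos hr, k, by simp, by omega⟩ hy
    have h2 := hcj {k}ᶜ (u * b)⁻¹ (S.B_le_par _ (S.B.inv_mem (S.B.mul_mem (S.U_le_B hu) hb))) y hyR
    rw [inv_inv] at h2
    have h3 := h' _ h2
    calc (u * b * x * (u * b)⁻¹) * y = u * b * (x * ((u * b)⁻¹ * y * (u * b))) * (u * b)⁻¹ := by group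
      _ = u * b * (((u * b)⁻¹ * y * (u * b)) * x) * (u * b)⁻¹ := by rw [h3]
      _ = _ := by group

end grp

end H45.LemZ
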