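import Mathlib
import Cfsg.Agent.Lib.H47.TwoUnipA

/-!
Factorisations `S = X Y` where `X` is the sum of a regular unipotent transformation and a fixed
transformation `Ω` without eigenvalue one, and `Y` is of the same type with `Ω'`.
The inductive step.
-/

set_option autoImplicit false
set_option linter.unusedVariables false
set_option linter.unusedSectionVars false

namespace H45.OreA

open Module LinearMap H47.TwoUnipA

variable {K : Type*} [Field K] {d : ℕ}

/-- `X` acts by `Ω` on the span of a linearly independent family and is regular unipotent modulo it -/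
def Cls (Ω : Matrix (Fin d) (Fin d) K) {V : Type*} [AddCommGroup V] [Module K V] (X : V →ₗ[K] V) : Prop :=
  ∃ w : Fin d → V, LinearIndependent K w ∧ (∀ j, X (w j) = ∑ i, Ω i j • w i) ∧
    (∃ k : ℕ, ∀ x, ((X - 1) ^ k) x ∈ Submodule.span K (Set.range w)) ∧ finrank K (ker (X - 1)) ≤ 1

/-- the weak condition which suffices for the inductive step -/
def PreGood (Ω Ω' : Matrix (Fin d) (Fin d) K) {V : Type*} [AddCommGroup V] [Module K V] (S : V →ₗ[K] V) (c : V)
    (r : V →ₗ[K] K) : Prop :=
  ∃ X Y : V →ₗ[K] V, (∀ x, X (Y x) = S x) ∧ Cls Ω X ∧ Cls Ω' Y ∧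
    ((∀ x, (X - 1) x ≠ c) ∨ ∀ x, (X - 1) x = 0 → x = 0) ∧
    ∀ w, (Y - 1) w = 0 → r w = 0 → w = 0

/-- the factorisation with side conditions -/
def Good (Ω Ω' : Matrix (Fin d) (Fin d) K) {V : Type*} [AddCommGroup V] [Module K V] (S : V →ₗ[K] V) (c : V)
    (r : V →ₗ[K] K) : Prop :=
  ∃ X Y : V →ₗ[K] V, (∀ x, X (Y x) = S x) ∧ Cls Ω X ∧ Cls Ω' Y ∧ (∀ x, (X - 1) x ≠ c) ∧
    ∀ w, (Y - 1) w = 0 → r w = 0 → w = 0

/-- the factorisation in the base case -/
def Good0 (Ω Ω' : Matrix (Fin d) (Fin d) K) {V : Type*} [AddCommGroup V] [Module K V] (S : V →ₗ[K] V) : Prop :=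
  ∃ X Y : V →ₗ[K] V, (∀ x, X (Y x) = S x) ∧ Cls Ω X ∧ Cls Ω' Y ∧
    (∀ x, (X - 1) x = 0 → x = 0) ∧ ∀ x, (Y - 1) x = 0 → x = 0

variable {V : Type*} [AddCommGroup V] [Module K V] {Ω Ω' : Matrix (Fin d) (Fin d) K}

theorem Good.pre {S : V →ₗ[K] V} {c : V} {r : V →ₗ[K] K} (h : Good Ω Ω' S c r) : PreGood Ω Ω' S c r := by
  obtain ⟨X, Y, h1, h2, h3, h4, h5⟩ := h
  exact ⟨X, Y, h1, h2, h3, Or.inl h4, h5⟩

theorem Good0.pre {S : V →ₗ[K] V} (c : V) (r : V →ₗ[K] K) (h : Good0 Ω Ω' S) : PreGood Ω Ω' S c r := by
  obtain ⟨X, Y, h1, h2, h3, h4, h5⟩ := h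
  exact ⟨X, Y, h1, h2, h3, Or.inr h4, fun w hw _ => h5 w hw⟩

theorem span_range_stable {d : ℕ} {Θ : Matrix (Fin d) (Fin d) K} {X : V →ₗ[K] V} {w : Fin d → V}
    (h : ∀ j, X (w j) = ∑ i, Θ i j • w i) : ∀ x ∈ Submodule.span K (Set.range w), X x ∈ Submodule.span K (Set.range w) := by
  intro x hx
  induction hx using Submodule.span_induction with
  | mem x hx =>
    obtain ⟨j, rfl⟩ := hx
    rw [h]
    exact Submodule.sum_mem _ fun i _ => Submodule.smul_mem _ _ (Submodule.subset_span ⟨i, rfl⟩)
  | zero => rw [map_zero]; exact Submodule.zero_mem _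
  | add x y _ _ hx hy => rw [map_add]; exact Submodule.add_mem _ hx hy
  | smul a x _ hx => rw [map_smul]; exact Submodule.smul_mem _ _ hx

/-- reassembling -/
theorem step [FiniteDimensional K V] (hΩ' : ∀ b : Fin d → K, ∃ a : Fin d → K, ∀ j, (∑ i, Ω' i j * a i) - a j = b j)
    (S : V →ₗ[K] V) (c : V) (r : V →ₗ[K] K) (v : V) (φ : V →ₗ[K] K) (hv : φ v = 1)
    (hSv : φ (S v) = 1) (hc : φ c ≠ 0) (hr : r v ≠ 0)
    (hg : PreGood Ω Ω' (schur S v φ hSv) (proj v φ hv (S v)) ((φ.comp S).comp (ker φ).subtype)) : Good Ω Ω' S c r := by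
  obtain ⟨X', Y', hXY, ⟨wx, hwx, hwx2, ⟨kx, hkx⟩, hXk⟩, ⟨wy, hwy, hwy2, ⟨ky, hky⟩, hYk⟩, hXc, hYr⟩ := hg
  set π := proj v φ hv with hπ
  have hdec := decomp v φ hv
  have hpm := proj_mem v φ hv
  have hps := proj_self v φ hv
  rw [← hπ] at hpm hps
  -- the two maps
  let X : V →ₗ[K] V := φ.smulRight (S v) + (ker φ).subtype.comp (X'.comp π)
  let Y : V →ₗ[K] V := (φ + ((φ.comp S).comp (ker φ).subtype).comp π).smulRight v + (ker φ).subtype.comp (Y'.comp π)
  have hX : ∀ x, X x = φ x • S v + (X' (π x) : V) := fun x => rfl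
  have hY : ∀ x, Y x = (φ x + φ (S (π x : V))) • v + (Y' (π x) : V) := fun x => rfl
  have hc' : (π (S v) : V) = S v - v := by rw [hπ, H47.TwoUnipA.proj_apply, hSv, one_smul]
  have hφk : ∀ w : ker φ, φ (w : V) = 0 := fun w => mem_ker.1 w.2
  have hπa : ∀ (a : K) (w : ker φ), π (a • v + (w : V)) = w := by
    intro a w
    rw [map_add, map_smul, hps, smul_zero, zero_add, hpm]
  have hφa : ∀ (a : K) (w : ker φ), φ (a • v + (w : V)) = a := by
    intro a w
    rw [map_add, map_smul, hv, hφk, add_zero, smul_eq_mul, mul_one]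
  -- `X - 1`
  let A : V →ₗ[K] ker φ := φ.smulRight (π (S v)) + (X' - 1).comp π
  have hA : ∀ x, A x = φ x • π (S v) + (X' - 1) (π x) := fun x => rfl
  have hX1 : ∀ x, (X - 1) x = (A x : V) := by
    intro x
    rw [LinearMap.sub_apply, hX, hA]
    conv_lhs => rw [show (1 : V →ₗ[K] V) x = φ x • v + (π x : V) from hdec x]
    rw [Submodule.coe_add, Submodule.coe_smul, hc', LinearMap.sub_apply, smul_sub]
    simp only [AddSubgroupClass.coe_sub, Module.End.one_apply]
    abel
  have hAk : ∀ w : ker φ, A (w : V) = (X' - 1) w := by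
    intro w
    rw [hA, hφk, zero_smul, zero_add, hpm]
  have hXpow : ∀ (k : ℕ) (w : ker φ), ((X - 1) ^ k) (w : V) = (((X' - 1) ^ k) w : ker φ) := by
    intro k
    induction k with
    | zero => intro w; rfl
    | succ k ih =>
      intro w
      rw [pow_succ, pow_succ, Module.End.mul_apply, Module.End.mul_apply, hX1, hAk, ih]
  have hCX : Cls Ω X := by
    refine ⟨fun j => (wx j : V), ?_, ?_, ⟨kx + 1, ?_⟩, ?_⟩
    · exact hwx.map' (ker φ).subtype (Submodule.ker_subtype _)
    · intro j
      rw [hX, hφk, zero_smul, zero_add, hpm, hwx2]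
      push_cast
      rfl
    · intro x
      rw [pow_succ, Module.End.mul_apply, hX1, hXpow]
      have h1 := hkx (A x)
      have h2 : Submodule.span K (Set.range fun j => (wx j : V)) = (Submodule.span K (Set.range wx)).map (ker φ).subtype := by
        rw [Submodule.map_span]
        congr 1
        ext y
        simp
      rw [h2]
      exact ⟨_, h1, rfl⟩
    · rcases hXc with hXc | hXc
      · have hle : ker (X - 1) ≤ (ker (X' - 1)).map (ker φ).subtype := by
          intro x hx
          rw [mem_ker, hX1] at hx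
          have hx' : A x = 0 := Subtype.ext hx
          rw [hA] at hx'
          have hφx : φ x = 0 := by
            by_contra hne
            apply hXc (-((φ x)⁻¹ • π x))
            have : φ x • π (S v) = -((X' - 1) (π x)) := eq_neg_of_add_eq_zero_left hx'
            have h2 : π (S v) = (φ x)⁻¹ • (φ x • π (S v)) := by
              rw [smul_smul, inv_mul_cancel₀ hne, one_smul]
            rw [h2, this, map_neg, map_smul, smul_neg]
          rw [hφx, zero_smul, zero_add] at hx'
          refine ⟨π x, hx', ?_⟩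
          have := hdec x
          rw [hφx, zero_smul, zero_add] at this
          exact this.symm
        exact (Submodule.finrank_mono hle).trans ((Submodule.finrank_map_le _ _).trans hXk)
      · -- the restriction of `φ` to the kernel is injective
        have hinj : Function.Injective (φ.comp (ker (X - 1)).subtype) := by
          rw [← LinearMap.ker_eq_bot, LinearMap.ker_eq_bot']
          rintro ⟨x, hx⟩ hφx
          rw [LinearMap.comp_apply, Submodule.subtype_apply] at hφx
          rw [mem_ker, hX1] at hx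
          have hx' : A x = 0 := Subtype.ext hx
          rw [hA] at hx'
          have hφx' : φ x = 0 := hφx
          rw [hφx', zero_smul, zero_add] at hx'
          have h3 := hXc _ hx'
          apply Subtype.ext
          show x = 0
          rw [hdec x, hφx', zero_smul, zero_add, ← hπ, h3]
          rfl
        have := LinearMap.finrank_le_finrank_of_injective hinj
        rwa [finrank_self] at this
  -- `Y - 1`
  have hφv1 : ∀ x, φ ((Y - 1) x) = φ (S (π x : V)) := by
    intro x
    rw [LinearMap.sub_apply, hY, map_sub, hφa, Module.End.one_apply]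
    ring
  have hπY1 : ∀ x, π ((Y - 1) x) = (Y' - 1) (π x) := by
    intro x
    rw [LinearMap.sub_apply, hY, map_sub, hπa, LinearMap.sub_apply]
    rfl
  have hYpow : ∀ (k : ℕ) (x : V), π (((Y - 1) ^ k) x) = ((Y' - 1) ^ k) (π x) := by
    intro k
    induction k with
    | zero => intro x; rfl
    | succ k ih =>
      intro x
      rw [pow_succ', pow_succ', Module.End.mul_apply, Module.End.mul_apply, hπY1, ih]
  have hY1v : (Y - 1) v = 0 := by
    rw [hdec ((Y - 1) v), ← hπ, hφv1, hπY1, hps]
    simp
  have hCY : Cls Ω' Y := by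
    obtain ⟨a, ha⟩ := hΩ' (fun j => φ (S (wy j : V)))
    have hwY : ∀ j, Y (a j • v + (wy j : V)) = ∑ i, Ω' i j • (a i • v + (wy i : V)) := by
      intro j
      rw [hY, hφa, hπa, hwy2]
      have h1 := ha j
      have h2 : a j + φ (S (wy j : V)) = ∑ i, Ω' i j * a i := by
        rw [← h1]; ring
      rw [h2]
      push_cast
      simp only [smul_add, Finset.sum_add_distrib, Finset.sum_smul, smul_smul]
    have hli : LinearIndependent K (fun j => a j • v + (wy j : V)) := by
      apply LinearIndependent.of_comp π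
      have : (π ∘ fun j => a j • v + (wy j : V)) = wy := by
        funext j
        exact hπa _ _
      rw [this]
      exact hwy
    refine ⟨fun j => a j • v + (wy j : V), hli, hwY, ⟨ky + 1, ?_⟩, ?_⟩
    · intro x
      rw [pow_succ', Module.End.mul_apply]
      set y := ((Y - 1) ^ ky) x with hy
      have h1 : π y ∈ Submodule.span K (Set.range wy) := by
        rw [hy, hYpow]; exact hky _
      have h2 : Submodule.span K (Set.range wy) =
          (Submodule.span K (Set.range fun j => a j • v + (wy j : V))).map π := by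
        rw [Submodule.map_span]
        congr 1
        ext z
        constructor
        · rintro ⟨j, rfl⟩
          exact ⟨_, ⟨j, rfl⟩, hπa _ _⟩
        · rintro ⟨_, ⟨j, rfl⟩, rfl⟩
          exact ⟨j, (hπa _ _).symm⟩
      rw [h2] at h1
      obtain ⟨s, hs, hsy⟩ := h1
      have h3 : y = (φ y - φ s) • v + s := by
        conv_lhs => rw [hdec y, ← hπ, ← hsy]
        conv_rhs => rw [hdec s, ← hπ]
        rw [map_add, map_smul, hv, hφk, add_zero, smul_eq_mul, mul_one, sub_smul]
        abel
      rw [h3, map_add, map_smul, hY1v, smul_zero, zero_add, LinearMap.sub_apply, Module.End.one_apply]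
      exact Submodule.sub_mem _ (span_range_stable hwY _ hs) hs
    · have hle : ker (Y - 1) ≤ Submodule.span K {v} := by
        intro x hx
        rw [mem_ker] at hx
        have h1 := hφv1 x
        have h2 := hπY1 x
        rw [hx, map_zero] at h1 h2
        have h3 : π x = 0 := hYr (π x) h2.symm h1.symm
        rw [Submodule.mem_span_singleton]
        refine ⟨φ x, ?_⟩
        have := hdec x
        rw [← hπ, h3] at this
        rw [this]
        simp [hv]
      exact (Submodule.finrank_mono hle).trans (finrank_span_le_card (R := K) ({v} : Set V) |>.trans (by simp))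
  refine ⟨X, Y, ?_, hCX, hCY, ?_, ?_⟩
  · intro x
    rw [hX, hY, hφa, hπa, hXY, schur_apply]
    conv_rhs => rw [hdec x, ← hπ, map_add, map_smul]
    rw [add_smul]
    abel
  · intro x h
    apply hc
    rw [← h, hX1]
    exact hφk _
  · intro w hw hrw
    have h1 := hφv1 w
    have h2 := hπY1 w
    rw [hw, map_zero] at h1 h2
    have h3 : π w = 0 := hYr (π w) h2.symm h1.symm
    have h4 := hdec w
    rw [← hπ, h3] at h4
    have h5 : w = φ w • v := by rw [Submodule.coe_zero, add_zero] at h4; exact h4
    rw [h5, map_smul, smul_eq_mul] at hrw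
    rw [h5, (mul_eq_zero.1 hrw).resolve_right hr, zero_smul]

end H45.OreA
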