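import Mathlib
import Cfsg.Agent.Lib.H45.OreA
import Cfsg.Agent.Lib.H47.RegNilp

/-!
Standard bases for the transformations of `OreA`, and commutators.
-/

set_option autoImplicit false
set_option linter.unusedVariables false
set_option linter.unusedSectionVars false

namespace H45.OreB

open Module LinearMap H45.OreA

variable {K : Type*} [Field K] {d : ℕ}

/-- commutator of transformations of determinant one -/
def IsComm {V : Type*} [AddCommGroup V] [Module K V] (S : V →ₗ[K] V) : Prop :=
  ∃ A B : V →ₗ[K] V, LinearMap.det A = 1 ∧ LinearMap.det B = 1 ∧ ∀ x, S (B (A x)) = A (B x)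

/-- the Jordan block -/
def jb (K : Type*) [Field K] (e : ℕ) : Matrix (Fin e) (Fin e) K := fun i j => if i = j then 1 else if (i : ℕ) = j + 1 then 1 else 0

/-- the standard matrix -/
def D (Ω : Matrix (Fin d) (Fin d) K) (e : ℕ) : Matrix (Fin d ⊕ Fin e) (Fin d ⊕ Fin e) K :=
  Matrix.fromBlocks Ω 0 0 (jb K e)

theorem det_jb (e : ℕ) : (jb K e).det = 1 := by
  rw [Matrix.det_of_isLowerTriangular]
  · simp [jb]
  · intro i j hij
    have h1 : i < j := hij
    unfold jb
    rw [if_neg h1.ne, if_neg]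
    intro h
    have := Fin.lt_def.1 h1
    omega

theorem det_D (Ω : Matrix (Fin d) (Fin d) K) (h : Ω.det = 1) (e : ℕ) : (D Ω e).det = 1 := by
  rw [D, Matrix.det_fromBlocks_zero₁₂, h, det_jb, one_mul]

section chain

variable {Q : Type*} [AddCommGroup Q] [Module K Q]

theorem chain_li (N : Q →ₗ[K] Q) (e : ℕ) (v : Q) (h1 : (N ^ e) v = 0) (h2 : e ≠ 0 → (N ^ (e - 1)) v ≠ 0) :
    LinearIndependent K (fun i : Fin e => (N ^ (i : ℕ)) v) := by
  rw [Fintype.linearIndependent_iff]
  intro g hg
  have hz : ∀ k, e ≤ k → (N ^ k) v = 0 := by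
    intro k hk
    obtain ⟨j, rfl⟩ := Nat.exists_eq_add_of_le hk
    rw [add_comm, pow_add, Module.End.mul_apply, h1, map_zero]
  have key : ∀ k : ℕ, ∀ i : Fin e, (i : ℕ) = k → g i = 0 := by
    intro k
    induction k using Nat.strong_induction_on with
    | _ k ih =>
      intro i hi
      have hik : (i : ℕ) < e := i.2
      have h3 := congrArg (fun x => (N ^ (e - 1 - k)) x) hg
      simp only [map_sum, map_smul, map_zero] at h3
      rw [Finset.sum_eq_single i] at h3
      · rw [← Module.End.mul_apply, ← pow_add] at h3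
        have : e - 1 - k + (i : ℕ) = e - 1 := by omega
        rw [this] at h3
        exact (smul_eq_zero.1 h3).resolve_right (h2 (by omega))
      · intro j _ hj
        rcases lt_trichotomy (j : ℕ) k with h | h | h
        · rw [ih j h j rfl, zero_smul]
        · exact absurd (Fin.ext (h.trans hi.symm)) hj
        · rw [← Module.End.mul_apply, ← pow_add, hz _ (by omega), smul_zero]
      · intro h; exact absurd (Finset.mem_univ _) h
  intro i
  exact key i i rfl

end chain

variable {V : Type*} [AddCommGroup V] [Module K V] {Ω Ω' : Matrix (Fin d) (Fin d) K}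

/-- the standard basis -/
theorem std_basis [FiniteDimensional K V] (hΩ : ∀ b : Fin d → K, ∃ a : Fin d → K, ∀ i, (∑ j, Ω i j * a j) - a i = b i)
    (X : V →ₗ[K] V) (hX : Cls Ω X) (e : ℕ) (he : e = finrank K V - d) :
    ∃ b : Basis (Fin d ⊕ Fin e) K V, ∀ j, X (b j) = ∑ i, D Ω e i j • b i := by
  obtain ⟨w, hw, hwX, ⟨k, hk⟩, hker⟩ := hX
  set W := Submodule.span K (Set.range w) with hW
  set N := X - 1 with hN
  have hXN : ∀ x, X x = x + N x := by
    intro x; rw [hN, LinearMap.sub_apply, Module.End.one_apply]; abel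
  have hWX := span_range_stable hwX
  rw [← hW] at hWX
  have hWN : ∀ x ∈ W, N x ∈ W := by
    intro x hx
    rw [hN, LinearMap.sub_apply, Module.End.one_apply]
    exact W.sub_mem (hWX x hx) hx
  have hsurj : ∀ y ∈ W, ∃ x ∈ W, N x = y := by
    intro y hy
    obtain ⟨b, rfl⟩ := (Submodule.mem_span_range_iff_exists_fun K).1 hy
    obtain ⟨a, ha⟩ := hΩ b
    refine ⟨∑ j, a j • w j, Submodule.sum_mem _ fun j _ => Submodule.smul_mem _ _ (Submodule.subset_span ⟨j, rfl⟩), ?_⟩
    rw [hN, LinearMap.sub_apply, Module.End.one_apply, map_sum]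
    have h1 : ∑ j, X (a j • w j) = ∑ i, (∑ j, Ω i j * a j) • w i := by
      simp only [map_smul, hwX, Finset.smul_sum, smul_smul, Finset.sum_smul]
      rw [Finset.sum_comm]
      refine Finset.sum_congr rfl fun i _ => Finset.sum_congr rfl fun j _ => ?_
      rw [mul_comm]
    rw [h1, ← Finset.sum_sub_distrib]
    refine Finset.sum_congr rfl fun i _ => ?_
    rw [← sub_smul, ha]
  have hfW : finrank K W = d := by
    rw [hW, finrank_span_eq_card hw, Fintype.card_fin]
  -- the quotient
  have hfQ : finrank K (V ⧸ W) = e := by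
    have := Submodule.finrank_quotient_add_finrank W
    omega
  let NQ : (V ⧸ W) →ₗ[K] (V ⧸ W) := W.mapQ W N (fun x hx => hWN x hx)
  have hNQ : ∀ x, NQ (Submodule.Quotient.mk x) = Submodule.Quotient.mk (N x) := fun x => rfl
  have hNQp : ∀ (j : ℕ) x, (NQ ^ j) (Submodule.Quotient.mk x) = Submodule.Quotient.mk ((N ^ j) x) := by
    intro j
    induction j with
    | zero => intro x; rfl
    | succ j ih => intro x; rw [pow_succ, pow_succ, Module.End.mul_apply, Module.End.mul_apply, hNQ, ih]
  have hnil : NQ ^ k = 0 := by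
    apply LinearMap.ext
    intro y
    obtain ⟨x, rfl⟩ := Submodule.Quotient.mk_surjective W y
    rw [hNQp, LinearMap.zero_apply, Submodule.Quotient.mk_eq_zero]
    exact hk x
  have hnil' : NQ ^ (finrank K (V ⧸ W)) = 0 := by
    have h1 := IsNilpotent.charpoly_eq_X_pow_finrank (φ := NQ) ⟨k, hnil⟩
    have h2 := LinearMap.aeval_self_charpoly NQ
    rw [h1, map_pow, Polynomial.aeval_X] at h2
    exact h2
  have hkerQ : finrank K (ker NQ) ≤ 1 := by
    have hle : ker NQ ≤ (ker N).map W.mkQ := by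
      intro y hy
      obtain ⟨x, rfl⟩ := Submodule.Quotient.mk_surjective W y
      rw [mem_ker, hNQ, Submodule.Quotient.mk_eq_zero] at hy
      obtain ⟨z, hz, hzx⟩ := hsurj _ hy
      refine ⟨x - z, ?_, ?_⟩
      · show x - z ∈ ker N
        rw [mem_ker, map_sub, hzx, sub_self]
      · rw [Submodule.mkQ_apply, Submodule.Quotient.mk_sub, (Submodule.Quotient.mk_eq_zero W).2 hz, sub_zero]
    exact (Submodule.finrank_mono hle).trans ((Submodule.finrank_map_le _ _).trans hker)
  -- a cyclic vector of the quotient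
  obtain ⟨v0, hv0⟩ : ∃ v0 : V, e ≠ 0 → (NQ ^ (e - 1)) (Submodule.Quotient.mk v0) ≠ 0 := by
    by_cases h0 : e = 0
    · exact ⟨0, fun h => absurd h0 h⟩
    · obtain ⟨y, hy⟩ := H47.RegNilp.exists_cyclic NQ hkerQ hnil' (by omega)
      obtain ⟨x, rfl⟩ := Submodule.Quotient.mk_surjective W y
      refine ⟨x, fun _ => ?_⟩
      rw [hfQ] at hy
      exact hy
  -- adjust
  have hsurjp : ∀ (j : ℕ), ∀ y ∈ W, ∃ x ∈ W, (N ^ j) x = y := by
    intro j
    induction j with
    | zero => intro y hy; exact ⟨y, hy, rfl⟩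
    | succ j ih =>
      intro y hy
      obtain ⟨z, hz, hzy⟩ := hsurj y hy
      obtain ⟨x, hx, hxz⟩ := ih z hz
      exact ⟨x, hx, by rw [pow_succ', Module.End.mul_apply, hxz, hzy]⟩
  have hev : (N ^ e) v0 ∈ W := by
    rw [← Submodule.Quotient.mk_eq_zero, ← hNQp, ← hfQ, hnil']
    rfl
  obtain ⟨w0, hw0, hw0e⟩ := hsurjp e _ hev
  set u := v0 - w0 with hu
  have hue : (N ^ e) u = 0 := by rw [hu, map_sub, hw0e, sub_self]
  have hmku : (Submodule.Quotient.mk u : V ⧸ W) = Submodule.Quotient.mk v0 := by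
    rw [hu, Submodule.Quotient.mk_sub, (Submodule.Quotient.mk_eq_zero W).2 hw0, sub_zero]
  -- linear independence
  let f : Fin d → W := fun j => ⟨w j, Submodule.subset_span ⟨j, rfl⟩⟩
  have hf : LinearIndependent K f := by
    apply LinearIndependent.of_comp W.subtype
    exact hw
  have hgli : LinearIndependent K (Submodule.Quotient.mk (p := W) ∘ fun i : Fin e => (N ^ (i : ℕ)) u) := by
    have h1 : (Submodule.Quotient.mk (p := W) ∘ fun i : Fin e => (N ^ (i : ℕ)) u) =
        fun i : Fin e => (NQ ^ (i : ℕ)) (Submodule.Quotient.mk v0) := by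
      funext i
      rw [Function.comp_apply, ← hNQp, hmku]
    rw [h1]
    refine chain_li NQ e _ ?_ hv0
    rw [← hfQ, hnil']
    rfl
  have hli := LinearIndependent.sumElim_of_quotient hf (fun i : Fin e => (N ^ (i : ℕ)) u) hgli
  have hcard : Fintype.card (Fin d ⊕ Fin e) = finrank K V := by
    have := Submodule.finrank_le W
    rw [Fintype.card_sum, Fintype.card_fin, Fintype.card_fin]
    omega
  rcases isEmpty_or_nonempty (Fin d ⊕ Fin e) with hemp | hne
  · -- the zero space
    have h0 : finrank K V = 0 := by rw [← hcard]; exact Fintype.card_eq_zero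
    have : Subsingleton V := Module.finrank_zero_iff.1 h0
    refine ⟨Basis.empty V, fun j => (IsEmpty.false j).elim⟩
  · let b := basisOfLinearIndependentOfCardEqFinrank hli hcard
    have hb : ∀ j, b j = Sum.elim (fun x => (f x : V)) (fun i : Fin e => (N ^ (i : ℕ)) u) j := by
      intro j
      rw [coe_basisOfLinearIndependentOfCardEqFinrank]
    refine ⟨b, ?_⟩
    rintro (j | j)
    · rw [Fintype.sum_sum_type, hb]
      show X (w j) = _
      rw [hwX]
      have h2 : ∀ i : Fin e, D Ω e (Sum.inr i) (Sum.inl j) = 0 := fun i => rfl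
      have h3 : ∀ i : Fin d, D Ω e (Sum.inl i) (Sum.inl j) = Ω i j := fun i => rfl
      simp only [h2, h3, zero_smul, Finset.sum_const_zero, add_zero, hb]
      rfl
    · rw [Fintype.sum_sum_type, hb]
      show X ((N ^ (j : ℕ)) u) = _
      have h2 : ∀ i : Fin e, D Ω e (Sum.inr i) (Sum.inr j) = jb K e i j := fun i => rfl
      have h3 : ∀ i : Fin d, D Ω e (Sum.inl i) (Sum.inr j) = 0 := fun i => rfl
      simp only [h2, h3, zero_smul, Finset.sum_const_zero, zero_add, hb]
      show X ((N ^ (j : ℕ)) u) = ∑ i, jb K e i j • (N ^ (i : ℕ)) u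
      rw [hXN, ← Module.End.mul_apply, ← pow_succ']
      by_cases hj : (j : ℕ) + 1 < e
      · rw [Finset.sum_eq_add_of_mem j (⟨j + 1, hj⟩ : Fin e) (Finset.mem_univ _) (Finset.mem_univ _)]
        · have e1 : jb K e j j = 1 := by simp [jb]
          have e2 : jb K e ⟨j + 1, hj⟩ j = 1 := by
            unfold jb
            rw [if_neg, if_pos rfl]
            intro h
            have := congrArg Fin.val h
            simp at this
          rw [e1, e2, one_smul, one_smul]
        · intro h
          have := congrArg Fin.val h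
          simp at this
        · rintro i - ⟨hi1, hi2⟩
          have : jb K e i j = 0 := by
            unfold jb
            rw [if_neg hi1, if_neg]
            intro h
            exact hi2 (Fin.ext h)
          rw [this, zero_smul]
      · have hje : (j : ℕ) + 1 = e := by have := j.2; omega
        rw [hje, hue, add_zero, Finset.sum_eq_single j]
        · have e1 : jb K e j j = 1 := by simp [jb]
          rw [e1, one_smul]
        · intro i _ hi
          have : jb K e i j = 0 := by
            unfold jb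
            rw [if_neg hi, if_neg]
            have := i.2
            omega
          rw [this, zero_smul]
        · intro h; exact absurd (Finset.mem_univ _) h

/-- the inverse transformation -/
theorem cls_inv (hmul : Ω' * Ω = 1) (Y Z : V →ₗ[K] V) (hYZ : ∀ x, Y (Z x) = x) (hZY : ∀ x, Z (Y x) = x)
    (hY : Cls Ω' Y) : Cls Ω Z := by
  obtain ⟨w, hw, hwY, ⟨k, hk⟩, hker⟩ := hY
  have hZw : ∀ j, Z (w j) = ∑ i, Ω i j • w i := by
    intro j
    have h1 : Y (∑ i, Ω i j • w i) = w j := by
      rw [map_sum]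
      simp only [map_smul, hwY, Finset.smul_sum, smul_smul]
      rw [Finset.sum_comm]
      have h2 : ∀ a, ∑ i, (Ω i j * Ω' a i) • w a = (Ω' * Ω) a j • w a := by
        intro a
        rw [Matrix.mul_apply, Finset.sum_smul]
        exact Finset.sum_congr rfl fun i _ => by rw [mul_comm]
      simp only [h2, hmul]
      rw [Finset.sum_eq_single j]
      · rw [Matrix.one_apply_eq, one_smul]
      · intro i _ hi
        rw [Matrix.one_apply_ne hi, zero_smul]
      · intro h; exact absurd (Finset.mem_univ _) h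
    rw [← hZY (∑ i, Ω i j • w i), h1]
  refine ⟨w, hw, hZw, ⟨k, ?_⟩, ?_⟩
  · have hst := span_range_stable hZw
    -- `(Z - 1) = -Z (Y - 1)`
    have hc : ∀ x, (Z - 1) x = -(Z ((Y - 1) x)) := by
      intro x
      simp only [LinearMap.sub_apply, map_sub, hZY, Module.End.one_apply, neg_sub]
    have hcomm : ∀ x, (Y - 1) (Z x) = Z ((Y - 1) x) := by
      intro x
      simp only [LinearMap.sub_apply, map_sub, hZY, hYZ, Module.End.one_apply]
    have hcommp : ∀ (j : ℕ) x, ((Y - 1) ^ j) (Z x) = Z (((Y - 1) ^ j) x) := by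
      intro j
      induction j with
      | zero => intro x; rfl
      | succ j ih => intro x; rw [pow_succ, Module.End.mul_apply, hcomm, ih, Module.End.mul_apply]
    have hp : ∀ (j : ℕ) x, ∃ s : K, ((Z - 1) ^ j) x = s • (Z ^ j) (((Y - 1) ^ j) x) := by
      intro j
      induction j with
      | zero => intro x; exact ⟨1, by simp⟩
      | succ j ih =>
        intro x
        obtain ⟨s, hs⟩ := ih ((Z - 1) x)
        refine ⟨-s, ?_⟩
        rw [pow_succ, Module.End.mul_apply, hs, hc, map_neg, hcommp, ← Module.End.mul_apply ((Y - 1) ^ j), ← pow_succ, map_neg,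
          ← Module.End.mul_apply (Z ^ j), ← pow_succ, neg_smul, smul_neg]
    intro x
    obtain ⟨s, hs⟩ := hp k x
    rw [hs]
    apply Submodule.smul_mem
    have : ∀ (j : ℕ) (y : V), y ∈ Submodule.span K (Set.range w) → (Z ^ j) y ∈ Submodule.span K (Set.range w) := by
      intro j
      induction j with
      | zero => intro y hy; exact hy
      | succ j ih => intro y hy; rw [pow_succ, Module.End.mul_apply]; exact ih _ (hst _ hy)
    exact this _ _ (hk x)
  · have : ker (Z - 1) = ker (Y - 1) := by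
      ext x
      rw [mem_ker, mem_ker, LinearMap.sub_apply, LinearMap.sub_apply, sub_eq_zero, sub_eq_zero, Module.End.one_apply]
      constructor
      · intro h
        have := hYZ x
        rwa [h] at this
      · intro h
        have := hZY x
        rwa [h] at this
    rw [this]
    exact hker

/-- a product of elements of the two classes is a commutator -/
theorem isComm_of_fac [FiniteDimensional K V] (hΩ : ∀ b : Fin d → K, ∃ a : Fin d → K, ∀ i, (∑ j, Ω i j * a j) - a i = b i)
    (hmul : Ω' * Ω = 1) (hdet : Ω.det = 1)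
    (hfull : ∀ δ : K, δ ≠ 0 → ∃ Δ : Matrix (Fin d) (Fin d) K, Δ * Ω = Ω * Δ ∧ Δ.det = δ)
    (S X Y : V →ₗ[K] V) (hS : LinearMap.det S = 1) (hXY : ∀ x, X (Y x) = S x) (hX : Cls Ω X) (hY : Cls Ω' Y) : IsComm S := by
  have hdXY : LinearMap.det X * LinearMap.det Y = 1 := by
    rw [← hS, ← LinearMap.det_comp]
    congr 1
    exact LinearMap.ext hXY
  have hYu : IsUnit Y := (LinearMap.isUnit_iff_isUnit_det Y).2 (isUnit_iff_exists_inv'.2 ⟨_, hdXY⟩)
  obtain ⟨y, hy⟩ := hYu
  have hYZ : ∀ x, Y (((y⁻¹ : (V →ₗ[K] V)ˣ) : V →ₗ[K] V) x) = x := by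
    intro x
    rw [← hy, ← Module.End.mul_apply, Units.mul_inv]
    rfl
  have hZY : ∀ x, ((y⁻¹ : (V →ₗ[K] V)ˣ) : V →ₗ[K] V) (Y x) = x := by
    intro x
    rw [← hy, ← Module.End.mul_apply, Units.inv_mul]
    rfl
  have hZ := cls_inv hmul Y _ hYZ hZY hY
  set Z : V →ₗ[K] V := ((y⁻¹ : (V →ₗ[K] V)ˣ) : V →ₗ[K] V) with hZdef
  obtain ⟨e, he⟩ : ∃ e, e = finrank K V - d := ⟨_, rfl⟩
  obtain ⟨bX, hbX⟩ := std_basis hΩ X hX e he
  obtain ⟨bZ, hbZ⟩ := std_basis hΩ Z hZ e he
  have hdX : LinearMap.det X = 1 := by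
    rw [← LinearMap.det_toMatrix bX]
    have : LinearMap.toMatrix bX bX X = D Ω e := by
      ext i j
      rw [LinearMap.toMatrix_apply, hbX, map_sum, Finsupp.finsetSum_apply]
      simp only [map_smul, Finsupp.smul_apply, Basis.repr_self, smul_eq_mul]
      rw [Finset.sum_eq_single i]
      · simp
      · intro k _ hk
        rw [Finsupp.single_apply, if_neg hk, mul_zero]
      · intro h; exact absurd (Finset.mem_univ _) h
    rw [this, det_D Ω hdet]
  -- the change of basis
  let g0 : V ≃ₗ[K] V := bX.equiv bZ (Equiv.refl _)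
  have hg0 : ∀ j, g0 (bX j) = bZ j := fun j => by simp [g0]
  obtain ⟨Δ2, hΔc, hΔd⟩ := hfull (LinearMap.det (g0 : V →ₗ[K] V))⁻¹ (inv_ne_zero (LinearEquiv.isUnit_det' g0).ne_zero)
  let Δ : Matrix (Fin d ⊕ Fin e) (Fin d ⊕ Fin e) K := Matrix.fromBlocks Δ2 0 0 1
  have hΔD : Δ * D Ω e = D Ω e * Δ := by
    show Matrix.fromBlocks Δ2 0 0 1 * Matrix.fromBlocks Ω 0 0 (jb K e) =
      Matrix.fromBlocks Ω 0 0 (jb K e) * Matrix.fromBlocks Δ2 0 0 1
    rw [Matrix.fromBlocks_multiply, Matrix.fromBlocks_multiply]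
    simp [hΔc]
  have hΔdet : Δ.det = (LinearMap.det (g0 : V →ₗ[K] V))⁻¹ := by
    show (Matrix.fromBlocks Δ2 0 0 1).det = _
    rw [Matrix.det_fromBlocks_zero₁₂, hΔd, Matrix.det_one, mul_one]
  obtain ⟨B, hB, hBdet⟩ : ∃ B : V →ₗ[K] V, (∀ j, B (bX j) = ∑ i, Δ i j • bZ i) ∧ LinearMap.det B = 1 := by
    refine ⟨(g0 : V →ₗ[K] V) ∘ₗ (Matrix.toLin bX bX Δ), ?_, ?_⟩
    · intro j
      show g0 (Matrix.toLin bX bX Δ (bX j)) = _
      rw [Matrix.toLin_self, map_sum]
      simp only [map_smul, hg0]
    · rw [LinearMap.det_comp, LinearMap.det_toLin, hΔdet, mul_inv_cancel₀ (LinearEquiv.isUnit_det' g0).ne_zero]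
  have hBX : ∀ x, B (X x) = Z (B x) := by
    have : B ∘ₗ X = Z ∘ₗ B := by
      apply bX.ext
      intro j
      rw [LinearMap.comp_apply, LinearMap.comp_apply, hbX, hB, map_sum, map_sum]
      simp only [map_smul, hB, hbZ, Finset.smul_sum, smul_smul]
      rw [Finset.sum_comm]
      conv_rhs => rw [Finset.sum_comm]
      refine Finset.sum_congr rfl fun a _ => ?_
      rw [← Finset.sum_smul, ← Finset.sum_smul]
      congr 1
      have h1 := congrFun (congrFun hΔD a) j
      rw [Matrix.mul_apply, Matrix.mul_apply] at h1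
      calc ∑ x, D Ω e x j * Δ a x = ∑ x, Δ a x * D Ω e x j := Finset.sum_congr rfl fun x _ => mul_comm _ _
        _ = ∑ x, D Ω e a x * Δ x j := h1
        _ = ∑ x, Δ x j * D Ω e a x := Finset.sum_congr rfl fun x _ => mul_comm _ _
    intro x
    exact LinearMap.congr_fun this x
  refine ⟨X, B, hdX, hBdet, fun x => ?_⟩
  rw [hBX, ← hXY, hYZ]

end H45.OreB
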