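import Mathlib
import Cfsg.Agent.Lib.H45.OreB
import Cfsg.Agent.Lib.H47.TwoUnipE

/-!
Every non-scalar transformation of determinant one is a commutator: fields with at least four elements.
-/

set_option autoImplicit false
set_option linter.unusedVariables false
set_option linter.unusedSectionVars false

namespace H45.OreC

open Module LinearMap H45.OreA H45.OreB H47.TwoUnipA H47.TwoUnipB H47.TwoUnipD H47.TwoUnipE

variable {K : Type*} [Field K]

section

variable {d : ℕ} {V : Type*} [AddCommGroup V] [Module K V]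

/-- a transformation with matrix `Ω` -/
theorem cls_full [FiniteDimensional K V] {Ω : Matrix (Fin d) (Fin d) K}
    (hinj : ∀ a : Fin d → K, (∀ i, (∑ j, Ω i j * a j) - a i = 0) → ∀ i, a i = 0)
    (hV : finrank K V = d) (hd : 0 < d) (w : Fin d → V) (hw : LinearIndependent K w) (X : V →ₗ[K] V)
    (hX : ∀ j, X (w j) = ∑ i, Ω i j • w i) : Cls Ω X ∧ ∀ x, (X - 1) x = 0 → x = 0 := by
  have : Nonempty (Fin d) := ⟨⟨0, hd⟩⟩
  have htop : Submodule.span K (Set.range w) = ⊤ := hw.span_eq_top_of_card_eq_finrank (by simp [hV])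
  have hk : ∀ x, (X - 1) x = 0 → x = 0 := by
    intro x hx
    have hxm : x ∈ Submodule.span K (Set.range w) := by rw [htop]; trivial
    obtain ⟨a, rfl⟩ := (Submodule.mem_span_range_iff_exists_fun K).1 hxm
    have h1 : ∑ j, X (a j • w j) = ∑ i, (∑ j, Ω i j * a j) • w i := by
      simp only [map_smul, hX, Finset.smul_sum, smul_smul, Finset.sum_smul]
      rw [Finset.sum_comm]
      refine Finset.sum_congr rfl fun i _ => Finset.sum_congr rfl fun j _ => ?_
      rw [mul_comm]
    rw [LinearMap.sub_apply, Module.End.one_apply, map_sum, h1, ← Finset.sum_sub_distrib] at hx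
    have h2 : ∑ i, ((∑ j, Ω i j * a j) - a i) • w i = 0 := by
      rw [← hx]
      exact Finset.sum_congr rfl fun i _ => sub_smul _ _ _
    have h3 := (Fintype.linearIndependent_iff.1 hw) _ h2
    have h4 := hinj a h3
    simp [h4]
  refine ⟨⟨w, hw, hX, ⟨0, fun x => by rw [htop]; trivial⟩, ?_⟩, hk⟩
  have : ker (X - 1) = ⊥ := by
    rw [LinearMap.ker_eq_bot']
    exact hk
  rw [this, finrank_bot]
  exact Nat.zero_le _

end

/-- the two matrices -/
def Om (β : K) : Matrix (Fin 2) (Fin 2) K := !![β, 0; 0, β⁻¹]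

theorem Om_mul {β : K} (h0 : β ≠ 0) : Om β⁻¹ * Om β = 1 := by
  ext i j
  fin_cases i <;> fin_cases j <;> simp [Om, Matrix.mul_apply, Fin.sum_univ_two, h0]

theorem Om_det {β : K} (h0 : β ≠ 0) : (Om β).det = 1 := by
  simp [Om, Matrix.det_fin_two, h0]

theorem Om_full {β : K} (δ : K) : ∃ Δ : Matrix (Fin 2) (Fin 2) K, Δ * Om β = Om β * Δ ∧ Δ.det = δ := by
  refine ⟨!![δ, 0; 0, 1], ?_, ?_⟩
  · ext i j
    fin_cases i <;> fin_cases j <;> simp [Om, Matrix.mul_apply, Fin.sum_univ_two, mul_comm]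
  · simp [Matrix.det_fin_two]

theorem Om_surj {β : K} (h1 : β ≠ 1) : ∀ b : Fin 2 → K, ∃ a : Fin 2 → K, ∀ i, (∑ j, Om β i j * a j) - a i = b i := by
  intro b
  have e1 : β - 1 ≠ 0 := sub_ne_zero.2 h1
  have e2 : β⁻¹ - 1 ≠ 0 := by
    intro h
    apply h1
    have := sub_eq_zero.1 h
    exact inv_eq_one.1 this
  refine ⟨![b 0 / (β - 1), b 1 / (β⁻¹ - 1)], fun i => ?_⟩
  fin_cases i
  · simp [Om, Fin.sum_univ_two]
    field_simp
  · simp [Om, Fin.sum_univ_two]
    rw [← sub_one_mul, mul_div_cancel₀ _ e2]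

theorem Om_surj' {β : K} (h1 : β ≠ 1) : ∀ b : Fin 2 → K, ∃ a : Fin 2 → K, ∀ j, (∑ i, Om β i j * a i) - a j = b j := by
  intro b
  obtain ⟨a, ha⟩ := Om_surj h1 b
  refine ⟨a, fun j => ?_⟩
  rw [← ha j]
  fin_cases j <;> simp [Om, Fin.sum_univ_two]

theorem Om_inj {β : K} (h1 : β ≠ 1) : ∀ a : Fin 2 → K, (∀ i, (∑ j, Om β i j * a j) - a i = 0) → ∀ i, a i = 0 := by
  intro a ha
  have e1 : β - 1 ≠ 0 := sub_ne_zero.2 h1
  have e2 : β⁻¹ - 1 ≠ 0 := by
    intro h
    apply h1
    have := sub_eq_zero.1 h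
    exact inv_eq_one.1 this
  have h0 := ha 0
  have h1' := ha 1
  simp [Om, Fin.sum_univ_two] at h0 h1'
  intro i
  fin_cases i
  · have : (β - 1) * a 0 = 0 := by linear_combination h0
    exact (mul_eq_zero.1 this).resolve_left e1
  · have : (β⁻¹ - 1) * a 1 = 0 := by linear_combination h1'
    exact (mul_eq_zero.1 this).resolve_left e2

/-- the two-dimensional case -/
theorem base2 (hK : 4 ≤ Cardinal.mk K) {β : K} (h0 : β ≠ 0) (h1 : β ≠ 1) (hββ : β * β ≠ 1)
    {V : Type*} [AddCommGroup V] [Module K V] (hV : finrank K V = 2) (S : V →ₗ[K] V) (hdet : LinearMap.det S = 1)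
    (hns : ∀ μ : K, ∃ x, S x ≠ μ • x) : Good0 (Om β) (Om β⁻¹) S := by
  have : Module.Finite K V := Module.finite_of_finrank_eq_succ hV
  have hsN : ∀ x, S x = x + (S - 1) x := by
    intro x; rw [LinearMap.sub_apply, Module.End.one_apply]; abel
  have hnsN : ∀ μ : K, ∃ x, (S - 1) x ≠ μ • x := by
    intro μ
    obtain ⟨x, hx⟩ := hns (μ + 1)
    refine ⟨x, fun h => hx ?_⟩
    rw [hsN, h, add_smul, one_smul, add_comm]
  have hbot : (⊥ : Submodule K V) ≠ ⊤ := by
    intro h
    have := congrArg (fun W : Submodule K V => finrank K W) h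
    simp only [finrank_bot, finrank_top, hV] at this
    omega
  obtain ⟨v, -, -, hv3⟩ := exists_noneigen hK (S - 1) hnsN ⊥ ⊥ hbot hbot
  have hind := hind_of hv3
  set e := (S - 1) v with he
  have hSv : S v = v + e := hsN v
  obtain ⟨φ, hφv, hφe, -⟩ := exists_phi v e v hind (by
    intro a ha
    have := (hind 1 (-a) (by rw [one_smul, neg_smul, ← ha, add_neg_cancel])).1
    exact one_ne_zero this)
  have hφS : φ (S v) = 1 := by rw [hSv, map_add, hφv, hφe, add_zero]
  have hkd : finrank K (ker φ) = 1 := by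
    have h1 := LinearMap.finrank_range_add_finrank_ker φ
    have h2 : range φ = ⊤ := by
      rw [LinearMap.range_eq_top]
      intro a
      exact ⟨a • v, by rw [map_smul, hφv, smul_eq_mul, mul_one]⟩
    rw [h2, finrank_top, finrank_self, hV] at h1
    omega
  have hS1 := eq_one_of_det hkd (schur S v φ hφS) (by rw [det_schur S v φ hφv hφS, hdet]) ⟨e, mem_ker.2 hφe⟩
  have hSe : S e = e + φ (S e) • (v + e) := by
    have := congrArg Subtype.val hS1
    rw [schur_apply] at this
    have h2 : S e - φ (S e) • S v = e := this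
    rw [hSv] at h2
    rw [sub_eq_iff_eq_add] at h2
    exact h2
  set ρ := φ (S e) with hρ
  have hli : LinearIndependent K ![v, e] := by
    rw [LinearIndependent.pair_iff]
    exact hind
  let bb : Basis (Fin 2) K V := basisOfLinearIndependentOfCardEqFinrank hli (by simp [hV])
  have hbb : ∀ j, bb j = ![v, e] j := by
    intro j
    rw [coe_basisOfLinearIndependentOfCardEqFinrank]
  have hb0 : bb 0 = v := hbb 0
  have hb1 : bb 1 = e := hbb 1
  obtain ⟨X, hX⟩ : ∃ X : V →ₗ[K] V, X = bb.constr K ![β • (v + e), β⁻¹ • e] := ⟨_, rfl⟩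
  obtain ⟨Y, hY⟩ : ∃ Y : V →ₗ[K] V, Y = bb.constr K ![β⁻¹ • v, β • e + (ρ * β⁻¹) • v] := ⟨_, rfl⟩
  have hXv : X v = β • (v + e) := by
    conv_lhs => rw [← hb0]
    rw [hX, Basis.constr_basis]
    rfl
  have hXe : X e = β⁻¹ • e := by
    conv_lhs => rw [← hb1]
    rw [hX, Basis.constr_basis]
    rfl
  have hYv : Y v = β⁻¹ • v := by
    conv_lhs => rw [← hb0]
    rw [hY, Basis.constr_basis]
    rfl
  have hYe : Y e = β • e + (ρ * β⁻¹) • v := by
    conv_lhs => rw [← hb1]
    rw [hY, Basis.constr_basis]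
    rfl
  have h1' : β⁻¹ ≠ 1 := by
    intro h
    exact h1 (by rw [← inv_inv β, h, inv_one])
  have hss : β - β⁻¹ ≠ 0 := by
    intro h
    apply hββ
    have h2 := sub_eq_zero.1 h
    calc β * β = β * β⁻¹ := by rw [← h2]
      _ = 1 := mul_inv_cancel₀ h0
  have hmulinv : β * β⁻¹ = 1 := mul_inv_cancel₀ h0
  -- eigenvectors
  obtain ⟨s, hs⟩ : ∃ s, s * (β - β⁻¹) = β := ⟨β / (β - β⁻¹), div_mul_cancel₀ _ hss⟩
  obtain ⟨t, ht⟩ : ∃ t, t * (β - β⁻¹) = ρ * β⁻¹ := ⟨ρ * β⁻¹ / (β - β⁻¹), div_mul_cancel₀ _ hss⟩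
  have hs' : β + s * β⁻¹ = β * s := by linear_combination -hs
  have ht' : ρ * β⁻¹ + t * β⁻¹ = β * t := by linear_combination -ht
  have hwX : LinearIndependent K ![v + s • e, e] := by
    rw [LinearIndependent.pair_iff]
    intro a b hab
    have := hind a (a * s + b) (by
      rw [← hab]
      simp only [smul_add, add_smul, smul_smul]
      abel)
    obtain ⟨ha, hb⟩ := this
    rw [ha, zero_mul, zero_add] at hb
    exact ⟨ha, hb⟩
  have hwY : LinearIndependent K ![v, e + t • v] := by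
    rw [LinearIndependent.pair_iff]
    intro a b hab
    have := hind (a + b * t) b (by
      rw [← hab]
      simp only [smul_add, add_smul, smul_smul]
      abel)
    obtain ⟨ha, hb⟩ := this
    rw [hb, zero_mul, add_zero] at ha
    exact ⟨ha, hb⟩
  have hCX := cls_full (Ω := Om β) (Om_inj h1) hV (by norm_num) _ hwX X (by
    intro j
    fin_cases j
    · simp only [Fin.sum_univ_two, Om]
      simp
      rw [hXv, hXe, smul_smul, smul_add, smul_smul, ← hs', add_smul]
      abel
    · simp only [Fin.sum_univ_two, Om]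
      simp
      rw [hXe])
  have hCY := cls_full (Ω := Om β⁻¹) (Om_inj h1') hV (by norm_num) _ hwY Y (by
    intro j
    fin_cases j
    · simp only [Fin.sum_univ_two, Om]
      simp
      rw [hYv]
    · simp only [Fin.sum_univ_two, Om]
      simp
      rw [hYe, hYv, smul_smul, smul_smul, ← ht', add_smul]
      abel)
  refine ⟨X, Y, ?_, hCX.1, hCY.1, hCX.2, hCY.2⟩
  have hcomp : X ∘ₗ Y = S := by
    apply bb.ext
    intro j
    fin_cases j
    · show X (Y (bb 0)) = S (bb 0)
      rw [hb0, hYv, map_smul, hXv, smul_smul, inv_mul_cancel₀ h0, one_smul, hSv]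
    · show X (Y (bb 1)) = S (bb 1)
      rw [hb1, hYe, map_add, map_smul, map_smul, hXv, hXe, smul_smul, smul_smul, hmulinv, one_smul, mul_assoc,
        inv_mul_cancel₀ h0, mul_one, hSe]
  intro x
  exact LinearMap.congr_fun hcomp x

/-- the main induction -/
theorem good_big (hK : 4 ≤ Cardinal.mk K) {β : K} (h0 : β ≠ 0) (h1 : β ≠ 1) (hββ : β * β ≠ 1) :
    ∀ (n : ℕ) (V : Type*) [AddCommGroup V] [Module K V] (hV : finrank K V = n + 3)
    (S : V →ₗ[K] V) (hdet : LinearMap.det S = 1) (hns : ∀ μ : K, ∃ x, S x ≠ μ • x)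
    (hr : 2 ≤ finrank K (range (S - 1))) (c : V) (hc : c ≠ 0) (r : V →ₗ[K] K) (hr0 : r ≠ 0),
    Good (Om β) (Om β⁻¹) S c r := by
  intro n
  induction n with
  | zero =>
    intro V _ _ hV S hdet hns hr c hc r hr0
    have : Module.Finite K V := Module.finite_of_finrank_eq_succ hV
    have hsN : ∀ x, S x = x + (S - 1) x := by
      intro x; rw [LinearMap.sub_apply, Module.End.one_apply]; abel
    have hnsN : ∀ μ : K, ∃ x, (S - 1) x ≠ μ • x := by
      intro μ
      obtain ⟨x, hx⟩ := hns (μ + 1)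
      refine ⟨x, fun h => hx ?_⟩
      rw [hsN, h, add_smul, one_smul, add_comm]
    obtain ⟨v, hv1, hv2, hv3, hw1⟩ := exists_v hK (S - 1) hnsN hr (by omega) c r hr0
    have hind := hind_of hv3
    have hcv : ∀ a : K, c ≠ a • (S - 1) v := by
      intro a ha
      have ha0 : a ≠ 0 := by
        rintro rfl
        exact hc (by rw [ha, zero_smul])
      exact hv2 a⁻¹ (by rw [ha, smul_smul, inv_mul_cancel₀ ha0, one_smul])
    obtain ⟨φ, hφv, hφS, hφc, ⟨w, hw⟩, hbad⟩ := exists_functional hK S hdet v c hind hcv hw1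
    refine step (Om_surj' (by simpa using h1)) S c r v φ hφv hφS hφc hv1 (Good0.pre _ _ ?_)
    have hkd : finrank K (ker φ) = 2 := by
      have h1 := LinearMap.finrank_range_add_finrank_ker φ
      have h2 : range φ = ⊤ := by
        rw [LinearMap.range_eq_top]
        intro a
        exact ⟨a • v, by rw [map_smul, hφv, smul_eq_mul, mul_one]⟩
      rw [h2, finrank_top, finrank_self, hV] at h1
      omega
    unfold Bad at hbad
    push Not at hbad
    exact base2 hK h0 h1 hββ hkd _ (by rw [det_schur S v φ hφv hφS, hdet]) hbad.1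
  | succ n ih =>
    intro V _ _ hV S hdet hns hr c hc r hr0
    have : Module.Finite K V := Module.finite_of_finrank_eq_succ hV
    have hsN : ∀ x, S x = x + (S - 1) x := by
      intro x; rw [LinearMap.sub_apply, Module.End.one_apply]; abel
    have hnsN : ∀ μ : K, ∃ x, (S - 1) x ≠ μ • x := by
      intro μ
      obtain ⟨x, hx⟩ := hns (μ + 1)
      refine ⟨x, fun h => hx ?_⟩
      rw [hsN, h, add_smul, one_smul, add_comm]
    obtain ⟨v, hv1, hv2, hv3, hw1⟩ := exists_v hK (S - 1) hnsN hr (by omega) c r hr0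
    have hind := hind_of hv3
    have hNv0 : (S - 1) v ≠ 0 := fun h => hv3 0 (by rw [h, zero_smul])
    have hcv : ∀ a : K, c ≠ a • (S - 1) v := by
      intro a ha
      have ha0 : a ≠ 0 := by
        rintro rfl
        exact hc (by rw [ha, zero_smul])
      exact hv2 a⁻¹ (by rw [ha, smul_smul, inv_mul_cancel₀ ha0, one_smul])
    obtain ⟨φ, hφv, hφS, hφc, ⟨w, hw⟩, hbad⟩ := exists_functional hK S hdet v c hind hcv hw1
    refine step (Om_surj' (by simpa using h1)) S c r v φ hφv hφS hφc hv1 (Good.pre ?_)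
    have hkd : finrank K (ker φ) = n + 3 := by
      have h1 := LinearMap.finrank_range_add_finrank_ker φ
      have h2 : range φ = ⊤ := by
        rw [LinearMap.range_eq_top]
        intro a
        exact ⟨a • v, by rw [map_smul, hφv, smul_eq_mul, mul_one]⟩
      rw [h2, finrank_top, finrank_self, hV] at h1
      omega
    have hφN : φ ((S - 1) v) = 0 := by
      rw [LinearMap.sub_apply, map_sub, hφS, Module.End.one_apply, hφv, sub_self]
    unfold Bad at hbad
    push Not at hbad
    obtain ⟨hb1, hb2⟩ := hbad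
    refine ih (ker φ) hkd _ (by rw [det_schur S v φ hφv hφS, hdet]) hb1 hb2 _ ?_ _ ?_
    · intro h
      have h1 := congrArg (Subtype.val) h
      rw [H47.TwoUnipA.proj_apply, hφS, one_smul] at h1
      apply hNv0
      rw [LinearMap.sub_apply, Module.End.one_apply]
      exact h1
    · intro hcon
      apply hw
      rw [decomp v φ hφv w, map_add, map_smul, map_add, map_smul, hφN, smul_zero, zero_add]
      have h2 := LinearMap.congr_fun hcon (proj v φ hφv w)
      rw [LinearMap.comp_apply, LinearMap.comp_apply, Submodule.subtype_apply, LinearMap.zero_apply] at h2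
      rw [LinearMap.sub_apply, map_sub, h2, Module.End.one_apply, mem_ker.1 (proj v φ hφv w).2, sub_zero]

/-- the parameter -/
theorem exists_beta (hK : 4 ≤ Cardinal.mk K) : ∃ β : K, β ≠ 0 ∧ β ≠ 1 ∧ β * β ≠ 1 := by
  obtain ⟨β, h1, h2, h3⟩ := exists_avoid hK (fun x => x = 0) (fun x => x = 1) (fun x => x = -1)
    (fun x y hx hy => hx.trans hy.symm) (fun x y hx hy => hx.trans hy.symm) (fun x y hx hy => hx.trans hy.symm)
  refine ⟨β, h1, h2, fun h => ?_⟩
  have : (β - 1) * (β + 1) = 0 := by linear_combination h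
  rcases mul_eq_zero.1 this with h | h
  · exact h2 (sub_eq_zero.1 h)
  · exact h3 (eq_neg_of_add_eq_zero_left h)

theorem isComm_of_good {β : K} (h0 : β ≠ 0) (h1 : β ≠ 1) {V : Type*} [AddCommGroup V] [Module K V] [FiniteDimensional K V]
    (S X Y : V →ₗ[K] V) (hS : LinearMap.det S = 1) (hXY : ∀ x, X (Y x) = S x) (hX : Cls (Om β) X)
    (hY : Cls (Om β⁻¹) Y) : IsComm S :=
  isComm_of_fac (Om_surj h1) (Om_mul h0) (Om_det h0) (fun δ _ => Om_full δ) S X Y hS hXY hX hY

/-- non-scalar transformations of rank at least two over fields with at least four elements -/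
theorem isComm_big (hK : 4 ≤ Cardinal.mk K) {V : Type*} [AddCommGroup V] [Module K V] (hV : 3 ≤ finrank K V)
    (S : V →ₗ[K] V) (hdet : LinearMap.det S = 1) (hns : ∀ μ : K, ∃ x, S x ≠ μ • x)
    (hr : 2 ≤ finrank K (range (S - 1))) : IsComm S := by
  obtain ⟨β, h0, h1, hββ⟩ := exists_beta hK
  have : FiniteDimensional K V := FiniteDimensional.of_finrank_pos (by omega)
  have : Nontrivial V := Module.nontrivial_of_finrank_pos (R := K) (by omega)
  obtain ⟨c, hc⟩ := exists_ne (0 : V)
  obtain ⟨r, hr0⟩ : ∃ r : V →ₗ[K] K, r ≠ 0 := by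
    by_contra hcon
    push Not at hcon
    apply hc
    rw [← Module.forall_dual_apply_eq_zero_iff K]
    intro φ
    rw [hcon φ, LinearMap.zero_apply]
  obtain ⟨m, hm⟩ := Nat.exists_eq_add_of_le' hV
  obtain ⟨X, Y, hXY, hX, hY, -⟩ := good_big hK h0 h1 hββ m V hm S hdet hns hr c hc r hr0
  exact isComm_of_good h0 h1 S X Y hdet hXY hX hY

/-- the two-dimensional case -/
theorem isComm_two (hK : 4 ≤ Cardinal.mk K) {V : Type*} [AddCommGroup V] [Module K V] (hV : finrank K V = 2)
    (S : V →ₗ[K] V) (hdet : LinearMap.det S = 1) (hns : ∀ μ : K, ∃ x, S x ≠ μ • x) : IsComm S := by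
  obtain ⟨β, h0, h1, hββ⟩ := exists_beta hK
  have : FiniteDimensional K V := FiniteDimensional.of_finrank_pos (by omega)
  obtain ⟨X, Y, hXY, hX, hY, -⟩ := base2 hK h0 h1 hββ hV S hdet hns
  exact isComm_of_good h0 h1 S X Y hdet hXY hX hY

end H45.OreC
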