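import Mathlib
import Cfsg.Agent.Lib.H45.OreD

/-!
Three-dimensional transformations over the fields with two and three elements: the base case.
-/

set_option autoImplicit false
set_option linter.unusedVariables false
set_option linter.unusedSectionVars false

namespace H45.OreE

open Module LinearMap H45.OreA H45.OreB H45.OreC H45.OreD

variable {K : Type*} [Field K]

/-- the two matrices -/
def Om3 (K : Type*) [Field K] : Matrix (Fin 3) (Fin 3) K := !![0, 0, 1; 1, 0, 1; 0, 1, 0]
def Om3' (K : Type*) [Field K] : Matrix (Fin 3) (Fin 3) K := !![-1, 1, 0; 0, 0, 1; 1, 0, 0]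

theorem Om3_mul : Om3' K * Om3 K = 1 := by
  ext i j
  fin_cases i <;> fin_cases j <;> simp [Om3, Om3', Matrix.mul_apply, Fin.sum_univ_three]

theorem Om3_mul' : Om3 K * Om3' K = 1 := by
  ext i j
  fin_cases i <;> fin_cases j <;> simp [Om3, Om3', Matrix.mul_apply, Fin.sum_univ_three]

theorem Om3_det : (Om3 K).det = 1 := by
  simp [Om3, Matrix.det_fin_three]

theorem Om3_full (h3 : ∀ δ : K, δ * δ * δ = δ) (δ : K) : ∃ Δ : Matrix (Fin 3) (Fin 3) K, Δ * Om3 K = Om3 K * Δ ∧ Δ.det = δ := by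
  refine ⟨δ • 1, ?_, ?_⟩
  · rw [Matrix.smul_mul, Matrix.mul_smul, Matrix.one_mul, Matrix.mul_one]
  · rw [Matrix.det_smul, Matrix.det_one, mul_one, Fintype.card_fin]
    linear_combination h3 δ

theorem Om3_surj : ∀ b : Fin 3 → K, ∃ a : Fin 3 → K, ∀ i, (∑ j, Om3 K i j * a j) - a i = b i := by
  intro b
  refine ⟨![b 1 + b 2, b 0 + b 1 + 2 * b 2, b 0 + b 1 + b 2], fun i => ?_⟩
  fin_cases i <;> simp [Om3, Fin.sum_univ_three] <;> ring

theorem Om3'_surj : ∀ b : Fin 3 → K, ∃ a : Fin 3 → K, ∀ j, (∑ i, Om3' K i j * a i) - a j = b j := by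
  intro b
  refine ⟨![-(b 0 + b 1 + b 2), -(b 0 + b 1 + b 2) - b 1, -(b 0 + b 1 + b 2) - b 1 - b 2], fun i => ?_⟩
  fin_cases i <;> simp [Om3', Fin.sum_univ_three]

theorem Om3_inj : ∀ a : Fin 3 → K, (∀ i, (∑ j, Om3 K i j * a j) - a i = 0) → ∀ i, a i = 0 := by
  intro a ha
  have h0 := ha 0
  have h1 := ha 1
  have h2 := ha 2
  simp [Om3, Fin.sum_univ_three] at h0 h1 h2
  intro i
  fin_cases i
  · show a 0 = 0
    linear_combination h1 + h2
  · show a 1 = 0
    linear_combination h0 + h1 + 2 * h2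
  · show a 2 = 0
    linear_combination h0 + h1 + h2

theorem Om3'_inj : ∀ a : Fin 3 → K, (∀ i, (∑ j, Om3' K i j * a j) - a i = 0) → ∀ i, a i = 0 := by
  intro a ha
  have h0 := ha 0
  have h1 := ha 1
  have h2 := ha 2
  simp [Om3', Fin.sum_univ_three] at h0 h1 h2
  intro i
  fin_cases i
  · show a 0 = 0
    linear_combination -h0 - h1 - h2
  · show a 1 = 0
    linear_combination -h0 - 2 * h1 - 2 * h2
  · show a 2 = 0
    linear_combination -h0 - h1 - 2 * h2

/-- relation for `X` -/
def CX (X : Matrix (Fin 3) (Fin 3) K) : Prop := ∃ u v : Fin 3 → K, X.mulVec ![1, 0, 0] = u ∧ X.mulVec u = v ∧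
  X.mulVec v = ![1, 0, 0] + u ∧ u 1 * v 2 ≠ v 1 * u 2

/-- relation for `Y` -/
def CY (X : Matrix (Fin 3) (Fin 3) K) : Prop := ∃ u v : Fin 3 → K, X.mulVec ![1, 0, 0] = u ∧ X.mulVec u = v ∧
  X.mulVec v = ![1, 0, 0] - v ∧ u 1 * v 2 ≠ v 1 * u 2

section cert

variable (p : ℕ) [CharP K p]

/-- the matrix with a given code -/
def mat (K : Type*) [Field K] (p m : ℕ) : Matrix (Fin 3) (Fin 3) K := Matrix.of fun i j => ((ent p m i j : ℕ) : K)

theorem cast_eq {a b : ℕ} (h : a % p = b % p) : (a : K) = (b : K) := (CharP.natCast_eq_natCast K p).2 h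

theorem cast_mod (a : ℕ) : ((a % p : ℕ) : K) = (a : K) := cast_eq p (Nat.mod_mod _ _)

theorem cx_of {m : ℕ} (h : chainX p m = true) : CX (mat K p m) := by
  simp only [chainX, Bool.and_eq_true, Bool.not_eq_true', Nat.beq_eq] at h
  obtain ⟨⟨⟨h0, h1⟩, h2⟩, h3⟩ := h
  refine ⟨fun i => ((ent p m i 0 : ℕ) : K), fun i => ((ent p m i 0 * ent p m 0 0 + ent p m i 1 * ent p m 1 0 + ent p m i 2 * ent p m 2 0 : ℕ) : K), ?_, ?_, ?_, ?_⟩
  · funext i
    simp [mat, Matrix.mulVec, dotProduct, Fin.sum_univ_three]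
  · funext i
    simp [mat, Matrix.mulVec, dotProduct, Fin.sum_univ_three]
  · funext i
    have e0 := congrArg (fun n : ℕ => (n : K)) h0
    have e1 := congrArg (fun n : ℕ => (n : K)) h1
    have e2 := congrArg (fun n : ℕ => (n : K)) h2
    simp only [cast_mod, Nat.cast_add, Nat.cast_mul, Nat.cast_one] at e0 e1 e2
    fin_cases i
    · simp [mat, Matrix.mulVec, dotProduct, Fin.sum_univ_three]
      linear_combination e0
    · simp [mat, Matrix.mulVec, dotProduct, Fin.sum_univ_three]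
      linear_combination e1
    · simp [mat, Matrix.mulVec, dotProduct, Fin.sum_univ_three]
      linear_combination e2
  · intro h
    have h4 : Nat.beq
        (ent p m 1 0 * ((ent p m 2 0 * ent p m 0 0 + ent p m 2 1 * ent p m 1 0 + ent p m 2 2 * ent p m 2 0) % p) % p)
        ((ent p m 1 0 * ent p m 0 0 + ent p m 1 1 * ent p m 1 0 + ent p m 1 2 * ent p m 2 0) % p * ent p m 2 0 % p) = true := by
      rw [Nat.beq_eq]
      have h5 : ((ent p m 1 0 * ((ent p m 2 0 * ent p m 0 0 + ent p m 2 1 * ent p m 1 0 + ent p m 2 2 * ent p m 2 0) % p) : ℕ) : K) =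
        (((ent p m 1 0 * ent p m 0 0 + ent p m 1 1 * ent p m 1 0 + ent p m 1 2 * ent p m 2 0) % p * ent p m 2 0 : ℕ) : K) := by
        rw [Nat.cast_mul, Nat.cast_mul, cast_mod, cast_mod]
        exact h
      exact (CharP.natCast_eq_natCast K p).1 h5
    rw [h4] at h3
    exact Bool.noConfusion h3

theorem cy_of {m : ℕ} (h : chainY p m = true) : CY (mat K p m) := by
  simp only [chainY, Bool.and_eq_true, Bool.not_eq_true', Nat.beq_eq] at h
  obtain ⟨⟨⟨h0, h1⟩, h2⟩, h3⟩ := h
  refine ⟨fun i => ((ent p m i 0 : ℕ) : K), fun i => ((ent p m i 0 * ent p m 0 0 + ent p m i 1 * ent p m 1 0 + ent p m i 2 * ent p m 2 0 : ℕ) : K), ?_, ?_, ?_, ?_⟩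
  · funext i
    simp [mat, Matrix.mulVec, dotProduct, Fin.sum_univ_three]
  · funext i
    simp [mat, Matrix.mulVec, dotProduct, Fin.sum_univ_three]
  · funext i
    have e0 := congrArg (fun n : ℕ => (n : K)) h0
    have e1 := congrArg (fun n : ℕ => (n : K)) h1
    have e2 := congrArg (fun n : ℕ => (n : K)) h2
    simp only [cast_mod, Nat.cast_add, Nat.cast_mul, Nat.cast_one, Nat.cast_zero] at e0 e1 e2
    fin_cases i
    · simp [mat, Matrix.mulVec, dotProduct, Fin.sum_univ_three]
      linear_combination e0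
    · simp [mat, Matrix.mulVec, dotProduct, Fin.sum_univ_three]
      linear_combination e1
    · simp [mat, Matrix.mulVec, dotProduct, Fin.sum_univ_three]
      linear_combination e2
  · intro h
    have h4 : Nat.beq
        (ent p m 1 0 * ((ent p m 2 0 * ent p m 0 0 + ent p m 2 1 * ent p m 1 0 + ent p m 2 2 * ent p m 2 0) % p) % p)
        ((ent p m 1 0 * ent p m 0 0 + ent p m 1 1 * ent p m 1 0 + ent p m 1 2 * ent p m 2 0) % p * ent p m 2 0 % p) = true := by
      rw [Nat.beq_eq]
      have h5 : ((ent p m 1 0 * ((ent p m 2 0 * ent p m 0 0 + ent p m 2 1 * ent p m 1 0 + ent p m 2 2 * ent p m 2 0) % p) : ℕ) : K) =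
        (((ent p m 1 0 * ent p m 0 0 + ent p m 1 1 * ent p m 1 0 + ent p m 1 2 * ent p m 2 0) % p * ent p m 2 0 : ℕ) : K) := by
        rw [Nat.cast_mul, Nat.cast_mul, cast_mod, cast_mod]
        exact h
      exact (CharP.natCast_eq_natCast K p).1 h5
    rw [h4] at h3
    exact Bool.noConfusion h3

theorem prod_of {m n a b c d e f : ℕ} (h : prodOK p m n a b c d e f = true) :
    mat K p m * mat K p n = !![0, (a : K), b; 1, c, d; 0, e, f] := by
  simp only [prodOK, Bool.and_eq_true, Nat.beq_eq] at h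
  obtain ⟨⟨⟨⟨⟨⟨⟨⟨h0, h1⟩, h2⟩, h3⟩, h4⟩, h5⟩, h6⟩, h7⟩, h8⟩ := h
  have key : ∀ x y : ℕ, x % p = y → (x : K) = y := by
    intro x y hxy
    rw [← hxy, cast_mod]
  have g0 := key _ _ h0
  have g1 := key _ _ h1
  have g2 := key _ _ h2
  have g3 := key _ _ h3
  have g4 := key _ _ h4
  have g5 := key _ _ h5
  have g6 := key _ _ h6
  have g7 := key _ _ h7
  have g8 := key _ _ h8
  simp only [Nat.cast_add, Nat.cast_mul, Nat.cast_one, Nat.cast_zero] at g0 g1 g2 g3 g4 g5 g6 g7 g8
  ext i j
  rw [Matrix.mul_apply, Fin.sum_univ_three]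
  fin_cases i <;> fin_cases j
  · exact g0
  · exact g1
  · exact g2
  · exact g3
  · exact g4
  · exact g5
  · exact g6
  · exact g7
  · exact g8

theorem cert (hp : 1 < p) (hall : ∀ x : K, ∃ n < p, x = (n : K)) {TX TY : ℕ} (h : full p TX TY) (a b c d e f : K)
    (hdet : b * e - a * f = 1) (hnt : ¬ (c + a = 1 ∧ d + b = 0 ∧ e = 0 ∧ f = 1)) :
    ∃ X Y : Matrix (Fin 3) (Fin 3) K, X * Y = !![0, a, b; 1, c, d; 0, e, f] ∧ CX X ∧ CY Y := by
  obtain ⟨a, ha, rfl⟩ := hall a
  obtain ⟨b, hb, rfl⟩ := hall b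
  obtain ⟨c, hc, rfl⟩ := hall c
  obtain ⟨d, hd, rfl⟩ := hall d
  obtain ⟨e, he, rfl⟩ := hall e
  obtain ⟨f, hf, rfl⟩ := hall f
  have h1 := h a ha b hb c hc d hd e he f hf
  simp only [chk, Bool.or_eq_true, Bool.and_eq_true, Bool.not_eq_true', Nat.beq_eq] at h1
  rcases h1 with (h1 | ⟨⟨⟨h1, h2⟩, h3⟩, h4⟩) | ⟨⟨h1, h2⟩, h3⟩
  · exfalso
    have h4 : Nat.beq ((b * e + (p - 1) * (a * f)) % p) 1 = true := by
      rw [Nat.beq_eq]
      have h5 : ((b * e + (p - 1) * (a * f) : ℕ) : K) = ((1 : ℕ) : K) := by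
        have hp1 : ((p - 1 : ℕ) : K) = -1 := by
          rw [Nat.cast_sub hp.le, CharP.cast_eq_zero, Nat.cast_one, zero_sub]
        rw [Nat.cast_add, Nat.cast_mul, Nat.cast_mul, hp1, Nat.cast_mul, Nat.cast_one]
        linear_combination hdet
      have h6 := (CharP.natCast_eq_natCast K p).1 h5
      have h7 : (b * e + (p - 1) * (a * f)) % p = 1 % p := h6
      rw [h7, Nat.mod_eq_of_lt hp]
    rw [h4] at h1
    exact Bool.noConfusion h1
  · exfalso
    apply hnt
    refine ⟨?_, ?_, ?_, ?_⟩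
    · rw [← Nat.cast_add, ← cast_mod p, h1, Nat.cast_one]
    · rw [← Nat.cast_add, ← cast_mod p, h2, Nat.cast_zero]
    · rw [h3, Nat.cast_zero]
    · rw [h4, Nat.cast_one]
  · exact ⟨_, _, prod_of p h1, cx_of p h2, cy_of p h3⟩

end cert

section space

variable {V : Type*} [AddCommGroup V] [Module K V] [FiniteDimensional K V]

theorem toLin_E (b : Basis (Fin 3) K V) (M : Matrix (Fin 3) (Fin 3) K) (c : Fin 3 → K) :
    Matrix.toLin b b M (b.equivFun.symm c) = b.equivFun.symm (M.mulVec c) := by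
  have h1 : (⇑(b.repr (b.equivFun.symm c)) : Fin 3 → K) = c := by
    rw [← Basis.equivFun_apply]
    exact LinearEquiv.apply_symm_apply _ _
  rw [Matrix.toLin_apply, h1, Basis.equivFun_symm_apply]

theorem good0_of_mat (hV : finrank K V = 3) (b : Basis (Fin 3) K V) (S : V →ₗ[K] V) (X Y : Matrix (Fin 3) (Fin 3) K)
    (hXY : X * Y = LinearMap.toMatrix b b S) (hX : CX X) (hY : CY Y) : Good0 (Om3 K) (Om3' K) S := by
  obtain ⟨u, v, h1, h2, h3, h4⟩ := hX
  obtain ⟨u', v', h1', h2', h3', h4'⟩ := hY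
  have hliX : LinearIndependent K ![![1, 0, 0], u, v] := by
    rw [Fintype.linearIndependent_iff]
    intro g hg
    rw [Fin.sum_univ_three] at hg
    have e0 : g 0 * 1 + g 1 * u 0 + g 2 * v 0 = 0 := congrFun hg 0
    have e1 : g 0 * 0 + g 1 * u 1 + g 2 * v 1 = 0 := congrFun hg 1
    have e2 : g 0 * 0 + g 1 * u 2 + g 2 * v 2 = 0 := congrFun hg 2
    have hne : u 1 * v 2 - v 1 * u 2 ≠ 0 := sub_ne_zero.2 h4
    have g1 : g 1 = 0 := by
      have : (u 1 * v 2 - v 1 * u 2) * g 1 = 0 := by linear_combination v 2 * e1 - v 1 * e2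
      exact (mul_eq_zero.1 this).resolve_left hne
    have g2 : g 2 = 0 := by
      have : (u 1 * v 2 - v 1 * u 2) * g 2 = 0 := by linear_combination u 1 * e2 - u 2 * e1
      exact (mul_eq_zero.1 this).resolve_left hne
    have g0 : g 0 = 0 := by
      rw [g1, g2] at e0
      simpa using e0
    intro i
    fin_cases i
    · exact g0
    · exact g1
    · exact g2
  have hliY : LinearIndependent K ![v', u', ![1, 0, 0]] := by
    rw [Fintype.linearIndependent_iff]
    intro g hg
    rw [Fin.sum_univ_three] at hg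
    have e0 : g 0 * v' 0 + g 1 * u' 0 + g 2 * 1 = 0 := congrFun hg 0
    have e1 : g 0 * v' 1 + g 1 * u' 1 + g 2 * 0 = 0 := congrFun hg 1
    have e2 : g 0 * v' 2 + g 1 * u' 2 + g 2 * 0 = 0 := congrFun hg 2
    have hne : u' 1 * v' 2 - v' 1 * u' 2 ≠ 0 := sub_ne_zero.2 h4'
    have g1 : g 1 = 0 := by
      have : (u' 1 * v' 2 - v' 1 * u' 2) * g 1 = 0 := by linear_combination v' 2 * e1 - v' 1 * e2
      exact (mul_eq_zero.1 this).resolve_left hne
    have g0 : g 0 = 0 := by
      have : (u' 1 * v' 2 - v' 1 * u' 2) * g 0 = 0 := by linear_combination u' 1 * e2 - u' 2 * e1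
      exact (mul_eq_zero.1 this).resolve_left hne
    have g2 : g 2 = 0 := by
      rw [g1, g0] at e0
      simpa using e0
    intro i
    fin_cases i
    · exact g0
    · exact g1
    · exact g2
  have hkerE : LinearMap.ker (b.equivFun.symm : (Fin 3 → K) →ₗ[K] V) = ⊥ := LinearEquiv.ker _
  have hX' := cls_full (Ω := Om3 K) Om3_inj hV (by norm_num) _ (hliX.map' _ hkerE) (Matrix.toLin b b X) (by
    intro j
    rw [Fin.sum_univ_three]
    fin_cases j
    · show Matrix.toLin b b X (b.equivFun.symm ![1, 0, 0]) = (0 : K) • b.equivFun.symm ![1, 0, 0] + (1 : K) • b.equivFun.symm u + (0 : K) • b.equivFun.symm v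
      rw [toLin_E, h1]
      simp
    · show Matrix.toLin b b X (b.equivFun.symm u) = (0 : K) • b.equivFun.symm ![1, 0, 0] + (0 : K) • b.equivFun.symm u + (1 : K) • b.equivFun.symm v
      rw [toLin_E, h2]
      simp
    · show Matrix.toLin b b X (b.equivFun.symm v) = (1 : K) • b.equivFun.symm ![1, 0, 0] + (1 : K) • b.equivFun.symm u + (0 : K) • b.equivFun.symm v
      rw [toLin_E, h3, map_add, one_smul, one_smul, zero_smul, add_zero])
  have hY' := cls_full (Ω := Om3' K) Om3'_inj hV (by norm_num) _ (hliY.map' _ hkerE) (Matrix.toLin b b Y) (by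
    intro j
    rw [Fin.sum_univ_three]
    fin_cases j
    · show Matrix.toLin b b Y (b.equivFun.symm v') = (-1 : K) • b.equivFun.symm v' + (0 : K) • b.equivFun.symm u' + (1 : K) • b.equivFun.symm ![1, 0, 0]
      rw [toLin_E, h3', map_sub, one_smul, neg_smul, one_smul, zero_smul, add_zero]
      abel
    · show Matrix.toLin b b Y (b.equivFun.symm u') = (1 : K) • b.equivFun.symm v' + (0 : K) • b.equivFun.symm u' + (0 : K) • b.equivFun.symm ![1, 0, 0]
      rw [toLin_E, h2']
      simp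
    · show Matrix.toLin b b Y (b.equivFun.symm ![1, 0, 0]) = (0 : K) • b.equivFun.symm v' + (1 : K) • b.equivFun.symm u' + (0 : K) • b.equivFun.symm ![1, 0, 0]
      rw [toLin_E, h1']
      simp)
  refine ⟨Matrix.toLin b b X, Matrix.toLin b b Y, ?_, hX'.1, hY'.1, hX'.2, hY'.2⟩
  intro x
  have h5 : Matrix.toLin b b (X * Y) = (Matrix.toLin b b X) ∘ₗ (Matrix.toLin b b Y) := Matrix.toLin_mul b b b X Y
  have h6 := LinearMap.congr_fun h5 x
  rw [LinearMap.comp_apply] at h6
  rw [← h6, hXY, Matrix.toLin_toMatrix]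

theorem good0_one (hV : finrank K V = 3) (S : V →ₗ[K] V) (hS : ∀ x, S x = x) : Good0 (Om3 K) (Om3' K) S := by
  let b : Basis (Fin 3) K V := (Module.finBasisOfFinrankEq K V hV)
  have key : ∀ (Ω : Matrix (Fin 3) (Fin 3) K) j, Matrix.toLin b b Ω (b j) = ∑ i, Ω i j • b i := fun Ω j => Matrix.toLin_self b b Ω j
  have hX' := cls_full (Ω := Om3 K) Om3_inj hV (by norm_num) _ b.linearIndependent (Matrix.toLin b b (Om3 K)) (key _)
  have hY' := cls_full (Ω := Om3' K) Om3'_inj hV (by norm_num) _ b.linearIndependent (Matrix.toLin b b (Om3' K)) (key _)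
  refine ⟨Matrix.toLin b b (Om3 K), Matrix.toLin b b (Om3' K), ?_, hX'.1, hY'.1, hX'.2, hY'.2⟩
  intro x
  have h5 : Matrix.toLin b b (Om3 K * Om3' K) = (Matrix.toLin b b (Om3 K)) ∘ₗ (Matrix.toLin b b (Om3' K)) := Matrix.toLin_mul b b b _ _
  have h6 := LinearMap.congr_fun h5 x
  rw [LinearMap.comp_apply] at h6
  rw [← h6, Om3_mul', Matrix.toLin_one, hS]
  rfl

/-- the base case -/
theorem base3 (p : ℕ) [CharP K p] (hp : 1 < p) (hall : ∀ x : K, ∃ n < p, x = (n : K)) {TX TY : ℕ} (h : full p TX TY)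
    (h3 : ∀ δ : K, δ * δ * δ = δ) (hV : finrank K V = 3) (S : V →ₗ[K] V) (hdet : LinearMap.det S = 1)
    (hr : finrank K (range (S - 1)) ≠ 1) : Good0 (Om3 K) (Om3' K) S := by
  by_cases hsc : ∀ v, ¬ LinearIndependent K ![v, S v]
  · obtain ⟨μ, hμ⟩ := LinearMap.exists_eq_smul_id_of_forall_notLinearIndependent hsc
    apply good0_one hV
    have h1 : μ = 1 := by
      have h2 : LinearMap.det (μ • (1 : V →ₗ[K] V)) = 1 := by rw [← hμ]; exact hdet
      have h4 : (1 : V →ₗ[K] V) = LinearMap.id := rfl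
      rw [LinearMap.det_smul, hV, h4, LinearMap.det_id, mul_one] at h2
      have h5 := h3 μ
      have h6 : μ * μ * μ = 1 := by linear_combination h2
      rw [← h5, h6]
    intro x
    rw [hμ, h1, one_smul]
    rfl
  · push Not at hsc
    obtain ⟨v, hv⟩ := hsc
    -- a third basis vector
    obtain ⟨x, hx⟩ : ∃ x, x ∉ Submodule.span K (Set.range ![v, S v]) := by
      by_contra hcon
      push Not at hcon
      have h1 : Submodule.span K (Set.range ![v, S v]) = ⊤ := Submodule.eq_top_iff'.2 hcon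
      have h2 := finrank_span_eq_card hv
      rw [h1, finrank_top, hV, Fintype.card_fin] at h2
      omega
    have hli : LinearIndependent K (Fin.snoc ![v, S v] x : Fin 3 → V) := by
      rw [linearIndependent_finSnoc]
      exact ⟨hv, hx⟩
    have hcard : Fintype.card (Fin 3) = finrank K V := by simp [hV]
    let b : Basis (Fin 3) K V := basisOfLinearIndependentOfCardEqFinrank hli hcard
    have hb : ∀ j, b j = (Fin.snoc ![v, S v] x : Fin 3 → V) j := by
      intro j
      rw [coe_basisOfLinearIndependentOfCardEqFinrank]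
    have hb0 : b 0 = v := hb 0
    have hb1 : b 1 = S v := hb 1
    set A := LinearMap.toMatrix b b S with hA
    have hA0 : ∀ i, A i 0 = (![0, 1, 0] : Fin 3 → K) i := by
      intro i
      rw [hA, LinearMap.toMatrix_apply, hb0, ← hb1, Basis.repr_self, Finsupp.single_apply]
      fin_cases i <;> simp
    have hAm : A = !![0, A 0 1, A 0 2; 1, A 1 1, A 1 2; 0, A 2 1, A 2 2] := by
      ext i j
      fin_cases i <;> fin_cases j
      · exact hA0 0
      · rfl
      · rfl
      · exact hA0 1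
      · rfl
      · rfl
      · exact hA0 2
      · rfl
      · rfl
    have hdA : A.det = 1 := by rw [hA, LinearMap.det_toMatrix, hdet]
    have hd : A 0 2 * A 2 1 - A 0 1 * A 2 2 = 1 := by
      rw [← hdA, Matrix.det_fin_three, hA0 0, hA0 1, hA0 2]
      simp
      ring
    have hnt : ¬ (A 1 1 + A 0 1 = 1 ∧ A 1 2 + A 0 2 = 0 ∧ A 2 1 = 0 ∧ A 2 2 = 1) := by
      rintro ⟨k1, k2, k3, k4⟩
      -- the range of `S - 1` is spanned by `S v - v`
      have hSb : ∀ j, S (b j) = ∑ i, A i j • b i := by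
        intro j
        rw [hA]
        conv_lhs => rw [← Matrix.toLin_toMatrix b b S, Matrix.toLin_self]
      have hN : ∀ j, ∃ t : K, (S - 1) (b j) = t • (S v - v) := by
        intro j
        fin_cases j
        · refine ⟨1, ?_⟩
          show (S - 1) (b 0) = _
          rw [LinearMap.sub_apply, hb0, one_smul]
          rfl
        · refine ⟨-(A 0 1), ?_⟩
          show (S - 1) (b 1) = _
          rw [LinearMap.sub_apply, hSb, Fin.sum_univ_three, k3, zero_smul, add_zero, Module.End.one_apply, hb0, hb1]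
          have : A 1 1 = 1 - A 0 1 := by linear_combination k1
          rw [this]
          module
        · refine ⟨-(A 0 2), ?_⟩
          show (S - 1) (b 2) = _
          rw [LinearMap.sub_apply, hSb, Fin.sum_univ_three, k4, one_smul, Module.End.one_apply, hb0, hb1]
          have : A 1 2 = - A 0 2 := by linear_combination k2
          rw [this]
          module
      have hle : range (S - 1) ≤ Submodule.span K {S v - v} := by
        rintro _ ⟨y, rfl⟩
        rw [← b.sum_repr y, map_sum]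
        refine Submodule.sum_mem _ fun j _ => ?_
        obtain ⟨t, ht⟩ := hN j
        rw [map_smul, ht]
        exact Submodule.smul_mem _ _ (Submodule.smul_mem _ _ (Submodule.mem_span_singleton_self _))
      have h4 := Submodule.finrank_mono hle
      have h5 : finrank K (Submodule.span K {S v - v}) ≤ 1 := (finrank_span_le_card (R := K) ({S v - v} : Set V)).trans (by simp)
      have h6 : finrank K (range (S - 1)) ≠ 0 := by
        intro h0
        have h7 : range (S - 1) = ⊥ := Submodule.finrank_eq_zero.1 h0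
        have h8 : (S - 1) v = 0 := by
          have : (S - 1) v ∈ range (S - 1) := ⟨v, rfl⟩
          rw [h7] at this
          exact this
        rw [LinearMap.sub_apply, Module.End.one_apply, sub_eq_zero] at h8
        have h9 := LinearIndependent.pair_iff.1 hv 1 (-1) (by rw [h8]; module)
        exact one_ne_zero h9.1
      omega
    obtain ⟨X, Y, hXY, hX, hY⟩ := cert p hp hall h (A 0 1) (A 0 2) (A 1 1) (A 1 2) (A 2 1) (A 2 2) hd hnt
    exact good0_of_mat hV b S X Y (by rw [hXY, ← hAm]) hX hY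

end space

end H45.OreE
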