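import Mathlib
import Cfsg.Agent.Lib.H45.OreE

/-!
The inductive step over the fields with two and three elements: preparation.
-/

set_option autoImplicit false
set_option linter.unusedVariables false
set_option linter.unusedSectionVars false

namespace H45.OreF

open Module LinearMap H45.OreA H45.OreB H45.OreC H45.OreD H45.OreE H47.TwoUnipA H47.TwoUnipB H47.TwoUnipD H47.TwoUnipE

variable {K : Type*} [Field K] {V : Type*} [AddCommGroup V] [Module K V] [FiniteDimensional K V]

theorem finrank_ker_ge (f : V →ₗ[K] K) : finrank K V ≤ finrank K (ker f) + 1 := by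
  have h1 := LinearMap.finrank_range_add_finrank_ker f
  have h2 : finrank K (range f) ≤ 1 := (Submodule.finrank_le _).trans (finrank_self K).le
  omega

theorem finrank_span_one (a : V) : finrank K (Submodule.span K {a}) ≤ 1 :=
  (finrank_span_le_card (R := K) ({a} : Set V)).trans (by simp)

theorem finrank_sup_span (W : Submodule K V) (a : V) : finrank K (W ⊔ Submodule.span K {a} : Submodule K V) ≤ finrank K W + 1 := by
  have h1 := Submodule.finrank_sup_add_finrank_inf_eq W (Submodule.span K {a})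
  have h2 := finrank_span_one (K := K) a
  omega

theorem ne_top_of_lt {W : Submodule K V} (h : finrank K W < finrank K V) : W ≠ ⊤ := by
  rintro rfl
  rw [finrank_top] at h
  exact lt_irrefl _ h

/-- avoiding two proper subspaces and one of codimension two -/
theorem avoid (W1 W2 U : Submodule K V) (h1 : W1 ≠ ⊤) (h2 : W2 ≠ ⊤) (hU : finrank K U + 2 ≤ finrank K V) :
    ∃ v, v ∉ W1 ∧ v ∉ W2 ∧ v ∉ U := by
  obtain ⟨a, ha⟩ : ∃ a, a ∉ W1 := by
    by_contra hcon; push Not at hcon; exact h1 (Submodule.eq_top_iff'.2 hcon)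
  obtain ⟨b, hb⟩ : ∃ b, b ∉ W2 := by
    by_contra hcon; push Not at hcon; exact h2 (Submodule.eq_top_iff'.2 hcon)
  obtain ⟨f, hf, hf'⟩ := Submodule.exists_le_ker_of_notMem ha
  obtain ⟨g, hg, hg'⟩ := Submodule.exists_le_ker_of_notMem hb
  have hkf : ker f ≠ ⊤ := by
    intro h
    apply hf
    have : a ∈ ker f := by rw [h]; trivial
    exact this
  have hkg : ker g ≠ ⊤ := by
    intro h
    apply hg
    have : b ∈ ker g := by rw [h]; trivial
    exact this
  obtain ⟨x, hx1, hx2⟩ := avoid_two (ker f) (ker g) hkf hkg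
  by_cases hxU : x ∈ U
  · have h3 : ∃ y, y ∈ ker f ⊓ ker g ∧ y ∉ U := by
      by_contra hcon
      push Not at hcon
      have h4 : ker f ⊓ ker g ≤ U := fun y hy => hcon y hy
      have h5 := Submodule.finrank_sup_add_finrank_inf_eq (ker f) (ker g)
      have h6 := finrank_ker_ge f
      have h7 := finrank_ker_ge g
      have h8 := Submodule.finrank_le (ker f ⊔ ker g)
      have h9 : ker f ⊓ ker g = U := Submodule.eq_of_le_of_finrank_le h4 (by omega)
      rw [← h9] at hxU
      exact hx1 hxU.1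
    obtain ⟨y, hy, hyU⟩ := h3
    refine ⟨x + y, fun h => hx1 ?_, fun h => hx2 ?_, fun h => hyU ?_⟩
    · exact (Submodule.add_mem_iff_left _ hy.1).1 (hf' h)
    · exact (Submodule.add_mem_iff_left _ hy.2).1 (hg' h)
    · exact (Submodule.add_mem_iff_right _ hxU).1 h
  · exact ⟨x, fun h => hx1 (hf' h), fun h => hx2 (hg' h), hxU⟩

/-- modifying a functional outside a subspace -/
theorem fix_phi (φ0 : V →ₗ[K] K) (T R : Submodule K V) (h : ¬ R ≤ T ⊓ ker φ0) :
    ∃ φ : V →ₗ[K] K, (∀ t ∈ T, φ t = φ0 t) ∧ ∃ ρ ∈ R, φ ρ ≠ 0 := by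
  obtain ⟨ρ, hρ, hρ2⟩ := SetLike.not_le_iff_exists.1 h
  by_cases h1 : φ0 ρ = 0
  · have h2 : ρ ∉ T := fun h3 => hρ2 ⟨h3, h1⟩
    obtain ⟨ψ, hψ, hψ'⟩ := Submodule.exists_le_ker_of_notMem h2
    refine ⟨φ0 + ψ, fun t ht => ?_, ρ, hρ, ?_⟩
    · have : ψ t = 0 := hψ' ht
      rw [LinearMap.add_apply, this, add_zero]
    · rw [LinearMap.add_apply, h1, zero_add]
      exact hψ
  · exact ⟨φ0, fun _ _ => rfl, ρ, hρ, h1⟩

theorem finrank_inf_ker {T : Submodule K V} {φ : V →ₗ[K] K} {v : V} (hv : v ∈ T) (hφ : φ v ≠ 0) :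
    finrank K (T ⊓ ker φ : Submodule K V) + 1 ≤ finrank K T := by
  have : T ⊓ ker φ < T := by
    refine lt_of_le_of_ne inf_le_left fun h => hφ ?_
    have : v ∈ T ⊓ ker φ := by rw [h]; exact hv
    exact this.2
  exact Submodule.finrank_lt_finrank_of_lt this

/-- the span of three vectors -/
def T3 (K : Type*) [Field K] {V : Type*} [AddCommGroup V] [Module K V] (a b c : V) : Submodule K V :=
  Submodule.span K {a} ⊔ Submodule.span K {b} ⊔ Submodule.span K {c}

theorem mem_T3 (a b c : V) : a ∈ T3 K a b c ∧ b ∈ T3 K a b c ∧ c ∈ T3 K a b c := by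
  refine ⟨?_, ?_, ?_⟩
  · exact Submodule.mem_sup_left (Submodule.mem_sup_left (Submodule.mem_span_singleton_self a))
  · exact Submodule.mem_sup_left (Submodule.mem_sup_right (Submodule.mem_span_singleton_self b))
  · exact Submodule.mem_sup_right (Submodule.mem_span_singleton_self c)

theorem finrank_T3 (a b c : V) : finrank K (T3 K a b c) ≤ 3 := by
  unfold T3
  have h1 := finrank_sup_span (K := K) (Submodule.span K {a} ⊔ Submodule.span K {b}) c
  have h2 := finrank_sup_span (K := K) (Submodule.span K {a}) b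
  have h3 := finrank_span_one (K := K) a
  omega

section rank

variable (S : V →ₗ[K] V) (v : V) (φ : V →ₗ[K] K) (hφv : φ v = 1) (hφN : φ ((S - 1) v) = 0)

theorem sN (x : V) : S x = x + (S - 1) x := by
  rw [LinearMap.sub_apply, Module.End.one_apply]; abel

include hφv hφN in
theorem phiS : φ (S v) = 1 := by
  rw [sN S v, map_add, hφv, hφN, add_zero]

theorem hsch (hS : φ (S v) = 1) (w : ker φ) :
    (((schur S v φ hS - 1) w : ker φ) : V) = (S - 1) w - φ ((S - 1) w) • S v := by
  have hw : φ (w : V) = 0 := mem_ker.1 w.2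
  rw [LinearMap.sub_apply, Module.End.one_apply, Submodule.coe_sub, schur_apply]
  have h1 : φ (S (w : V)) = φ ((S - 1) (w : V)) := by
    rw [sN S (w : V), map_add, hw, zero_add]
  rw [h1]
  rw [LinearMap.sub_apply, Module.End.one_apply]
  abel

include hφv in
theorem finrank_ker_phi : finrank K (ker φ) + 1 = finrank K V := by
  have h1 := LinearMap.finrank_range_add_finrank_ker φ
  have h2 : range φ = ⊤ := by
    rw [LinearMap.range_eq_top]
    intro a
    exact ⟨a • v, by rw [map_smul, hφv, smul_eq_mul, mul_one]⟩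
  rw [h2, finrank_top, finrank_self] at h1
  omega

include hφv in
theorem rank_two (hS : φ (S v) = 1) : finrank K (range (S - 1)) ≤ finrank K (range (schur S v φ hS - 1)) + 2 := by
  have hle : range (S - 1) ≤ ((range (schur S v φ hS - 1)).map (ker φ).subtype ⊔ Submodule.span K {(S - 1) v}) ⊔ Submodule.span K {S v} := by
    rintro _ ⟨x, rfl⟩
    rw [decomp v φ hφv x, map_add, map_smul]
    set w := proj v φ hφv x
    have h1 := hsch S v φ hS w
    have h2 : (S - 1) (w : V) = (((schur S v φ hS - 1) w : ker φ) : V) + φ ((S - 1) (w : V)) • S v := by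
      rw [h1]; abel
    rw [h2]
    refine Submodule.add_mem _ ?_ (Submodule.add_mem _ ?_ ?_)
    · exact Submodule.mem_sup_left (Submodule.mem_sup_right (Submodule.smul_mem _ _ (Submodule.mem_span_singleton_self _)))
    · exact Submodule.mem_sup_left (Submodule.mem_sup_left ⟨_, ⟨w, rfl⟩, rfl⟩)
    · exact Submodule.mem_sup_right (Submodule.smul_mem _ _ (Submodule.mem_span_singleton_self _))
  have h1 := Submodule.finrank_mono hle
  have h2 := finrank_sup_span (K := K) ((range (schur S v φ hS - 1)).map (ker φ).subtype ⊔ Submodule.span K {(S - 1) v}) (S v)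
  have h3 := finrank_sup_span (K := K) ((range (schur S v φ hS - 1)).map (ker φ).subtype) ((S - 1) v)
  have h4 := Submodule.finrank_map_le (ker φ).subtype (range (schur S v φ hS - 1))
  omega

theorem ker_le (hS : φ (S v) = 1) (hM : v ∉ range (S - 1)) :
    (ker (schur S v φ hS - 1)).map (ker φ).subtype ≤ ker (S - 1) ⊓ ker φ := by
  rintro _ ⟨w, hw, rfl⟩
  refine ⟨?_, w.2⟩
  have h1 := hsch S v φ hS w
  rw [show (schur S v φ hS - 1) w = 0 from hw] at h1
  have h2 : (S - 1) (w : V) = φ ((S - 1) (w : V)) • S v := by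
    rw [Submodule.coe_zero] at h1
    exact (sub_eq_zero.1 h1.symm)
  show (S - 1) (w : V) = 0
  by_cases h3 : φ ((S - 1) (w : V)) = 0
  · rw [h2, h3, zero_smul]
  · exfalso
    apply hM
    refine ⟨(φ ((S - 1) (w : V)))⁻¹ • (w : V) - v, ?_⟩
    rw [map_sub, map_smul, h2, smul_smul]
    have h4 : φ (φ ((S - 1) (w : V)) • S v) = φ ((S - 1) (w : V)) := by
      rw [map_smul, hS, smul_eq_mul, mul_one]
    rw [h4, inv_mul_cancel₀ h3, one_smul, LinearMap.sub_apply, Module.End.one_apply]
    abel

include hφv in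
theorem rank_one (hS : φ (S v) = 1) (hM : v ∉ range (S - 1)) :
    finrank K (range (S - 1)) ≤ finrank K (range (schur S v φ hS - 1)) + 1 := by
  have h1 := LinearMap.finrank_range_add_finrank_ker (S - 1)
  have h2 := LinearMap.finrank_range_add_finrank_ker (schur S v φ hS - 1)
  have h3 := Submodule.finrank_mono ((ker_le S v φ hS hM).trans inf_le_left)
  rw [Submodule.finrank_map_subtype_eq] at h3
  have h4 := finrank_ker_phi (V := V) v φ hφv
  omega

include hφv in
theorem rank_zero (hS : φ (S v) = 1) (hM : v ∉ range (S - 1)) {κ : V} (hκ : κ ∈ ker (S - 1)) (hφκ : φ κ ≠ 0) :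
    finrank K (range (S - 1)) ≤ finrank K (range (schur S v φ hS - 1)) := by
  have h1 := LinearMap.finrank_range_add_finrank_ker (S - 1)
  have h2 := LinearMap.finrank_range_add_finrank_ker (schur S v φ hS - 1)
  have h3 := Submodule.finrank_mono (ker_le S v φ hS hM)
  rw [Submodule.finrank_map_subtype_eq] at h3
  have h4 := finrank_ker_phi (V := V) v φ hφv
  have h5 := finrank_inf_ker hκ hφκ
  omega

theorem rank_upper (hS : φ (S v) = 1) : finrank K (range (schur S v φ hS - 1)) ≤ finrank K (range (S - 1)) := by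
  have h1 : (range (schur S v φ hS - 1)).map (ker φ).subtype ≤ (range (S - 1)).map (LinearMap.id - φ.smulRight (S v)) := by
    rintro _ ⟨_, ⟨w, rfl⟩, rfl⟩
    refine ⟨(S - 1) (w : V), ⟨w, rfl⟩, ?_⟩
    rw [LinearMap.sub_apply, LinearMap.id_apply, LinearMap.smulRight_apply]
    exact (hsch S v φ hS w).symm
  have h2 := Submodule.finrank_mono h1
  rw [Submodule.finrank_map_subtype_eq] at h2
  exact h2.trans (Submodule.finrank_map_le _ _)

end rank

end H45.OreF
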