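import Mathlib
import Cfsg.Agent.Lib.H45.OreF

/-!
The inductive step over the fields with two and three elements: the choice of the vector and the functional.
-/

set_option autoImplicit false
set_option linter.unusedVariables false
set_option linter.unusedSectionVars false

namespace H45.OreG

open Module LinearMap H45.OreA H45.OreB H45.OreC H45.OreD H45.OreE H45.OreF H47.TwoUnipA H47.TwoUnipB H47.TwoUnipD H47.TwoUnipE

variable {K : Type*} [Field K] {V : Type*} [AddCommGroup V] [Module K V] [FiniteDimensional K V]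

section neg

variable (S : V →ₗ[K] V) (v : V) (φ : V →ₗ[K] K) (hφv : φ v = 1)

include hφv in
theorem neg1 (hS : φ (S v) = 1) (hNv : (S - 1) v ≠ 0) {κ : V} (hκ : S κ = -κ) (hφκ : φ κ ≠ 0) :
    ∃ x, schur S v φ hS x ≠ -x := by
  by_contra hcon
  push Not at hcon
  have hw : κ - φ κ • v ∈ ker φ := by rw [mem_ker, map_sub, map_smul, hφv]; simp
  have h1 := congrArg Subtype.val (hcon ⟨κ - φ κ • v, hw⟩)
  rw [schur_apply] at h1
  have h2 : S (κ - φ κ • v) - φ (S (κ - φ κ • v)) • S v = -(κ - φ κ • v) := h1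
  have h3 : S (κ - φ κ • v) = -κ - φ κ • S v := by rw [map_sub, map_smul, hκ]
  have h4 : φ (S (κ - φ κ • v)) = -φ κ - φ κ := by rw [h3, map_sub, map_smul, map_neg, hS, smul_eq_mul, mul_one]
  rw [h4, h3] at h2
  have h5 : φ κ • (S v - v) = 0 := by
    have h6 : φ κ • (S v - v) = (-κ - φ κ • S v - (-φ κ - φ κ) • S v) - (-(κ - φ κ • v)) := by module
    rw [h6, h2, sub_self]
  rcases smul_eq_zero.1 h5 with h | h
  · exact hφκ h
  · apply hNv
    rw [LinearMap.sub_apply, Module.End.one_apply]
    exact h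

include hφv in
theorem neg2 (hS : φ (S v) = 1) (h : finrank K (ker (S + 1)) + 2 < finrank K V) :
    ∃ x, schur S v φ hS x ≠ -x := by
  by_contra hcon
  push Not at hcon
  have hle : range (S + 1) ≤ Submodule.span K {(S + 1) v} ⊔ Submodule.span K {S v} := by
    rintro _ ⟨x, rfl⟩
    rw [decomp v φ hφv x, map_add, map_smul]
    set w := proj v φ hφv x
    have h1 := congrArg Subtype.val (hcon w)
    rw [schur_apply] at h1
    have h2 : S (w : V) - φ (S (w : V)) • S v = -(w : V) := h1
    have h3 : (S + 1) (w : V) = φ (S (w : V)) • S v := by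
      rw [LinearMap.add_apply, Module.End.one_apply]
      have : (w : V) = -(S (w : V) - φ (S (w : V)) • S v) := by rw [h2, neg_neg]
      conv_lhs => rw [add_comm]; arg 1; rw [this]
      abel
    rw [h3]
    exact Submodule.add_mem _ (Submodule.mem_sup_left (Submodule.smul_mem _ _ (Submodule.mem_span_singleton_self _)))
      (Submodule.mem_sup_right (Submodule.smul_mem _ _ (Submodule.mem_span_singleton_self _)))
  have h1 := Submodule.finrank_mono hle
  have h2 := finrank_sup_span (K := K) (Submodule.span K {(S + 1) v}) (S v)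
  have h3 := finrank_span_one (K := K) ((S + 1) v)
  have h4 := LinearMap.finrank_range_add_finrank_ker (S + 1)
  omega

include hφv in
theorem neg3 (hS : φ (S v) = 1) (h2 : 2 ≤ finrank K (range (schur S v φ hS - 1)))
    (h3 : finrank K (range (schur S v φ hS - 1)) + 1 < finrank K V) : ∃ x, schur S v φ hS x ≠ -x := by
  by_contra hcon
  push Not at hcon
  have h4 : schur S v φ hS - 1 = (-2 : K) • (1 : ker φ →ₗ[K] ker φ) := by
    apply LinearMap.ext
    intro x
    rw [LinearMap.sub_apply, hcon, LinearMap.smul_apply, Module.End.one_apply]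
    module
  by_cases h5 : (2 : K) = 0
  · rw [h4, h5, neg_zero, zero_smul, LinearMap.range_zero, finrank_bot] at h2
    omega
  · have h6 : range (schur S v φ hS - 1) = ⊤ := by
      rw [LinearMap.range_eq_top, h4]
      intro y
      refine ⟨(-2 : K)⁻¹ • y, ?_⟩
      rw [LinearMap.smul_apply, Module.End.one_apply, smul_smul, mul_inv_cancel₀ (neg_ne_zero.2 h5), one_smul]
    have h7 := finrank_ker_phi (V := V) v φ hφv
    rw [h6, finrank_top] at h3
    omega

end neg

/-- the required properties -/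
def Ch (S : V →ₗ[K] V) (c : V) (r : V →ₗ[K] K) : Prop :=
  ∃ (v : V) (φ : V →ₗ[K] K) (hv : φ v = 1) (hS : φ (S v) = 1), r v ≠ 0 ∧ φ c ≠ 0 ∧
    (finrank K V = 4 → finrank K (range (schur S v φ hS - 1)) ≠ 1) ∧
    (5 ≤ finrank K V → (S - 1) v ≠ 0 ∧ (∃ w, φ ((S - 1) w) ≠ 0) ∧ 2 ≤ finrank K (range (schur S v φ hS - 1)) ∧
      ∃ x, schur S v φ hS x ≠ -x)

theorem comap_span (N : V →ₗ[K] V) (c : V) :
    finrank K ((Submodule.span K {c}).comap N) ≤ finrank K (ker N) + 1 := by
  have h1 := LinearMap.finrank_range_add_finrank_ker (N.domRestrict ((Submodule.span K {c}).comap N))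
  have h2 : range (N.domRestrict ((Submodule.span K {c}).comap N)) ≤ Submodule.span K {c} := by
    rintro _ ⟨x, rfl⟩
    exact x.2
  have h3 := (Submodule.finrank_mono h2).trans (finrank_span_one (K := K) c)
  have h4 : finrank K (ker (N.domRestrict ((Submodule.span K {c}).comap N))) ≤ finrank K (ker N) := by
    rw [← Submodule.finrank_map_subtype_eq]
    apply Submodule.finrank_mono
    rintro _ ⟨x, hx, rfl⟩
    exact hx
  omega

variable (h01 : ∀ x : K, x = 0 ∨ x = 1 ∨ x = -1)

theorem hcv_of {S : V →ₗ[K] V} {c v : V} (hc : c ≠ 0) (hW : v ∉ (Submodule.span K {c}).comap (S - 1)) :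
    ∀ a : K, c ≠ a • (S - 1) v := by
  intro a ha
  have ha0 : a ≠ 0 := by
    rintro rfl
    exact hc (by rw [ha, zero_smul])
  apply hW
  rw [Submodule.mem_comap, Submodule.mem_span_singleton]
  exact ⟨a⁻¹, by rw [ha, smul_smul, inv_mul_cancel₀ ha0, one_smul]⟩

theorem Nv_ne {S : V →ₗ[K] V} {c v : V} (hW : v ∉ (Submodule.span K {c}).comap (S - 1)) : (S - 1) v ≠ 0 := by
  intro h
  apply hW
  rw [Submodule.mem_comap, h]
  exact Submodule.zero_mem _

/-- not an eigenvector, version with the range -/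
theorem nonev_range {S : V →ₗ[K] V} {c v : V} (hW : v ∉ (Submodule.span K {c}).comap (S - 1)) (hM : v ∉ range (S - 1)) :
    ∀ μ : K, (S - 1) v ≠ μ • v := by
  intro μ hμ
  have h0 : μ ≠ 0 := by
    rintro rfl
    exact Nv_ne hW (by rw [hμ, zero_smul])
  apply hM
  exact ⟨μ⁻¹ • v, by rw [map_smul, hμ, smul_smul, inv_mul_cancel₀ h0, one_smul]⟩

include h01 in
/-- rank at least four -/
theorem chA (S : V →ₗ[K] V) (hinj : ∀ x, S x = 0 → x = 0) (hneg : ∃ x, S x ≠ -x) (hV : 4 ≤ finrank K V)
    (hk : 4 ≤ finrank K (range (S - 1))) (c : V) (hc : c ≠ 0) (r : V →ₗ[K] K) (hr0 : r ≠ 0) : Ch S c r := by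
  have hW1 : ker r ≠ ⊤ := by rwa [Ne, ker_eq_top]
  have hW2 : ker (S + 1) ≠ ⊤ := by
    intro h
    obtain ⟨x, hx⟩ := hneg
    apply hx
    have : x ∈ ker (S + 1) := by rw [h]; trivial
    rw [mem_ker, LinearMap.add_apply, Module.End.one_apply] at this
    exact eq_neg_of_add_eq_zero_left this
  have hrn := LinearMap.finrank_range_add_finrank_ker (S - 1)
  have hcs := comap_span (S - 1) c
  obtain ⟨v, hv1, hv2, hv3⟩ := avoid (ker r) (ker (S + 1)) ((Submodule.span K {c}).comap (S - 1)) hW1 hW2 (by omega)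
  have hnev : ∀ μ : K, (S - 1) v ≠ μ • v := by
    intro μ hμ
    have hS : S v = (μ + 1) • v := by rw [sN S v, hμ, add_smul, one_smul, add_comm]
    rcases h01 (μ + 1) with h | h | h
    · rw [h, zero_smul] at hS
      apply hv3
      rw [hinj v hS]
      exact Submodule.zero_mem _
    · have : μ = 0 := by linear_combination h
      rw [this, zero_smul] at hμ
      exact Nv_ne hv3 hμ
    · apply hv2
      rw [mem_ker, LinearMap.add_apply, Module.End.one_apply, hS, h]
      module
  obtain ⟨φ0, h0v, h0N, h0c⟩ := exists_phi v ((S - 1) v) c (hind_of hnev) (hcv_of hc hv3)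
  by_cases hm : finrank K V = 4
  · have hS := phiS S v φ0 h0v h0N
    refine ⟨v, φ0, h0v, hS, hv1, h0c, fun _ => ?_, fun h => by omega⟩
    have := rank_two S v φ0 h0v hS
    omega
  · obtain ⟨hT1, hT2, hT3⟩ := mem_T3 (K := K) v ((S - 1) v) c
    have hTf := finrank_T3 (K := K) v ((S - 1) v) c
    have hTk := finrank_inf_ker hT1 (by rw [h0v]; exact one_ne_zero)
    by_cases hm1 : finrank K V ≤ finrank K (ker (S + 1)) + 2
    · obtain ⟨φ, hφT, κ, hκ, hφκ⟩ := fix_phi φ0 (T3 K v ((S - 1) v) c) (ker (S + 1)) (by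
        intro hle
        have := Submodule.finrank_mono hle
        omega)
      have hφv : φ v = 1 := by rw [hφT v hT1, h0v]
      have hS := phiS S v φ hφv (by rw [hφT _ hT2, h0N])
      have hκ' : S κ = -κ := by
        rw [mem_ker, LinearMap.add_apply, Module.End.one_apply] at hκ
        exact eq_neg_of_add_eq_zero_left hκ
      refine ⟨v, φ, hφv, hS, hv1, by rw [hφT _ hT3]; exact h0c, fun h => by omega, fun _ => ⟨Nv_ne hv3, ?_, ?_, ?_⟩⟩
      · refine ⟨κ, ?_⟩
        have hNκ : (S - 1) κ = (-2 : K) • κ := by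
          rw [LinearMap.sub_apply, hκ', Module.End.one_apply]; module
        rw [hNκ, map_smul, smul_eq_mul]
        refine mul_ne_zero (neg_ne_zero.2 fun h2 => ?_) hφκ
        -- characteristic two
        have : ker (S + 1) = ker (S - 1) := by
          ext x
          rw [mem_ker, mem_ker, LinearMap.add_apply, LinearMap.sub_apply, Module.End.one_apply]
          have : S x - x = S x + x := by
            have h3 : S x + x = (S x - x) + (2 : K) • x := by module
            rw [h3, h2, zero_smul, add_zero]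
          rw [this]
        rw [this] at hm1
        omega
      · have := rank_two S v φ hφv hS
        omega
      · exact neg1 S v φ hφv hS (Nv_ne hv3) hκ' hφκ
    · obtain ⟨φ, hφT, ρ, ⟨w, rfl⟩, hφρ⟩ := fix_phi φ0 (T3 K v ((S - 1) v) c) (range (S - 1)) (by
        intro hle
        have := Submodule.finrank_mono hle
        omega)
      have hφv : φ v = 1 := by rw [hφT v hT1, h0v]
      have hS := phiS S v φ hφv (by rw [hφT _ hT2, h0N])
      refine ⟨v, φ, hφv, hS, hv1, by rw [hφT _ hT3]; exact h0c, fun h => by omega, fun _ => ⟨Nv_ne hv3, ⟨w, hφρ⟩, ?_, ?_⟩⟩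
      · have := rank_two S v φ hφv hS
        omega
      · exact neg2 S v φ hφv hS (by omega)

/-- rank three -/
theorem chB (S : V →ₗ[K] V) (hV : 4 ≤ finrank K V)
    (hk : finrank K (range (S - 1)) = 3) (c : V) (hc : c ≠ 0) (r : V →ₗ[K] K) (hr0 : r ≠ 0) : Ch S c r := by
  have hW1 : ker r ≠ ⊤ := by rwa [Ne, ker_eq_top]
  have hW2 : range (S - 1) ≠ ⊤ := ne_top_of_lt (by omega)
  have hrn := LinearMap.finrank_range_add_finrank_ker (S - 1)
  have hcs := comap_span (S - 1) c
  obtain ⟨v, hv1, hv2, hv3⟩ := avoid (ker r) (range (S - 1)) ((Submodule.span K {c}).comap (S - 1)) hW1 hW2 (by omega)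
  have hnev := nonev_range hv3 hv2
  obtain ⟨φ0, h0v, h0N, h0c⟩ := exists_phi v ((S - 1) v) c (hind_of hnev) (hcv_of hc hv3)
  by_cases hm : finrank K V = 4
  · have hS := phiS S v φ0 h0v h0N
    refine ⟨v, φ0, h0v, hS, hv1, h0c, fun _ => ?_, fun h => by omega⟩
    have := rank_one S v φ0 h0v hS hv2
    omega
  · obtain ⟨hT1, hT2, hT3⟩ := mem_T3 (K := K) v ((S - 1) v) c
    have hTf := finrank_T3 (K := K) v ((S - 1) v) c
    have hTk := finrank_inf_ker hT1 (by rw [h0v]; exact one_ne_zero)
    obtain ⟨φ, hφT, ρ, ⟨w, rfl⟩, hφρ⟩ := fix_phi φ0 (T3 K v ((S - 1) v) c) (range (S - 1)) (by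
      intro hle
      have := Submodule.finrank_mono hle
      omega)
    have hφv : φ v = 1 := by rw [hφT v hT1, h0v]
    have hS := phiS S v φ hφv (by rw [hφT _ hT2, h0N])
    have hr1 := rank_one S v φ hφv hS hv2
    have hr2 := rank_upper S v φ hS
    refine ⟨v, φ, hφv, hS, hv1, by rw [hφT _ hT3]; exact h0c, fun h => by omega, fun _ => ⟨Nv_ne hv3, ⟨w, hφρ⟩, by omega, ?_⟩⟩
    exact neg3 S v φ hφv hS (by omega) (by omega)

end H45.OreG
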