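import Mathlib
import Cfsg.Agent.Lib.H45.OreG

/-!
The inductive step over the fields with two and three elements: rank two and the induction.
-/

set_option autoImplicit false
set_option linter.unusedVariables false
set_option linter.unusedSectionVars false

namespace H45.OreH

open Module LinearMap H45.OreA H45.OreB H45.OreC H45.OreD H45.OreE H45.OreF H45.OreG H47.TwoUnipA H47.TwoUnipB H47.TwoUnipD H47.TwoUnipE

variable {K : Type*} [Field K] {V : Type*} [AddCommGroup V] [Module K V] [FiniteDimensional K V]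

theorem notle {T R : Submodule K V} {φ0 : V →ₗ[K] K} {v c : V} (hvT : v ∈ T) (hcT : c ∈ T) (h0v : φ0 v = 1) (h0c : φ0 c ≠ 0)
    (hfin : finrank K T ≤ finrank K R + 1) (hvR : v ∉ R ⊔ Submodule.span K {c}) : ¬ R ≤ T ⊓ ker φ0 := by
  intro hle
  have h1 := finrank_inf_ker hvT (φ := φ0) (by rw [h0v]; exact one_ne_zero)
  have h2 : R = T ⊓ ker φ0 := Submodule.eq_of_le_of_finrank_le hle (by omega)
  have h3 : v - (φ0 c)⁻¹ • c ∈ R := by
    rw [h2]
    refine ⟨T.sub_mem hvT (T.smul_mem _ hcT), ?_⟩
    show φ0 (v - (φ0 c)⁻¹ • c) = 0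
    rw [map_sub, map_smul, h0v, smul_eq_mul, inv_mul_cancel₀ h0c, sub_self]
  apply hvR
  have h4 : v = (v - (φ0 c)⁻¹ • c) + (φ0 c)⁻¹ • c := by abel
  rw [h4]
  exact Submodule.add_mem _ (Submodule.mem_sup_left h3)
    (Submodule.mem_sup_right (Submodule.smul_mem _ _ (Submodule.mem_span_singleton_self _)))

/-- rank two, `c` outside the range -/
theorem chCa (S : V →ₗ[K] V) (hV : 4 ≤ finrank K V)
    (hk : finrank K (range (S - 1)) = 2) (c : V) (hc : c ≠ 0) (hcr : c ∉ range (S - 1)) (r : V →ₗ[K] K) (hr0 : r ≠ 0) :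
    Ch S c r := by
  have hrn := LinearMap.finrank_range_add_finrank_ker (S - 1)
  have hW1 : ker r ≠ ⊤ := by rwa [Ne, ker_eq_top]
  have hW2 : ker (S - 1) ⊔ Submodule.span K {c} ≠ ⊤ := by
    apply H45.OreF.ne_top_of_lt
    have := finrank_sup_span (K := K) (ker (S - 1)) c
    omega
  have hWof : ∀ v, v ∉ ker (S - 1) ⊔ Submodule.span K {c} → v ∉ (Submodule.span K {c}).comap (S - 1) := by
    intro v hv h
    rw [Submodule.mem_comap, Submodule.mem_span_singleton] at h
    obtain ⟨a, ha⟩ := h
    by_cases ha0 : a = 0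
    · apply hv
      apply Submodule.mem_sup_left
      rw [mem_ker, ← ha, ha0, zero_smul]
    · apply hcr
      exact ⟨a⁻¹ • v, by rw [map_smul, ← ha, smul_smul, inv_mul_cancel₀ ha0, one_smul]⟩
  by_cases hm : finrank K V = 4
  · obtain ⟨v, hv1, hv2, hv3⟩ := avoid (ker r) (ker (S - 1) ⊔ Submodule.span K {c}) (range (S - 1)) hW1 hW2 (by omega)
    have hW := hWof v hv2
    have hnev := nonev_range hW hv3
    obtain ⟨φ0, h0v, h0N, h0c⟩ := exists_phi v ((S - 1) v) c (hind_of hnev) (hcv_of hc hW)
    obtain ⟨hT1, hT2, hT3⟩ := mem_T3 (K := K) v ((S - 1) v) c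
    have hTf := finrank_T3 (K := K) v ((S - 1) v) c
    obtain ⟨φ, hφT, κ, hκ, hφκ⟩ := fix_phi φ0 (T3 K v ((S - 1) v) c) (ker (S - 1))
      (notle hT1 hT3 h0v h0c (by omega) hv2)
    have hφv : φ v = 1 := by rw [hφT v hT1, h0v]
    have hS := phiS S v φ hφv (by rw [hφT _ hT2, h0N])
    refine ⟨v, φ, hφv, hS, hv1, by rw [hφT _ hT3]; exact h0c, fun _ => ?_, fun h => by omega⟩
    have := rank_zero S v φ hφv hS hv3 hκ hφκ
    omega
  · have hfs := finrank_sup_span (K := K) (range (S - 1)) c
    obtain ⟨v, hv1, hv2, hv3⟩ := avoid (ker r) (ker (S - 1) ⊔ Submodule.span K {c}) (range (S - 1) ⊔ Submodule.span K {c}) hW1 hW2 (by omega)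
    have hvM : v ∉ range (S - 1) := fun h => hv3 (Submodule.mem_sup_left h)
    have hW := hWof v hv2
    have hnev := nonev_range hW hvM
    obtain ⟨φ0, h0v, h0N, h0c⟩ := exists_phi v ((S - 1) v) c (hind_of hnev) (hcv_of hc hW)
    obtain ⟨hT1, hT2, hT3⟩ := mem_T3 (K := K) v ((S - 1) v) c
    have hTf := finrank_T3 (K := K) v ((S - 1) v) c
    obtain ⟨φ1, hφT, ρ, ⟨w0, rfl⟩, hφρ⟩ := fix_phi φ0 (T3 K v ((S - 1) v) c) (range (S - 1))
      (notle hT1 hT3 h0v h0c (by omega) hv3)
    have h1v : φ1 v = 1 := by rw [hφT v hT1, h0v]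
    have h1c : φ1 c ≠ 0 := by rw [hφT c hT3]; exact h0c
    have hT2f := finrank_sup_span (K := K) (T3 K v ((S - 1) v) c) ((S - 1) w0)
    obtain ⟨φ, hφT', κ, hκ, hφκ⟩ := fix_phi φ1 (T3 K v ((S - 1) v) c ⊔ Submodule.span K {(S - 1) w0}) (ker (S - 1))
      (notle (Submodule.mem_sup_left hT1) (Submodule.mem_sup_left hT3) h1v h1c (by omega) hv2)
    have hφv : φ v = 1 := by rw [hφT' v (Submodule.mem_sup_left hT1), h1v]
    have hS := phiS S v φ hφv (by rw [hφT' _ (Submodule.mem_sup_left hT2), hφT _ hT2, h0N])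
    have hr1 := rank_zero S v φ hφv hS hvM hκ hφκ
    have hr2 := rank_upper S v φ hS
    refine ⟨v, φ, hφv, hS, hv1, by rw [hφT' _ (Submodule.mem_sup_left hT3)]; exact h1c, fun h => by omega,
      fun _ => ⟨Nv_ne hW, ⟨w0, ?_⟩, by omega, neg3 S v φ hφv hS (by omega) (by omega)⟩⟩
    rw [hφT' _ (Submodule.mem_sup_right (Submodule.mem_span_singleton_self _))]
    exact hφρ

/-- rank two, `c` in the range, dimension at least five -/
theorem chCb (S : V →ₗ[K] V) (hV : 5 ≤ finrank K V)
    (hk : finrank K (range (S - 1)) = 2) (c : V) (hc : c ≠ 0) (hcr : c ∈ range (S - 1)) (r : V →ₗ[K] K) (hr0 : r ≠ 0) :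
    Ch S c r := by
  obtain ⟨u, hu⟩ := hcr
  have hrn := LinearMap.finrank_range_add_finrank_ker (S - 1)
  have hcs := comap_span (S - 1) c
  have hW1 : ker r ≠ ⊤ := by rwa [Ne, ker_eq_top]
  have hW2 : (Submodule.span K {c}).comap (S - 1) ≠ ⊤ := H45.OreF.ne_top_of_lt (by omega)
  obtain ⟨v, hv1, hW, hv3⟩ := avoid (ker r) ((Submodule.span K {c}).comap (S - 1)) (range (S - 1)) hW1 hW2 (by omega)
  have hnev := nonev_range hW hv3
  obtain ⟨φ0, h0v, h0N, h0c⟩ := exists_phi v ((S - 1) v) c (hind_of hnev) (hcv_of hc hW)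
  obtain ⟨hT1, hT2, hT3⟩ := mem_T3 (K := K) v ((S - 1) v) c
  have hTf := finrank_T3 (K := K) v ((S - 1) v) c
  have hTk := finrank_inf_ker hT1 (φ := φ0) (by rw [h0v]; exact one_ne_zero)
  obtain ⟨φ, hφT, κ, hκ, hφκ⟩ := fix_phi φ0 (T3 K v ((S - 1) v) c) (ker (S - 1)) (by
    intro hle
    have := Submodule.finrank_mono hle
    omega)
  have hφv : φ v = 1 := by rw [hφT v hT1, h0v]
  have hφc : φ c ≠ 0 := by rw [hφT _ hT3]; exact h0c
  have hS := phiS S v φ hφv (by rw [hφT _ hT2, h0N])
  have hr1 := rank_zero S v φ hφv hS hv3 hκ hφκ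
  have hr2 := rank_upper S v φ hS
  exact ⟨v, φ, hφv, hS, hv1, hφc, fun h => by omega,
    fun _ => ⟨Nv_ne hW, ⟨u, by rw [hu]; exact hφc⟩, by omega, neg3 S v φ hφv hS (by omega) (by omega)⟩⟩

/-- rank two, `c` in the range, dimension four -/
theorem chCc (h01 : ∀ x : K, x = 0 ∨ x = 1 ∨ x = -1) (S : V →ₗ[K] V) (hV : finrank K V = 4)
    (hk : finrank K (range (S - 1)) = 2) (c : V) (hc : c ≠ 0) (hcr : c ∈ range (S - 1)) (r : V →ₗ[K] K) (hr0 : r ≠ 0) :
    Ch S c r := by
  obtain ⟨u, hu⟩ := hcr
  have hrn := LinearMap.finrank_range_add_finrank_ker (S - 1)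
  have hcs := comap_span (S - 1) c
  have hW1 : ker r ≠ ⊤ := by rwa [Ne, ker_eq_top]
  have hW2 : (Submodule.span K {c}).comap (S - 1) ≠ ⊤ := H45.OreF.ne_top_of_lt (by omega)
  obtain ⟨v, hv1, hW, hv3⟩ := avoid (ker r) ((Submodule.span K {c}).comap (S - 1)) (range (S - 1)) hW1 hW2 (by omega)
  have hnev := nonev_range hW hv3
  have hcv := hcv_of hc hW
  obtain ⟨φ0, h0v, h0N, h0c⟩ := exists_phi v ((S - 1) v) c (hind_of hnev) hcv
  obtain ⟨hT1, hT2, hT3⟩ := mem_T3 (K := K) v ((S - 1) v) c
  have hTf := finrank_T3 (K := K) v ((S - 1) v) c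
  have hTk := finrank_inf_ker hT1 (φ := φ0) (by rw [h0v]; exact one_ne_zero)
  -- the end of the argument
  have fin : ∀ (v' : V) (φ : V →ₗ[K] K), r v' ≠ 0 → v' ∉ range (S - 1) → φ v' = 1 → φ ((S - 1) v') = 0 → φ c ≠ 0 →
      (∃ κ ∈ ker (S - 1), φ κ ≠ 0) → Ch S c r := by
    intro v' φ a1 a2 a3 a4 a5 ⟨κ, hκ, hφκ⟩
    have hS := phiS S v' φ a3 a4
    refine ⟨v', φ, a3, hS, a1, a5, fun _ => ?_, fun h => by omega⟩
    have := rank_zero S v' φ a3 hS a2 hκ hφκ
    omega
  by_cases hle : ker (S - 1) ≤ T3 K v ((S - 1) v) c ⊓ ker φ0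
  swap
  · obtain ⟨φ, hφT, κ, hκ, hφκ⟩ := fix_phi φ0 (T3 K v ((S - 1) v) c) (ker (S - 1)) hle
    exact fin v φ hv1 hv3 (by rw [hφT v hT1, h0v]) (by rw [hφT _ hT2, h0N]) (by rw [hφT _ hT3]; exact h0c) ⟨κ, hκ, hφκ⟩
  · have heq : ker (S - 1) = T3 K v ((S - 1) v) c ⊓ ker φ0 := Submodule.eq_of_le_of_finrank_le hle (by omega)
    have hz : v - (φ0 c)⁻¹ • c ∈ ker (S - 1) := by
      rw [heq]
      refine ⟨Submodule.sub_mem _ hT1 (Submodule.smul_mem _ _ hT3), ?_⟩
      show φ0 (v - (φ0 c)⁻¹ • c) = 0
      rw [map_sub, map_smul, h0v, smul_eq_mul, inv_mul_cancel₀ h0c, sub_self]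
    have hNN : (S - 1) v ∈ ker (S - 1) := by
      rw [heq]
      exact ⟨hT2, h0N⟩
    by_cases h2 : (2 : K) = 0
    · -- characteristic two
      have hone : ∀ x : K, x ≠ 0 → x = 1 := by
        intro x hx
        rcases h01 x with h | h | h
        · exact absurd h hx
        · exact h
        · rw [h]; linear_combination -h2
      rw [hone _ h0c, inv_one, one_smul] at hz
      have hNvc : (S - 1) v = (S - 1) c := by
        rw [mem_ker, map_sub, sub_eq_zero] at hz
        exact hz
      rw [hNvc] at hNN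
      have hNc0 : (S - 1) c ≠ 0 := by rw [← hNvc]; exact Nv_ne hW
      set N := S - 1 with hN
      have hli : LinearIndependent K ![c, N c] := by
        rw [LinearIndependent.pair_iff]
        intro a b hab
        have h3 := congrArg N hab
        rw [map_add, map_smul, map_smul, (mem_ker.1 hNN : N (N c) = 0), smul_zero, add_zero, map_zero] at h3
        have ha : a = 0 := (smul_eq_zero.1 h3).resolve_right hNc0
        rw [ha, zero_smul, zero_add] at hab
        exact ⟨ha, (smul_eq_zero.1 hab).resolve_right hNc0⟩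
      have hindc := LinearIndependent.pair_iff.1 hli
      have hrange : ∀ y ∈ range N, ∃ a b : K, y = a • c + b • N c := by
        have h3 : Submodule.span K (Set.range ![c, N c]) = range N := by
          apply Submodule.eq_of_le_of_finrank_le
          · rw [Submodule.span_le]
            rintro _ ⟨i, rfl⟩
            fin_cases i
            · exact ⟨u, hu⟩
            · exact ⟨c, rfl⟩
          · rw [finrank_span_eq_card hli, Fintype.card_fin, hk]
        intro y hy
        rw [← h3] at hy
        obtain ⟨a, ha⟩ := (Submodule.mem_span_range_iff_exists_fun K).1 hy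
        refine ⟨a 0, a 1, ?_⟩
        rw [← ha, Fin.sum_univ_two]
        rfl
      by_cases hr : ∃ κ ∈ ker N, r (u + c + κ) ≠ 0
      · obtain ⟨κ, hκ, hrκ⟩ := hr
        have hNv' : N (u + c + κ) = c + N c := by
          rw [map_add, map_add, hu, mem_ker.1 hκ, add_zero]
        have hM' : u + c + κ ∉ range N := by
          intro h
          obtain ⟨a, b, hab⟩ := hrange _ h
          have h3 := congrArg N hab
          rw [hNv', map_add, map_smul, map_smul, (mem_ker.1 hNN : N (N c) = 0), smul_zero, add_zero] at h3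
          have := hindc 1 (1 - a) (by
            have : (1 : K) • c + (1 - a) • N c = (c + N c) - a • N c := by module
            rw [this, h3, sub_self])
          exact one_ne_zero this.1
        have hW' : u + c + κ ∉ (Submodule.span K {c}).comap N := by
          intro h
          rw [Submodule.mem_comap, hNv', Submodule.mem_span_singleton] at h
          obtain ⟨a, ha⟩ := h
          have := hindc (1 - a) 1 (by
            have : (1 - a) • c + (1 : K) • N c = (c + N c) - a • c := by module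
            rw [this, ha, sub_self])
          exact one_ne_zero this.2
        have hnev' := nonev_range hW' hM'
        obtain ⟨φ1, h1v, h1N, h1c⟩ := exists_phi (u + c + κ) (N (u + c + κ)) c (hind_of hnev') (hcv_of hc hW')
        obtain ⟨hT1', hT2', hT3'⟩ := mem_T3 (K := K) (u + c + κ) (N (u + c + κ)) c
        have hTf' := finrank_T3 (K := K) (u + c + κ) (N (u + c + κ)) c
        obtain ⟨φ, hφT, κ', hκ', hφκ⟩ := fix_phi φ1 (T3 K (u + c + κ) (N (u + c + κ)) c) (ker N)
          (notle hT1' hT3' h1v h1c (by omega) (by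
            intro h
            obtain ⟨k, hk', y, hy, hky⟩ := Submodule.mem_sup.1 h
            obtain ⟨a, rfl⟩ := Submodule.mem_span_singleton.1 hy
            have h3 := congrArg N hky
            rw [hNv', map_add, mem_ker.1 hk', zero_add, map_smul] at h3
            have := hindc 1 (1 - a) (by
              have : (1 : K) • c + (1 - a) • N c = (c + N c) - a • N c := by module
              rw [this, h3, sub_self])
            exact one_ne_zero this.1))
        exact fin (u + c + κ) φ hrκ hM' (by rw [hφT _ hT1', h1v]) (by rw [hφT _ hT2', h1N]) (by rw [hφT _ hT3']; exact h1c) ⟨κ', hκ', hφκ⟩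
      · push Not at hr
        have hruc : r u + r c = 0 := by
          have := hr 0 (Submodule.zero_mem _)
          rwa [add_zero, map_add] at this
        have hrκ : ∀ κ ∈ ker N, r κ = 0 := by
          intro κ hκ
          have := hr κ hκ
          rwa [map_add, map_add, hruc, zero_add] at this
        have hdec : ∀ w, ∃ a b : K, ∃ κ ∈ ker N, w = a • u + b • c + κ := by
          intro w
          obtain ⟨a, b, hab⟩ := hrange (N w) ⟨w, rfl⟩
          refine ⟨a, b, w - (a • u + b • c), ?_, by abel⟩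
          rw [mem_ker, map_sub, map_add, map_smul, map_smul, hu, hab, sub_self]
        have hrc : r c = 1 := by
          apply hone
          intro h3
          apply hr0
          apply LinearMap.ext
          intro w
          obtain ⟨a, b, κ, hκ, rfl⟩ := hdec w
          rw [h3, add_zero] at hruc
          rw [map_add, map_add, map_smul, map_smul, hruc, h3, hrκ κ hκ]
          simp
        have hrNc : r (N c) = 0 := hrκ _ hNN
        have hS := phiS S c r hrc hrNc
        refine ⟨c, r, hrc, hS, by rw [hrc]; exact one_ne_zero, by rw [hrc]; exact one_ne_zero, fun _ => ?_, fun h => by omega⟩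
        have hzero : schur S c r hS - 1 = 0 := by
          apply LinearMap.ext
          intro w
          apply Subtype.ext
          rw [hsch S c r hS w, LinearMap.zero_apply, Submodule.coe_zero, ← hN]
          obtain ⟨a, b, κ, hκ, hw⟩ := hdec (w : V)
          have h4 : r (w : V) = 0 := mem_ker.1 w.2
          rw [hw, map_add, map_add, map_smul, map_smul, hrκ κ hκ, hrc, smul_eq_mul, smul_eq_mul] at h4
          have h5 : b = a := by
            have h6 : r u = -1 := by rw [hrc] at hruc; linear_combination hruc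
            rw [h6] at h4
            linear_combination h4
          have h6 : N (w : V) = a • S c := by
            rw [hw, h5, map_add, map_add, map_smul, map_smul, hu, mem_ker.1 hκ, add_zero, sN S c, ← hN, smul_add]
          rw [h6, map_smul, hS, smul_eq_mul, mul_one, sub_self]
        rw [hzero, LinearMap.range_zero, finrank_bot]
        norm_num
    · -- odd characteristic
      obtain ⟨ψ, hψv, hψN, hψc⟩ := exists_psi (K := K) v ((S - 1) v) c (by
        intro a b hab
        by_cases ha : a = 0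
        · exact hcv b (by rw [hab, ha, zero_smul, zero_add])
        · apply hv3
          refine ⟨a⁻¹ • u - (a⁻¹ * b) • v, ?_⟩
          rw [map_sub, map_smul, map_smul, hu]
          conv_lhs => rw [hab]
          rw [smul_add, smul_smul, inv_mul_cancel₀ ha, one_smul, smul_smul]
          abel)
      refine fin v (φ0 + (-2 * φ0 c) • ψ) hv1 hv3 ?_ ?_ ?_ ⟨v - (φ0 c)⁻¹ • c, hz, ?_⟩
      · simp [h0v, hψv]
      · rw [LinearMap.add_apply, LinearMap.smul_apply, h0N, hψN, smul_zero, add_zero]
      · rw [LinearMap.add_apply, LinearMap.smul_apply, hψc, smul_eq_mul, mul_one]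
        have : φ0 c + -2 * φ0 c = -φ0 c := by ring
        rw [this]
        exact neg_ne_zero.2 h0c
      · rw [LinearMap.add_apply, LinearMap.smul_apply, map_sub, map_sub, map_smul, map_smul, h0v, hψv, hψc,
          smul_eq_mul, smul_eq_mul, smul_eq_mul, inv_mul_cancel₀ h0c]
        have : (1 : K) - 1 + -2 * φ0 c * (0 - (φ0 c)⁻¹ * 1) = 2 * (φ0 c * (φ0 c)⁻¹) := by ring
        rw [this, mul_inv_cancel₀ h0c, mul_one]
        exact h2

/-- the choice -/
theorem ch_all (h01 : ∀ x : K, x = 0 ∨ x = 1 ∨ x = -1) (S : V →ₗ[K] V) (hinj : ∀ x, S x = 0 → x = 0) (hneg : ∃ x, S x ≠ -x)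
    (hV : 4 ≤ finrank K V) (hk : 2 ≤ finrank K (range (S - 1))) (c : V) (hc : c ≠ 0) (r : V →ₗ[K] K) (hr0 : r ≠ 0) :
    Ch S c r := by
  rcases Nat.lt_or_ge 3 (finrank K (range (S - 1))) with h | h
  · exact chA h01 S hinj hneg hV h c hc r hr0
  · by_cases h3 : finrank K (range (S - 1)) = 3
    · exact chB S hV h3 c hc r hr0
    · have hk2 : finrank K (range (S - 1)) = 2 := by omega
      by_cases hcr : c ∈ range (S - 1)
      · by_cases hm : finrank K V = 4
        · exact chCc h01 S hm hk2 c hc hcr r hr0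
        · exact chCb S (by omega) hk2 c hc hcr r hr0
      · exact chCa S hV hk2 c hc hcr r hr0

universe u' w'

/-- the induction -/
theorem good_small {K : Type u'} [Field K] (h01 : ∀ x : K, x = 0 ∨ x = 1 ∨ x = -1)
    (hbase : ∀ (W : Type w') [AddCommGroup W] [Module K W] (hW : finrank K W = 3) (T : W →ₗ[K] W), LinearMap.det T = 1 →
      finrank K (range (T - 1)) ≠ 1 → Good0 (Om3 K) (Om3' K) T) :
    ∀ (n : ℕ) (V : Type w') [AddCommGroup V] [Module K V] (hV : finrank K V = n + 4)
    (S : V →ₗ[K] V) (hdet : LinearMap.det S = 1) (hneg : ∃ x, S x ≠ -x)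
    (hr : 2 ≤ finrank K (range (S - 1))) (c : V) (hc : c ≠ 0) (r : V →ₗ[K] K) (hr0 : r ≠ 0),
    Good (Om3 K) (Om3' K) S c r := by
  intro n
  induction n with
  | zero =>
    intro V _ _ hV S hdet hneg hr c hc r hr0
    have : Module.Finite K V := Module.finite_of_finrank_eq_succ hV
    have hinj : ∀ x, S x = 0 → x = 0 := by
      intro x hx
      have hu : IsUnit S := (LinearMap.isUnit_iff_isUnit_det S).2 (by rw [hdet]; exact isUnit_one)
      have := (Module.End.isUnit_iff S).1 hu
      exact this.1 (by rw [hx, map_zero])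
    obtain ⟨v, φ, hφv, hS, hv1, hφc, h4, -⟩ := ch_all h01 S hinj hneg (by omega) hr c hc r hr0
    refine step Om3'_surj S c r v φ hφv hS hφc hv1 (Good0.pre _ _ ?_)
    have hkd := finrank_ker_phi (V := V) v φ hφv
    exact hbase (ker φ) (by omega) _ (by rw [det_schur S v φ hφv hS, hdet]) (h4 hV)
  | succ n ih =>
    intro V _ _ hV S hdet hneg hr c hc r hr0
    have : Module.Finite K V := Module.finite_of_finrank_eq_succ hV
    have hinj : ∀ x, S x = 0 → x = 0 := by
      intro x hx
      have hu : IsUnit S := (LinearMap.isUnit_iff_isUnit_det S).2 (by rw [hdet]; exact isUnit_one)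
      have := (Module.End.isUnit_iff S).1 hu
      exact this.1 (by rw [hx, map_zero])
    obtain ⟨v, φ, hφv, hS, hv1, hφc, -, h5⟩ := ch_all h01 S hinj hneg (by omega) hr c hc r hr0
    obtain ⟨hNv0, ⟨w, hw⟩, hr', hneg'⟩ := h5 (by omega)
    refine step Om3'_surj S c r v φ hφv hS hφc hv1 (Good.pre ?_)
    have hkd := finrank_ker_phi (V := V) v φ hφv
    have hφN : φ ((S - 1) v) = 0 := by
      rw [LinearMap.sub_apply, map_sub, hS, Module.End.one_apply, hφv, sub_self]
    refine ih (ker φ) (by omega) _ (by rw [det_schur S v φ hφv hS, hdet]) hneg' hr' _ ?_ _ ?_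
    · intro h
      have h1 := congrArg (Subtype.val) h
      rw [H47.TwoUnipA.proj_apply, hS, one_smul] at h1
      apply hNv0
      rw [LinearMap.sub_apply, Module.End.one_apply]
      exact h1
    · intro hcon
      apply hw
      rw [decomp v φ hφv w, map_add, map_smul, map_add, map_smul, hφN, smul_zero, zero_add]
      have h2 := LinearMap.congr_fun hcon (proj v φ hφv w)
      rw [LinearMap.comp_apply, LinearMap.comp_apply, Submodule.subtype_apply, LinearMap.zero_apply] at h2
      rw [LinearMap.sub_apply, map_sub, h2, Module.End.one_apply, mem_ker.1 (proj v φ hφv w).2, sub_zero]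

end H45.OreH
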