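import Mathlib
import Cfsg.Agent.Lib.H45.OreH

/-!
Commutators: transvections, scalars, small fields.
-/

set_option autoImplicit false
set_option linter.unusedVariables false
set_option linter.unusedSectionVars false

namespace H45.OreI

open Module LinearMap H45.OreA H45.OreB H45.OreC H45.OreD H45.OreE H45.OreF H45.OreG H45.OreH

open scoped Kronecker

variable {K : Type*} [Field K]

section trans

variable {V : Type*} [AddCommGroup V] [Module K V] [FiniteDimensional K V]

/-- transvections are commutators -/
theorem isComm_trans (hV : 3 ≤ finrank K V) (S : V →ₗ[K] V) (hdet : LinearMap.det S = 1)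
    (hr : finrank K (range (S - 1)) ≤ 1) : IsComm S := by
  obtain ⟨-, hNN⟩ := H47.TwoUnipC.rank_one_sq S hr hdet
  by_cases h0 : ∀ x, (S - 1) x = 0
  · refine ⟨1, 1, ?_, ?_, fun x => ?_⟩
    · exact LinearMap.det_id
    · exact LinearMap.det_id
    · have := h0 x
      rw [LinearMap.sub_apply, sub_eq_zero] at this
      exact this
  · push Not at h0
    obtain ⟨w0, hw0⟩ := h0
    set e := (S - 1) w0 with he
    -- the functional
    obtain ⟨g, hg, -⟩ := Submodule.exists_le_ker_of_notMem (p := (⊥ : Submodule K V)) (v := e) (by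
      rwa [Submodule.mem_bot])
    have hspan : ∀ x, ∃ a : K, (S - 1) x = a • e := by
      have h1 : Submodule.span K {e} = range (S - 1) := by
        apply Submodule.eq_of_le_of_finrank_le
        · rw [Submodule.span_singleton_le_iff_mem]
          exact ⟨w0, rfl⟩
        · rw [finrank_span_singleton hw0]; exact hr
      intro x
      have : (S - 1) x ∈ Submodule.span K {e} := by rw [h1]; exact ⟨x, rfl⟩
      obtain ⟨a, ha⟩ := Submodule.mem_span_singleton.1 this
      exact ⟨a, ha.symm⟩
    let f : V →ₗ[K] K := (g e)⁻¹ • (g ∘ₗ (S - 1))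
    have hf : ∀ x, (S - 1) x = f x • e := by
      intro x
      obtain ⟨a, ha⟩ := hspan x
      have : f x = a := by
        show (g e)⁻¹ * g ((S - 1) x) = a
        rw [ha, map_smul, smul_eq_mul, mul_comm a, ← mul_assoc, inv_mul_cancel₀ hg, one_mul]
      rw [this, ha]
    have hfe : f e = 0 := by
      have h1 := hf e
      have h2 : (S - 1) e = 0 := hNN w0
      rw [h2] at h1
      exact (smul_eq_zero.1 h1.symm).resolve_right hw0
    -- the second vector
    obtain ⟨y, hy1, hy2⟩ : ∃ y, f y = 0 ∧ y ∉ Submodule.span K {e} := by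
      by_contra hcon
      push Not at hcon
      have h1 : ker f ≤ Submodule.span K {e} := fun y hy => hcon y hy
      have h2 := Submodule.finrank_mono h1
      have h3 := finrank_span_one (K := K) e
      have h4 := finrank_ker_ge f
      omega
    obtain ⟨h, hh1, hh2⟩ := Submodule.exists_le_ker_of_notMem hy2
    have hhe : h e = 0 := hh2 (Submodule.mem_span_singleton_self e)
    refine ⟨LinearMap.transvection ((h y)⁻¹ • h) e, LinearMap.transvection f y, ?_, ?_, fun x => ?_⟩
    · rw [LinearMap.transvection.det]
      simp [hhe]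
    · rw [LinearMap.transvection.det, hy1, add_zero]
    · have hS : ∀ z, S z = z + f z • e := by
        intro z
        rw [← hf, LinearMap.sub_apply, Module.End.one_apply]
        abel
      rw [hS]
      simp only [LinearMap.transvection.apply, map_add, map_smul, hy1, hfe, LinearMap.smul_apply, smul_eq_mul,
        mul_zero, add_zero, inv_mul_cancel₀ hh1]
      module

end trans

section scalars

variable (t k : ℕ)

/-- the shift -/
def P (K : Type*) [Field K] (k : ℕ) : Matrix (Fin (k + 1)) (Fin (k + 1)) K := ((finRotate (k + 1))⁻¹).permMatrix K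

theorem P_apply (i j : Fin (k + 1)) : P K k i j = if i = finRotate (k + 1) j then 1 else 0 := by
  unfold P
  rw [Equiv.Perm.permMatrix, PEquiv.toMatrix_apply, Equiv.toPEquiv_apply]
  by_cases h : i = finRotate (k + 1) j
  · rw [if_pos h, if_pos]
    simp [h]
  · rw [if_neg h, if_neg]
    simp only [Option.mem_def, Option.some.injEq]
    intro h2
    apply h
    rw [← h2]
    simp

theorem P_det : (P K k).det = (-1) ^ k := by
  unfold P
  rw [Matrix.det_permutation, Equiv.Perm.sign_inv, sign_finRotate]
  simp

/-- the commuting-up-to-a-scalar pair built from blocks -/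
theorem blk (lam : K) (a0 J : Matrix (Fin t) (Fin t) K) (hrel : a0 * J = lam ^ (k + 1) • (J * a0)) :
    ∃ a b : Matrix (Fin t × Fin (k + 1)) (Fin t × Fin (k + 1)) K, a * b = lam • (b * a) ∧
      a.det = ∏ i : Fin (k + 1), (lam ^ (i : ℕ) • a0).det ∧ b.det = ((-1) ^ k) ^ t * J.det := by
  let s : Fin (k + 1) → Matrix (Fin t) (Fin t) K := fun j => if j = Fin.last k then J else 1
  let A : Fin (k + 1) → Matrix (Fin t) (Fin t) K := fun i => lam ^ (i : ℕ) • a0
  refine ⟨Matrix.blockDiagonal A, ((1 : Matrix (Fin t) (Fin t) K) ⊗ₖ P K k) * Matrix.blockDiagonal s, ?_, ?_, ?_⟩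
  · have hb : ∀ (p q : Fin t) (i j : Fin (k + 1)), (((1 : Matrix (Fin t) (Fin t) K) ⊗ₖ P K k) * Matrix.blockDiagonal s) (p, i) (q, j) =
        if i = finRotate (k + 1) j then s j p q else 0 := by
      intro p q i j
      rw [Matrix.mul_apply, Fintype.sum_prod_type]
      simp only [Matrix.kroneckerMap_apply, Matrix.blockDiagonal_apply, P_apply, Matrix.one_apply]
      simp
    ext ⟨p, i⟩ ⟨q, j⟩
    rw [Matrix.mul_apply, Fintype.sum_prod_type, Matrix.smul_apply, Matrix.mul_apply, Fintype.sum_prod_type]
    simp only [hb, Matrix.blockDiagonal_apply]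
    have key : ∀ j, A (finRotate (k + 1) j) * s j = lam • (s j * A j) := by
      intro j
      by_cases hj : j = Fin.last k
      · subst hj
        rw [finRotate_last]
        show (lam ^ ((0 : Fin (k + 1)) : ℕ) • a0) * (if Fin.last k = Fin.last k then J else 1) =
          lam • ((if Fin.last k = Fin.last k then J else 1) * (lam ^ ((Fin.last k : Fin (k + 1)) : ℕ) • a0))
        rw [if_pos rfl, Fin.val_zero, pow_zero, one_smul, hrel, Fin.val_last, Matrix.mul_smul, smul_smul, ← pow_succ']
      · show (lam ^ ((finRotate (k + 1) j : Fin (k + 1)) : ℕ) • a0) * (if j = Fin.last k then J else 1) =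
          lam • ((if j = Fin.last k then J else 1) * (lam ^ (j : ℕ) • a0))
        rw [if_neg hj, coe_finRotate_of_ne_last hj, Matrix.mul_one, Matrix.one_mul, smul_smul, ← pow_succ']
    by_cases h : i = finRotate (k + 1) j
    · have h1 := congrFun (congrFun (key j) p) q
      rw [Matrix.mul_apply, Matrix.smul_apply, Matrix.mul_apply] at h1
      rw [h]
      have h2 : ∀ x : Fin t, ∑ x1 : Fin (k + 1), (if finRotate (k + 1) j = x1 then A (finRotate (k + 1) j) p x else 0) *
          (if x1 = finRotate (k + 1) j then s j x q else 0) = A (finRotate (k + 1) j) p x * s j x q := by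
        intro x
        rw [Finset.sum_eq_single (finRotate (k + 1) j)]
        · rw [if_pos rfl, if_pos rfl]
        · intro x1 _ hx1
          rw [if_neg hx1, mul_zero]
        · intro h; exact absurd (Finset.mem_univ _) h
      have h3 : ∀ x : Fin t, ∑ x1 : Fin (k + 1), (if finRotate (k + 1) j = finRotate (k + 1) x1 then s x1 p x else 0) *
          (if x1 = j then A x1 x q else 0) = s j p x * A j x q := by
        intro x
        rw [Finset.sum_eq_single j]
        · rw [if_pos rfl, if_pos rfl]
        · intro x1 _ hx1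
          rw [if_neg hx1, mul_zero]
        · intro h; exact absurd (Finset.mem_univ _) h
      simp only [h2, h3]
      exact h1
    · have h2 : ∀ x : Fin (k + 1), (if i = x then (if x = finRotate (k + 1) j then (1 : K) else 0) else 0) = 0 := by
        intro x
        split_ifs with h3 h4
        · exact absurd (h3.trans h4) h
        · rfl
        · rfl
      have h3 : ∀ x : Fin t, ∑ x1 : Fin (k + 1), (if i = x1 then A i p x else 0) * (if x1 = finRotate (k + 1) j then s j x q else 0) = 0 := by
        intro x
        refine Finset.sum_eq_zero fun x1 _ => ?_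
        split_ifs with h3 h4
        · exact absurd (h3.trans h4) h
        · rw [mul_zero]
        · rw [zero_mul]
        · rw [zero_mul]
      have h4 : ∀ x : Fin t, ∑ x1 : Fin (k + 1), (if i = finRotate (k + 1) x1 then s x1 p x else 0) * (if x1 = j then A x1 x q else 0) = 0 := by
        intro x
        refine Finset.sum_eq_zero fun x1 _ => ?_
        split_ifs with h3 h4
        · rw [h4] at h3
          exact absurd h3 h
        · rw [mul_zero]
        · rw [zero_mul]
        · rw [zero_mul]
      simp only [h3, h4, Finset.sum_const_zero, smul_zero]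
  · rw [Matrix.det_blockDiagonal]
  · rw [Matrix.det_mul, Matrix.det_kronecker, Matrix.det_one, one_pow, one_mul, P_det, Fintype.card_fin,
      Matrix.det_blockDiagonal]
    congr 1
    rw [Finset.prod_eq_single (Fin.last k)]
    · show (if Fin.last k = Fin.last k then J else 1).det = _
      rw [if_pos rfl]
    · intro j _ hj
      show (if j = Fin.last k then J else 1).det = 1
      rw [if_neg hj, Matrix.det_one]
    · intro h; exact absurd (Finset.mem_univ _) h

variable [Finite K]

theorem scal_odd (lam : K) (j : ℕ) (h1 : lam ^ (2 * j + 1) = 1) :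
    ∃ a b : Matrix (Fin 1 × Fin (2 * j + 1)) (Fin 1 × Fin (2 * j + 1)) K, a * b = lam • (b * a) ∧ a.det = 1 ∧ b.det = 1 := by
  obtain ⟨a, b, hab, ha, hb⟩ := blk 1 (2 * j) lam (1 : Matrix (Fin 1) (Fin 1) K) 1 (by rw [h1, one_smul])
  refine ⟨a, b, hab, ?_, ?_⟩
  · rw [ha]
    simp only [Matrix.det_smul, Matrix.det_one, Fintype.card_fin, pow_one, mul_one]
    rw [Finset.prod_pow_eq_pow_sum, Fin.sum_univ_eq_sum_range (fun i => i) (2 * j + 1)]
    have h2 := Finset.sum_range_id_mul_two (2 * j + 1)
    have h3 : ∑ i ∈ Finset.range (2 * j + 1), i = (2 * j + 1) * j := by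
      have : (2 * j + 1) * (2 * j + 1 - 1) = ((2 * j + 1) * j) * 2 := by
        rw [Nat.add_sub_cancel]; ring
      omega
    rw [h3, pow_mul, h1, one_pow]
  · rw [hb, Matrix.det_one, mul_one, pow_one, pow_mul]
    simp

theorem scal_even (lam : K) (k : ℕ) (h1 : lam ^ (k + 1) = -1) (h2 : (-1 : K) ≠ 1) :
    ∃ a b : Matrix (Fin 2 × Fin (k + 1)) (Fin 2 × Fin (k + 1)) K, a * b = lam • (b * a) ∧ a.det = 1 ∧ b.det = 1 := by
  classical
  have := Fintype.ofFinite K
  have hchar : ringChar K ≠ 2 := by
    intro h
    apply h2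
    have : CharP K 2 := by rw [← h]; infer_instance
    exact CharTwo.neg_eq 1
  have hodd : Fintype.card K % 2 = 1 := FiniteField.odd_card_of_char_ne_two hchar
  obtain ⟨x, y, hxy⟩ : ∃ x y : K, x * x + y * y = lam := by
    obtain ⟨x, y, hxy⟩ := FiniteField.exists_root_sum_quadratic (R := K) (f := Polynomial.X ^ 2) (g := Polynomial.X ^ 2 - Polynomial.C lam)
      (Polynomial.degree_X_pow 2) (Polynomial.degree_X_pow_sub_C (by decide) _) hodd
    refine ⟨x, y, ?_⟩
    simp at hxy
    linear_combination hxy
  obtain ⟨a, b, hab, ha, hb⟩ := blk 2 k lam !![x, y; y, -x] !![0, -1; 1, 0] (by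
    rw [h1]
    ext i j
    fin_cases i <;> fin_cases j <;> simp [Matrix.mul_apply, Fin.sum_univ_two])
  refine ⟨a, b, hab, ?_, ?_⟩
  · rw [ha]
    have e1 : (!![x, y; y, -x] : Matrix (Fin 2) (Fin 2) K).det = -lam := by
      rw [Matrix.det_fin_two]
      simp
      linear_combination -hxy
    simp only [Matrix.det_smul, e1, Fintype.card_fin]
    rw [Finset.prod_mul_distrib, Finset.prod_const, Finset.card_univ, Fintype.card_fin]
    simp only [← pow_mul]
    rw [Finset.prod_pow_eq_pow_sum, ← Finset.sum_mul, Fin.sum_univ_eq_sum_range (fun i => i) (k + 1),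
      Finset.sum_range_id_mul_two, Nat.add_sub_cancel, pow_mul, h1, neg_pow lam, h1]
    have : ((-1 : K)) ^ k * ((-1) ^ (k + 1) * -1) = ((-1) ^ k * (-1) ^ k) := by
      rw [pow_succ]; ring
    rw [this, ← mul_pow]
    simp
  · rw [hb, Matrix.det_fin_two, ← pow_mul, mul_comm k 2, pow_mul]
    simp

theorem scal_order (lam : K) (hl : lam ≠ 0) : ∃ (t h : ℕ) (a b : Matrix (Fin t × Fin h) (Fin t × Fin h) K),
    t * h = orderOf lam ∧ a * b = lam • (b * a) ∧ a.det = 1 ∧ b.det = 1 := by
  have hfin : IsOfFinOrder lam := by
    have h1 : IsOfFinOrder (Units.mk0 lam hl) := isOfFinOrder_of_finite _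
    exact Units.isOfFinOrder_val.2 h1
  have hpos := hfin.orderOf_pos
  have h1 := pow_orderOf_eq_one lam
  rcases Nat.even_or_odd' (orderOf lam) with ⟨j, hj | hj⟩
  · obtain ⟨k, rfl⟩ : ∃ k, j = k + 1 := ⟨j - 1, by omega⟩
    have hne : lam ^ (k + 1) ≠ 1 := by
      intro h
      have := orderOf_dvd_of_pow_eq_one h
      have := Nat.le_of_dvd (by omega) this
      omega
    have hm1 : lam ^ (k + 1) = -1 := by
      have h2 : (lam ^ (k + 1) - 1) * (lam ^ (k + 1) + 1) = 0 := by
        have : lam ^ (k + 1) * lam ^ (k + 1) = 1 := by rw [← pow_add, ← two_mul, ← hj, h1]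
        linear_combination this
      rcases mul_eq_zero.1 h2 with h | h
      · exact absurd (sub_eq_zero.1 h) hne
      · exact eq_neg_of_add_eq_zero_left h
    obtain ⟨a, b, h⟩ := scal_even lam k hm1 (by rw [← hm1]; exact hne)
    exact ⟨2, k + 1, a, b, hj.symm, h⟩
  · obtain ⟨a, b, h⟩ := scal_odd lam j (by rw [← hj, h1])
    exact ⟨1, 2 * j + 1, a, b, by rw [one_mul, hj], h⟩

/-- scalars of determinant one are commutators -/
theorem isComm_scal {V : Type*} [AddCommGroup V] [Module K V] [FiniteDimensional K V] (hV : 0 < finrank K V) (S : V →ₗ[K] V)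
    (hdet : LinearMap.det S = 1) (lam : K) (hS : ∀ x, S x = lam • x) : IsComm S := by
  have hSl : S = lam • LinearMap.id := LinearMap.ext hS
  rw [hSl, LinearMap.det_smul, LinearMap.det_id, mul_one] at hdet
  have hl : lam ≠ 0 := by
    rintro rfl
    rw [zero_pow hV.ne'] at hdet
    exact zero_ne_one hdet
  obtain ⟨t, h, a, b, hth, hab, ha, hb⟩ := scal_order lam hl
  obtain ⟨c, hc⟩ := orderOf_dvd_of_pow_eq_one hdet
  have hcard : Fintype.card ((Fin t × Fin h) × Fin c) = finrank K V := by
    rw [Fintype.card_prod, Fintype.card_prod, Fintype.card_fin, Fintype.card_fin, Fintype.card_fin, hth, hc]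
  let e : Fin (finrank K V) ≃ (Fin t × Fin h) × Fin c := Fintype.equivOfCardEq (by rw [Fintype.card_fin, hcard])
  let bb : Basis ((Fin t × Fin h) × Fin c) K V := (Module.finBasis K V).reindex e
  refine ⟨Matrix.toLin bb bb (Matrix.blockDiagonal fun _ => a), Matrix.toLin bb bb (Matrix.blockDiagonal fun _ => b), ?_, ?_, ?_⟩
  · rw [LinearMap.det_toLin, Matrix.det_blockDiagonal]
    simp [ha]
  · rw [LinearMap.det_toLin, Matrix.det_blockDiagonal]
    simp [hb]
  · intro x
    rw [hS]
    have h1 : Matrix.toLin bb bb (Matrix.blockDiagonal (fun _ : Fin c => a) * Matrix.blockDiagonal fun _ => b) =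
        (Matrix.toLin bb bb (Matrix.blockDiagonal fun _ => a)) ∘ₗ (Matrix.toLin bb bb (Matrix.blockDiagonal fun _ => b)) :=
      Matrix.toLin_mul bb bb bb _ _
    have h2 : Matrix.toLin bb bb (Matrix.blockDiagonal (fun _ : Fin c => b) * Matrix.blockDiagonal fun _ => a) =
        (Matrix.toLin bb bb (Matrix.blockDiagonal fun _ => b)) ∘ₗ (Matrix.toLin bb bb (Matrix.blockDiagonal fun _ => a)) :=
      Matrix.toLin_mul bb bb bb _ _
    rw [← LinearMap.comp_apply, ← LinearMap.comp_apply, ← h1, ← h2, ← Matrix.blockDiagonal_mul, ← Matrix.blockDiagonal_mul]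
    have h3 : (fun _ : Fin c => a * b) = lam • (fun _ : Fin c => b * a) := by
      funext i
      exact hab
    rw [h3, Matrix.blockDiagonal_smul, map_smul, LinearMap.smul_apply]

end scalars

section final

/-- commutators over small fields -/
theorem isComm_small (p : ℕ) [CharP K p] (hp : 1 < p) (hall : ∀ x : K, ∃ n < p, x = (n : K)) {TX TY : ℕ} (h : full p TX TY)
    (h3 : ∀ δ : K, δ * δ * δ = δ) (h01 : ∀ x : K, x = 0 ∨ x = 1 ∨ x = -1) {V : Type*} [AddCommGroup V] [Module K V]
    (hV : 3 ≤ finrank K V) (S : V →ₗ[K] V) (hdet : LinearMap.det S = 1) (hneg : ∃ x, S x ≠ -x)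
    (hr : 2 ≤ finrank K (range (S - 1))) : IsComm S := by
  have : FiniteDimensional K V := FiniteDimensional.of_finrank_pos (by omega)
  have fin : ∀ X Y : V →ₗ[K] V, (∀ x, X (Y x) = S x) → Cls (Om3 K) X → Cls (Om3' K) Y → IsComm S := fun X Y a1 a2 a3 =>
    isComm_of_fac Om3_surj Om3_mul Om3_det (fun δ _ => Om3_full h3 δ) S X Y hdet a1 a2 a3
  by_cases hV3 : finrank K V = 3
  · obtain ⟨X, Y, a1, a2, a3, -⟩ := base3 p hp hall h h3 hV3 S hdet (by omega)
    exact fin X Y a1 a2 a3
  · have : Nontrivial V := Module.nontrivial_of_finrank_pos (R := K) (by omega)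
    obtain ⟨c, hc⟩ := exists_ne (0 : V)
    obtain ⟨r, hr0⟩ : ∃ r : V →ₗ[K] K, r ≠ 0 := by
      by_contra hcon
      push Not at hcon
      apply hc
      rw [← Module.forall_dual_apply_eq_zero_iff K]
      intro φ
      rw [hcon φ, LinearMap.zero_apply]
    obtain ⟨m, hm⟩ := Nat.exists_eq_add_of_le' (show 4 ≤ finrank K V by omega)
    obtain ⟨X, Y, a1, a2, a3, -⟩ := good_small h01 (fun W _ _ hW T hT hT1 => by
      have : FiniteDimensional K W := FiniteDimensional.of_finrank_pos (by omega)
      exact base3 p hp hall h h3 hW T hT hT1) m V hm S hdet hneg hr c hc r hr0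
    exact fin X Y a1 a2 a3

/-- every transformation of determinant one is a commutator -/
theorem isComm_all [Fintype K] {V : Type*} [AddCommGroup V] [Module K V] [FiniteDimensional K V] (hV : 2 ≤ finrank K V)
    (hex : finrank K V = 2 → 4 ≤ Fintype.card K) (S : V →ₗ[K] V) (hdet : LinearMap.det S = 1) : IsComm S := by
  by_cases hsc : ∃ μ : K, ∀ x, S x = μ • x
  · obtain ⟨μ, hμ⟩ := hsc
    exact isComm_scal (by omega) S hdet μ hμ
  · push Not at hsc
    have hK : 4 ≤ Fintype.card K → 4 ≤ Cardinal.mk K := by
      intro h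
      rw [Cardinal.mk_fintype]
      exact_mod_cast h
    by_cases h2 : finrank K V = 2
    · exact isComm_two (hK (hex h2)) h2 S hdet hsc
    · have hV3 : 3 ≤ finrank K V := by omega
      by_cases hr : finrank K (range (S - 1)) ≤ 1
      · exact isComm_trans hV3 S hdet hr
      · push Not at hr
        by_cases h4 : 4 ≤ Fintype.card K
        · exact isComm_big (hK h4) hV3 S hdet hsc hr
        · have hc1 : 1 < Fintype.card K := Fintype.one_lt_card
          have hneg : ∃ x, S x ≠ -x := by
            obtain ⟨x, hx⟩ := hsc (-1)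
            refine ⟨x, fun h => hx ?_⟩
            rw [h, neg_smul, one_smul]
          rcases (by omega : Fintype.card K = 2 ∨ Fintype.card K = 3) with hc | hc
          · have hp : Fact (Nat.Prime 2) := ⟨Nat.prime_two⟩
            have : CharP K 2 := by
              exact charP_of_card_eq_prime hc
            let e : ZMod 2 ≃+* K := ZMod.ringEquivOfPrime K Nat.prime_two hc
            have hall : ∀ x : K, ∃ n : ℕ, n < 2 ∧ x = (n : K) := by
              intro x
              refine ⟨(e.symm x).val, ZMod.val_lt _, ?_⟩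
              rw [← map_natCast e, ZMod.natCast_zmod_val, RingEquiv.apply_symm_apply]
            have hcases : ∀ x : K, x = 0 ∨ x = 1 := by
              intro x
              obtain ⟨n, hn, rfl⟩ := hall x
              interval_cases n
              · left; simp
              · right; simp
            refine isComm_small 2 (by norm_num) hall full2 ?_ ?_ hV3 S hdet hneg hr
            · intro δ
              rcases hcases δ with h | h <;> rw [h] <;> simp
            · intro x
              rcases hcases x with h | h
              · exact Or.inl h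
              · exact Or.inr (Or.inl h)
          · have hp : Fact (Nat.Prime 3) := ⟨Nat.prime_three⟩
            have : CharP K 3 := by
              exact charP_of_card_eq_prime hc
            let e : ZMod 3 ≃+* K := ZMod.ringEquivOfPrime K Nat.prime_three hc
            have hall : ∀ x : K, ∃ n : ℕ, n < 3 ∧ x = (n : K) := by
              intro x
              refine ⟨(e.symm x).val, ZMod.val_lt _, ?_⟩
              rw [← map_natCast e, ZMod.natCast_zmod_val, RingEquiv.apply_symm_apply]
            have hcases : ∀ x : K, x = 0 ∨ x = 1 ∨ x = -1 := by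
              intro x
              obtain ⟨n, hn, rfl⟩ := hall x
              have h3 : (3 : K) = 0 := by
                have := CharP.cast_eq_zero K 3
                exact_mod_cast this
              interval_cases n
              · left; simp
              · right; left; simp
              · right; right
                push_cast
                linear_combination h3
            refine isComm_small 3 (by norm_num) hall full3 ?_ hcases hV3 S hdet hneg hr
            intro δ
            rcases hcases δ with h | h | h <;> rw [h] <;> simp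

/-- matrix form -/
theorem main {F : Type*} [Field F] [Fintype F] (n : ℕ) (hn : 2 ≤ n) (hex : n = 2 → 4 ≤ Fintype.card F)
    (g : Matrix.SpecialLinearGroup (Fin n) F) :
    ∃ a b : Matrix.SpecialLinearGroup (Fin n) F, g = a * b * a⁻¹ * b⁻¹ := by
  have hfr : finrank F (Fin n → F) = n := by simp
  obtain ⟨A, B, hA, hB, hAB⟩ := isComm_all (K := F) (V := Fin n → F) (by rw [hfr]; exact hn) (by rw [hfr]; exact hex)
    (Matrix.toLin' (g : Matrix (Fin n) (Fin n) F)) (by rw [LinearMap.det_toLin', g.2])
  let a : Matrix.SpecialLinearGroup (Fin n) F := ⟨LinearMap.toMatrix' A, by rw [LinearMap.det_toMatrix', hA]⟩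
  let b : Matrix.SpecialLinearGroup (Fin n) F := ⟨LinearMap.toMatrix' B, by rw [LinearMap.det_toMatrix', hB]⟩
  refine ⟨a, b, ?_⟩
  have h1 : g * (b * a) = a * b := by
    apply Subtype.ext
    show (g : Matrix (Fin n) (Fin n) F) * (LinearMap.toMatrix' B * LinearMap.toMatrix' A) =
      LinearMap.toMatrix' A * LinearMap.toMatrix' B
    rw [← LinearMap.toMatrix'_mul, ← LinearMap.toMatrix'_mul]
    have h2 : (g : Matrix (Fin n) (Fin n) F) = LinearMap.toMatrix' (Matrix.toLin' (g : Matrix (Fin n) (Fin n) F)) := by
      rw [LinearMap.toMatrix'_toLin']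
    rw [h2, ← LinearMap.toMatrix'_mul]
    congr 1
    exact LinearMap.ext hAB
  have h3 : g = a * b * (b * a)⁻¹ := eq_mul_inv_of_mul_eq h1
  rw [h3, mul_inv_rev]
  group

end final

end H45.OreI
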