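import Mathlib
import Cfsg.Agent.Lib.H54.RA0
import Cfsg.Agent.Lib.H54.RA1

/-! S3330, piece CU2: the 2-part of `C(V)`. -/

set_option autoImplicit false
set_option linter.unusedSectionVars false
set_option maxRecDepth 100000

open Equiv Subgroup H54.RA

namespace H45.RCU2

/-- `(0 1)(2 4)` -/
def u0 : Perm (Fin 5) := swap 0 1 * swap 2 4

theorem su0 : Perm.sign u0 = Perm.sign (1 : Perm (Fin 5)) := by decide +kernel

theorem v0_cases : ∀ σ : Perm (Fin 5), σ * b0 = b0 * σ → σ * u0 = u0 * σ → σ = 1 ∨ σ = b0 ∨ σ = u0 ∨ σ = b0 * u0 := by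
  decide +kernel

theorem d8_conj : ∀ σ : Perm (Fin 5), σ * b0 = b0 * σ → σ * u0 * σ⁻¹ = u0 ∨ σ * u0 * σ⁻¹ = u0 * b0 := by
  decide +kernel

theorem d5_cases : ∀ τ : Perm (Fin 5), τ * d5 = d5 * τ → Perm.sign τ = 1 → τ = 1 ∨ τ = d5 ∨ τ = d5 * d5 := by
  decide +kernel

theorem bb : b0 * b0 = 1 := by decide +kernel
theorem uu : u0 * u0 = 1 := by decide +kernel
theorem bu : b0 * u0 = u0 * b0 := by decide +kernel
theorem tb : t5 * b0 = b0 * t5 := by decide +kernel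
theorem tu : t5 * u0 * t5⁻¹ = u0 * b0 := by decide +kernel
theorem b1 : b0 ≠ 1 := by decide +kernel
theorem u1 : u0 ≠ 1 := by decide +kernel
theorem ub : u0 ≠ b0 := by decide +kernel
theorem d3 : d5 * d5 * d5 = 1 := by decide +kernel
theorem d1 : d5 ≠ 1 := by decide +kernel
theorem sd5 : Perm.sign (1 : Perm (Fin 5)) = Perm.sign d5 := by decide +kernel
theorem tt : t5 * t5 = 1 := by decide +kernel

theorem card_32 : Fintype.card {k : {σ : Perm (Fin 5) // σ * b0 = b0 * σ} × {τ : Perm (Fin 5) // τ * b0 = b0 * τ} //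
    Perm.sign k.1.1 = Perm.sign k.2.1} = 32 := by decide +kernel

theorem card_480 : Fintype.card {k : {σ : Perm (Fin 5) // σ * b0 = b0 * σ} × Perm (Fin 5) //
    Perm.sign k.1.1 = Perm.sign k.2} = 480 := by decide +kernel

theorem card_4 : Fintype.card {σ : Perm (Fin 5) // σ * b0 = b0 * σ ∧ σ * u0 = u0 * σ} = 4 := by decide +kernel

/-- first component commutes with `b0` -/
def Ye : Subgroup EE where
  carrier := {e | e.1.1 * b0 = b0 * e.1.1}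
  one_mem' := by simp
  mul_mem' := by
    intro a b ha hb
    simp only [Set.mem_ofPred_eq, Subgroup.coe_mul, Prod.fst_mul] at ha hb ⊢
    rw [mul_assoc, hb, ← mul_assoc, ha, mul_assoc]
  inv_mem' := by
    intro a ha
    simp only [Set.mem_ofPred_eq, Subgroup.coe_inv, Prod.fst_inv] at ha ⊢
    exact (show Commute a.1.1 b0 from ha).inv_left.eq

/-- both components commute with `b0` -/
def Pe : Subgroup EE where
  carrier := {e | e.1.1 * b0 = b0 * e.1.1 ∧ e.1.2 * b0 = b0 * e.1.2}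
  one_mem' := by simp
  mul_mem' := by
    intro a b ha hb
    simp only [Set.mem_ofPred_eq, Subgroup.coe_mul, Prod.fst_mul, Prod.snd_mul] at ha hb ⊢
    exact ⟨by rw [mul_assoc, hb.1, ← mul_assoc, ha.1, mul_assoc], by rw [mul_assoc, hb.2, ← mul_assoc, ha.2, mul_assoc]⟩
  inv_mem' := by
    intro a ha
    simp only [Set.mem_ofPred_eq, Subgroup.coe_inv, Prod.fst_inv, Prod.snd_inv] at ha ⊢
    exact ⟨(show Commute a.1.1 b0 from ha.1).inv_left.eq, (show Commute a.1.2 b0 from ha.2).inv_left.eq⟩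

theorem mem_Ye {e : EE} : e ∈ Ye ↔ e.1.1 * b0 = b0 * e.1.1 := Iff.rfl
theorem mem_Pe {e : EE} : e ∈ Pe ↔ e.1.1 * b0 = b0 * e.1.1 ∧ e.1.2 * b0 = b0 * e.1.2 := Iff.rfl

theorem card_Ye : Nat.card Ye = 480 := by
  rw [← card_480, ← Nat.card_eq_fintype_card]
  refine Nat.card_congr ⟨fun e => ⟨(⟨e.1.1.1, e.2⟩, e.1.1.2), e.1.2⟩, fun k => ⟨⟨(k.1.1.1, k.1.2), k.2⟩, k.1.1.2⟩, ?_, ?_⟩
  · intro e; rfl
  · intro k; rfl

theorem card_Pe : Nat.card Pe = 32 := by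
  rw [← card_32, ← Nat.card_eq_fintype_card]
  refine Nat.card_congr ⟨fun e => ⟨(⟨e.1.1.1, e.2.1⟩, ⟨e.1.1.2, e.2.2⟩), e.1.2⟩,
    fun k => ⟨⟨(k.1.1.1, k.1.2.1), k.2⟩, ⟨k.1.1.2, k.1.2.2⟩⟩, ?_, ?_⟩
  · intro e; rfl
  · intro k; rfl

section

variable {G : Type*} [Group G] [Finite G] {Φ : EE →* G} {n : G}

theorem mk_mul (a b a' b' : Perm (Fin 5)) (h : Perm.sign a = Perm.sign b) (h' : Perm.sign a' = Perm.sign b')
    (h'' : Perm.sign (a * a') = Perm.sign (b * b')) : mkE a b h * mkE a' b' h' = mkE (a * a') (b * b') h'' := rfl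

/-- centralizer of `V` -/
def CV (Φ : EE →* G) : Subgroup G :=
  centralizer ({Φ (mkE b0 1 sb0)} : Set G) ⊓ centralizer ({Φ (mkE u0 1 su0)} : Set G)

theorem mem_CV {g : G} : g ∈ CV Φ ↔ g * Φ (mkE b0 1 sb0) = Φ (mkE b0 1 sb0) * g ∧
    g * Φ (mkE u0 1 su0) = Φ (mkE u0 1 su0) * g := by
  unfold CV
  rw [mem_inf, mem_centralizer_singleton_iff, mem_centralizer_singleton_iff]

theorem JJ1 : Φ (mkE b0 1 sb0) * Φ (mkE b0 1 sb0) = 1 := by
  rw [← map_mul]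
  have : mkE b0 1 sb0 * mkE b0 1 sb0 = 1 := Subtype.ext (Prod.ext bb (one_mul 1))
  rw [this, map_one]

/-- `C(j) ∩ N(V)` -/
def XX (Φ : EE →* G) : Subgroup G where
  carrier := {g | g * Φ (mkE b0 1 sb0) = Φ (mkE b0 1 sb0) * g ∧
    (g * Φ (mkE u0 1 su0) * g⁻¹ = Φ (mkE u0 1 su0) ∨
      g * Φ (mkE u0 1 su0) * g⁻¹ = Φ (mkE u0 1 su0) * Φ (mkE b0 1 sb0))}
  one_mem' := ⟨by rw [one_mul, mul_one], Or.inl (by rw [one_mul, inv_one, mul_one])⟩
  mul_mem' := by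
    rintro g h ⟨hg, hg'⟩ ⟨hh, hh'⟩
    refine ⟨by rw [mul_assoc, hh, ← mul_assoc, hg, mul_assoc], ?_⟩
    have e : g * h * Φ (mkE u0 1 su0) * (g * h)⁻¹ = g * (h * Φ (mkE u0 1 su0) * h⁻¹) * g⁻¹ := by group
    have e2 : g * Φ (mkE b0 1 sb0) * g⁻¹ = Φ (mkE b0 1 sb0) := by rw [hg]; group
    rw [e]
    rcases hh' with h1 | h1
    · rw [h1]; exact hg'
    · rw [h1]
      have e3 : g * (Φ (mkE u0 1 su0) * Φ (mkE b0 1 sb0)) * g⁻¹ =
          (g * Φ (mkE u0 1 su0) * g⁻¹) * (g * Φ (mkE b0 1 sb0) * g⁻¹) := by group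
      rw [e3, e2]
      rcases hg' with h2 | h2
      · right; rw [h2]
      · left; rw [h2, mul_assoc, JJ1, mul_one]
  inv_mem' := by
    rintro g ⟨hg, hg'⟩
    have hc : g⁻¹ * Φ (mkE b0 1 sb0) = Φ (mkE b0 1 sb0) * g⁻¹ :=
      (show Commute g (Φ (mkE b0 1 sb0)) from hg).inv_left.eq
    refine ⟨hc, ?_⟩
    rcases hg' with h1 | h1
    · left
      have : Φ (mkE u0 1 su0) = g⁻¹ * (g * Φ (mkE u0 1 su0) * g⁻¹) * g⁻¹⁻¹ := by group
      rw [h1] at this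
      exact this.symm
    · right
      have h2 : Φ (mkE u0 1 su0) = g⁻¹ * (g * Φ (mkE u0 1 su0) * g⁻¹) * g⁻¹⁻¹ := by group
      rw [h1] at h2
      have h3 : g⁻¹ * (Φ (mkE u0 1 su0) * Φ (mkE b0 1 sb0)) * g⁻¹⁻¹ =
          (g⁻¹ * Φ (mkE u0 1 su0) * g⁻¹⁻¹) * (g⁻¹ * Φ (mkE b0 1 sb0) * g⁻¹⁻¹) := by group
      have h4 : g⁻¹ * Φ (mkE b0 1 sb0) * g⁻¹⁻¹ = Φ (mkE b0 1 sb0) := by rw [hc]; group
      rw [h3, h4] at h2
      have h5 : Φ (mkE u0 1 su0) * Φ (mkE b0 1 sb0) =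
          (g⁻¹ * Φ (mkE u0 1 su0) * g⁻¹⁻¹ * Φ (mkE b0 1 sb0)) * Φ (mkE b0 1 sb0) :=
        congrArg (fun y : G => y * Φ (mkE b0 1 sb0)) h2
      rw [mul_assoc (g⁻¹ * Φ (mkE u0 1 su0) * g⁻¹⁻¹), JJ1, mul_one] at h5
      exact h5.symm

theorem mem_XX {g : G} : g ∈ XX Φ ↔ g * Φ (mkE b0 1 sb0) = Φ (mkE b0 1 sb0) * g ∧
    (g * Φ (mkE u0 1 su0) * g⁻¹ = Φ (mkE u0 1 su0) ∨
      g * Φ (mkE u0 1 su0) * g⁻¹ = Φ (mkE u0 1 su0) * Φ (mkE b0 1 sb0)) := Iff.rfl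

theorem CV_le : CV Φ ≤ XX Φ := by
  intro g hg
  rw [mem_CV] at hg
  exact ⟨hg.1, Or.inl (by rw [hg.2]; group)⟩

theorem conj_t : Φ tE * Φ (mkE u0 1 su0) * (Φ tE)⁻¹ = Φ (mkE u0 1 su0) * Φ (mkE b0 1 sb0) := by
  rw [← map_inv, ← map_mul, ← map_mul, ← map_mul]
  congr 1
  refine Subtype.ext (Prod.ext tu ?_)
  show t5 * 1 * t5⁻¹ = 1 * 1
  group

theorem t_mem : Φ tE ∈ XX Φ := by
  refine ⟨?_, Or.inr conj_t⟩
  rw [← map_mul, ← map_mul]
  congr 1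
  refine Subtype.ext (Prod.ext tb ?_)
  show t5 * 1 = 1 * t5
  rw [mul_one, one_mul]

theorem J_ne (hi : Function.Injective Φ) : Φ (mkE b0 1 sb0) ≠ 1 := by
  intro h
  have h1 := hi (h.trans (map_one Φ).symm)
  exact b1 (congrArg (fun e : EE => e.1.1) h1)

theorem t_not (hi : Function.Injective Φ) : Φ tE ∉ CV Φ := by
  intro h
  rw [mem_CV] at h
  have h1 : Φ tE * Φ (mkE u0 1 su0) * (Φ tE)⁻¹ = Φ (mkE u0 1 su0) := by rw [h.2]; group
  rw [conj_t] at h1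
  exact J_ne hi (mul_left_cancel (h1.trans (mul_one _).symm))

theorem card_XX (hi : Function.Injective Φ) : Nat.card (XX Φ) = Nat.card (CV Φ) * 2 := by
  have h1 : ((CV Φ).subgroupOf (XX Φ)).index = 2 := by
    rw [index_eq_two_iff']
    refine ⟨⟨Φ tE, t_mem⟩, fun b => ?_⟩
    have key : ∀ g : G, g ∈ XX Φ → g ∉ CV Φ → Φ tE * g ∈ CV Φ := by
      intro g hg hgn
      rw [mem_CV] at hgn ⊢
      have hgX := hg
      rw [mem_XX] at hg
      have ht := (mem_XX.1 (t_mem (Φ := Φ))).1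
      refine ⟨by rw [mul_assoc, hg.1, ← mul_assoc, ht, mul_assoc], ?_⟩
      rcases hg.2 with h2 | h2
      · exfalso
        apply hgn
        refine ⟨hg.1, ?_⟩
        calc g * Φ (mkE u0 1 su0) = (g * Φ (mkE u0 1 su0) * g⁻¹) * g := by group
          _ = _ := by rw [h2]
      · have h3 : Φ tE * g * Φ (mkE u0 1 su0) * (Φ tE * g)⁻¹ = Φ (mkE u0 1 su0) := by
          have e : Φ tE * g * Φ (mkE u0 1 su0) * (Φ tE * g)⁻¹ =
              Φ tE * (g * Φ (mkE u0 1 su0) * g⁻¹) * (Φ tE)⁻¹ := by group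
          have e3 : Φ tE * (Φ (mkE u0 1 su0) * Φ (mkE b0 1 sb0)) * (Φ tE)⁻¹ =
            (Φ tE * Φ (mkE u0 1 su0) * (Φ tE)⁻¹) * (Φ tE * Φ (mkE b0 1 sb0) * (Φ tE)⁻¹) := by group
          have e4 : Φ tE * Φ (mkE b0 1 sb0) * (Φ tE)⁻¹ = Φ (mkE b0 1 sb0) := by rw [ht]; group
          rw [e, h2, e3, e4, conj_t, mul_assoc, JJ1, mul_one]
        calc Φ tE * g * Φ (mkE u0 1 su0) = (Φ tE * g * Φ (mkE u0 1 su0) * (Φ tE * g)⁻¹) * (Φ tE * g) := by group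
          _ = _ := by rw [h3]
    by_cases hb : (b : G) ∈ CV Φ
    · right
      refine ⟨hb, fun h => t_not hi ?_⟩
      have h2 : Φ tE * (b : G) ∈ CV Φ := h
      exact ((CV Φ).mul_mem_cancel_right hb).1 h2
    · left
      exact ⟨key b b.2 hb, hb⟩
  have h2 := ((CV Φ).subgroupOf (XX Φ)).card_mul_index
  rw [h1] at h2
  rw [← h2]
  congr 1
  exact (Nat.card_congr (subgroupOfEquivOfLe (CV_le (Φ := Φ))).toEquiv)

/-- `|C(V)|` is not divisible by 32 -/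
theorem not_32 (h : TM Φ n) : ¬ 32 ∣ Nat.card (CV Φ) := by
  intro h32
  have hi := h.inj
  have h64 : 2 ^ (5 + 1) ∣ Nat.card (XX Φ) := by
    rw [card_XX hi]
    have : 32 * 2 ∣ Nat.card (CV Φ) * 2 := Nat.mul_dvd_mul_right h32 2
    simpa using this
  have hP : Pe.map Φ ≤ XX Φ := by
    rintro _ ⟨e, he, rfl⟩
    rw [SetLike.mem_coe, mem_Pe] at he
    refine ⟨?_, ?_⟩
    · rw [← map_mul, ← map_mul]
      congr 1
      exact Subtype.ext (Prod.ext he.1 ((mul_one _).trans (one_mul _).symm))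
    · rw [← map_inv, ← map_mul, ← map_mul, ← map_mul]
      rcases d8_conj _ he.1 with h1 | h1
      · left
        congr 1
        refine Subtype.ext (Prod.ext h1 ?_)
        show e.1.2 * 1 * e.1.2⁻¹ = 1
        group
      · right
        congr 1
        refine Subtype.ext (Prod.ext h1 ?_)
        show e.1.2 * 1 * e.1.2⁻¹ = 1 * 1
        group
  have hPc : Nat.card ((Pe.map Φ).subgroupOf (XX Φ)) = 2 ^ 5 := by
    rw [Nat.card_congr (subgroupOfEquivOfLe hP).toEquiv,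
      ← Nat.card_congr (Pe.equivMapOfInjective Φ hi).toEquiv, card_Pe]
    norm_num
  haveI : Fact (Nat.Prime 2) := ⟨Nat.prime_two⟩
  obtain ⟨R, hR, hPR⟩ := Sylow.exists_subgroup_card_pow_succ h64 hPc
  have hidx : (((Pe.map Φ).subgroupOf (XX Φ)).subgroupOf R).index = 2 := by
    have h1 := (((Pe.map Φ).subgroupOf (XX Φ)).subgroupOf R).card_mul_index
    rw [Nat.card_congr (subgroupOfEquivOfLe hPR).toEquiv, hPc, hR] at h1
    omega
  have hn := normal_of_index_eq_two hidx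
  have htP : Φ tE ∈ Pe.map Φ := ⟨tE, ⟨tb, tb⟩, rfl⟩
  have hRr : R.map (XX Φ).subtype ≤ Ye.map Φ := by
    rintro _ ⟨g, hg, rfl⟩
    have h1 : (⟨Φ tE, t_mem⟩ : XX Φ) ∈ R := hPR (mem_subgroupOf.2 htP)
    have h2 := hn.conj_mem ⟨⟨Φ tE, t_mem⟩, h1⟩ (mem_subgroupOf.2 (mem_subgroupOf.2 htP)) ⟨g, hg⟩
    have h3 : (g : G) * Φ tE * (g : G)⁻¹ ∈ Pe.map Φ := by
      rw [mem_subgroupOf, mem_subgroupOf] at h2
      exact h2
    obtain ⟨e, -, he⟩ := h3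
    have h4 := h.fus g (Or.inl ⟨e, he⟩)
    have hgX := mem_XX.1 g.2
    have hgJ := hgX.1
    rcases h4 with ⟨e', he'⟩ | ⟨e', he'⟩
    · refine ⟨e', ?_, he'⟩
      rw [SetLike.mem_coe, mem_Ye]
      rw [← he', ← map_mul, ← map_mul] at hgJ
      exact congrArg (fun e : EE => e.1.1) (hi hgJ)
    · exfalso
      have hg' : (g : G) = Φ e' * n := by
        rw [he', mul_assoc, h.nn, mul_one]
      have hnn : n⁻¹ = n := inv_eq_of_mul_eq_one_left h.nn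
      have hnb := h.nc b0 1 sb0
      rw [hg'] at hgJ
      have h5 : Φ e' * n * Φ (mkE b0 1 sb0) = Φ e' * (n * Φ (mkE b0 1 sb0) * n⁻¹) * n := by group
      rw [h5, hnb, ← mul_assoc, ← map_mul, ← map_mul] at hgJ
      have h6 := hi (mul_right_cancel hgJ)
      have h7 := congrArg (fun e : EE => e.1.1) h6
      change e'.1.1 * 1 = b0 * e'.1.1 at h7
      rw [mul_one] at h7
      exact b1 (mul_right_cancel (h7.symm.trans (one_mul _).symm))
  have h5 : Nat.card (R.map (XX Φ).subtype) = 64 := by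
    rw [← Nat.card_congr (R.equivMapOfInjective _ (XX Φ).subtype_injective).toEquiv, hR]; norm_num
  have h6 := Subgroup.card_dvd_of_le hRr
  rw [h5, ← Nat.card_congr (Ye.equivMapOfInjective Φ hi).toEquiv, card_Ye] at h6
  norm_num at h6

end

end H45.RCU2
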