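import Mathlib

/-!
Isometries of a symplectic space: basic facts about `g + g⁻¹`.
-/
set_option autoImplicit false
set_option linter.unusedSectionVars false

namespace H45.SpA

open Polynomial Module

variable {F V : Type*} [Field F] [AddCommGroup V] [Module F V]

/-- `g` is an isometry of the alternating form `ω` -/
structure Iso (ω : V →ₗ[F] V →ₗ[F] F) (g : V ≃ₗ[F] V) : Prop where
  alt : ∀ x, ω x x = 0
  inv : ∀ x y, ω (g x) (g y) = ω x y

/-- `g + g⁻¹` -/
def T (g : V ≃ₗ[F] V) : V →ₗ[F] V := g.toLinearMap + g.symm.toLinearMap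

/-- `g - 1` -/
def Z (g : V ≃ₗ[F] V) : V →ₗ[F] V := g.toLinearMap - LinearMap.id

theorem T_apply (g : V ≃ₗ[F] V) (x : V) : T g x = g x + g.symm x := rfl

theorem Z_apply (g : V ≃ₗ[F] V) (x : V) : Z g x = g x - x := rfl

/-- the subspace generated by `v` under `g + g⁻¹` -/
def Rs (g : V ≃ₗ[F] V) (v : V) : Submodule F V where
  carrier := {x | ∃ h : F[X], aeval (T g) h v = x}
  zero_mem' := ⟨0, by simp⟩
  add_mem' := by
    rintro _ _ ⟨a, rfl⟩ ⟨b, rfl⟩
    exact ⟨a + b, by rw [map_add, LinearMap.add_apply]⟩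
  smul_mem' := by
    rintro c _ ⟨a, rfl⟩
    exact ⟨c • a, by rw [map_smul, LinearMap.smul_apply]⟩

theorem mem_Rs {g : V ≃ₗ[F] V} {v x : V} : x ∈ Rs g v ↔ ∃ h : F[X], aeval (T g) h v = x := Iff.rfl

theorem self_mem_Rs (g : V ≃ₗ[F] V) (v : V) : v ∈ Rs g v := ⟨1, by simp⟩

theorem pol_mem_Rs (g : V ≃ₗ[F] V) (v : V) (h : F[X]) : aeval (T g) h v ∈ Rs g v := ⟨h, rfl⟩

theorem pol_mul (g : V ≃ₗ[F] V) (a b : F[X]) (x : V) : aeval (T g) (a * b) x = aeval (T g) a (aeval (T g) b x) := by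
  rw [map_mul, Module.End.mul_apply]

theorem T_mem_Rs {g : V ≃ₗ[F] V} {v x : V} (hx : x ∈ Rs g v) : T g x ∈ Rs g v := by
  obtain ⟨h, rfl⟩ := hx
  exact ⟨X * h, by rw [pol_mul, aeval_X]⟩

theorem T_g (g : V ≃ₗ[F] V) (x : V) : T g (g x) = g (T g x) := by
  rw [T_apply, T_apply, map_add]; simp

theorem pol_g (g : V ≃ₗ[F] V) (h : F[X]) (x : V) : aeval (T g) h (g x) = g (aeval (T g) h x) := by
  induction h using Polynomial.induction_on' with
  | add a b ha hb => simp only [map_add, LinearMap.add_apply, ha, hb]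
  | monomial n c =>
    have key : ∀ n : ℕ, ((T g) ^ n) (g x) = g (((T g) ^ n) x) := by
      intro n
      induction n with
      | zero => simp
      | succ n ih => rw [pow_succ', Module.End.mul_apply, Module.End.mul_apply, ih, T_g]
    rw [aeval_monomial, Module.End.mul_apply, Module.End.mul_apply, key, Module.algebraMap_end_apply,
      Module.algebraMap_end_apply, map_smul]

theorem pol_Z (g : V ≃ₗ[F] V) (h : F[X]) (x : V) : aeval (T g) h (Z g x) = Z g (aeval (T g) h x) := by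
  rw [Z_apply, Z_apply, map_sub, pol_g]

theorem gs_eq (g : V ≃ₗ[F] V) (x : V) : g.symm x = T g x - g x := by
  rw [T_apply]; abel

theorem pol_gs (g : V ≃ₗ[F] V) (h : F[X]) (x : V) : aeval (T g) h (g.symm x) = g.symm (aeval (T g) h x) := by
  apply g.injective
  rw [← pol_g, LinearEquiv.apply_symm_apply, LinearEquiv.apply_symm_apply]

theorem g_eq (g : V ≃ₗ[F] V) (x : V) : g x = x + Z g x := by
  rw [Z_apply]; abel

theorem Z_comm_gs (g : V ≃ₗ[F] V) (x : V) : Z g (g.symm x) = g.symm (Z g x) := by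
  rw [Z_apply, Z_apply, map_sub]; simp

theorem Z_comm_g (g : V ≃ₗ[F] V) (x : V) : Z g (g x) = g (Z g x) := by
  rw [Z_apply, Z_apply, map_sub]

/-- `(g - 1)² = (T - 2) g` -/
theorem Z_Z (g : V ≃ₗ[F] V) (x : V) : Z g (Z g x) = aeval (T g) (X - C 2 : F[X]) (g x) := by
  rw [Z_apply, Z_apply, map_sub, map_sub, aeval_X, aeval_C, LinearMap.sub_apply, Module.algebraMap_end_apply, T_apply,
    LinearEquiv.symm_apply_apply, two_smul]
  abel

theorem tau_eq (g : V ≃ₗ[F] V) (x : V) : aeval (T g) (X - C 2 : F[X]) x = Z g (Z g (g.symm x)) := by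
  rw [Z_Z, LinearEquiv.apply_symm_apply]

section form

variable {ω : V →ₗ[F] V →ₗ[F] F} {g : V ≃ₗ[F] V} (hi : Iso ω g)

include hi

theorem Iso.skew (x y : V) : ω x y = - ω y x := by
  have h := hi.alt (x + y)
  simp only [map_add, LinearMap.add_apply, hi.alt, zero_add, add_zero] at h
  linear_combination h

theorem Iso.adj (x y : V) : ω (g x) y = ω x (g.symm y) := by
  have h := hi.inv x (g.symm y)
  rwa [LinearEquiv.apply_symm_apply] at h

theorem Iso.adj' (x y : V) : ω (g.symm x) y = ω x (g y) := by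
  have h := hi.inv (g.symm x) y
  rw [LinearEquiv.apply_symm_apply] at h
  exact h.symm

theorem Iso.T_adj (x y : V) : ω (T g x) y = ω x (T g y) := by
  rw [T_apply, T_apply, map_add, map_add, LinearMap.add_apply, hi.adj, hi.adj', add_comm]

theorem Iso.T_alt (x : V) : ω x (T g x) = 0 := by
  rw [T_apply, map_add, ← hi.adj, hi.skew x (g x)]; ring

theorem Iso.Tpow_adj (n : ℕ) (x y : V) : ω (((T g) ^ n) x) y = ω x (((T g) ^ n) y) := by
  induction n generalizing x y with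
  | zero => simp
  | succ n ih =>
    have h1 : ((T g) ^ (n + 1)) x = T g (((T g) ^ n) x) := by rw [pow_succ', Module.End.mul_apply]
    have h2 : ((T g) ^ (n + 1)) y = ((T g) ^ n) (T g y) := by rw [pow_succ, Module.End.mul_apply]
    rw [h1, h2, hi.T_adj, ih]

theorem Iso.pol_adj (h : F[X]) (x y : V) : ω (aeval (T g) h x) y = ω x (aeval (T g) h y) := by
  induction h using Polynomial.induction_on' with
  | add a b ha hb => simp only [map_add, LinearMap.add_apply, ha, hb]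
  | monomial n c =>
    rw [aeval_monomial, Module.End.mul_apply, Module.End.mul_apply, Module.algebraMap_end_apply,
      Module.algebraMap_end_apply, map_smul, map_smul, LinearMap.smul_apply, hi.Tpow_adj]

theorem Iso.pol_alt (h : F[X]) (x : V) : ω x (aeval (T g) h x) = 0 := by
  induction h using Polynomial.induction_on' with
  | add a b ha hb => simp only [map_add, LinearMap.add_apply, ha, hb, add_zero]
  | monomial n c =>
    rw [aeval_monomial, Module.End.mul_apply, Module.algebraMap_end_apply, map_smul]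
    have key : ω x (((T g) ^ n) x) = 0 := by
      rcases Nat.even_or_odd' n with ⟨j, rfl | rfl⟩
      · rw [two_mul, pow_add, Module.End.mul_apply, ← hi.Tpow_adj, hi.alt]
      · rw [two_mul, add_assoc, pow_add, Module.End.mul_apply, ← hi.Tpow_adj, pow_succ', Module.End.mul_apply, hi.T_alt]
    rw [key, smul_zero]

theorem Iso.pol_alt' (a b : F[X]) (x : V) : ω (aeval (T g) a x) (aeval (T g) b x) = 0 := by
  rw [hi.pol_adj, ← pol_mul, hi.pol_alt]

theorem Iso.Rs_iso (v : V) : ∀ x ∈ Rs g v, ∀ y ∈ Rs g v, ω x y = 0 := by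
  rintro _ ⟨a, rfl⟩ _ ⟨b, rfl⟩
  exact hi.pol_alt' a b v

theorem Iso.ZZ (x y : V) : ω (Z g x) (Z g y) = 2 * ω x y - ω x (T g y) := by
  rw [Z_apply, Z_apply, T_apply]
  simp only [map_sub, LinearMap.sub_apply, map_add, hi.inv]
  rw [hi.adj]; ring

end form

/-- non-degenerate subspaces -/
def Nd (ω : V →ₗ[F] V →ₗ[F] F) (W : Submodule F V) : Prop := ∀ x ∈ W, (∀ y ∈ W, ω x y = 0) → x = 0

/-- stable subspaces -/
def Stab (g : V ≃ₗ[F] V) (W : Submodule F V) : Prop := ∀ x ∈ W, g x ∈ W ∧ g.symm x ∈ W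

/-- the conclusion -/
def UF (ω : V →ₗ[F] V →ₗ[F] F) (g : V ≃ₗ[F] V) (W : Submodule F V) : Prop :=
  ∃ L L' : Submodule F V, L ⊔ L' = W ∧ (∀ x ∈ L, ∀ y ∈ L, ω x y = 0) ∧ (∀ x ∈ L', ∀ y ∈ L', ω x y = 0) ∧
    ∀ x ∈ L, Z g x ∈ L'

/-- the orthogonal space -/
def perp (ω : V →ₗ[F] V →ₗ[F] F) (W : Submodule F V) : Submodule F V where
  carrier := {x | ∀ y ∈ W, ω y x = 0}
  zero_mem' := by intro y _; rw [map_zero]
  add_mem' := by intro a b ha hb y hy; rw [map_add, ha y hy, hb y hy, add_zero]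
  smul_mem' := by intro c a ha y hy; rw [map_smul, ha y hy, smul_zero]

theorem mem_perp {ω : V →ₗ[F] V →ₗ[F] F} {W : Submodule F V} {x : V} : x ∈ perp ω W ↔ ∀ y ∈ W, ω y x = 0 := Iff.rfl

theorem represent [FiniteDimensional F V] {ω : V →ₗ[F] V →ₗ[F] F} (hs : ∀ x y, ω x y = - ω y x) {W : Submodule F V}
    (hW : Nd ω W) (φ : V →ₗ[F] F) : ∃ w ∈ W, ∀ x ∈ W, ω x w = φ x := by
  let Ψ : W →ₗ[F] W →ₗ[F] F := ω.flip.domRestrict₁₂ W W
  have hΨ : ∀ a b : W, Ψ a b = ω b a := fun a b => rfl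
  have hinj : Function.Injective Ψ := by
    rw [← LinearMap.ker_eq_bot, LinearMap.ker_eq_bot']
    intro a ha
    apply Subtype.ext
    apply hW a a.2
    intro y hy
    rw [hs]
    have := LinearMap.congr_fun ha ⟨y, hy⟩
    rw [hΨ] at this
    rw [this]; simp
  have hsurj : Function.Surjective Ψ :=
    (LinearMap.injective_iff_surjective_of_finrank_eq_finrank (Subspace.dual_finrank_eq (K := F) (V := W)).symm).1 hinj
  obtain ⟨w, hw⟩ := hsurj (φ.comp W.subtype)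
  refine ⟨w, w.2, fun x hx => ?_⟩
  have := LinearMap.congr_fun hw ⟨x, hx⟩
  rw [hΨ] at this
  exact this

theorem split [FiniteDimensional F V] {ω : V →ₗ[F] V →ₗ[F] F} (hs : ∀ x y, ω x y = - ω y x) {M W : Submodule F V}
    (hM : Nd ω M) (hMW : M ≤ W) : M ⊔ (W ⊓ perp ω M) = W := by
  apply le_antisymm
  · exact sup_le hMW inf_le_left
  · intro x hx
    obtain ⟨m, hm, h⟩ := represent hs hM (ω.flip x)
    rw [Submodule.mem_sup]
    refine ⟨m, hm, x - m, ⟨W.sub_mem hx (hMW hm), ?_⟩, by abel⟩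
    intro y hy
    rw [map_sub, h y hy, LinearMap.flip_apply, sub_self]

theorem exists_sep [FiniteDimensional F V] {ω : V →ₗ[F] V →ₗ[F] F} (hs : ∀ x y, ω x y = - ω y x) {S W : Submodule F V}
    (hW : Nd ω W) (hSW : S ≤ W) {y : V} (hy : y ∈ W) (hyS : y ∉ S) : ∃ w ∈ W, (∀ s ∈ S, ω s w = 0) ∧ ω y w ≠ 0 := by
  obtain ⟨φ, h1, h2⟩ := Submodule.exists_le_ker_of_notMem hyS
  obtain ⟨w, hw, h⟩ := represent hs hW φ
  refine ⟨w, hw, fun s hs' => ?_, ?_⟩
  · rw [h s (hSW hs')]; exact LinearMap.mem_ker.1 (h2 hs')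
  · rw [h y hy]; exact h1

theorem perp_stab [FiniteDimensional F V] {ω : V →ₗ[F] V →ₗ[F] F} {g : V ≃ₗ[F] V} (hi : Iso ω g) {M W : Submodule F V}
    (hM : Stab g M) (hW : Stab g W) : Stab g (W ⊓ perp ω M) := by
  rintro x ⟨hx, hx'⟩
  refine ⟨⟨(hW x hx).1, ?_⟩, ⟨(hW x hx).2, ?_⟩⟩
  · intro y hy
    rw [← hi.adj']
    exact hx' _ (hM y hy).2
  · intro y hy
    rw [← hi.adj]
    exact hx' _ (hM y hy).1

theorem perp_nd [FiniteDimensional F V] {ω : V →ₗ[F] V →ₗ[F] F} (hs : ∀ x y, ω x y = - ω y x) {M W : Submodule F V}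
    (hM : Nd ω M) (hMW : M ≤ W) (hW : Nd ω W) : Nd ω (W ⊓ perp ω M) := by
  rintro x ⟨hx, hx'⟩ h
  apply hW x hx
  intro y hy
  rw [← split hs hM hMW, Submodule.mem_sup] at hy
  obtain ⟨m, hm, n, hn, rfl⟩ := hy
  rw [map_add, h n hn, hs, hx' m hm]; simp

theorem UF.sup {ω : V →ₗ[F] V →ₗ[F] F} {g : V ≃ₗ[F] V} (hs : ∀ x y, ω x y = - ω y x) {A B : Submodule F V}
    (hA : UF ω g A) (hB : UF ω g B) (hAB : ∀ x ∈ A, ∀ y ∈ B, ω x y = 0) : UF ω g (A ⊔ B) := by
  obtain ⟨L₁, L₁', h1, h2, h3, h4⟩ := hA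
  obtain ⟨L₂, L₂', k1, k2, k3, k4⟩ := hB
  have hL1 : L₁ ≤ A := by rw [← h1]; exact le_sup_left
  have hL1' : L₁' ≤ A := by rw [← h1]; exact le_sup_right
  have hL2 : L₂ ≤ B := by rw [← k1]; exact le_sup_left
  have hL2' : L₂' ≤ B := by rw [← k1]; exact le_sup_right
  refine ⟨L₁ ⊔ L₂, L₁' ⊔ L₂', ?_, ?_, ?_, ?_⟩
  · rw [← h1, ← k1, sup_sup_sup_comm]
  · intro x hx y hy
    rw [Submodule.mem_sup] at hx hy
    obtain ⟨a, ha, b, hb, rfl⟩ := hx
    obtain ⟨c, hc, d, hd, rfl⟩ := hy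
    simp only [map_add, LinearMap.add_apply]
    rw [h2 a ha c hc, k2 b hb d hd, hAB a (hL1 ha) d (hL2 hd), hs b c, hAB c (hL1 hc) b (hL2 hb)]; simp
  · intro x hx y hy
    rw [Submodule.mem_sup] at hx hy
    obtain ⟨a, ha, b, hb, rfl⟩ := hx
    obtain ⟨c, hc, d, hd, rfl⟩ := hy
    simp only [map_add, LinearMap.add_apply]
    rw [h3 a ha c hc, k3 b hb d hd, hAB a (hL1' ha) d (hL2' hd), hs b c, hAB c (hL1' hc) b (hL2' hb)]; simp
  · intro x hx
    rw [Submodule.mem_sup] at hx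
    obtain ⟨a, ha, b, hb, rfl⟩ := hx
    rw [map_add]
    exact Submodule.add_mem_sup (h4 a ha) (k4 b hb)

end H45.SpA
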