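import Cfsg.Agent.Lib.H45.SpA

/-!
Isometries of a symplectic space: the cyclic case.
-/
set_option autoImplicit false
set_option linter.unusedSectionVars false

namespace H45.SpB

open Polynomial Module H45.SpA

variable {F V : Type*} [Field F] [AddCommGroup V] [Module F V]

variable {ω : V →ₗ[F] V →ₗ[F] F} {g : V ≃ₗ[F] V}

theorem pol_mem {W : Submodule F V} (hW : Stab g W) (h : F[X]) {x : V} (hx : x ∈ W) : aeval (T g) h x ∈ W := by
  have hT : ∀ y ∈ W, T g y ∈ W := fun y hy => by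
    rw [T_apply]; exact W.add_mem (hW y hy).1 (hW y hy).2
  induction h using Polynomial.induction_on' with
  | add a b ha hb => simp only [map_add, LinearMap.add_apply]; exact W.add_mem ha hb
  | monomial n c =>
    have key : ((T g) ^ n) x ∈ W := by
      induction n with
      | zero => simpa using hx
      | succ n ih => rw [pow_succ', Module.End.mul_apply]; exact hT _ ih
    rw [aeval_monomial, Module.End.mul_apply, Module.algebraMap_end_apply]
    exact W.smul_mem _ key

theorem Z_mem {W : Submodule F V} (hW : Stab g W) {x : V} (hx : x ∈ W) : Z g x ∈ W := by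
  rw [Z_apply]; exact W.sub_mem (hW x hx).1 hx

theorem Rs_le {W : Submodule F V} (hW : Stab g W) {x : V} (hx : x ∈ W) : Rs g x ≤ W := by
  rintro _ ⟨h, rfl⟩
  exact pol_mem hW h hx

/-- `z v` generates a stable subspace together with `v` -/
theorem stab_pair (v : V) : Stab g (Rs g v ⊔ Rs g (Z g v)) := by
  have hg : ∀ x ∈ Rs g v ⊔ Rs g (Z g v), g x ∈ Rs g v ⊔ Rs g (Z g v) := by
    intro x hx
    rw [Submodule.mem_sup] at hx
    obtain ⟨_, ⟨a, rfl⟩, _, ⟨b, rfl⟩, rfl⟩ := hx
    rw [map_add, ← pol_g, ← pol_g]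
    apply Submodule.add_mem
    · rw [g_eq, map_add]
      exact Submodule.add_mem_sup (pol_mem_Rs g v a) (pol_mem_Rs g _ a)
    · rw [g_eq, Z_Z, map_add, ← pol_mul, g_eq, map_add]
      apply Submodule.add_mem
      · exact Submodule.mem_sup_right (pol_mem_Rs g _ b)
      · exact Submodule.add_mem_sup (pol_mem_Rs g v _) (pol_mem_Rs g _ _)
  intro x hx
  refine ⟨hg x hx, ?_⟩
  rw [gs_eq]
  apply Submodule.sub_mem _ _ (hg x hx)
  rw [Submodule.mem_sup] at hx
  obtain ⟨a, ha, b, hb, rfl⟩ := hx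
  rw [map_add]
  exact Submodule.add_mem_sup (T_mem_Rs ha) (T_mem_Rs hb)

theorem stab_sup {A B : Submodule F V} (hA : Stab g A) (hB : Stab g B) : Stab g (A ⊔ B) := by
  intro x hx
  rw [Submodule.mem_sup] at hx
  obtain ⟨a, ha, b, hb, rfl⟩ := hx
  rw [map_add, map_add]
  exact ⟨Submodule.add_mem_sup (hA a ha).1 (hB b hb).1, Submodule.add_mem_sup (hA a ha).2 (hB b hb).2⟩

/-- the functional kills no proper divisor -/
theorem dvd_of_kill (W : Submodule F V) (p : F[X]) (e : ℕ) (hp : Irreducible p)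
    (hI : ∀ h : F[X], (∀ x ∈ W, aeval (T g) h x = 0) ↔ p ^ e ∣ h) (hW : Stab g W) {v : V} (hv : v ∈ W) (h0 : F[X])
    (hne : ω v (aeval (T g) (h0 * p ^ (e - 1)) (g v)) ≠ 0) (b : F[X])
    (hb : ∀ h : F[X], ω v (aeval (T g) (h * b) (g v)) = 0) : p ^ e ∣ b := by
  have key : ∀ j ≤ e, p ^ j ∣ b := by
    intro j
    induction j with
    | zero => intro _; simp
    | succ j ih =>
      intro hj
      obtain ⟨b', rfl⟩ := ih (by omega)
      by_contra hcon
      have hpb : ¬ p ∣ b' := by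
        intro h
        apply hcon
        rw [pow_succ]
        exact mul_dvd_mul_left _ h
      obtain ⟨c, d, hcd⟩ := (hp.coprime_iff_not_dvd).2 hpb
      apply hne
      have h1 := hb (h0 * p ^ (e - 1 - j) * d)
      have h2 : h0 * p ^ (e - 1) = h0 * p ^ (e - 1 - j) * d * (p ^ j * b') + h0 * c * p ^ e := by
        have e1 : p ^ (e - 1) = p ^ (e - 1 - j) * p ^ j := by
          rw [← pow_add]; congr 1; omega
        have e2 : p ^ e = p ^ (e - 1 - j) * p ^ j * p := by
          rw [← pow_add, ← pow_succ]; congr 1; omega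
        rw [e1, e2]
        linear_combination (-(h0 * p ^ (e - 1 - j) * p ^ j)) * hcd
      rw [h2, map_add, LinearMap.add_apply, map_add, h1, zero_add,
        (hI (h0 * c * p ^ e)).2 (dvd_mul_left _ _) _ (hW v hv).1, map_zero]
  exact key e le_rfl

/-- the good case -/
theorem good [FiniteDimensional F V] (hi : Iso ω g) (W : Submodule F V) (p : F[X]) (e : ℕ) (hp : Irreducible p)
    (hI : ∀ h : F[X], (∀ x ∈ W, aeval (T g) h x = 0) ↔ p ^ e ∣ h) (hW : Stab g W) {v : V} (hv : v ∈ W) (h0 : F[X])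
    (hne : ω v (aeval (T g) (h0 * p ^ (e - 1)) (g v)) ≠ 0) :
    ∃ M ≤ W, M ≠ ⊥ ∧ Nd ω M ∧ Stab g M ∧ UF ω g M := by
  have hkill := fun b hb => dvd_of_kill (ω := ω) W p e hp hI hW hv h0 hne b hb
  have hzv : Z g v ∈ W := Z_mem hW hv
  have hZ : ∀ h : F[X], ω v (aeval (T g) h (Z g v)) = ω v (aeval (T g) h (g v)) := by
    intro h
    rw [Z_apply, map_sub, map_sub, hi.pol_alt, sub_zero]
  refine ⟨Rs g v ⊔ Rs g (Z g v), sup_le (Rs_le hW hv) (Rs_le hW hzv), ?_, ?_, stab_pair v, ?_⟩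
  · intro h
    have h1 : v ∈ Rs g v ⊔ Rs g (Z g v) := Submodule.mem_sup_left (self_mem_Rs g v)
    rw [h, Submodule.mem_bot] at h1
    apply hne
    rw [h1]; simp
  · intro x hx hx'
    rw [Submodule.mem_sup] at hx
    obtain ⟨_, ⟨a, rfl⟩, _, ⟨b, rfl⟩, rfl⟩ := hx
    have hb : p ^ e ∣ b := by
      apply hkill
      intro h
      have h1 := hx' _ (Submodule.mem_sup_left (pol_mem_Rs g v h))
      rw [map_add, LinearMap.add_apply, hi.pol_alt', zero_add, hi.skew, hi.pol_adj, ← pol_mul, hZ] at h1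
      exact neg_eq_zero.1 h1
    have hb0 := (hI b).2 hb _ hzv
    have ha : p ^ e ∣ a := by
      apply hkill
      intro h
      have h1 := hx' _ (Submodule.mem_sup_right (pol_mem_Rs g (Z g v) h))
      rw [hb0, add_zero, hi.pol_adj, ← pol_mul, hZ] at h1
      rw [mul_comm]; exact h1
    rw [hb0, (hI a).2 ha _ hv, add_zero]
  · refine ⟨Rs g v, Rs g (Z g v), rfl, hi.Rs_iso v, hi.Rs_iso _, ?_⟩
    rintro _ ⟨h, rfl⟩
    exact ⟨h, pol_Z g h v⟩

end H45.SpB
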