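import Cfsg.Agent.Lib.H45.SpB

/-!
Isometries of a symplectic space: the exceptional unipotent case.
-/
set_option autoImplicit false
set_option linter.unusedSectionVars false

namespace H45.SpC

open Polynomial Module H45.SpA H45.SpB

variable {F V : Type*} [Field F] [AddCommGroup V] [Module F V]

variable {ω : V →ₗ[F] V →ₗ[F] F} {g : V ≃ₗ[F] V}

theorem Zpow_mem {W : Submodule F V} (hW : Stab g W) (n : ℕ) {x : V} (hx : x ∈ W) : ((Z g) ^ n) x ∈ W := by
  induction n with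
  | zero => simpa using hx
  | succ n ih => rw [pow_succ', Module.End.mul_apply]; exact Z_mem hW ih

theorem Zpow_gs (n : ℕ) (x : V) : ((Z g) ^ n) (g.symm x) = g.symm (((Z g) ^ n) x) := by
  induction n with
  | zero => simp
  | succ n ih => rw [pow_succ', Module.End.mul_apply, Module.End.mul_apply, ih, Z_comm_gs]

theorem Zpow_pol (n : ℕ) (h : F[X]) (x : V) : ((Z g) ^ n) (aeval (T g) h x) = aeval (T g) h (((Z g) ^ n) x) := by
  induction n with
  | zero => simp
  | succ n ih => rw [pow_succ', Module.End.mul_apply, Module.End.mul_apply, ih, pol_Z]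

theorem Zpow_add (m n : ℕ) (x : V) : ((Z g) ^ m) (((Z g) ^ n) x) = ((Z g) ^ (m + n)) x := by
  rw [pow_add, Module.End.mul_apply]

theorem Zpow_zero_of {W : Submodule F V} {k : ℕ} (hz : ∀ x ∈ W, ((Z g) ^ k) x = 0) {n : ℕ} (hn : k ≤ n) {x : V}
    (hx : x ∈ W) : ((Z g) ^ n) x = 0 := by
  obtain ⟨m, rfl⟩ := Nat.exists_eq_add_of_le' hn
  rw [← Zpow_add, hz x hx, map_zero]

theorem top_gs {W : Submodule F V} {k : ℕ} (hk : 1 ≤ k) (hz : ∀ x ∈ W, ((Z g) ^ k) x = 0) {x : V} (hx : x ∈ W) :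
    g.symm (((Z g) ^ (k - 1)) x) = ((Z g) ^ (k - 1)) x := by
  have h1 : Z g (((Z g) ^ (k - 1)) x) = 0 := by
    have := Zpow_add (g := g) 1 (k - 1) x
    rw [pow_one, show 1 + (k - 1) = k by omega, hz x hx] at this
    exact this
  rw [Z_apply, sub_eq_zero] at h1
  rw [LinearEquiv.symm_apply_eq]
  exact h1.symm

theorem top_pol {W : Submodule F V} (hW : Stab g W) {k : ℕ} (hk : 1 ≤ k) (hz : ∀ x ∈ W, ((Z g) ^ k) x = 0) (h : F[X])
    {x : V} (hx : x ∈ W) : ((Z g) ^ (k - 1)) (aeval (T g) h x) = h.eval 2 • ((Z g) ^ (k - 1)) x := by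
  obtain ⟨q, hq⟩ := X_sub_C_dvd_sub_C_eval (p := h) (a := (2 : F))
  have h1 : h = C (h.eval 2) + (X - C 2) * q := by rw [← hq]; ring
  have h2 : aeval (T g) h x = h.eval 2 • x + aeval (T g) (X - C 2 : F[X]) (aeval (T g) q x) := by
    conv_lhs => rw [h1]
    rw [map_add, LinearMap.add_apply, pol_mul, aeval_C, Module.algebraMap_end_apply]
  rw [h2, map_add, map_smul, tau_eq]
  have h3 : ((Z g) ^ (k - 1)) (Z g (Z g (g.symm (aeval (T g) q x)))) = ((Z g) ^ (k - 1 + 2)) (g.symm (aeval (T g) q x)) := by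
    rw [← Zpow_add, sq, Module.End.mul_apply]
  rw [h3, Zpow_zero_of hz (by omega) (hW _ (pol_mem hW q hx)).2, add_zero]

theorem claim {W : Submodule F V} (hW : Stab g W) {k : ℕ} (hk : 1 ≤ k) (hz : ∀ x ∈ W, ((Z g) ^ k) x = 0) (a : F[X])
    (j m : ℕ) (hm : m + 2 * j = k - 1) {x : V} (hx : x ∈ W) :
    ((Z g) ^ m) (aeval (T g) ((X - C 2) ^ j * a) x) = a.eval 2 • ((Z g) ^ (k - 1)) x := by
  induction j generalizing m with
  | zero => rw [pow_zero, one_mul, show m = k - 1 by omega, top_pol hW hk hz a hx]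
  | succ j ih =>
    rw [pow_succ', mul_assoc, pol_mul, tau_eq]
    have h3 : ∀ y, ((Z g) ^ m) (Z g (Z g y)) = ((Z g) ^ (m + 2)) y := by
      intro y
      rw [← Zpow_add, sq, Module.End.mul_apply]
    rw [h3, Zpow_gs, ih (m + 2) (by omega), map_smul, top_gs hk hz hx]

theorem claim0 {W : Submodule F V} {k : ℕ} (hz : ∀ x ∈ W, ((Z g) ^ k) x = 0) (a : F[X])
    (j m : ℕ) (hm : k ≤ m + 2 * j) {x : V} (hx : x ∈ W) :
    ((Z g) ^ m) (aeval (T g) ((X - C 2) ^ j * a) x) = 0 := by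
  induction j generalizing m with
  | zero => rw [Zpow_pol, Zpow_zero_of hz (by omega) hx, map_zero]
  | succ j ih =>
    rw [pow_succ', mul_assoc, pol_mul, tau_eq]
    have h3 : ∀ y, ((Z g) ^ m) (Z g (Z g y)) = ((Z g) ^ (m + 2)) y := by
      intro y
      rw [← Zpow_add, sq, Module.End.mul_apply]
    rw [h3, Zpow_gs, ih (m + 2) (by omega), map_zero]

/-- the valuation argument -/
theorem not_mem {W : Submodule F V} (hW : Stab g W) {k N r : ℕ} (hkr : k = 2 * N + r) (hk : 1 ≤ k)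
    (hz : ∀ x ∈ W, ((Z g) ^ k) x = 0) {v u : V} (hv : v ∈ W) (hu : u ∈ W) (hv0 : ((Z g) ^ (k - 1)) v ≠ 0)
    (huv : ((Z g) ^ (k - 1)) u = ((Z g) ^ (k - 1)) v) : ((Z g) ^ (k - 1)) v ∉ Rs g (((Z g) ^ r) u) := by
  rintro ⟨a, ha⟩
  have key : ∀ j ≤ N, (X - C (2 : F)) ^ j ∣ a := by
    intro j
    induction j with
    | zero => intro _; simp
    | succ j ih =>
      intro hj
      obtain ⟨a', rfl⟩ := ih (by omega)
      rw [pow_succ]
      apply mul_dvd_mul_left
      rw [dvd_iff_isRoot, IsRoot.def]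
      have h1 := congrArg ((Z g) ^ (k - 1 - r - 2 * j)) ha
      rw [← Zpow_pol, Zpow_add, claim hW hk hz a' j _ (by omega) hu, Zpow_add, Zpow_zero_of hz (by omega) hv, huv] at h1
      exact (smul_eq_zero.1 h1).resolve_right hv0
  obtain ⟨a', rfl⟩ := key N le_rfl
  rw [← Zpow_pol, claim0 hz a' N r (by omega) hu] at ha
  exact hv0 ha.symm

theorem Z_adj (hi : Iso ω g) (x y : V) : ω (Z g x) y = ω x (Z g.symm y) := by
  rw [Z_apply, Z_apply, map_sub, map_sub, LinearMap.sub_apply, hi.adj]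

theorem Zpow_adj (hi : Iso ω g) (n : ℕ) (x y : V) : ω (((Z g) ^ n) x) y = ω x (((Z g.symm) ^ n) y) := by
  induction n generalizing x y with
  | zero => simp
  | succ n ih =>
    have h1 : ((Z g) ^ (n + 1)) x = Z g (((Z g) ^ n) x) := by rw [pow_succ', Module.End.mul_apply]
    have h2 : ((Z g.symm) ^ (n + 1)) y = ((Z g.symm) ^ n) (Z g.symm y) := by rw [pow_succ, Module.End.mul_apply]
    rw [h1, h2, Z_adj hi, ih]

/-- the space `F[z] v + F[z] w` -/
def P2 (g : V ≃ₗ[F] V) (v w : V) : Submodule F V where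
  carrier := {x | ∃ a b : F[X], aeval (Z g) a v + aeval (Z g) b w = x}
  zero_mem' := ⟨0, 0, by simp⟩
  add_mem' := by
    rintro _ _ ⟨a, b, rfl⟩ ⟨c, d, rfl⟩
    exact ⟨a + c, b + d, by simp only [map_add, LinearMap.add_apply]; abel⟩
  smul_mem' := by
    rintro c _ ⟨a, b, rfl⟩
    exact ⟨c • a, c • b, by simp only [map_smul, LinearMap.smul_apply, smul_add]⟩

theorem P2_stab [FiniteDimensional F V] (v w : V) : Stab g (P2 g v w) := by
  have hg : ∀ x ∈ P2 g v w, g x ∈ P2 g v w := by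
    rintro _ ⟨a, b, rfl⟩
    rw [g_eq]
    have h1 : Z g (aeval (Z g) a v + aeval (Z g) b w) ∈ P2 g v w := by
      refine ⟨X * a, X * b, ?_⟩
      rw [map_mul, map_mul, aeval_X, Module.End.mul_apply, Module.End.mul_apply, map_add]
    exact (P2 g v w).add_mem ⟨a, b, rfl⟩ h1
  have hle : (P2 g v w).map g.toLinearMap ≤ P2 g v w := by
    rintro _ ⟨x, hx, rfl⟩
    exact hg x hx
  have heq : (P2 g v w).map g.toLinearMap = P2 g v w := by
    apply Submodule.eq_of_le_of_finrank_le hle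
    rw [LinearEquiv.finrank_map_eq]
  intro x hx
  refine ⟨hg x hx, ?_⟩
  rw [← heq] at hx
  obtain ⟨y, hy, rfl⟩ := hx
  change g.symm (g y) ∈ _
  rw [LinearEquiv.symm_apply_apply]
  exact hy

theorem top_Z {W : Submodule F V} {k : ℕ} (hk : 1 ≤ k) (hz : ∀ x ∈ W, ((Z g) ^ k) x = 0) (h : F[X])
    {x : V} (hx : x ∈ W) : ((Z g) ^ (k - 1)) (aeval (Z g) h x) = h.coeff 0 • ((Z g) ^ (k - 1)) x := by
  obtain ⟨q, hq⟩ := X_dvd_sub_C (p := h)
  have h1 : h = C (h.coeff 0) + q * X := by rw [mul_comm, ← hq]; ring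
  have h2 : aeval (Z g) h x = h.coeff 0 • x + aeval (Z g) q (Z g x) := by
    conv_lhs => rw [h1]
    rw [map_add, LinearMap.add_apply, map_mul, Module.End.mul_apply, aeval_C, Module.algebraMap_end_apply, aeval_X]
  have hcomm : ∀ y, ((Z g) ^ (k - 1)) (aeval (Z g) q y) = aeval (Z g) q (((Z g) ^ (k - 1)) y) := by
    intro y
    have : ((Z g) ^ (k - 1)) * aeval (Z g) q = aeval (Z g) q * ((Z g) ^ (k - 1)) := by
      have e1 : (Z g) ^ (k - 1) = aeval (Z g) (X ^ (k - 1) : F[X]) := by rw [map_pow, aeval_X]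
      rw [e1, ← map_mul, ← map_mul, mul_comm]
    exact LinearMap.congr_fun this y
  have h4 : ((Z g) ^ (k - 1)) (Z g x) = 0 := by
    have := Zpow_add (g := g) (k - 1) 1 x
    rw [pow_one] at this
    rw [this]
    exact Zpow_zero_of hz (by omega) hx
  rw [h2, map_add, map_smul, hcomm, h4, map_zero, add_zero]

theorem aevalZ_mem {W : Submodule F V} (hW : Stab g W) (h : F[X]) {x : V} (hx : x ∈ W) : aeval (Z g) h x ∈ W := by
  induction h using Polynomial.induction_on' with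
  | add a b ha hb => simp only [map_add, LinearMap.add_apply]; exact W.add_mem ha hb
  | monomial n c =>
    rw [aeval_monomial, Module.End.mul_apply, Module.algebraMap_end_apply]
    exact W.smul_mem _ (Zpow_mem hW n hx)

theorem nd4 [FiniteDimensional F V] (hi : Iso ω g) {W : Submodule F V} (hW : Stab g W) {k : ℕ} (hk : 1 ≤ k)
    (hz : ∀ x ∈ W, ((Z g) ^ k) x = 0) (hb : ∀ x ∈ W, ω x (((Z g) ^ (k - 1)) x) = 0) {v w : V} (hv : v ∈ W) (hw : w ∈ W)
    (hvw : ω (((Z g) ^ (k - 1)) v) w ≠ 0) {M : Submodule F V} (hMs : Stab g M) (hvM : v ∈ M) (hwM : w ∈ M)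
    (hM : M ≤ P2 g v w) : Nd ω M := by
  have hskew : ω (((Z g) ^ (k - 1)) w) v ≠ 0 := by
    intro h
    apply hvw
    have h1 := hb (v + w) (W.add_mem hv hw)
    simp only [map_add, LinearMap.add_apply] at h1
    rw [hb v hv, hb w hw, hi.skew v, h] at h1
    rw [hi.skew]
    linear_combination -h1
  have hMz : ∀ n, ∀ x ∈ M, ((Z g.symm) ^ n) x ∈ M := by
    intro n x hx
    induction n with
    | zero => simpa using hx
    | succ n ih =>
      rw [pow_succ', Module.End.mul_apply, Z_apply]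
      exact M.sub_mem (hMs _ ih).2 ih
  intro x hxM hx'
  obtain ⟨a, b, rfl⟩ := hM hxM
  have key : ∀ j ≤ k, X ^ j ∣ a ∧ X ^ j ∣ b := by
    intro j
    induction j with
    | zero => intro _; simp
    | succ j ih =>
      intro hj
      obtain ⟨⟨a', ha'⟩, ⟨b', hb'⟩⟩ := ih (by omega)
      have hA : aeval (Z g) a v + aeval (Z g) b w = ((Z g) ^ j) (aeval (Z g) a' v + aeval (Z g) b' w) := by
        rw [ha', hb', map_mul, map_mul, map_pow, aeval_X, Module.End.mul_apply, Module.End.mul_apply, map_add]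
      have h1 : ∀ y ∈ M, a'.coeff 0 * ω (((Z g) ^ (k - 1)) v) y + b'.coeff 0 * ω (((Z g) ^ (k - 1)) w) y = 0 := by
        intro y hy
        have h2 := hx' _ (hMz (k - 1 - j) y hy)
        rw [← Zpow_adj hi, hA, Zpow_add, show k - 1 - j + j = k - 1 by omega, map_add, top_Z hk hz a' hv,
          top_Z hk hz b' hw] at h2
        simp only [map_add, LinearMap.add_apply, map_smul, LinearMap.smul_apply, smul_eq_mul] at h2
        exact h2
      have h3 := h1 w hwM
      rw [hi.skew (((Z g) ^ (k - 1)) w) w, hb w hw, neg_zero, mul_zero, add_zero] at h3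
      have h4 := h1 v hvM
      rw [hi.skew (((Z g) ^ (k - 1)) v) v, hb v hv, neg_zero, mul_zero, zero_add] at h4
      have h5 := (mul_eq_zero.1 h3).resolve_right hvw
      have h6 := (mul_eq_zero.1 h4).resolve_right hskew
      rw [ha', hb', pow_succ]
      exact ⟨mul_dvd_mul_left _ (X_dvd_iff.2 h5), mul_dvd_mul_left _ (X_dvd_iff.2 h6)⟩
  obtain ⟨⟨a', ha'⟩, ⟨b', hb'⟩⟩ := key k le_rfl
  rw [ha', hb', map_mul, map_mul, map_pow, aeval_X, Module.End.mul_apply, Module.End.mul_apply,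
    hz _ (aevalZ_mem hW a' hv), hz _ (aevalZ_mem hW b' hw), add_zero]

/-- the bad case -/
theorem bad [FiniteDimensional F V] (hi : Iso ω g) (W : Submodule F V) (hnd : Nd ω W) (hW : Stab g W) (k : ℕ)
    (hk : 1 ≤ k) (hz : ∀ x ∈ W, ((Z g) ^ k) x = 0) (hb : ∀ x ∈ W, ω x (((Z g) ^ (k - 1)) x) = 0) {v : V}
    (hv : v ∈ W) (hv0 : ((Z g) ^ (k - 1)) v ≠ 0) :
    ∃ M ≤ W, M ≠ ⊥ ∧ Nd ω M ∧ Stab g M ∧ UF ω g M := by
  have main : ∀ w ∈ W, ω (((Z g) ^ (k - 1)) v) w ≠ 0 →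
      UF ω g ((Rs g v ⊔ Rs g (Z g v)) ⊔ (Rs g w ⊔ Rs g (Z g w))) → ∃ M ≤ W, M ≠ ⊥ ∧ Nd ω M ∧ Stab g M ∧ UF ω g M := by
    intro w hw hvw hUF
    have hst : Stab g ((Rs g v ⊔ Rs g (Z g v)) ⊔ (Rs g w ⊔ Rs g (Z g w))) := stab_sup (stab_pair v) (stab_pair w)
    have hvM : v ∈ (Rs g v ⊔ Rs g (Z g v)) ⊔ (Rs g w ⊔ Rs g (Z g w)) :=
      Submodule.mem_sup_left (Submodule.mem_sup_left (self_mem_Rs g v))
    have hwM : w ∈ (Rs g v ⊔ Rs g (Z g v)) ⊔ (Rs g w ⊔ Rs g (Z g w)) :=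
      Submodule.mem_sup_right (Submodule.mem_sup_left (self_mem_Rs g w))
    refine ⟨(Rs g v ⊔ Rs g (Z g v)) ⊔ (Rs g w ⊔ Rs g (Z g w)), ?_, ?_, ?_, hst, hUF⟩
    · exact sup_le (sup_le (Rs_le hW hv) (Rs_le hW (Z_mem hW hv))) (sup_le (Rs_le hW hw) (Rs_le hW (Z_mem hW hw)))
    · intro h
      rw [h, Submodule.mem_bot] at hvM
      apply hv0
      rw [hvM, map_zero]
    · have hPs := P2_stab (g := g) v w
      have hvP : v ∈ P2 g v w := ⟨1, 0, by simp⟩
      have hwP : w ∈ P2 g v w := ⟨0, 1, by simp⟩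
      exact nd4 hi hW hk hz hb hv hw hvw hst hvM hwM
        (sup_le (sup_le (Rs_le hPs hvP) (Rs_le hPs (Z_mem hPs hvP))) (sup_le (Rs_le hPs hwP) (Rs_le hPs (Z_mem hPs hwP))))
  rcases Nat.even_or_odd' k with ⟨N, hN | hN⟩
  · -- even
    have h1 : ((Z g) ^ (k - 1)) v ∉ Rs g v := by
      have := not_mem (r := 0) hW (by omega) hk hz hv hv hv0 rfl
      rwa [pow_zero, Module.End.one_apply] at this
    obtain ⟨w, hw, h2, h3⟩ := exists_sep hi.skew hnd (Rs_le hW hv) (Zpow_mem hW (k - 1) hv) h1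
    apply main w hw h3
    refine ⟨Rs g v ⊔ Rs g w, Rs g (Z g v) ⊔ Rs g (Z g w), ?_, ?_, ?_, ?_⟩
    · rw [sup_sup_sup_comm]
    · intro x hx y hy
      rw [Submodule.mem_sup] at hx hy
      obtain ⟨_, ⟨a, rfl⟩, _, ⟨b, rfl⟩, rfl⟩ := hx
      obtain ⟨_, ⟨c, rfl⟩, _, ⟨d, rfl⟩, rfl⟩ := hy
      have hc : ∀ p q : F[X], ω (aeval (T g) p v) (aeval (T g) q w) = 0 := by
        intro p q
        rw [← hi.pol_adj, ← pol_mul]
        exact h2 _ (pol_mem_Rs g v _)
      simp only [map_add, LinearMap.add_apply]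
      rw [hi.pol_alt', hi.pol_alt', hc, hi.skew (aeval (T g) b w), hc]; simp
    · intro x hx y hy
      rw [Submodule.mem_sup] at hx hy
      obtain ⟨_, ⟨a, rfl⟩, _, ⟨b, rfl⟩, rfl⟩ := hx
      obtain ⟨_, ⟨c, rfl⟩, _, ⟨d, rfl⟩, rfl⟩ := hy
      have hc : ∀ p q : F[X], ω (aeval (T g) p (Z g v)) (aeval (T g) q (Z g w)) = 0 := by
        intro p q
        rw [← hi.pol_adj, ← pol_mul, pol_Z, hi.ZZ, ← hi.T_adj, h2 _ (pol_mem_Rs g v _),
          h2 _ (T_mem_Rs (pol_mem_Rs g v _))]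
        simp
      simp only [map_add, LinearMap.add_apply]
      rw [hi.pol_alt', hi.pol_alt', hc, hi.skew (aeval (T g) b _), hc]; simp
    · intro x hx
      rw [Submodule.mem_sup] at hx
      obtain ⟨_, ⟨a, rfl⟩, _, ⟨b, rfl⟩, rfl⟩ := hx
      rw [map_add, ← pol_Z, ← pol_Z]
      exact Submodule.add_mem_sup (pol_mem_Rs g _ _) (pol_mem_Rs g _ _)
  · -- odd
    have hgv : g.symm v ∈ W := (hW v hv).2
    have h1 : ((Z g) ^ (k - 1)) v ∉ Rs g (Z g (g.symm v)) := by
      have := not_mem (r := 1) hW (by omega) hk hz hv hgv hv0 (by rw [Zpow_gs, top_gs hk hz hv])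
      rwa [pow_one] at this
    obtain ⟨w, hw, h2, h3⟩ := exists_sep hi.skew hnd (Rs_le hW (Z_mem hW hgv)) (Zpow_mem hW (k - 1) hv) h1
    apply main w hw h3
    have hvz : ∀ p : F[X], ω (aeval (T g) p v) (Z g w) = 0 := by
      intro p
      have h4 := h2 _ (pol_mem_Rs g _ p)
      have e : Z g (g.symm v) = v - g.symm v := by rw [Z_apply, LinearEquiv.apply_symm_apply]
      rw [e, map_sub, map_sub, LinearMap.sub_apply] at h4
      rw [Z_apply, map_sub, ← hi.adj', ← pol_gs]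
      linear_combination -h4
    have hst : Stab g ((Rs g v ⊔ Rs g (Z g v)) ⊔ (Rs g w ⊔ Rs g (Z g w))) := stab_sup (stab_pair v) (stab_pair w)
    refine ⟨Rs g v ⊔ Rs g (Z g w), Rs g (Z g v) ⊔ Rs g (g w), ?_, ?_, ?_, ?_⟩
    · apply le_antisymm
      · refine sup_le (sup_le ?_ ?_) (sup_le ?_ ?_)
        · exact le_sup_of_le_left le_sup_left
        · exact le_sup_of_le_right le_sup_right
        · exact le_sup_of_le_left le_sup_right
        · exact Rs_le hst (hst w (Submodule.mem_sup_right (Submodule.mem_sup_left (self_mem_Rs g w)))).1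
      · refine sup_le (sup_le ?_ ?_) (sup_le ?_ ?_)
        · exact le_sup_of_le_left le_sup_left
        · exact le_sup_of_le_right le_sup_left
        · rintro _ ⟨a, rfl⟩
          have e : aeval (T g) a w = aeval (T g) a (g w) - aeval (T g) a (Z g w) := by
            rw [← map_sub, Z_apply]; congr 1; abel
          rw [e]
          apply Submodule.sub_mem
          · exact Submodule.mem_sup_right (Submodule.mem_sup_right (pol_mem_Rs g _ a))
          · exact Submodule.mem_sup_left (Submodule.mem_sup_right (pol_mem_Rs g _ a))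
        · exact le_sup_of_le_left le_sup_right
    · intro x hx y hy
      rw [Submodule.mem_sup] at hx hy
      obtain ⟨_, ⟨a, rfl⟩, _, ⟨b, rfl⟩, rfl⟩ := hx
      obtain ⟨_, ⟨c, rfl⟩, _, ⟨d, rfl⟩, rfl⟩ := hy
      have hc : ∀ p q : F[X], ω (aeval (T g) p v) (aeval (T g) q (Z g w)) = 0 := by
        intro p q
        rw [← hi.pol_adj, ← pol_mul]
        exact hvz _
      simp only [map_add, LinearMap.add_apply]
      rw [hi.pol_alt', hi.pol_alt', hc, hi.skew (aeval (T g) b _), hc]; simp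
    · intro x hx y hy
      rw [Submodule.mem_sup] at hx hy
      obtain ⟨_, ⟨a, rfl⟩, _, ⟨b, rfl⟩, rfl⟩ := hx
      obtain ⟨_, ⟨c, rfl⟩, _, ⟨d, rfl⟩, rfl⟩ := hy
      have hc : ∀ p q : F[X], ω (aeval (T g) p (Z g v)) (aeval (T g) q (g w)) = 0 := by
        intro p q
        rw [← hi.pol_adj, ← pol_mul, pol_Z, Z_apply, map_sub, LinearMap.sub_apply, hi.inv]
        have := hvz (q * p)
        rw [Z_apply, map_sub] at this
        linear_combination -this
      simp only [map_add, LinearMap.add_apply]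
      rw [hi.pol_alt', hi.pol_alt', hc, hi.skew (aeval (T g) b _), hc]; simp
    · intro x hx
      rw [Submodule.mem_sup] at hx
      obtain ⟨_, ⟨a, rfl⟩, _, ⟨b, rfl⟩, rfl⟩ := hx
      rw [map_add, ← pol_Z, ← pol_Z, Z_Z, ← pol_mul]
      exact Submodule.add_mem_sup (pol_mem_Rs g _ _) (pol_mem_Rs g _ _)

end H45.SpC
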