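import Cfsg.Agent.Lib.H45.SpC

/-!
Isometries of a symplectic space without eigenvalue `-1` (or in characteristic two): there are complementary
Lagrangian subspaces `L, L'` with `(g - 1) L ≤ L'`.
-/
set_option autoImplicit false
set_option linter.unusedSectionVars false

namespace H45.SpD

open Polynomial Module H45.SpA H45.SpB H45.SpC

variable {F V : Type*} [Field F] [AddCommGroup V] [Module F V]

variable {ω : V →ₗ[F] V →ₗ[F] F} {g : V ≃ₗ[F] V}

/-- the ideal of polynomials killing `W` -/
def ann (g : V ≃ₗ[F] V) (W : Submodule F V) : Ideal F[X] where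
  carrier := {h | ∀ x ∈ W, aeval (T g) h x = 0}
  zero_mem' := by intro x _; simp
  add_mem' := by intro a b ha hb x hx; rw [map_add, LinearMap.add_apply, ha x hx, hb x hx, add_zero]
  smul_mem' := by intro c a ha x hx; rw [smul_eq_mul, pol_mul, ha x hx, map_zero]

theorem mem_ann {W : Submodule F V} {h : F[X]} : h ∈ ann g W ↔ ∀ x ∈ W, aeval (T g) h x = 0 := Iff.rfl

theorem Z_iter (j : ℕ) (x : V) : ((Z g) ^ (2 * j)) x = aeval (T g) ((X - C 2) ^ j : F[X]) (g^[j] x) := by
  induction j with
  | zero => simp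
  | succ j ih =>
    rw [mul_add, mul_one, add_comm (2 * j) 2, pow_add, Module.End.mul_apply, sq, Module.End.mul_apply, ih, Z_Z, pow_succ',
      pol_mul, ← pol_g, Function.iterate_succ_apply']

theorem iter_mem {W : Submodule F V} (hW : Stab g W) (j : ℕ) {x : V} (hx : x ∈ W) : g^[j] x ∈ W := by
  induction j with
  | zero => simpa using hx
  | succ j ih => rw [Function.iterate_succ_apply']; exact (hW _ ih).1

/-- the exceptional case -/
theorem bad_case [FiniteDimensional F V] (hi : Iso ω g) (W : Submodule F V) (hnd : Nd ω W) (hW : Stab g W) (hW0 : W ≠ ⊥)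
    (h1 : (∀ x ∈ W, g x = -x → x = 0) ∨ (2 : F) = 0) (p : F[X]) (e : ℕ) (he : 1 ≤ e) (hp : Irreducible p)
    (hI : ∀ h : F[X], (∀ x ∈ W, aeval (T g) h x = 0) ↔ p ^ e ∣ h)
    (hbad : ∀ v ∈ W, ∀ h0 : F[X], ω v (aeval (T g) (h0 * p ^ (e - 1)) (g v)) = 0) :
    ∃ M ≤ W, M ≠ ⊥ ∧ Nd ω M ∧ Stab g M ∧ UF ω g M := by
  have hp0 : p ≠ 0 := hp.ne_zero
  have hpe : p ^ e = p ^ (e - 1) * p := by rw [← pow_succ]; congr 1; omega
  -- step 1
  have s1 : ∀ w ∈ W, aeval (T g) (p ^ (e - 1)) (g w - g.symm w) = 0 := by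
    intro w hw
    apply hnd _ (pol_mem hW _ (W.sub_mem (hW w hw).1 (hW w hw).2))
    intro v hv
    rw [hi.skew, neg_eq_zero, map_sub, map_sub]
    have a1 := hbad (v + w) (W.add_mem hv hw) 1
    have a2 := hbad v hv 1
    have a3 := hbad w hw 1
    rw [one_mul] at a1 a2 a3
    simp only [map_add, LinearMap.add_apply] at a1
    rw [a2, a3] at a1
    have a4 : ω w (aeval (T g) (p ^ (e - 1)) (g v)) = - ω v (aeval (T g) (p ^ (e - 1)) (g.symm w)) := by
      rw [← hi.pol_adj, hi.skew, hi.adj, pol_gs]
    linear_combination a1 - a4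
  -- step 2
  have s2 : p ∣ X ^ 2 - C 4 := by
    have h2 : p ^ e ∣ p ^ (e - 1) * (X ^ 2 - C 4) := by
      rw [← hI]
      intro x hx
      have h3 : aeval (T g) (X ^ 2 - C 4 : F[X]) x = g (g x - g.symm x) - g.symm (g x - g.symm x) := by
        rw [map_sub, map_pow, aeval_X, aeval_C, LinearMap.sub_apply, sq, Module.End.mul_apply,
          Module.algebraMap_end_apply, T_apply, T_apply]
        simp only [map_add, map_sub, LinearEquiv.symm_apply_apply, LinearEquiv.apply_symm_apply]
        have : (4 : F) • x = x + x + x + x := by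
          rw [show (4 : F) = 1 + 1 + 1 + 1 by norm_num]
          simp only [add_smul, one_smul]
        rw [this]; abel
      rw [pol_mul, h3]
      exact s1 _ (W.sub_mem (hW x hx).1 (hW x hx).2)
    rw [hpe] at h2
    exact (mul_dvd_mul_iff_left (pow_ne_zero _ hp0)).1 h2
  have hfac : (X ^ 2 - C 4 : F[X]) = (X - C 2) * (X + C 2) := by
    have : (C 4 : F[X]) = C 2 * C 2 := by rw [← C_mul]; norm_num
    rw [this]; ring
  have s3 : p ∣ X - C (2 : F) := by
    rw [hfac] at s2
    rcases hp.prime.dvd_or_dvd s2 with h | h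
    · exact h
    · rcases h1 with h1 | h1
      · exfalso
        apply hW0
        rw [Submodule.eq_bot_iff]
        intro x hx
        have key : ∀ y ∈ W, aeval (T g) (X + C 2 : F[X]) y = 0 → y = 0 := by
          intro y hy h4
          rw [map_add, aeval_X, aeval_C, LinearMap.add_apply, Module.algebraMap_end_apply, T_apply, two_smul] at h4
          have h5 : g y + y = 0 := by
            apply h1 _ (W.add_mem (hW y hy).1 hy)
            have h6 := congrArg g h4
            simp only [map_add, LinearEquiv.apply_symm_apply, map_zero] at h6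
            rw [map_add]
            rw [eq_neg_iff_add_eq_zero, ← h6]; abel
          exact h1 y hy (eq_neg_of_add_eq_zero_left h5)
        have key2 : ∀ (j : ℕ) (y : V), y ∈ W → aeval (T g) ((X + C 2) ^ j : F[X]) y = 0 → y = 0 := by
          intro j
          induction j with
          | zero => intro y _ h; simpa using h
          | succ j ih =>
            intro y hy h4
            rw [pow_succ, pol_mul] at h4
            exact key y hy (ih _ (pol_mem hW _ hy) h4)
        exact key2 e x hx ((hI _).2 (pow_dvd_pow_of_dvd h e) x hx)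
      · have : (X + C 2 : F[X]) = X - C 2 := by rw [h1]; simp
        rwa [this] at h
  have hassoc : Associated p (X - C (2 : F)) := hp.associated_of_dvd (irreducible_X_sub_C 2) s3
  -- nilpotency
  have hex : ∃ k : ℕ, ∀ x ∈ W, ((Z g) ^ k) x = 0 := by
    refine ⟨2 * e, fun x hx => ?_⟩
    rw [Z_iter]
    exact (hI _).2 (pow_dvd_pow_of_dvd s3 e) _ (iter_mem hW e hx)
  classical
  set k := Nat.find hex with hk
  have hz : ∀ x ∈ W, ((Z g) ^ k) x = 0 := Nat.find_spec hex
  have hk1 : 1 ≤ k := by
    by_contra hcon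
    have hk0 : k = 0 := by omega
    apply hW0
    rw [Submodule.eq_bot_iff]
    intro x hx
    have := hz x hx
    rw [hk0] at this
    simpa using this
  obtain ⟨v, hv, hv0⟩ : ∃ v ∈ W, ((Z g) ^ (k - 1)) v ≠ 0 := by
    by_contra hcon
    push Not at hcon
    exact Nat.find_min hex (show k - 1 < Nat.find hex by omega) hcon
  refine bad hi W hnd hW k hk1 hz ?_ hv hv0
  intro x hx
  rcases Nat.even_or_odd' k with ⟨m, hm | hm⟩
  · have hem : e ≤ m := by
      have h3 : p ^ e ∣ (X - C 2) ^ m := by
        rw [← hI]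
        intro y hy
        have := claim0 (g := g) hz 1 m 0 (by omega) hy
        rwa [pow_zero, mul_one, Module.End.one_apply] at this
      have h4 : p ^ e ∣ p ^ m := h3.trans (hassoc.symm.pow_pow (n := m)).dvd
      exact (pow_dvd_pow_iff hp0 hp.not_isUnit).1 h4
    have h3 := claim hW hk1 hz 1 (m - 1) 1 (by omega) hx
    rw [pow_one, mul_one, eval_one, one_smul] at h3
    rw [← h3, Z_apply, map_sub, hi.pol_alt, sub_zero, ← pol_g]
    obtain ⟨q, hq⟩ : p ^ (e - 1) ∣ (X - C (2 : F)) ^ (m - 1) :=
      (pow_dvd_pow p (by omega)).trans (pow_dvd_pow_of_dvd s3 (m - 1))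
    rw [hq, mul_comm]
    exact hbad x hx q
  · have h3 := claim hW hk1 hz 1 m 0 (by omega) hx
    rw [pow_zero, mul_one, eval_one, one_smul, Module.End.one_apply] at h3
    rw [← h3, hi.pol_alt]

theorem main [FiniteDimensional F V] (hi : Iso ω g) : ∀ (n : ℕ) (W : Submodule F V), finrank F W = n → Nd ω W →
    Stab g W → ((∀ x ∈ W, g x = -x → x = 0) ∨ (2 : F) = 0) → UF ω g W := by
  intro n
  induction n using Nat.strong_induction_on with
  | _ n ih =>
  intro W hn hnd hW h1
  have sub : ∀ W' : Submodule F V, W' < W → Nd ω W' → Stab g W' → UF ω g W' := by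
    intro W' hlt hnd' hst'
    refine ih (finrank F W') ?_ W' rfl hnd' hst' ?_
    · rw [← hn]; exact Submodule.finrank_lt_finrank_of_lt hlt
    · rcases h1 with h1 | h1
      · exact Or.inl fun x hx => h1 x (hlt.le hx)
      · exact Or.inr h1
  by_cases hW0 : W = ⊥
  · subst hW0
    refine ⟨⊥, ⊥, by simp, ?_, ?_, ?_⟩
    · intro x hx y hy; rw [(Submodule.mem_bot F).1 hx]; simp
    · intro x hx y hy; rw [(Submodule.mem_bot F).1 hx]; simp
    · intro x hx; rw [(Submodule.mem_bot F).1 hx]; simp
  -- it suffices to find a piece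
  have suff : (∃ M ≤ W, M ≠ ⊥ ∧ Nd ω M ∧ Stab g M ∧ UF ω g M) → UF ω g W := by
    rintro ⟨M, hMW, hM0, hMnd, hMst, hMU⟩
    have hlt : W ⊓ perp ω M < W := by
      refine lt_of_le_of_ne inf_le_left ?_
      intro h
      apply hM0
      rw [Submodule.eq_bot_iff]
      intro x hx
      apply hMnd x hx
      intro y hy
      have hy' : y ∈ W ⊓ perp ω M := by rw [h]; exact hMW hy
      exact hy'.2 x hx
    have h2 := sub _ hlt (perp_nd hi.skew hMnd hMW hnd) (perp_stab hi hMst hW)
    have h3 := UF.sup hi.skew hMU h2 (fun x hx y hy => hy.2 x hx)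
    rwa [split hi.skew hMnd hMW] at h3
  set f := Submodule.IsPrincipal.generator (ann g W) with hf
  have hmem : ∀ h : F[X], (∀ x ∈ W, aeval (T g) h x = 0) ↔ f ∣ h := by
    intro h
    rw [← mem_ann, Submodule.IsPrincipal.mem_iff_generator_dvd]
  have hf0 : f ≠ 0 := by
    intro h
    have h2 : minpoly F (T g) ≠ 0 := minpoly.ne_zero (Algebra.IsIntegral.isIntegral _)
    apply h2
    have h3 : f ∣ minpoly F (T g) := by
      rw [← hmem]
      intro x _
      rw [minpoly.aeval]; simp
    rw [h, zero_dvd_iff] at h3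
    exact h3
  have hfu : ¬ IsUnit f := by
    intro h
    apply hW0
    rw [Submodule.eq_bot_iff]
    intro x hx
    have := (hmem 1).2 (h.dvd) x hx
    simpa using this
  obtain ⟨p, hp, hpf⟩ := WfDvdMonoid.exists_irreducible_factor hfu hf0
  obtain ⟨f', hf', hpf'⟩ := (FiniteMultiplicity.of_not_isUnit hp.not_isUnit hf0).exists_eq_pow_mul_and_not_dvd
  set e := multiplicity p f with he
  have he1 : 1 ≤ e := by
    by_contra hcon
    have : e = 0 := by omega
    rw [this, pow_zero, one_mul] at hf'
    rw [hf'] at hpf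
    exact hpf' hpf
  by_cases hfu' : IsUnit f'
  · have hI : ∀ h : F[X], (∀ x ∈ W, aeval (T g) h x = 0) ↔ p ^ e ∣ h := by
      intro h
      rw [hmem, hf']
      exact hfu'.mul_right_dvd
    apply suff
    by_cases hg : ∃ v ∈ W, ∃ h0 : F[X], ω v (aeval (T g) (h0 * p ^ (e - 1)) (g v)) ≠ 0
    · obtain ⟨v, hv, h0, hne⟩ := hg
      exact good hi W p e hp hI hW hv h0 hne
    · push Not at hg
      exact bad_case hi W hnd hW hW0 h1 p e he1 hp hI hg
  · -- splitting
    have hcop : IsCoprime (p ^ e) f' := IsCoprime.pow_left ((hp.coprime_iff_not_dvd).2 hpf')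
    obtain ⟨a, b, hab⟩ := hcop
    set W₁ : Submodule F V := W ⊓ LinearMap.ker (aeval (T g) (p ^ e)) with hW1
    set W₂ : Submodule F V := W ⊓ LinearMap.ker (aeval (T g) f') with hW2
    have hdec : ∀ x, x = aeval (T g) (a * p ^ e) x + aeval (T g) (b * f') x := by
      intro x
      rw [← LinearMap.add_apply, ← map_add, hab]; simp
    have hsup : W₁ ⊔ W₂ = W := by
      apply le_antisymm (sup_le inf_le_left inf_le_left)
      intro x hx
      rw [hdec x, add_comm]
      apply Submodule.add_mem_sup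
      · refine ⟨pol_mem hW _ hx, ?_⟩
        rw [SetLike.mem_coe, LinearMap.mem_ker, ← pol_mul]
        apply (hmem _).2 _ x hx
        rw [hf']
        exact ⟨b, by ring⟩
      · refine ⟨pol_mem hW _ hx, ?_⟩
        rw [SetLike.mem_coe, LinearMap.mem_ker, ← pol_mul]
        apply (hmem _).2 _ x hx
        rw [hf']
        exact ⟨a, by ring⟩
    have hperp : ∀ x ∈ W₁, ∀ y ∈ W₂, ω x y = 0 := by
      rintro x ⟨hx, hx'⟩ y ⟨hy, hy'⟩
      rw [SetLike.mem_coe, LinearMap.mem_ker] at hx' hy'
      rw [hdec y, map_add, pol_mul (g := g) b, hy', map_zero, map_zero, add_zero, ← hi.pol_adj, pol_mul, hx', map_zero,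
        map_zero, LinearMap.zero_apply]
    have hst : ∀ q : F[X], Stab g (W ⊓ LinearMap.ker (aeval (T g) q)) := by
      intro q x hx
      obtain ⟨hx, hx'⟩ := hx
      rw [SetLike.mem_coe, LinearMap.mem_ker] at hx'
      refine ⟨⟨(hW x hx).1, ?_⟩, ⟨(hW x hx).2, ?_⟩⟩
      · rw [SetLike.mem_coe, LinearMap.mem_ker, pol_g, hx', map_zero]
      · rw [SetLike.mem_coe, LinearMap.mem_ker, pol_gs, hx', map_zero]
    have hnd1 : Nd ω W₁ := by
      intro x hx h
      apply hnd x hx.1
      intro y hy
      rw [← hsup, Submodule.mem_sup] at hy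
      obtain ⟨c, hc, d, hd, rfl⟩ := hy
      rw [map_add, h c hc, hperp x hx d hd, add_zero]
    have hnd2 : Nd ω W₂ := by
      intro x hx h
      apply hnd x hx.1
      intro y hy
      rw [← hsup, Submodule.mem_sup] at hy
      obtain ⟨c, hc, d, hd, rfl⟩ := hy
      rw [map_add, h d hd, hi.skew, hperp c hc x hx]; simp
    have hlt1 : W₁ < W := by
      refine lt_of_le_of_ne inf_le_left ?_
      intro h
      apply hfu'
      have h2 : f ∣ p ^ e := by
        rw [← hmem]
        intro x hx
        rw [← h] at hx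
        exact hx.2
      rw [hf'] at h2
      have h3 : p ^ e * f' ∣ p ^ e * 1 := by rwa [mul_one]
      exact isUnit_of_dvd_one ((mul_dvd_mul_iff_left (pow_ne_zero _ hp.ne_zero)).1 h3)
    have hlt2 : W₂ < W := by
      refine lt_of_le_of_ne inf_le_left ?_
      intro h
      have h2 : f ∣ f' := by
        rw [← hmem]
        intro x hx
        rw [← h] at hx
        exact hx.2
      apply hpf'
      exact hpf.trans h2
    rw [← hsup]
    exact UF.sup hi.skew (sub _ hlt1 hnd1 (hst _)) (sub _ hlt2 hnd2 (hst _)) hperp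

end H45.SpD
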