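import Mathlib

/-!
Symplectic matrices with admissible upper left block are commutators.
-/
set_option autoImplicit false
set_option linter.unusedSectionVars false

namespace H45.SpE

open Matrix

variable {F : Type*} [Field F] {ι : Type*} [Fintype ι] [DecidableEq ι]

theorem blk_mem {A B C D : Matrix ι ι F} (h1 : B * Aᵀ = A * Bᵀ) (h2 : D * Cᵀ = C * Dᵀ) (h3 : A * Dᵀ - B * Cᵀ = 1) :
    fromBlocks A B C D ∈ symplecticGroup ι F := by
  rw [SymplecticGroup.mem_iff, J, fromBlocks_transpose, fromBlocks_multiply, fromBlocks_multiply]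
  have h4 : D * Aᵀ - C * Bᵀ = 1 := by
    have := congrArg Matrix.transpose h3
    rw [transpose_sub, transpose_mul, transpose_mul, transpose_transpose, transpose_transpose, transpose_one] at this
    exact this
  congr 1
  · simp only [Matrix.mul_zero, Matrix.mul_one, zero_add, add_zero, Matrix.mul_neg, Matrix.neg_mul]
    rw [h1]; simp
  · simp only [Matrix.mul_zero, Matrix.mul_one, zero_add, add_zero, Matrix.mul_neg, Matrix.neg_mul]
    rw [← h3]; abel
  · simp only [Matrix.mul_zero, Matrix.mul_one, zero_add, add_zero, Matrix.mul_neg, Matrix.neg_mul]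
    rw [← h4]; abel
  · simp only [Matrix.mul_zero, Matrix.mul_one, zero_add, add_zero, Matrix.mul_neg, Matrix.neg_mul]
    rw [h2]; simp

theorem blk_rel {A B C D : Matrix ι ι F} (h : fromBlocks A B C D ∈ symplecticGroup ι F) :
    Cᵀ * A = Aᵀ * C ∧ Aᵀ * D - Cᵀ * B = 1 ∧ B * Aᵀ = A * Bᵀ := by
  have h1 := SymplecticGroup.mem_iff.1 h
  have h2 := SymplecticGroup.mem_iff'.1 h
  rw [J, fromBlocks_transpose, fromBlocks_multiply, fromBlocks_multiply] at h1 h2
  simp only [Matrix.mul_zero, Matrix.mul_one, zero_add, add_zero, Matrix.mul_neg, Matrix.neg_mul] at h1 h2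
  rw [fromBlocks_inj] at h1 h2
  refine ⟨?_, ?_, ?_⟩
  · have := h2.1
    rw [← sub_eq_add_neg, sub_eq_zero] at this
    exact this
  · have := h2.2.1
    rw [← neg_inj, ← this]; abel
  · have := h1.1
    rw [← sub_eq_add_neg, sub_eq_zero] at this
    exact this

/-- the element of the Levi subgroup -/
def mm (X Xi : Matrix ι ι F) : Matrix (ι ⊕ ι) (ι ⊕ ι) F := fromBlocks X 0 0 Xiᵀ

theorem mm_mem {X Xi : Matrix ι ι F} (h : X * Xi = 1) : mm X Xi ∈ symplecticGroup ι F := by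
  apply blk_mem
  · simp
  · simp
  · simp [h]

theorem mm_mul (X Xi Y Yi : Matrix ι ι F) : mm X Xi * mm Y Yi = mm (X * Y) (Yi * Xi) := by
  unfold mm
  rw [fromBlocks_multiply]
  simp [transpose_mul]

/-- lower unipotent -/
def uu (S : Matrix ι ι F) : Matrix (ι ⊕ ι) (ι ⊕ ι) F := fromBlocks 1 0 S 1

/-- upper unipotent -/
def vv (S : Matrix ι ι F) : Matrix (ι ⊕ ι) (ι ⊕ ι) F := fromBlocks 1 S 0 1

theorem uu_mem {S : Matrix ι ι F} (h : Sᵀ = S) : uu S ∈ symplecticGroup ι F := by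
  apply blk_mem
  · simp
  · simp [h]
  · simp

theorem vv_mem {S : Matrix ι ι F} (h : Sᵀ = S) : vv S ∈ symplecticGroup ι F := by
  apply blk_mem
  · simp [h]
  · simp
  · simp

/-- the space of symmetric matrices -/
def Sy (ι F : Type*) [Field F] [Fintype ι] : Submodule F (Matrix ι ι F) where
  carrier := {S | Sᵀ = S}
  zero_mem' := by simp
  add_mem' := by
    intro a b ha hb
    have ha' : aᵀ = a := ha
    have hb' : bᵀ = b := hb
    change (a + b)ᵀ = a + b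
    rw [transpose_add, ha', hb']
  smul_mem' := by
    intro c a ha
    have ha' : aᵀ = a := ha
    change (c • a)ᵀ = c • a
    rw [transpose_smul, ha']

/-- the conjugation map -/
def cj (M : Matrix ι ι F) : Sy ι F →ₗ[F] Sy ι F where
  toFun S := ⟨Mᵀ * S * M - S, by
    have hS : (S : Matrix ι ι F)ᵀ = S := S.2
    change (Mᵀ * S * M - S : Matrix ι ι F)ᵀ = _
    rw [transpose_sub, transpose_mul, transpose_mul, transpose_transpose, hS, Matrix.mul_assoc]⟩
  map_add' S T := by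
    apply Subtype.ext
    change Mᵀ * ((S : Matrix ι ι F) + T) * M - (S + T) = (Mᵀ * S * M - S) + (Mᵀ * T * M - T)
    rw [Matrix.mul_add, Matrix.add_mul]; abel
  map_smul' c S := by
    apply Subtype.ext
    change Mᵀ * (c • (S : Matrix ι ι F)) * M - (c • S) = c • (Mᵀ * S * M - S)
    rw [Matrix.mul_smul, Matrix.smul_mul, smul_sub]

theorem cj_apply (M : Matrix ι ι F) (S : Sy ι F) : ((cj M S : Sy ι F) : Matrix ι ι F) = Mᵀ * S * M - S := rfl

theorem solve (M : Matrix ι ι F) (hM : ∀ S : Matrix ι ι F, Sᵀ = S → Mᵀ * S * M = S → S = 0) (C : Matrix ι ι F)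
    (hC : Cᵀ = C) : ∃ S : Matrix ι ι F, Sᵀ = S ∧ Mᵀ * S * M - S = C := by
  have hinj : Function.Injective (cj M) := by
    rw [← LinearMap.ker_eq_bot, LinearMap.ker_eq_bot']
    intro S hS
    apply Subtype.ext
    have h1 := congrArg Subtype.val hS
    rw [cj_apply] at h1
    exact hM S S.2 (sub_eq_zero.1 h1)
  obtain ⟨S, hS⟩ := (LinearMap.injective_iff_surjective.1 hinj) ⟨C, hC⟩
  refine ⟨S, S.2, ?_⟩
  rw [← cj_apply, hS]

/-- no reciprocal eigenvalues -/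
def Reg (X : Matrix ι ι F) : Prop := ∀ S : Matrix ι ι F, Sᵀ = S → Xᵀ * S * X = S → S = 0

/-- admissible matrices -/
def Adm (A : Matrix ι ι F) : Prop :=
  ∃ (X Xi Y Yi : Matrix ι ι F) (R : Matrix (ι ⊕ ι) (ι ⊕ ι) F), X * Xi = 1 ∧ Y * Yi = 1 ∧ X * Y = A ∧ Reg X ∧ Reg Yᵀ ∧
    R ∈ symplecticGroup ι F ∧ mm Y Yi * R * mm X Xi = R

theorem com (A B C D : Matrix ι ι F) (hG : fromBlocks A B C D ∈ symplecticGroup ι F) (hA : Adm A) :
    ∃ a ∈ symplecticGroup ι F, ∃ b ∈ symplecticGroup ι F, fromBlocks A B C D * b * a = a * b := by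
  obtain ⟨X, Xi, Y, Yi, R, hX, hY, hXY, hrX, hrY, hR, hRR⟩ := hA
  have hX' : Xi * X = 1 := mul_eq_one_comm.1 hX
  have hY' : Yi * Y = 1 := mul_eq_one_comm.1 hY
  obtain ⟨r1, r2, r3⟩ := blk_rel hG
  -- the inverse of `A`
  set Ai : Matrix ι ι F := Yi * Xi with hAi
  have hA1 : A * Ai = 1 := by
    rw [← hXY, hAi, Matrix.mul_assoc, ← Matrix.mul_assoc Y, hY, Matrix.one_mul, hX]
  have hA2 : Ai * A = 1 := mul_eq_one_comm.1 hA1
  have hA1t : Aiᵀ * Aᵀ = 1 := by rw [← transpose_mul, hA1, transpose_one]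
  have hA2t : Aᵀ * Aiᵀ = 1 := by rw [← transpose_mul, hA2, transpose_one]
  have hC1 : (C * Ai)ᵀ = C * Ai := by
    rw [transpose_mul]
    calc Aiᵀ * Cᵀ = Aiᵀ * (Cᵀ * A) * Ai := by rw [Matrix.mul_assoc, Matrix.mul_assoc Cᵀ, hA1, Matrix.mul_one]
      _ = Aiᵀ * (Aᵀ * C) * Ai := by rw [r1]
      _ = C * Ai := by rw [← Matrix.mul_assoc Aiᵀ, hA1t, Matrix.one_mul]
  have hB1 : (Ai * B)ᵀ = Ai * B := by
    rw [transpose_mul]
    calc Bᵀ * Aiᵀ = Ai * (A * Bᵀ) * Aiᵀ := by rw [← Matrix.mul_assoc Ai, hA2, Matrix.one_mul]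
      _ = Ai * (B * Aᵀ) * Aiᵀ := by rw [r3]
      _ = Ai * B := by rw [Matrix.mul_assoc, Matrix.mul_assoc B, hA2t, Matrix.mul_one]
  have hD : D = Aiᵀ + C * Ai * B := by
    calc D = Aiᵀ * (Aᵀ * D) := by rw [← Matrix.mul_assoc, hA1t, Matrix.one_mul]
      _ = Aiᵀ * (1 + Cᵀ * B) := by rw [← r2]; congr 1; abel
      _ = Aiᵀ + Aiᵀ * Cᵀ * B := by rw [Matrix.mul_add, Matrix.mul_one, Matrix.mul_assoc]
      _ = Aiᵀ + C * Ai * B := by rw [← transpose_mul, hC1]
  -- solve for the conjugating elements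
  obtain ⟨T₁, hT1, hT1'⟩ := solve Xi (by
    intro S hS h
    apply hrX S hS
    calc Xᵀ * S * X = Xᵀ * (Xiᵀ * S * Xi) * X := by rw [h]
      _ = (Xᵀ * Xiᵀ) * S * (Xi * X) := by simp only [Matrix.mul_assoc]
      _ = S := by rw [← transpose_mul, hX', transpose_one, Matrix.one_mul, Matrix.mul_one]) (-(C * Ai))
    (by rw [transpose_neg, hC1])
  obtain ⟨T₂, hT2, hT2'⟩ := solve Yiᵀ (by
    intro S hS h
    apply hrY S hS
    rw [transpose_transpose] at h ⊢
    calc Y * S * Yᵀ = Y * (Yi * S * Yiᵀ) * Yᵀ := by rw [h]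
      _ = (Y * Yi) * S * (Yiᵀ * Yᵀ) := by simp only [Matrix.mul_assoc]
      _ = S := by rw [← transpose_mul, hY, transpose_one, Matrix.one_mul, Matrix.mul_one]) (Ai * B) hB1
  rw [transpose_transpose] at hT2'
  have huT : uu T₁ * uu (-T₁) = (1 : Matrix (ι ⊕ ι) (ι ⊕ ι) F) := by
    unfold uu; rw [fromBlocks_multiply]; simp [fromBlocks_one]
  have huT' : uu (-T₁) * uu T₁ = (1 : Matrix (ι ⊕ ι) (ι ⊕ ι) F) := by
    unfold uu; rw [fromBlocks_multiply]; simp [fromBlocks_one]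
  have hvT' : vv (-T₂) * vv T₂ = (1 : Matrix (ι ⊕ ι) (ι ⊕ ι) F) := by
    unfold vv; rw [fromBlocks_multiply]; simp [fromBlocks_one]
  -- the two factors
  have hx : uu T₁ * mm X Xi * uu (-T₁) = fromBlocks X 0 (C * Ai * X) Xiᵀ := by
    unfold uu mm
    rw [fromBlocks_multiply, fromBlocks_multiply]
    simp only [Matrix.mul_zero, Matrix.zero_mul, Matrix.one_mul, Matrix.mul_one, add_zero, zero_add, Matrix.mul_neg, neg_zero]
    congr 1
    have h1 : (Xiᵀ * T₁ * Xi - T₁) * X = -(C * Ai) * X := by rw [hT1']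
    rw [Matrix.sub_mul, Matrix.mul_assoc, hX', Matrix.mul_one, Matrix.neg_mul] at h1
    rw [← neg_inj, ← h1]; abel
  have hy : vv T₂ * mm Y Yi * vv (-T₂) = fromBlocks Y (Y * (Ai * B)) 0 Yiᵀ := by
    unfold vv mm
    rw [fromBlocks_multiply, fromBlocks_multiply]
    simp only [Matrix.mul_zero, Matrix.zero_mul, Matrix.one_mul, Matrix.mul_one, add_zero, zero_add, Matrix.mul_neg, neg_zero]
    congr 1
    rw [← hT2', Matrix.mul_sub, ← Matrix.mul_assoc Y, ← Matrix.mul_assoc Y, hY, Matrix.one_mul]; abel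
  have hxy : fromBlocks A B C D = (uu T₁ * mm X Xi * uu (-T₁)) * (vv T₂ * mm Y Yi * vv (-T₂)) := by
    rw [hx, hy, fromBlocks_multiply]
    simp only [Matrix.mul_zero, Matrix.zero_mul, add_zero]
    congr 1
    · exact hXY.symm
    · rw [← Matrix.mul_assoc X, hXY, ← Matrix.mul_assoc, hA1, Matrix.one_mul]
    · rw [Matrix.mul_assoc, hXY, Matrix.mul_assoc, hA2, Matrix.mul_one]
    · rw [hD, ← transpose_mul, ← hAi]
      have : C * Ai * X * (Y * (Ai * B)) = C * Ai * B := by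
        rw [Matrix.mul_assoc (C * Ai), ← Matrix.mul_assoc X, hXY, ← Matrix.mul_assoc A, hA1, Matrix.one_mul]
      rw [this]; abel
  have hT1n : (-T₁)ᵀ = -T₁ := by rw [transpose_neg, hT1]
  refine ⟨uu T₁ * mm X Xi * uu (-T₁), mul_mem (mul_mem (uu_mem hT1) (mm_mem hX)) (uu_mem hT1n),
    vv T₂ * R * uu (-T₁), mul_mem (mul_mem (vv_mem hT2) hR) (uu_mem hT1n), ?_⟩
  have h1 : (vv T₂ * mm Y Yi * vv (-T₂)) * (vv T₂ * R * uu (-T₁)) * (uu T₁ * mm X Xi * uu (-T₁)) =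
      vv T₂ * R * uu (-T₁) := by
    calc (vv T₂ * mm Y Yi * vv (-T₂)) * (vv T₂ * R * uu (-T₁)) * (uu T₁ * mm X Xi * uu (-T₁))
        = vv T₂ * mm Y Yi * (vv (-T₂) * vv T₂) * R * (uu (-T₁) * uu T₁) * mm X Xi * uu (-T₁) := by
          simp only [Matrix.mul_assoc]
      _ = vv T₂ * (mm Y Yi * R * mm X Xi) * uu (-T₁) := by
          rw [hvT', huT', Matrix.mul_one, Matrix.mul_one]; simp only [Matrix.mul_assoc]
      _ = vv T₂ * R * uu (-T₁) := by rw [hRR]
  rw [hxy]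
  calc uu T₁ * mm X Xi * uu (-T₁) * (vv T₂ * mm Y Yi * vv (-T₂)) * (vv T₂ * R * uu (-T₁)) * (uu T₁ * mm X Xi * uu (-T₁))
      = uu T₁ * mm X Xi * uu (-T₁) * ((vv T₂ * mm Y Yi * vv (-T₂)) * (vv T₂ * R * uu (-T₁)) * (uu T₁ * mm X Xi * uu (-T₁))) := by
        simp only [Matrix.mul_assoc]
    _ = uu T₁ * mm X Xi * uu (-T₁) * (vv T₂ * R * uu (-T₁)) := by rw [h1]

end H45.SpE
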