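import Cfsg.Agent.Lib.H45.SpD
import Cfsg.Agent.Lib.H45.SpE

/-!
Symplectic bases and commutators.
-/
set_option autoImplicit false
set_option linter.unusedSectionVars false

namespace H45.SpF

open Module H45.SpA H45.SpB H45.SpE Matrix

variable {F V : Type*} [Field F] [AddCommGroup V] [Module F V] {ι : Type*} [Fintype ι] [DecidableEq ι]

/-- symplectic bases of a subspace -/
structure SB (ω : V →ₗ[F] V →ₗ[F] F) (W : Submodule F V) (b b' : ι → V) : Prop where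
  bb : ∀ i j, ω (b i) (b j) = 0
  bb' : ∀ i j, ω (b' i) (b' j) = 0
  dual : ∀ i j, ω (b i) (b' j) = if i = j then 1 else 0
  spn : Submodule.span F (Set.range b) ⊔ Submodule.span F (Set.range b') = W

/-- `g` has upper left block `A` with respect to some symplectic basis of `W` -/
def Has (ω : V →ₗ[F] V →ₗ[F] F) (g : V ≃ₗ[F] V) (W : Submodule F V) (A : Matrix ι ι F) : Prop :=
  ∃ b b' : ι → V, SB ω W b b' ∧ ∀ i j, ω (g (b j)) (b' i) = A i j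

/-- `g` is a commutator on `W` -/
def IC (ω : V →ₗ[F] V →ₗ[F] F) (g : V ≃ₗ[F] V) (W : Submodule F V) : Prop :=
  ∃ a b : V →ₗ[F] V, (∀ x y, ω (a x) (a y) = ω x y) ∧ (∀ x y, ω (b x) (b y) = ω x y) ∧
    (∀ x, (∀ y ∈ W, ω y x = 0) → a x = x ∧ b x = x) ∧ (∀ x ∈ W, a x ∈ W ∧ b x ∈ W) ∧ ∀ x ∈ W, g (b (a x)) = a (b x)

theorem IC.sup {ω : V →ₗ[F] V →ₗ[F] F} {g : V ≃ₗ[F] V} (hs : ∀ x y, ω x y = - ω y x) {W₁ W₂ : Submodule F V}
    (h12 : ∀ x ∈ W₁, ∀ y ∈ W₂, ω x y = 0) (h1 : IC ω g W₁) (h2 : IC ω g W₂) : IC ω g (W₁ ⊔ W₂) := by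
  obtain ⟨a₁, b₁, p1, p2, p3, p4, p5⟩ := h1
  obtain ⟨a₂, b₂, q1, q2, q3, q4, q5⟩ := h2
  have f1 : ∀ x ∈ W₂, a₁ x = x ∧ b₁ x = x := fun x hx => p3 x fun y hy => h12 y hy x hx
  have f2 : ∀ x ∈ W₁, a₂ x = x ∧ b₂ x = x := fun x hx => q3 x fun y hy => by rw [hs, h12 x hx y hy, neg_zero]
  have c1 : ∀ x ∈ W₁, a₁ (a₂ x) = a₁ x ∧ b₁ (b₂ x) = b₁ x := fun x hx => by rw [(f2 x hx).1, (f2 x hx).2]; exact ⟨rfl, rfl⟩
  have c2 : ∀ x ∈ W₂, a₁ (a₂ x) = a₂ x ∧ b₁ (b₂ x) = b₂ x := fun x hx => ⟨(f1 _ (q4 x hx).1).1, (f1 _ (q4 x hx).2).2⟩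
  refine ⟨a₁ ∘ₗ a₂, b₁ ∘ₗ b₂, ?_, ?_, ?_, ?_, ?_⟩
  · intro x y; rw [LinearMap.comp_apply, LinearMap.comp_apply, p1, q1]
  · intro x y; rw [LinearMap.comp_apply, LinearMap.comp_apply, p2, q2]
  · intro x hx
    have e1 := p3 x fun y hy => hx y (Submodule.mem_sup_left hy)
    have e2 := q3 x fun y hy => hx y (Submodule.mem_sup_right hy)
    rw [LinearMap.comp_apply, LinearMap.comp_apply, e2.1, e2.2]
    exact e1
  · intro x hx
    rw [Submodule.mem_sup] at hx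
    obtain ⟨y, hy, z, hz, rfl⟩ := hx
    rw [LinearMap.comp_apply, LinearMap.comp_apply, map_add, map_add, map_add, map_add, (c1 y hy).1, (c1 y hy).2,
      (c2 z hz).1, (c2 z hz).2]
    exact ⟨Submodule.add_mem_sup (p4 y hy).1 (q4 z hz).1, Submodule.add_mem_sup (p4 y hy).2 (q4 z hz).2⟩
  · intro x hx
    rw [Submodule.mem_sup] at hx
    obtain ⟨y, hy, z, hz, rfl⟩ := hx
    simp only [LinearMap.comp_apply, map_add]
    rw [(c1 y hy).1, (c2 z hz).1, (c1 y hy).2, (c2 z hz).2, (c1 _ (p4 y hy).1).2, (c1 _ (p4 y hy).2).1,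
      (c2 _ (q4 z hz).1).2, (c2 _ (q4 z hz).2).1, p5 y hy, q5 z hz]

/-- vectors from coordinates -/
def ee (b b' : ι → V) : (ι ⊕ ι → F) →ₗ[F] V where
  toFun c := ∑ i, c (Sum.inl i) • b i + ∑ i, c (Sum.inr i) • b' i
  map_add' c d := by
    simp only [Pi.add_apply, add_smul, Finset.sum_add_distrib]; abel
  map_smul' k c := by
    simp only [Pi.smul_apply, smul_eq_mul, mul_smul, RingHom.id_apply, smul_add, Finset.smul_sum]

/-- coordinates of vectors -/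
def rr (ω : V →ₗ[F] V →ₗ[F] F) (b b' : ι → V) : V →ₗ[F] (ι ⊕ ι → F) where
  toFun x := Sum.elim (fun i => ω x (b' i)) (fun i => ω (b i) x)
  map_add' x y := by
    funext i
    rcases i with i | i <;> simp
  map_smul' k x := by
    funext i
    rcases i with i | i <;> simp

theorem ee_apply (b b' : ι → V) (c : ι ⊕ ι → F) : ee b b' c = ∑ i, c (Sum.inl i) • b i + ∑ i, c (Sum.inr i) • b' i := rfl

theorem rr_inl (ω : V →ₗ[F] V →ₗ[F] F) (b b' : ι → V) (x : V) (i : ι) : rr ω b b' x (Sum.inl i) = ω x (b' i) := rfl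

theorem rr_inr (ω : V →ₗ[F] V →ₗ[F] F) (b b' : ι → V) (x : V) (i : ι) : rr ω b b' x (Sum.inr i) = ω (b i) x := rfl

theorem ee_inl (b b' : ι → V) (j : ι) : ee b b' (Pi.single (Sum.inl j) (1 : F)) = b j := by
  rw [ee_apply]
  simp [Pi.single_apply]

theorem ee_inr (b b' : ι → V) (j : ι) : ee b b' (Pi.single (Sum.inr j) (1 : F)) = b' j := by
  rw [ee_apply]
  simp [Pi.single_apply]

section sb

variable {ω : V →ₗ[F] V →ₗ[F] F} {W : Submodule F V} {b b' : ι → V} (hb : SB ω W b b') (hs : ∀ x y, ω x y = - ω y x)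

include hb hs

theorem rr_ee (c : ι ⊕ ι → F) : rr ω b b' (ee b b' c) = c := by
  funext i
  rcases i with i | i
  · rw [rr_inl, ee_apply]
    simp only [map_add, map_sum, map_smul, LinearMap.add_apply, LinearMap.sum_apply, LinearMap.smul_apply, hb.dual, hb.bb']
    simp
  · rw [rr_inr, ee_apply]
    simp only [map_add, map_sum, map_smul, hb.dual, hb.bb]
    simp

theorem ee_mem (c : ι ⊕ ι → F) : ee b b' c ∈ W := by
  rw [ee_apply, ← hb.spn]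
  apply Submodule.add_mem_sup
  · exact Submodule.sum_mem _ fun i _ => Submodule.smul_mem _ _ (Submodule.subset_span ⟨i, rfl⟩)
  · exact Submodule.sum_mem _ fun i _ => Submodule.smul_mem _ _ (Submodule.subset_span ⟨i, rfl⟩)

theorem ee_rr {x : V} (hx : x ∈ W) : ee b b' (rr ω b b' x) = x := by
  have h1 : ∃ c : ι ⊕ ι → F, ee b b' c = x := by
    have h2 : W ≤ LinearMap.range (ee b b' : (ι ⊕ ι → F) →ₗ[F] V) := by
      rw [← hb.spn]
      apply sup_le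
      · rw [Submodule.span_le]
        rintro _ ⟨j, rfl⟩
        exact ⟨_, ee_inl b b' j⟩
      · rw [Submodule.span_le]
        rintro _ ⟨j, rfl⟩
        exact ⟨_, ee_inr b b' j⟩
    exact h2 hx
  obtain ⟨c, rfl⟩ := h1
  rw [rr_ee hb hs]

theorem pair (x : V) (d : ι ⊕ ι → F) : ω x (ee b b' d) = -(rr ω b b' x ⬝ᵥ (J ι F *ᵥ d)) := by
  have hJ1 : ∀ i, (J ι F *ᵥ d) (Sum.inl i) = - d (Sum.inr i) := by
    intro i
    simp [J, Matrix.fromBlocks_mulVec, Matrix.neg_mulVec]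
  have hJ2 : ∀ i, (J ι F *ᵥ d) (Sum.inr i) = d (Sum.inl i) := by
    intro i
    simp [J, Matrix.fromBlocks_mulVec]
  rw [ee_apply, dotProduct, Fintype.sum_sum_type]
  simp only [hJ1, hJ2, rr_inl, rr_inr, map_add, map_sum, map_smul, smul_eq_mul]
  rw [neg_add, ← Finset.sum_neg_distrib, ← Finset.sum_neg_distrib, add_comm]
  congr 1
  · apply Finset.sum_congr rfl
    intro i _; ring
  · apply Finset.sum_congr rfl
    intro i _
    rw [hs (b i) x]; ring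

end sb

theorem J_skew (c d : ι ⊕ ι → F) : c ⬝ᵥ (J ι F *ᵥ d) = -(d ⬝ᵥ (J ι F *ᵥ c)) := by
  rw [Matrix.dotProduct_mulVec, ← Matrix.mulVec_transpose, J_transpose, Matrix.neg_mulVec, neg_dotProduct, dotProduct_comm]

theorem J_inv_of {N : Matrix (ι ⊕ ι) (ι ⊕ ι) F} (hN : N ∈ symplecticGroup ι F) (c d : ι ⊕ ι → F) :
    (N *ᵥ c) ⬝ᵥ (J ι F *ᵥ (N *ᵥ d)) = c ⬝ᵥ (J ι F *ᵥ d) := by
  have h := SymplecticGroup.mem_iff'.1 hN
  have h1 : c ⬝ᵥ (Nᵀ *ᵥ (J ι F *ᵥ (N *ᵥ d))) = (N *ᵥ c) ⬝ᵥ (J ι F *ᵥ (N *ᵥ d)) := by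
    rw [Matrix.dotProduct_mulVec, Matrix.vecMul_transpose]
  have h2 : Nᵀ *ᵥ (J ι F *ᵥ (N *ᵥ d)) = (Nᵀ * J ι F * N) *ᵥ d := by
    simp only [Matrix.mulVec_mulVec, Matrix.mul_assoc]
  rw [← h1, h2, h]

/-- the action of a matrix -/
def rho (ω : V →ₗ[F] V →ₗ[F] F) (b b' : ι → V) (N : Matrix (ι ⊕ ι) (ι ⊕ ι) F) : V →ₗ[F] V :=
  LinearMap.id + (ee b b') ∘ₗ (N - 1).mulVecLin ∘ₗ (rr ω b b')

theorem rho_apply (ω : V →ₗ[F] V →ₗ[F] F) (b b' : ι → V) (N : Matrix (ι ⊕ ι) (ι ⊕ ι) F) (x : V) :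
    rho ω b b' N x = x + ee b b' ((N - 1) *ᵥ rr ω b b' x) := rfl

section sb2

variable {ω : V →ₗ[F] V →ₗ[F] F} {W : Submodule F V} {b b' : ι → V} (hb : SB ω W b b') (hs : ∀ x y, ω x y = - ω y x)

include hb hs

theorem rho_ee (N : Matrix (ι ⊕ ι) (ι ⊕ ι) F) (c : ι ⊕ ι → F) : rho ω b b' N (ee b b' c) = ee b b' (N *ᵥ c) := by
  rw [rho_apply, rr_ee hb hs, ← map_add]
  congr 1
  rw [Matrix.sub_mulVec, Matrix.one_mulVec]; abel

theorem rho_perp (N : Matrix (ι ⊕ ι) (ι ⊕ ι) F) {x : V} (hx : ∀ y ∈ W, ω y x = 0) : rho ω b b' N x = x := by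
  have h1 : ∀ i, b i ∈ W := fun i => by
    rw [← hb.spn]; exact Submodule.mem_sup_left (Submodule.subset_span ⟨i, rfl⟩)
  have h2 : ∀ i, b' i ∈ W := fun i => by
    rw [← hb.spn]; exact Submodule.mem_sup_right (Submodule.subset_span ⟨i, rfl⟩)
  have h : rr ω b b' x = 0 := by
    funext i
    rcases i with i | i
    · rw [rr_inl, hs, hx _ (h2 i)]; simp
    · rw [rr_inr, hx _ (h1 i)]; rfl
  rw [rho_apply, h, Matrix.mulVec_zero, map_zero, add_zero]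

theorem rho_iso {N : Matrix (ι ⊕ ι) (ι ⊕ ι) F} (hN : N ∈ symplecticGroup ι F) (x y : V) :
    ω (rho ω b b' N x) (rho ω b b' N y) = ω x y := by
  rw [rho_apply, rho_apply]
  set p := rr ω b b' x with hp
  set q := rr ω b b' y with hq
  have e1 : ω x (ee b b' ((N - 1) *ᵥ q)) = -(p ⬝ᵥ (J ι F *ᵥ (N *ᵥ q)) - p ⬝ᵥ (J ι F *ᵥ q)) := by
    rw [pair hb hs, ← hp, Matrix.sub_mulVec, Matrix.one_mulVec, Matrix.mulVec_sub, dotProduct_sub]
  have e2 : ω (ee b b' ((N - 1) *ᵥ p)) y = q ⬝ᵥ (J ι F *ᵥ (N *ᵥ p)) - q ⬝ᵥ (J ι F *ᵥ p) := by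
    rw [hs, pair hb hs, ← hq, Matrix.sub_mulVec, Matrix.one_mulVec, Matrix.mulVec_sub, dotProduct_sub, neg_neg]
  have e3 : ω (ee b b' ((N - 1) *ᵥ p)) (ee b b' ((N - 1) *ᵥ q)) =
      -((N *ᵥ p) ⬝ᵥ (J ι F *ᵥ (N *ᵥ q)) - (N *ᵥ p) ⬝ᵥ (J ι F *ᵥ q) - (p ⬝ᵥ (J ι F *ᵥ (N *ᵥ q)) - p ⬝ᵥ (J ι F *ᵥ q))) := by
    rw [pair hb hs, rr_ee hb hs, Matrix.sub_mulVec, Matrix.one_mulVec, Matrix.sub_mulVec, Matrix.one_mulVec,
      Matrix.mulVec_sub, dotProduct_sub, sub_dotProduct, sub_dotProduct]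
    ring
  simp only [map_add, LinearMap.add_apply]
  rw [e1, e2, e3, J_inv_of hN, J_skew q (N *ᵥ p), J_skew q p]
  ring

end sb2

theorem ic_of_has [FiniteDimensional F V] {ω : V →ₗ[F] V →ₗ[F] F} {g : V ≃ₗ[F] V} (hi : Iso ω g) {W : Submodule F V}
    (hW : Stab g W) {A : Matrix ι ι F} (hH : Has ω g W A) (hA : Adm A) : IC ω g W := by
  obtain ⟨b, b', hb, hbA⟩ := hH
  have hs := hi.skew
  set f : (ι ⊕ ι → F) →ₗ[F] (ι ⊕ ι → F) := (rr ω b b') ∘ₗ g.toLinearMap ∘ₗ (ee b b') with hf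
  set M : Matrix (ι ⊕ ι) (ι ⊕ ι) F := LinearMap.toMatrix' f with hM
  have hMv : ∀ c, M *ᵥ c = rr ω b b' (g (ee b b' c)) := by
    intro c
    rw [hM, LinearMap.toMatrix'_mulVec]; rfl
  have hge : ∀ c, g (ee b b' c) = ee b b' (M *ᵥ c) := by
    intro c
    rw [hMv, ee_rr hb hs (hW _ (ee_mem hb hs c)).1]
  have hMe : ∀ i j, M i j = (M *ᵥ Pi.single j 1) i := by
    intro i j
    rw [Matrix.mulVec_single_one]; rfl
  have hMs : M ∈ symplecticGroup ι F := by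
    rw [SymplecticGroup.mem_iff']
    have key : ∀ c d, (M *ᵥ c) ⬝ᵥ (J ι F *ᵥ (M *ᵥ d)) = c ⬝ᵥ (J ι F *ᵥ d) := by
      intro c d
      have h1 := pair hb hs (g (ee b b' c)) (M *ᵥ d)
      rw [← hge, hi.inv, ← hMv, pair hb hs, rr_ee hb hs] at h1
      exact (neg_injective h1).symm
    ext i j
    have h2 := key (Pi.single i 1) (Pi.single j 1)
    have h3 : ∀ (N : Matrix (ι ⊕ ι) (ι ⊕ ι) F), (Pi.single i (1 : F) : ι ⊕ ι → F) ⬝ᵥ (N *ᵥ Pi.single j 1) = N i j := by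
      intro N
      rw [single_one_dotProduct, Matrix.mulVec_single_one]; rfl
    rw [← h3 (Mᵀ * J ι F * M), ← h3 (J ι F), ← h2, ← Matrix.mulVec_mulVec, ← Matrix.mulVec_mulVec,
      Matrix.dotProduct_mulVec (Pi.single i 1), ← Matrix.mulVec_transpose, transpose_transpose]
  have hM11 : M.toBlocks₁₁ = A := by
    ext i j
    rw [toBlocks₁₁, Matrix.of_apply, hMe, hMv, ee_inl, rr_inl, hbA]
  have hMb : M = fromBlocks A M.toBlocks₁₂ M.toBlocks₂₁ M.toBlocks₂₂ := by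
    rw [← hM11, fromBlocks_toBlocks]
  obtain ⟨p, hp, q, hq, hpq⟩ := com A M.toBlocks₁₂ M.toBlocks₂₁ M.toBlocks₂₂ (by rw [← hMb]; exact hMs) hA
  rw [← hMb] at hpq
  refine ⟨rho ω b b' p, rho ω b b' q, rho_iso hb hs hp, rho_iso hb hs hq, ?_, ?_, ?_⟩
  · intro x hx
    exact ⟨rho_perp hb hs p hx, rho_perp hb hs q hx⟩
  · intro x hx
    rw [← ee_rr hb hs hx, rho_ee hb hs, rho_ee hb hs]
    exact ⟨ee_mem hb hs _, ee_mem hb hs _⟩
  · intro x hx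
    rw [← ee_rr hb hs hx, rho_ee hb hs, rho_ee hb hs, rho_ee hb hs, rho_ee hb hs, hge, Matrix.mulVec_mulVec,
      Matrix.mulVec_mulVec, Matrix.mulVec_mulVec, hpq]

end H45.SpF
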