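import Cfsg.Agent.Lib.H45.SpF

/-!
Symplectic bases from Lagrangian decompositions.
-/
set_option autoImplicit false
set_option linter.unusedSectionVars false

namespace H45.SpG

open Module H45.SpA H45.SpB H45.SpE H45.SpF Matrix

variable {F V : Type*} [Field F] [AddCommGroup V] [Module F V] {ι : Type*} [Fintype ι] [DecidableEq ι]

/-- Lagrangian decompositions -/
structure Lag (ω : V →ₗ[F] V →ₗ[F] F) (W L L' : Submodule F V) : Prop where
  sup : L ⊔ L' = W
  iso : ∀ x ∈ L, ∀ y ∈ L, ω x y = 0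
  iso' : ∀ x ∈ L', ∀ y ∈ L', ω x y = 0

theorem Lag.symm {ω : V →ₗ[F] V →ₗ[F] F} {W L L' : Submodule F V} (h : Lag ω W L L') : Lag ω W L' L :=
  ⟨by rw [sup_comm]; exact h.sup, h.iso', h.iso⟩

theorem Lag.le {ω : V →ₗ[F] V →ₗ[F] F} {W L L' : Submodule F V} (h : Lag ω W L L') : L ≤ W := by
  rw [← h.sup]; exact le_sup_left

/-- vectors of `L` orthogonal to `L'` vanish -/
theorem Lag.eq_zero {ω : V →ₗ[F] V →ₗ[F] F} {W L L' : Submodule F V} (h : Lag ω W L L') (hnd : Nd ω W) {x : V}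
    (hx : x ∈ L) (hx' : ∀ y ∈ L', ω x y = 0) : x = 0 := by
  apply hnd x (h.le hx)
  intro y hy
  rw [← h.sup, Submodule.mem_sup] at hy
  obtain ⟨a, ha, b, hb, rfl⟩ := hy
  rw [map_add, h.iso x hx a ha, hx' b hb, add_zero]

theorem Lag.finrank_le [FiniteDimensional F V] {ω : V →ₗ[F] V →ₗ[F] F} {W L L' : Submodule F V}
    (h : Lag ω W L L') (hnd : Nd ω W) : finrank F L ≤ finrank F L' := by
  let Ψ : L →ₗ[F] Dual F L' := ω.domRestrict₁₂ L L'
  have hinj : Function.Injective Ψ := by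
    rw [← LinearMap.ker_eq_bot, LinearMap.ker_eq_bot']
    intro a ha
    apply Subtype.ext
    apply h.eq_zero hnd a.2
    intro y hy
    exact LinearMap.congr_fun ha ⟨y, hy⟩
  have h1 := LinearMap.finrank_le_finrank_of_injective hinj
  rwa [Subspace.dual_finrank_eq] at h1

theorem Lag.finrank_eq [FiniteDimensional F V] {ω : V →ₗ[F] V →ₗ[F] F}
    {W L L' : Submodule F V} (h : Lag ω W L L') (hnd : Nd ω W) : finrank F L = finrank F L' :=
  le_antisymm (h.finrank_le hnd) (h.symm.finrank_le hnd)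

theorem Lag.dual [FiniteDimensional F V] {ω : V →ₗ[F] V →ₗ[F] F} (hs : ∀ x y, ω x y = - ω y x)
    {W L L' : Submodule F V} (h : Lag ω W L L') (hnd : Nd ω W) (b : Basis ι F L) :
    ∃ b' : ι → V, (∀ i, b' i ∈ L') ∧ SB ω W (fun i => (b i : V)) b' := by
  let Ψ : L' →ₗ[F] Dual F L := ω.flip.domRestrict₁₂ L' L
  have hΨ : ∀ (y : L') (x : L), Ψ y x = ω x y := fun _ _ => rfl
  have hinj : Function.Injective Ψ := by
    rw [← LinearMap.ker_eq_bot, LinearMap.ker_eq_bot']
    intro a ha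
    apply Subtype.ext
    apply h.symm.eq_zero hnd a.2
    intro y hy
    rw [hs]
    have := LinearMap.congr_fun ha ⟨y, hy⟩
    rw [hΨ] at this
    rw [this]; simp
  have hsurj : Function.Surjective Ψ := by
    apply (LinearMap.injective_iff_surjective_of_finrank_eq_finrank _).1 hinj
    rw [Subspace.dual_finrank_eq, h.finrank_eq hnd]
  choose b' hb' using fun i => hsurj (b.coord i)
  have hdual : ∀ i j, ω (b i) (b' j) = if i = j then 1 else 0 := by
    intro i j
    rw [← hΨ, hb', Basis.coord_apply, Basis.repr_self, Finsupp.single_apply]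
  refine ⟨fun i => b' i, fun i => (b' i).2, ⟨fun i j => h.iso _ (b i).2 _ (b j).2, fun i j => h.iso' _ (b' i).2 _ (b' j).2,
    hdual, ?_⟩⟩
  have hspanb : Submodule.span F (Set.range fun i => (b i : V)) = L := by
    have h1 := congrArg (Submodule.map L.subtype) b.span_eq
    rw [Submodule.map_span, Submodule.map_top, Submodule.range_subtype, ← Set.range_comp] at h1
    exact h1
  have hspanb' : Submodule.span F (Set.range fun i => (b' i : V)) = L' := by
    apply le_antisymm
    · rw [Submodule.span_le]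
      rintro _ ⟨i, rfl⟩
      exact (b' i).2
    · intro y hy
      have h1 : y - ∑ i, ω (b i) y • (b' i : V) = 0 := by
        apply h.symm.eq_zero hnd (L'.sub_mem hy (Submodule.sum_mem _ fun i _ => L'.smul_mem _ (b' i).2))
        intro x hx
        have h2 : ∀ x ∈ Submodule.span F (Set.range fun i => (b i : V)), ω (y - ∑ i, ω (b i) y • (b' i : V)) x = 0 := by
          intro x hx
          induction hx using Submodule.span_induction with
          | mem x hx =>
            obtain ⟨j, rfl⟩ := hx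
            rw [hs]
            simp only [map_sub, map_sum, map_smul, hdual, smul_eq_mul, mul_ite, mul_one, mul_zero]
            simp
          | zero => simp
          | add x y _ _ hx hy => rw [map_add, hx, hy, add_zero]
          | smul c x _ hx => rw [map_smul, hx, smul_zero]
        exact h2 x (by rw [hspanb]; exact hx)
      rw [sub_eq_zero] at h1
      rw [h1]
      exact Submodule.sum_mem _ fun i _ => Submodule.smul_mem _ _ (Submodule.subset_span ⟨i, rfl⟩)
  rw [hspanb, hspanb', h.sup]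

/-- the scalar case -/
theorem has_scalar [FiniteDimensional F V] {ω : V →ₗ[F] V →ₗ[F] F} (hs : ∀ x y, ω x y = - ω y x) {g : V ≃ₗ[F] V}
    {W L L' : Submodule F V} (h : Lag ω W L L') (hnd : Nd ω W) (ε : F) (hε : ∀ x ∈ L, g x - ε • x ∈ L') (b : Basis ι F L) :
    Has ω g W (ε • (1 : Matrix ι ι F)) := by
  obtain ⟨b', hb', hSB⟩ := h.dual hs hnd b
  refine ⟨_, b', hSB, ?_⟩
  intro i j
  have h1 : g (b j : V) = (g (b j : V) - ε • (b j : V)) + ε • (b j : V) := by abel
  rw [h1, map_add, LinearMap.add_apply, h.iso' _ (hε _ (b j).2) _ (hb' i), zero_add, map_smul, LinearMap.smul_apply,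
    hSB.dual, Matrix.smul_apply, Matrix.one_apply]
  by_cases hij : i = j
  · rw [if_pos hij, if_pos hij.symm]
  · rw [if_neg hij, if_neg (Ne.symm hij)]

/-- changing one sign -/
theorem has_refl [FiniteDimensional F V] {ω : V →ₗ[F] V →ₗ[F] F} (ha : ∀ x, ω x x = 0) (hs : ∀ x y, ω x y = - ω y x)
    {g : V ≃ₗ[F] V} {W L L' : Submodule F V} (h : Lag ω W L L') (hnd : Nd ω W) (ε : F)
    (hε : ∀ x ∈ L, g x - ε • x ∈ L') {v : V} (hv : v ∈ L) (hc : ω v (g v) ≠ 0) :
    ∃ n : ℕ, finrank F L = n + 1 ∧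
      Has ω g W (Matrix.diagonal (Fin.cons (-ε) (fun _ => ε) : Fin (n + 1) → F)) := by
  set c := ω v (g v) with hcdef
  let φ : L →ₗ[F] F := (ω v) ∘ₗ g.toLinearMap ∘ₗ L.subtype
  have hφ : ∀ x : L, φ x = ω v (g x) := fun _ => rfl
  set H := LinearMap.ker φ with hH
  let bH := finBasis F H
  set n := finrank F H with hn
  have hli : ∀ (a : F) (x : L), x ∈ H → a • (⟨v, hv⟩ : L) + x = 0 → a = 0 := by
    intro a x hx h1
    have h2 := congrArg φ h1
    rw [map_add, map_smul, LinearMap.mem_ker.1 hx, map_zero, add_zero, hφ, smul_eq_mul] at h2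
    exact (mul_eq_zero.1 h2).resolve_right hc
  have hsp : ∀ z : L, ∃ a : F, z + a • (⟨v, hv⟩ : L) ∈ H := by
    intro z
    refine ⟨-(φ z) / c, ?_⟩
    rw [hH, LinearMap.mem_ker, map_add, map_smul, hφ ⟨v, hv⟩, smul_eq_mul]
    change φ z + -(φ z) / c * c = 0
    rw [div_mul_cancel₀ _ hc]; ring
  let b := Basis.mkFinCons (⟨v, hv⟩ : L) bH hli hsp
  have hb0 : b 0 = ⟨v, hv⟩ := by
    change (Basis.mkFinCons (⟨v, hv⟩ : L) bH hli hsp) 0 = _
    rw [Basis.coe_mkFinCons]; rfl
  have hbs : ∀ i : Fin n, ω v (g (b i.succ : V)) = 0 := by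
    intro i
    have h1 : b i.succ = (bH i : L) := by
      change (Basis.mkFinCons (⟨v, hv⟩ : L) bH hli hsp) i.succ = _
      rw [Basis.coe_mkFinCons]; rfl
    rw [h1, ← hφ]
    exact LinearMap.mem_ker.1 (bH i).2
  obtain ⟨b', hb', hSB⟩ := h.dual hs hnd b
  refine ⟨n, ?_, ?_⟩
  · rw [finrank_eq_card_basis b, Fintype.card_fin]
  set s := 2 * ε / c with hsdef
  have hb0' : ((b 0 : L) : V) = v := by rw [hb0]
  refine ⟨fun i => (b i : V), fun i => b' i + (if i = 0 then s else 0) • v, ⟨hSB.bb, ?_, ?_, ?_⟩, ?_⟩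
  · intro i j
    simp only [map_add, map_smul, LinearMap.add_apply, LinearMap.smul_apply, smul_eq_mul, hSB.bb', ha]
    rw [hs (b' i) v, ← hb0', hSB.dual, hSB.dual]
    by_cases hi : i = 0
    · by_cases hj : j = 0
      · subst hi hj; simp
      · subst hi
        rw [if_neg hj, if_neg (Ne.symm hj)]; simp
    · rw [if_neg hi, if_neg (Ne.symm hi)]; simp
  · intro i j
    rw [map_add, map_smul, hSB.dual, ← hb0', hSB.bb, smul_zero, add_zero]
  · rw [← hSB.spn]
    apply le_antisymm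
    · apply sup_le le_sup_left
      rw [Submodule.span_le]
      rintro _ ⟨i, rfl⟩
      apply Submodule.add_mem
      · exact Submodule.mem_sup_right (Submodule.subset_span ⟨i, rfl⟩)
      · apply Submodule.smul_mem
        rw [← hb0']
        exact Submodule.mem_sup_left (Submodule.subset_span ⟨0, rfl⟩)
    · apply sup_le le_sup_left
      rw [Submodule.span_le]
      rintro _ ⟨i, rfl⟩
      have h1 : b' i = (b' i + (if i = 0 then s else 0) • v) - (if i = 0 then s else 0) • v := by abel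
      rw [SetLike.mem_coe, h1]
      apply Submodule.sub_mem
      · exact Submodule.mem_sup_right (Submodule.subset_span ⟨i, rfl⟩)
      · apply Submodule.smul_mem
        rw [← hb0']
        exact Submodule.mem_sup_left (Submodule.subset_span ⟨0, rfl⟩)
  · intro i j
    have h1 : ω (g (b j : V)) (b' i) = if i = j then ε else 0 := by
      have h1 : g (b j : V) = (g (b j : V) - ε • (b j : V)) + ε • (b j : V) := by abel
      rw [h1, map_add, LinearMap.add_apply, h.iso' _ (hε _ (b j).2) _ (hb' i), zero_add, map_smul, LinearMap.smul_apply,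
        hSB.dual]
      by_cases hij : i = j
      · rw [if_pos hij, if_pos hij.symm, smul_eq_mul, mul_one]
      · rw [if_neg hij, if_neg (Ne.symm hij), smul_zero]
    change ω (g (b j : V)) (b' i + (if i = 0 then s else 0) • v) = _
    rw [map_add, h1, map_smul, smul_eq_mul, hs (g _) v, Matrix.diagonal_apply]
    refine Fin.cases ?_ ?_ i
    · refine Fin.cases ?_ ?_ j
      · rw [if_pos rfl, if_pos rfl, if_pos rfl, Fin.cons_zero, hb0', ← hcdef, hsdef, mul_neg, div_mul_cancel₀ _ hc]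
        ring
      · intro j
        rw [if_neg (Fin.succ_ne_zero j).symm, if_neg (Fin.succ_ne_zero j).symm, hbs]; simp
    · intro i
      rw [if_neg (Fin.succ_ne_zero i), zero_mul, add_zero, Fin.cons_succ]

/-- if `g` is not the scalar `ε` then there is a good vector -/
theorem exists_good [FiniteDimensional F V] {ω : V →ₗ[F] V →ₗ[F] F} {g : V ≃ₗ[F] V} (hi : Iso ω g) (h2 : (2 : F) ≠ 0)
    {W L L' : Submodule F V} (hW : Stab g W) (h : Lag ω W L L') (hnd : Nd ω W) (ε : F) (hε2 : ε * ε = 1)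
    (hε : ∀ x ∈ L, g x - ε • x ∈ L') (hne : ¬ ∀ x ∈ W, g x = ε • x) :
    ∃ M M' : Submodule F V, Lag ω W M M' ∧ (∀ x ∈ M, g x - ε • x ∈ M') ∧ ∃ v ∈ M, ω v (g v) ≠ 0 := by
  have hs := hi.skew
  have hε0 : ε ≠ 0 := by rintro rfl; simp at hε2
  -- on an isotropic subspace with vanishing quadratic form, `g` is the scalar
  have key : ∀ M M' : Submodule F V, Lag ω W M M' → (∀ x ∈ M, g x - ε • x ∈ M') → (∀ v ∈ M, ω v (g v) = 0) →
      ∀ x ∈ M, g x = ε • x := by
    intro M M' hM hMε h0 y hy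
    have hsym : ∀ x ∈ M, ω x (g y) = 0 := by
      intro x hx
      have e1 := hM.iso' _ (hMε x hx) _ (hMε y hy)
      simp only [map_sub, map_smul, LinearMap.sub_apply, LinearMap.smul_apply, smul_eq_mul, hi.inv, hM.iso x hx y hy] at e1
      have e2 : ε * (ω x (g y) + ω (g x) y) = 0 := by linear_combination -e1
      have e3 := (mul_eq_zero.1 e2).resolve_left hε0
      have e4 := h0 (x + y) (M.add_mem hx hy)
      simp only [map_add, LinearMap.add_apply, h0 x hx, h0 y hy] at e4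
      rw [hs (g x) y] at e3
      have e5 : 2 * ω x (g y) = 0 := by linear_combination e3 + e4
      exact (mul_eq_zero.1 e5).resolve_left h2
    have h3 : g y - ε • y = 0 := by
      apply hM.symm.eq_zero hnd (hMε y hy)
      intro x hx
      rw [hs, map_sub, map_smul, hsym x hx, hM.iso x hx y hy]; simp
    exact sub_eq_zero.1 h3
  by_cases h1 : ∃ v ∈ L, ω v (g v) ≠ 0
  · exact ⟨L, L', h, hε, h1⟩
  push Not at h1
  have hgL := key L L' h hε h1
  have hL' : ∀ y ∈ L', g y - ε • y ∈ L := by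
    intro y hy
    have hyW : y ∈ W := h.symm.le hy
    have hmem : g y - ε • y ∈ W := W.sub_mem (hW y hyW).1 (W.smul_mem _ hyW)
    rw [← h.sup, Submodule.mem_sup] at hmem
    obtain ⟨l, hl, l', hl', e⟩ := hmem
    have hl0 : l' = 0 := by
      apply h.symm.eq_zero hnd hl'
      intro x hx
      have e1 : ω x (g y) = ε * ω x y := by
        have e2 := hi.inv (ε • x) y
        rw [map_smul g, hgL x hx, smul_smul, hε2, one_smul, map_smul, LinearMap.smul_apply, smul_eq_mul] at e2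
        exact e2
      have e3 : l' = (g y - ε • y) - l := by rw [← e]; abel
      rw [hs, e3, map_sub, map_sub, map_smul, e1, h.iso x hx l hl]; simp
    rw [← e, hl0, add_zero]; exact hl
  by_cases h3 : ∃ v ∈ L', ω v (g v) ≠ 0
  · exact ⟨L', L, h.symm, hL', h3⟩
  push Not at h3
  have hgL' := key L' L h.symm hL' h3
  exfalso
  apply hne
  intro x hx
  rw [← h.sup, Submodule.mem_sup] at hx
  obtain ⟨a, ha, b, hb, rfl⟩ := hx
  rw [map_add, hgL a ha, hgL' b hb, smul_add]

/-- orthogonal sums -/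
theorem Has.sup {κ : Type*} [Fintype κ] [DecidableEq κ] {ω : V →ₗ[F] V →ₗ[F] F} {g : V ≃ₗ[F] V}
    (hs : ∀ x y, ω x y = - ω y x) {W₁ W₂ : Submodule F V} (h12 : ∀ x ∈ W₁, ∀ y ∈ W₂, ω x y = 0) (hW1 : Stab g W₁)
    (hW2 : Stab g W₂) {A₁ : Matrix ι ι F} {A₂ : Matrix κ κ F} (h1 : Has ω g W₁ A₁) (h2 : Has ω g W₂ A₂) :
    Has ω g (W₁ ⊔ W₂) (fromBlocks A₁ 0 0 A₂) := by
  obtain ⟨b, b', hb, hA⟩ := h1
  obtain ⟨d, d', hd, hD⟩ := h2
  have m1 : ∀ i, b i ∈ W₁ := fun i => by
    rw [← hb.spn]; exact Submodule.mem_sup_left (Submodule.subset_span ⟨i, rfl⟩)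
  have m2 : ∀ i, b' i ∈ W₁ := fun i => by
    rw [← hb.spn]; exact Submodule.mem_sup_right (Submodule.subset_span ⟨i, rfl⟩)
  have m3 : ∀ i, d i ∈ W₂ := fun i => by
    rw [← hd.spn]; exact Submodule.mem_sup_left (Submodule.subset_span ⟨i, rfl⟩)
  have m4 : ∀ i, d' i ∈ W₂ := fun i => by
    rw [← hd.spn]; exact Submodule.mem_sup_right (Submodule.subset_span ⟨i, rfl⟩)
  have h21 : ∀ x ∈ W₂, ∀ y ∈ W₁, ω x y = 0 := fun x hx y hy => by rw [hs, h12 y hy x hx, neg_zero]
  refine ⟨Sum.elim b d, Sum.elim b' d', ⟨?_, ?_, ?_, ?_⟩, ?_⟩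
  · rintro (i | i) (j | j)
    · exact hb.bb i j
    · exact h12 _ (m1 i) _ (m3 j)
    · exact h21 _ (m3 i) _ (m1 j)
    · exact hd.bb i j
  · rintro (i | i) (j | j)
    · exact hb.bb' i j
    · exact h12 _ (m2 i) _ (m4 j)
    · exact h21 _ (m4 i) _ (m2 j)
    · exact hd.bb' i j
  · rintro (i | i) (j | j)
    · rw [Sum.elim_inl, Sum.elim_inl, hb.dual]; simp
    · rw [Sum.elim_inl, Sum.elim_inr, h12 _ (m1 i) _ (m4 j)]; simp
    · rw [Sum.elim_inl, Sum.elim_inr, h21 _ (m3 i) _ (m2 j)]; simp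
    · rw [Sum.elim_inr, Sum.elim_inr, hd.dual]; simp
  · rw [Set.Sum.elim_range, Set.Sum.elim_range, Submodule.span_union, Submodule.span_union, ← hb.spn, ← hd.spn,
      sup_sup_sup_comm]
  · rintro (i | i) (j | j)
    · rw [Sum.elim_inl, Sum.elim_inl, fromBlocks_apply₁₁, hA]
    · rw [Sum.elim_inl, Sum.elim_inr, fromBlocks_apply₁₂, h21 _ (hW2 _ (m3 j)).1 _ (m2 i)]; rfl
    · rw [Sum.elim_inl, Sum.elim_inr, fromBlocks_apply₂₁, h12 _ (hW1 _ (m1 j)).1 _ (m4 i)]; rfl
    · rw [Sum.elim_inr, Sum.elim_inr, fromBlocks_apply₂₂, hD]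

end H45.SpG
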