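import Cfsg.Agent.Lib.H45.SpE

/-!
Admissible matrices.
-/
set_option autoImplicit false
set_option linter.unusedSectionVars false

namespace H45.SpH

open H45.SpE Matrix

variable {F : Type*} [Field F] {ι κ : Type*} [Fintype ι] [DecidableEq ι] [Fintype κ] [DecidableEq κ]

theorem smul_cancel {M : Type*} [AddCommGroup M] [Module F M] {c : F} (hc : c ≠ 0) {x y : M} (h : c • x = c • y) : x = y := by
  have := congrArg (fun t => c⁻¹ • t) h
  simpa [smul_smul, inv_mul_cancel₀ hc] using this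

theorem sx {X Xi S : Matrix ι ι F} (hX : X * Xi = 1) (h : Xᵀ * S * X = S) : S * X = Xiᵀ * S := by
  have h1 : Xiᵀ * Xᵀ = 1 := by rw [← transpose_mul, hX, transpose_one]
  calc S * X = Xiᵀ * Xᵀ * S * X := by rw [h1, Matrix.one_mul]
    _ = Xiᵀ * (Xᵀ * S * X) := by simp only [Matrix.mul_assoc]
    _ = Xiᵀ * S := by rw [h]

/-- the scalar case -/
theorem reg_smul (α : F) (hα : α * α ≠ 1) : Reg (α • (1 : Matrix ι ι F)) := by
  intro S _ h
  rw [transpose_smul, transpose_one, Matrix.smul_mul, Matrix.one_mul, Matrix.mul_smul, Matrix.mul_one, smul_smul] at h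
  have h1 : (α * α - 1) • S = 0 := by rw [sub_smul, h, one_smul, sub_self]
  exact (smul_eq_zero.1 h1).resolve_left (sub_ne_zero.2 hα)

theorem adm_one {X Xi : Matrix ι ι F} (hX : X * Xi = 1) (h1 : Reg X) (h2 : Reg Xᵀ) : Adm (1 : Matrix ι ι F) := by
  have hX' : Xi * X = 1 := mul_eq_one_comm.1 hX
  refine ⟨X, Xi, Xi, X, 1, hX, hX', hX, h1, ?_, one_mem _, ?_⟩
  · intro S hS h
    apply h2 S hS
    rw [transpose_transpose] at h ⊢
    calc X * S * Xᵀ = X * (Xi * S * Xiᵀ) * Xᵀ := by rw [h]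
      _ = (X * Xi) * S * (Xiᵀ * Xᵀ) := by simp only [Matrix.mul_assoc]
      _ = S := by rw [← transpose_mul, hX, transpose_one, Matrix.one_mul, Matrix.mul_one]
  · rw [Matrix.mul_one, mm_mul, hX', mm, transpose_one, fromBlocks_one]

theorem adm_one_scalar (α : F) (h0 : α ≠ 0) (hα : α * α ≠ 1) : Adm (1 : Matrix ι ι F) := by
  apply adm_one (X := α • 1) (Xi := α⁻¹ • 1)
  · rw [Matrix.smul_mul, Matrix.one_mul, smul_smul, mul_inv_cancel₀ h0, one_smul]
  · exact reg_smul α hα
  · rw [transpose_smul, transpose_one]; exact reg_smul α hα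

/-- the second type of data -/
def AdmG (A X Xi Y Yi G Gi : Matrix ι ι F) : Prop :=
  X * Xi = 1 ∧ Y * Yi = 1 ∧ G * Gi = 1 ∧ X * Y = A ∧ Y * G = G * Xᵀ ∧ Reg X ∧ Reg Yᵀ

theorem AdmG.adm {A X Xi Y Yi G Gi : Matrix ι ι F} (h : AdmG A X Xi Y Yi G Gi) : Adm A := by
  obtain ⟨hX, hY, hG, hA, hYG, h1, h2⟩ := h
  have hX' : Xi * X = 1 := mul_eq_one_comm.1 hX
  have hY' : Yi * Y = 1 := mul_eq_one_comm.1 hY
  have hG' : Gi * G = 1 := mul_eq_one_comm.1 hG
  refine ⟨X, Xi, Y, Yi, fromBlocks 0 G (-Giᵀ) 0, hX, hY, hA, h1, h2, ?_, ?_⟩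
  · apply blk_mem
    · simp
    · simp
    · rw [transpose_neg, transpose_transpose]
      simp [hG]
  · unfold mm
    rw [fromBlocks_multiply, fromBlocks_multiply]
    simp only [Matrix.mul_zero, Matrix.zero_mul, add_zero, zero_add, Matrix.neg_mul, Matrix.mul_neg, neg_zero]
    congr 1
    · rw [hYG, Matrix.mul_assoc, ← transpose_mul, hX', transpose_one, Matrix.mul_one]
    · congr 1
      have h3 : Gi * Yi = Xiᵀ * Gi := by
        have e1 : Gi * Yi * (Y * G) = 1 := by
          rw [Matrix.mul_assoc Gi, ← Matrix.mul_assoc Yi, hY', Matrix.one_mul, hG']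
        have e2 : (G * Xᵀ) * (Xiᵀ * Gi) = 1 := by
          rw [Matrix.mul_assoc G, ← Matrix.mul_assoc Xᵀ, ← transpose_mul, hX', transpose_one, Matrix.one_mul, hG]
        calc Gi * Yi = Gi * Yi * ((G * Xᵀ) * (Xiᵀ * Gi)) := by rw [e2, Matrix.mul_one]
          _ = (Gi * Yi * (Y * G)) * (Xiᵀ * Gi) := by rw [hYG]; simp only [Matrix.mul_assoc]
          _ = Xiᵀ * Gi := by rw [e1, Matrix.one_mul]
      have h4 : Yiᵀ * Giᵀ = Giᵀ * Xi := by
        rw [← transpose_mul, h3, transpose_mul, transpose_transpose]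
      rw [h4, Matrix.mul_assoc, hX', Matrix.mul_one]

/-- the quadratic relation -/
theorem reg_quad (h2 : (2 : F) ≠ 0) {X Xi : Matrix ι ι F} (hX : X * Xi = 1) (h : X * X = X + 1) : Reg X := by
  intro S _ hS
  have hXi : Xi = X - 1 := by
    have h1 : X * (X - 1) = 1 := by rw [Matrix.mul_sub, h, Matrix.mul_one]; abel
    calc Xi = Xi * (X * (X - 1)) := by rw [h1, Matrix.mul_one]
      _ = X - 1 := by rw [← Matrix.mul_assoc, mul_eq_one_comm.1 hX, Matrix.one_mul]
  have h1 := sx hX hS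
  set Z := Xiᵀ with hZ
  have hZ1 : Z = Xᵀ - 1 := by rw [hZ, hXi, transpose_sub, transpose_one]
  have hXt : Xᵀ * Xᵀ = Xᵀ + 1 := by rw [← transpose_mul, h, transpose_add, transpose_one]
  have hZ2 : Z * Z = 1 - Z := by
    rw [hZ1, Matrix.sub_mul, Matrix.mul_sub, hXt, Matrix.mul_one, Matrix.one_mul]; abel
  have h3 : Z * (Z * S) = Z * S + S := by
    calc Z * (Z * S) = Z * (S * X) := by rw [h1]
      _ = (Z * S) * X := by rw [Matrix.mul_assoc]
      _ = S * (X * X) := by rw [← h1, Matrix.mul_assoc]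
      _ = Z * S + S := by rw [h, Matrix.mul_add, Matrix.mul_one, h1]
  have h4 : Z * (Z * S) = S - Z * S := by rw [← Matrix.mul_assoc, hZ2, Matrix.sub_mul, Matrix.one_mul]
  have h5 : Z * S = 0 := by
    have h6 : (2 : F) • (Z * S) = (2 : F) • (0 : Matrix ι ι F) := by
      rw [smul_zero, two_smul]
      have : Z * S + S = S - Z * S := h3.symm.trans h4
      have h7 : Z * S + Z * S = (Z * S + S) - (S - Z * S) := by abel
      rw [h7, this, sub_self]
    exact smul_cancel h2 h6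
  rw [h5, Matrix.mul_zero, zero_add] at h3
  exact h3.symm

/-- the cubic relation for the contragredient -/
theorem cub_inv {X Xi : Matrix ι ι F} (hX : X * Xi = 1) (h : X * X * X + (2 : F) • X + 1 = 0) :
    Xiᵀ * Xiᵀ * Xiᵀ + (2 : F) • (Xiᵀ * Xiᵀ) + 1 = 0 := by
  have hX' : Xi * X = 1 := mul_eq_one_comm.1 hX
  have h1 : Xi * Xi * Xi * (X * X * X + (2 : F) • X + 1) = 0 := by rw [h, Matrix.mul_zero]
  have e1 : Xi * Xi * Xi * (X * X * X) = 1 := by
    calc Xi * Xi * Xi * (X * X * X) = Xi * (Xi * (Xi * X) * X) * X := by simp only [Matrix.mul_assoc]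
      _ = 1 := by rw [hX', Matrix.mul_one, hX', Matrix.mul_one, hX']
  have e2 : Xi * Xi * Xi * X = Xi * Xi := by rw [Matrix.mul_assoc, hX', Matrix.mul_one]
  rw [Matrix.mul_add, Matrix.mul_add, e1, Matrix.mul_smul, e2, Matrix.mul_one] at h1
  have h2 := congrArg Matrix.transpose h1
  rw [transpose_add, transpose_add, transpose_smul, transpose_mul, transpose_mul, transpose_mul, transpose_one,
    transpose_zero] at h2
  rw [Matrix.mul_assoc, ← h2]; abel

theorem reg_cub (h2 : (2 : F) ≠ 0) {X Xi : Matrix ι ι F} (hX : X * Xi = 1) (h : X * X * X + (2 : F) • X + 1 = 0) :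
    Reg X := by
  intro S _ hS
  have h1 := sx hX hS
  have hZ := cub_inv hX h
  set Z := Xiᵀ with hZdef
  have e1 : Z * (Z * (Z * S)) + (2 : F) • (Z * S) + S = 0 := by
    have a1 : S * (X * X * X + (2 : F) • X + 1) = 0 := by rw [h, Matrix.mul_zero]
    have a2 : S * (X * X * X) = Z * (Z * (Z * S)) := by
      calc S * (X * X * X) = ((S * X) * X) * X := by simp only [Matrix.mul_assoc]
        _ = ((Z * S) * X) * X := by rw [h1]
        _ = (Z * (S * X)) * X := by simp only [Matrix.mul_assoc]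
        _ = (Z * (Z * S)) * X := by rw [h1]
        _ = Z * (Z * (S * X)) := by simp only [Matrix.mul_assoc]
        _ = Z * (Z * (Z * S)) := by rw [h1]
    rwa [Matrix.mul_add, Matrix.mul_add, a2, Matrix.mul_smul, h1, Matrix.mul_one] at a1
  have e2 : Z * (Z * (Z * S)) + (2 : F) • (Z * (Z * S)) + S = 0 := by
    have a1 : (Z * Z * Z + (2 : F) • (Z * Z) + 1) * S = 0 := by rw [hZ, Matrix.zero_mul]
    rwa [Matrix.add_mul, Matrix.add_mul, Matrix.smul_mul, Matrix.one_mul, Matrix.mul_assoc, Matrix.mul_assoc,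
      Matrix.mul_assoc] at a1
  have e3 : Z * (Z * S) = Z * S := by
    apply smul_cancel h2
    have : (2 : F) • (Z * (Z * S)) - (2 : F) • (Z * S) =
      (Z * (Z * (Z * S)) + (2 : F) • (Z * (Z * S)) + S) - (Z * (Z * (Z * S)) + (2 : F) • (Z * S) + S) := by abel
    rw [e1, e2, sub_self] at this
    exact sub_eq_zero.1 this
  rw [e3, e3] at e1
  have e4 : S = -((3 : F) • (Z * S)) := by
    have : Z * S + (2 : F) • (Z * S) + S = (3 : F) • (Z * S) + S := by
      rw [show (3 : F) = 1 + 2 by norm_num, add_smul, one_smul]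
    rw [this] at e1
    exact eq_neg_of_add_eq_zero_right e1
  have e5 : Z * S = -((3 : F) • (Z * S)) := by
    have h6 : Z * S = Z * (-((3 : F) • (Z * S))) := by rw [← e4]
    rw [Matrix.mul_neg, Matrix.mul_smul, e3] at h6
    exact h6
  have e6 : (4 : F) • (Z * S) = 0 := by
    have : (4 : F) • (Z * S) = Z * S + (3 : F) • (Z * S) := by
      rw [show (4 : F) = 1 + 3 by norm_num, add_smul, one_smul]
    rw [this]
    exact add_eq_zero_iff_eq_neg.2 e5
  have h4 : (4 : F) ≠ 0 := by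
    rw [show (4 : F) = 2 * 2 by norm_num]; exact mul_ne_zero h2 h2
  have e7 := (smul_eq_zero.1 e6).resolve_left h4
  rw [e4, e7, smul_zero, neg_zero]

theorem cross (h2 : (2 : F) ≠ 0) {Z : Matrix κ κ F} {X : Matrix ι ι F} {U : Matrix κ ι F}
    (hZ : Z * Z * Z + (2 : F) • (Z * Z) + 1 = 0) (hX : X * X = X + 1) (h : U * X = Z * U) : U = 0 := by
  have e1 : Z * (Z * U) = Z * U + U := by
    calc Z * (Z * U) = Z * (U * X) := by rw [h]
      _ = (Z * U) * X := by rw [Matrix.mul_assoc]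
      _ = U * (X * X) := by rw [← h, Matrix.mul_assoc]
      _ = Z * U + U := by rw [hX, Matrix.mul_add, Matrix.mul_one, h]
  have e2 : Z * (Z * (Z * U)) + (2 : F) • (Z * (Z * U)) + U = 0 := by
    have a1 : (Z * Z * Z + (2 : F) • (Z * Z) + 1) * U = 0 := by rw [hZ, Matrix.zero_mul]
    rwa [Matrix.add_mul, Matrix.add_mul, Matrix.smul_mul, Matrix.one_mul, Matrix.mul_assoc, Matrix.mul_assoc,
      Matrix.mul_assoc] at a1
  rw [e1, Matrix.mul_add, e1] at e2
  have h4 : (4 : F) ≠ 0 := by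
    rw [show (4 : F) = 2 * 2 by norm_num]; exact mul_ne_zero h2 h2
  have e3 : (4 : F) • (Z * U) = (4 : F) • (-U) := by
    have a1 : Z * U + U + Z * U + (2 : F) • (Z * U + U) + U = (4 : F) • (Z * U) + (4 : F) • U := by
      rw [show (4 : F) = 1 + 1 + 2 by norm_num]
      simp only [add_smul, one_smul, smul_add]; abel
    rw [a1] at e2
    rw [smul_neg]
    exact eq_neg_of_add_eq_zero_left e2
  have e4 := smul_cancel h4 e3
  rw [e4, Matrix.mul_neg, e4, neg_neg] at e1
  rw [e1]; abel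

end H45.SpH
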