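import Cfsg.Agent.Lib.H45.SpG
import Cfsg.Agent.Lib.H45.SpH

/-!
Admissible diagonal matrices.
-/
set_option autoImplicit false
set_option linter.unusedSectionVars false

namespace H45.SpI

open H45.SpA H45.SpE H45.SpF H45.SpG H45.SpH Matrix

variable {F : Type*} [Field F] {ι κ : Type*} [Fintype ι] [DecidableEq ι] [Fintype κ] [DecidableEq κ]

/-- the block of size two -/
theorem admG2 (h2 : (2 : F) ≠ 0) : AdmG (-1 : Matrix (κ ⊕ κ) (κ ⊕ κ) F) (fromBlocks 1 1 1 0) (fromBlocks 0 1 1 (-1))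
    (fromBlocks 0 (-1) (-1) 1) (fromBlocks (-1) (-1) (-1) 0) (fromBlocks 0 1 (-1) 0) (fromBlocks 0 (-1) 1 0) := by
  have hX : (fromBlocks 1 1 1 0 : Matrix (κ ⊕ κ) (κ ⊕ κ) F) * fromBlocks 0 1 1 (-1) = 1 := by
    rw [fromBlocks_multiply]; simp [fromBlocks_one]
  have hY : (fromBlocks 0 (-1) (-1) 1 : Matrix (κ ⊕ κ) (κ ⊕ κ) F) * fromBlocks (-1) (-1) (-1) 0 = 1 := by
    rw [fromBlocks_multiply]; simp [fromBlocks_one]
  refine ⟨hX, hY, ?_, ?_, ?_, ?_, ?_⟩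
  · rw [fromBlocks_multiply]; simp [fromBlocks_one]
  · rw [fromBlocks_multiply, ← fromBlocks_one, fromBlocks_neg]; simp
  · rw [fromBlocks_transpose, fromBlocks_multiply, fromBlocks_multiply]; simp
  · apply reg_quad h2 hX
    rw [fromBlocks_multiply, ← fromBlocks_one, fromBlocks_add]; simp
  · have hYt : (fromBlocks 0 (-1) (-1) 1 : Matrix (κ ⊕ κ) (κ ⊕ κ) F)ᵀ = fromBlocks 0 (-1) (-1) 1 := by
      rw [fromBlocks_transpose]; simp
    rw [hYt]
    apply reg_quad h2 hY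
    rw [fromBlocks_multiply, ← fromBlocks_one, fromBlocks_add]
    simp only [Matrix.mul_zero, Matrix.mul_one, zero_add, add_zero, Matrix.mul_neg, neg_neg, neg_zero]

/-- the quadratic relations -/
theorem quad2 : (fromBlocks 1 1 1 0 : Matrix (κ ⊕ κ) (κ ⊕ κ) F) * fromBlocks 1 1 1 0 = fromBlocks 1 1 1 0 + 1 := by
  rw [fromBlocks_multiply, ← fromBlocks_one, fromBlocks_add]; simp

theorem quad2' : (fromBlocks 0 (-1) (-1) 1 : Matrix (κ ⊕ κ) (κ ⊕ κ) F)ᵀ * (fromBlocks 0 (-1) (-1) 1)ᵀ =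
    (fromBlocks 0 (-1) (-1) 1)ᵀ + 1 := by
  rw [fromBlocks_transpose, fromBlocks_multiply, ← fromBlocks_one, fromBlocks_add]
  simp only [Matrix.mul_zero, Matrix.mul_one, zero_add, add_zero, Matrix.mul_neg, neg_neg, neg_zero,
    transpose_neg, transpose_one, transpose_zero]

def X3 (F : Type*) [Field F] : Matrix (Fin 3) (Fin 3) F := !![-1, -2, -2; 0, 1, 1; 1, -1, 0]
def X3i (F : Type*) [Field F] : Matrix (Fin 3) (Fin 3) F := !![-1, -2, 0; -1, -2, -1; 1, 3, 1]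
def Y3 (F : Type*) [Field F] : Matrix (Fin 3) (Fin 3) F := !![-1, 2, 0; -1, 2, 1; 1, -3, -1]
def Y3i (F : Type*) [Field F] : Matrix (Fin 3) (Fin 3) F := !![-1, -2, -2; 0, -1, -1; -1, 1, 0]
def G3 (F : Type*) [Field F] : Matrix (Fin 3) (Fin 3) F := !![-1, 1, 0; -1, 1, -1; 2, -1, 0]
def G3i (F : Type*) [Field F] : Matrix (Fin 3) (Fin 3) F := !![1, 0, 1; 2, 0, 1; 1, -1, 0]
def A3 (F : Type*) [Field F] : Matrix (Fin 3) (Fin 3) F := !![1, 0, 0; 0, -1, 0; 0, 0, -1]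

theorem X3_mul : X3 F * X3i F = 1 := by
  ext i j; fin_cases i <;> fin_cases j <;> simp [X3, X3i, Matrix.mul_apply, Fin.sum_univ_three] <;> ring

theorem Y3_mul : Y3 F * Y3i F = 1 := by
  ext i j; fin_cases i <;> fin_cases j <;> simp [Y3, Y3i, Matrix.mul_apply, Fin.sum_univ_three] <;> ring

theorem G3_mul : G3 F * G3i F = 1 := by
  ext i j; fin_cases i <;> fin_cases j <;> simp [G3, G3i, Matrix.mul_apply, Fin.sum_univ_three] <;> ring

theorem XY3 : X3 F * Y3 F = A3 F := by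
  ext i j; fin_cases i <;> fin_cases j <;> simp [X3, Y3, A3, Matrix.mul_apply, Fin.sum_univ_three] <;> ring

theorem YG3 : Y3 F * G3 F = G3 F * (X3 F)ᵀ := by
  ext i j; fin_cases i <;> fin_cases j <;> simp [X3, Y3, G3, Matrix.mul_apply, Fin.sum_univ_three] <;> ring

theorem X3_cub : X3 F * X3 F * X3 F + (2 : F) • X3 F + 1 = 0 := by
  ext i j; fin_cases i <;> fin_cases j <;> simp [X3, Matrix.mul_apply, Fin.sum_univ_three] <;> ring

theorem Y3_cub : (Y3 F)ᵀ * (Y3 F)ᵀ * (Y3 F)ᵀ + (2 : F) • (Y3 F)ᵀ + 1 = 0 := by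
  ext i j; fin_cases i <;> fin_cases j <;> simp [Y3, Matrix.mul_apply, Fin.sum_univ_three] <;> ring

theorem admG3 (h2 : (2 : F) ≠ 0) : AdmG (A3 F) (X3 F) (X3i F) (Y3 F) (Y3i F) (G3 F) (G3i F) := by
  refine ⟨X3_mul, Y3_mul, G3_mul, XY3, YG3, reg_cub h2 X3_mul X3_cub, ?_⟩
  have h : (Y3 F)ᵀ * (Y3i F)ᵀ = 1 := by
    rw [← transpose_mul, mul_eq_one_comm.1 (Y3_mul (F := F)), transpose_one]
  exact reg_cub h2 h Y3_cub

/-- direct sums -/
theorem reg_sum {X₁ : Matrix ι ι F} {X₂ : Matrix κ κ F} (h1 : Reg X₁) (h2 : Reg X₂)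
    (h12 : ∀ U : Matrix ι κ F, X₁ᵀ * U * X₂ = U → U = 0) : Reg (fromBlocks X₁ 0 0 X₂) := by
  intro S hS h
  rw [← fromBlocks_toBlocks S] at hS h ⊢
  rw [fromBlocks_transpose, fromBlocks_inj] at hS
  rw [fromBlocks_transpose, fromBlocks_multiply, fromBlocks_multiply, fromBlocks_inj] at h
  simp only [transpose_zero, Matrix.mul_zero, Matrix.zero_mul, add_zero, zero_add] at h
  have e1 := h1 _ hS.1 h.1
  have e2 := h12 _ h.2.1
  have e3 := h2 _ hS.2.2.2 h.2.2.2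
  have e4 : S.toBlocks₂₁ = 0 := by rw [← hS.2.2.1, e2, transpose_zero]
  rw [e1, e2, e3, e4, fromBlocks_zero]

theorem AdmG.sum {A₁ X₁ Xi₁ Y₁ Yi₁ G₁ Gi₁ : Matrix ι ι F} {A₂ X₂ Xi₂ Y₂ Yi₂ G₂ Gi₂ : Matrix κ κ F}
    (h1 : AdmG A₁ X₁ Xi₁ Y₁ Yi₁ G₁ Gi₁) (h2 : AdmG A₂ X₂ Xi₂ Y₂ Yi₂ G₂ Gi₂)
    (hX : ∀ U : Matrix ι κ F, X₁ᵀ * U * X₂ = U → U = 0) (hY : ∀ U : Matrix ι κ F, Y₁ * U * Y₂ᵀ = U → U = 0) :
    AdmG (fromBlocks A₁ 0 0 A₂) (fromBlocks X₁ 0 0 X₂) (fromBlocks Xi₁ 0 0 Xi₂) (fromBlocks Y₁ 0 0 Y₂)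
      (fromBlocks Yi₁ 0 0 Yi₂) (fromBlocks G₁ 0 0 G₂) (fromBlocks Gi₁ 0 0 Gi₂) := by
  obtain ⟨a1, a2, a3, a4, a5, a6, a7⟩ := h1
  obtain ⟨b1, b2, b3, b4, b5, b6, b7⟩ := h2
  refine ⟨?_, ?_, ?_, ?_, ?_, reg_sum a6 b6 hX, ?_⟩
  · rw [fromBlocks_multiply]; simp [a1, b1, fromBlocks_one]
  · rw [fromBlocks_multiply]; simp [a2, b2, fromBlocks_one]
  · rw [fromBlocks_multiply]; simp [a3, b3, fromBlocks_one]
  · rw [fromBlocks_multiply]; simp [a4, b4]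
  · rw [fromBlocks_transpose, fromBlocks_multiply, fromBlocks_multiply]; simp [a5, b5]
  · rw [fromBlocks_transpose, transpose_zero, transpose_zero]
    refine reg_sum a7 b7 ?_
    rw [transpose_transpose]; exact hY

theorem adm3 (h2 : (2 : F) ≠ 0) : Adm (fromBlocks (A3 F) 0 0 (-1 : Matrix (κ ⊕ κ) (κ ⊕ κ) F)) := by
  refine AdmG.adm (AdmG.sum (admG3 h2) (admG2 h2) ?_ ?_)
  · intro U hU
    apply cross h2 (cub_inv (X3_mul (F := F)) X3_cub) (quad2 (F := F) (κ := κ))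
    have h1 : (X3i F)ᵀ * (X3 F)ᵀ = 1 := by rw [← transpose_mul, X3_mul, transpose_one]
    have e : (X3i F)ᵀ * ((X3 F)ᵀ * U * (fromBlocks 1 1 1 0 : Matrix (κ ⊕ κ) (κ ⊕ κ) F)) = (X3i F)ᵀ * U := by rw [hU]
    rw [← e, ← Matrix.mul_assoc, ← Matrix.mul_assoc, h1, Matrix.one_mul]
  · intro U hU
    have hYt : (Y3 F)ᵀ * (Y3i F)ᵀ = 1 := by
      rw [← transpose_mul, mul_eq_one_comm.1 (Y3_mul (F := F)), transpose_one]
    have hc := cub_inv hYt (Y3_cub (F := F))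
    rw [transpose_transpose] at hc
    apply cross h2 hc (quad2' (F := F) (κ := κ))
    have h1 : Y3i F * Y3 F = 1 := mul_eq_one_comm.1 Y3_mul
    have e : Y3i F * (Y3 F * U * (fromBlocks 0 (-1) (-1) 1 : Matrix (κ ⊕ κ) (κ ⊕ κ) F)ᵀ) = Y3i F * U := by rw [hU]
    rw [← e, ← Matrix.mul_assoc, ← Matrix.mul_assoc, h1, Matrix.one_mul]

/-- admissible sign patterns -/
def AdmD (F : Type*) [Field F] (a k : ℕ) : Prop :=
  ∃ (κ : Type) (_ : Fintype κ) (_ : DecidableEq κ) (d : κ → F), (∀ i, d i = 1 ∨ d i = -1) ∧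
    Nat.card {i // d i = 1} = a ∧ Nat.card {i // d i ≠ 1} = k ∧ Adm (Matrix.diagonal d)

open Classical in
theorem ncard_eq {κ : Type} [Fintype κ] (p : κ → Prop) : Nat.card {i // p i} = ∑ i, if p i then 1 else 0 := by
  rw [Nat.card_eq_fintype_card, Fintype.card_subtype, Finset.card_filter]

theorem admD_even (h2 : (2 : F) ≠ 0) (j : ℕ) : AdmD F 0 (2 * j) := by
  have h11 : (-1 : F) ≠ 1 := by
    intro h; apply h2; linear_combination -h
  refine ⟨Fin j ⊕ Fin j, inferInstance, inferInstance, fun _ => -1, fun _ => Or.inr rfl, ?_, ?_, ?_⟩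
  · rw [ncard_eq]; simp [h11]
  · rw [ncard_eq]; simp [h11]; ring
  · have h := (admG2 (F := F) (κ := Fin j) h2).adm
    have e : (Matrix.diagonal fun _ : Fin j ⊕ Fin j => (-1 : F)) = -1 := by
      rw [← Matrix.diagonal_one, ← Matrix.diagonal_neg]
    rw [e]; exact h

theorem admD_odd (h2 : (2 : F) ≠ 0) (j : ℕ) (hj : 1 ≤ j) : AdmD F 1 (2 * j) := by
  have h11 : (-1 : F) ≠ 1 := by
    intro h; apply h2; linear_combination -h
  refine ⟨Fin 3 ⊕ (Fin (j - 1) ⊕ Fin (j - 1)), inferInstance, inferInstance, Sum.elim ![1, -1, -1] (fun _ => -1), ?_, ?_, ?_, ?_⟩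
  · rintro (i | i)
    · fin_cases i
      · left; rfl
      · right; rfl
      · right; rfl
    · right; rfl
  · rw [ncard_eq, Fintype.sum_sum_type, Fin.sum_univ_three]; simp [h11]
  · rw [ncard_eq, Fintype.sum_sum_type, Fin.sum_univ_three]; simp [h11]; omega
  · have h := adm3 (F := F) (κ := Fin (j - 1)) h2
    have e : (Matrix.diagonal (Sum.elim ![1, -1, -1] (fun _ => (-1 : F))) : Matrix (Fin 3 ⊕ (Fin (j - 1) ⊕ Fin (j - 1))) _ F) =
        fromBlocks (A3 F) 0 0 (-1) := by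
      rw [← fromBlocks_diagonal]
      congr 1
      · ext i k; fin_cases i <;> fin_cases k <;> simp [A3]
      · rw [← Matrix.diagonal_one, ← Matrix.diagonal_neg]
    rw [e]; exact h

theorem admD_one {n : ℕ} (h : Adm (1 : Matrix (Fin n) (Fin n) F)) : AdmD F n 0 := by
  refine ⟨Fin n, inferInstance, inferInstance, fun _ => 1, fun _ => Or.inl rfl, ?_, ?_, ?_⟩
  · rw [ncard_eq]; simp
  · rw [ncard_eq]; simp
  · exact h

/-- `g` has a diagonal upper left block with the given numbers of signs -/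
def HasD {V : Type*} [AddCommGroup V] [Module F V] (ω : V →ₗ[F] V →ₗ[F] F) (g : V ≃ₗ[F] V) (W : Submodule F V) (a k : ℕ) : Prop :=
  ∃ (κ : Type) (_ : Fintype κ) (_ : DecidableEq κ) (d : κ → F), (∀ i, d i = 1 ∨ d i = -1) ∧
    Nat.card {i // d i = 1} = a ∧ Nat.card {i // d i ≠ 1} = k ∧ Has ω g W (Matrix.diagonal d)

variable {V : Type*} [AddCommGroup V] [Module F V] {ω : V →ₗ[F] V →ₗ[F] F} {g : V ≃ₗ[F] V}

theorem Has.reindex {W : Submodule F V} {A : Matrix ι ι F} (h : Has ω g W A) (e : κ ≃ ι) :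
    Has ω g W (A.submatrix e e) := by
  obtain ⟨b, b', hb, hA⟩ := h
  refine ⟨b ∘ e, b' ∘ e, ⟨fun i j => hb.bb _ _, fun i j => hb.bb' _ _, fun i j => ?_, ?_⟩, fun i j => hA _ _⟩
  · change ω (b (e i)) (b' (e j)) = _
    rw [hb.dual]; simp
  · rw [Set.range_comp, Set.range_comp, e.range_eq_univ, Set.image_univ, Set.image_univ, hb.spn]

theorem HasD.ic [FiniteDimensional F V] (hi : Iso ω g) {W : Submodule F V} (hW : Stab g W) {a k : ℕ}
    (h1 : HasD ω g W a k) (h2 : AdmD F a k) : IC ω g W := by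
  classical
  obtain ⟨ι, _, _, d, hd, ha, hk, hH⟩ := h1
  obtain ⟨κ, _, _, d', hd', ha', hk', hA⟩ := h2
  obtain ⟨e1⟩ : Nonempty ({i // d' i = 1} ≃ {i // d i = 1}) := Finite.card_eq.1 (ha'.trans ha.symm)
  obtain ⟨e2⟩ : Nonempty ({i // ¬ d' i = 1} ≃ {i // ¬ d i = 1}) := Finite.card_eq.1 (hk'.trans hk.symm)
  let e : κ ≃ ι := (Equiv.sumCompl fun i => d' i = 1).symm.trans ((e1.sumCongr e2).trans (Equiv.sumCompl fun i => d i = 1))
  have he : ∀ i, d (e i) = d' i := by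
    intro i
    by_cases hi' : d' i = 1
    · have h3 : e i = e1 ⟨i, hi'⟩ := by
        change (Equiv.sumCompl fun i => d i = 1) ((e1.sumCongr e2) ((Equiv.sumCompl fun i => d' i = 1).symm i)) = _
        rw [Equiv.sumCompl_symm_apply_of_pos (p := fun i => d' i = 1) (a := i) hi']; rfl
      rw [h3, (e1 ⟨i, hi'⟩).2, hi']
    · have h3 : e i = e2 ⟨i, hi'⟩ := by
        change (Equiv.sumCompl fun i => d i = 1) ((e1.sumCongr e2) ((Equiv.sumCompl fun i => d' i = 1).symm i)) = _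
        rw [Equiv.sumCompl_symm_apply_of_neg (p := fun i => d' i = 1) (a := i) hi']; rfl
      rw [h3, (hd _).resolve_left (e2 ⟨i, hi'⟩).2, (hd' i).resolve_left hi']
  have h4 := Has.reindex hH e
  have h5 : (Matrix.diagonal d).submatrix e e = Matrix.diagonal d' := by
    rw [Matrix.submatrix_diagonal_equiv]
    congr 1
    funext i; exact he i
  rw [h5] at h4
  exact ic_of_has hi hW h4 hA

end H45.SpI
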