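import Cfsg.Agent.Lib.H45.SpH

/-!
Identity matrices are admissible over small fields.
-/
set_option autoImplicit false
set_option linter.unusedSectionVars false

namespace H45.SpJ

open H45.SpE H45.SpH Matrix Polynomial

section alg

variable {F M : Type*} [Field F] [AddCommGroup M] [Module F M] (ζ : M →ₗ[F] M)

theorem iter3 {s : M} (h : (ζ ^ 3) s = s) (c r : ℕ) : (ζ ^ (3 * c + r)) s = (ζ ^ r) s := by
  induction c with
  | zero => simp
  | succ c ih =>
    rw [show 3 * (c + 1) + r = (3 * c + r) + 3 by ring, pow_add, Module.End.mul_apply, h, ih]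

theorem iter6 {s : M} (h : (ζ ^ 6) s = s) (c r : ℕ) : (ζ ^ (6 * c + r)) s = (ζ ^ r) s := by
  induction c with
  | zero => simp
  | succ c ih =>
    rw [show 6 * (c + 1) + r = (6 * c + r) + 6 by ring, pow_add, Module.End.mul_apply, h, ih]

theorem pow_fix {s : M} (h : ζ s = s) (n : ℕ) : (ζ ^ n) s = s := by
  induction n with
  | zero => simp
  | succ n ih => rw [pow_succ', Module.End.mul_apply, ih, h]

theorem pow_comm' (n : ℕ) (s : M) : (ζ ^ n) (ζ s) = ζ ((ζ ^ n) s) := by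
  rw [← Module.End.mul_apply, ← pow_succ, pow_succ', Module.End.mul_apply]

theorem basic {a : ℕ} (ha : 1 ≤ a) {s : M} (h1 : (ζ ^ a) s = ζ s + s) (h2 : ∀ m, (ζ ^ (a - 1)) m + (ζ ^ a) m = m) :
    ζ (ζ s) = -(ζ s) - s := by
  have h3 := congrArg ζ (h2 s)
  rw [map_add, ← Module.End.mul_apply ζ (ζ ^ (a - 1)), ← pow_succ', show a - 1 + 1 = a by omega, h1, map_add] at h3
  have h4 : ζ (ζ s) = (ζ s + s + (ζ (ζ s) + ζ s)) - ζ s - (ζ s + s) := by abel
  rw [h4, h3]; abel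

theorem alg3 (h3 : (3 : F) = 0) {a : ℕ} (ha : 1 ≤ a) {s : M} (h1 : (ζ ^ a) s = ζ s + s)
    (h2 : ∀ m, (ζ ^ (a - 1)) m + (ζ ^ a) m = m) : s = 0 := by
  have hE := basic ζ ha h1 h2
  have three : ∀ m : M, m + m + m = 0 := by
    intro m
    have : (3 : F) • m = m + m + m := by
      rw [show (3 : F) = 1 + 1 + 1 by norm_num, add_smul, add_smul, one_smul]
    rw [← this, h3, zero_smul]
  have hw : ζ (ζ s - s) = ζ s - s := by
    rw [map_sub, hE]
    have : -ζ s - s - ζ s = (ζ s - s) - (ζ s + ζ s + ζ s) := by abel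
    rw [this, three, sub_zero]
  have hw2 := pow_fix ζ hw a
  rw [map_sub, pow_comm', h1, map_add] at hw2
  have h9 : ζ (ζ s) = ζ s := by
    have : ζ (ζ s) = (ζ (ζ s) + ζ s - (ζ s + s)) + s := by abel
    rw [this, hw2]; abel
  have h7 : ζ s = s := by
    rw [h9] at hE
    have e1 : ζ s + ζ s + s = 0 := by
      calc ζ s + ζ s + s = ζ s + (-ζ s - s) + s := by rw [← hE]
        _ = 0 := by abel
    calc ζ s = (ζ s + ζ s + ζ s) - (ζ s + ζ s + s) + s := by abel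
      _ = s := by rw [three, e1]; abel
  have h8 := pow_fix ζ h7 a
  rw [h1, h7] at h8
  exact add_eq_right.1 h8

theorem alg2 {a : ℕ} (ha : 1 ≤ a) (ha3 : a % 3 ≠ 2) {s : M} (h1 : (ζ ^ a) s = ζ s + s)
    (h2 : ∀ m, (ζ ^ (a - 1)) m + (ζ ^ a) m = m) : s = 0 := by
  have hE := basic ζ ha h1 h2
  have h3 : (ζ ^ 3) s = s := by
    rw [show (3 : ℕ) = 2 + 1 by norm_num, pow_succ', Module.End.mul_apply, pow_two, Module.End.mul_apply, hE, map_sub,
      map_neg, hE]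
    abel
  obtain ⟨c, r, hr, hcr⟩ : ∃ c r, (r = 0 ∨ r = 1) ∧ a = 3 * c + r := ⟨a / 3, a % 3, by omega, by omega⟩
  have h4 := iter3 ζ h3 c r
  rw [← hcr, h1] at h4
  rcases hr with rfl | rfl
  · rw [pow_zero, Module.End.one_apply] at h4
    have h5 : ζ s = 0 := add_eq_right.1 h4
    rw [← h3, pow_succ, Module.End.mul_apply, h5, map_zero]
  · rw [pow_one] at h4
    exact add_eq_left.1 h4

theorem alg2b (h2' : (2 : F) = 0) {a : ℕ} (ha : 2 ≤ a) (ha3 : a % 3 = 2) {s : M} (h1 : (ζ ^ a) s = ζ (ζ s) + s)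
    (h2 : ∀ m, (ζ ^ (a - 2)) m + (ζ ^ a) m = m) : s = 0 := by
  have two : ∀ m : M, m + m = 0 := by
    intro m
    rw [← two_smul F m, h2', zero_smul]
  have neg : ∀ m : M, -m = m := by
    intro m
    exact (eq_neg_of_add_eq_zero_left (two m)).symm
  -- the basic relation
  have hE : ζ (ζ (ζ (ζ s))) = ζ (ζ s) + s := by
    have h3 := congrArg (fun t => ζ (ζ t)) (h2 s)
    have h4 : ζ (ζ ((ζ ^ (a - 2)) s)) = (ζ ^ a) s := by
      rw [← Module.End.mul_apply, ← Module.End.mul_apply, ← pow_two, ← pow_add, show 2 + (a - 2) = a by omega]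
    simp only [map_add] at h3
    rw [h4, h1, map_add, map_add] at h3
    have h5 : ζ (ζ (ζ (ζ s))) = (ζ (ζ s) + s + (ζ (ζ (ζ (ζ s))) + ζ (ζ s))) - ζ (ζ s) - ζ (ζ s) - s := by abel
    rw [h5, h3, sub_self, zero_sub, sub_eq_add_neg, neg, neg]
  have h6 : (ζ ^ 6) s = s := by
    have : (ζ ^ 6) s = ζ (ζ (ζ (ζ (ζ (ζ s))))) := by
      simp only [pow_succ', pow_zero, Module.End.mul_apply, Module.End.one_apply]
    rw [this, hE, map_add, map_add, hE]
    have : ζ (ζ s) + s + ζ (ζ s) = (ζ (ζ s) + ζ (ζ s)) + s := by abel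
    rw [this, two, zero_add]
  obtain ⟨c, r, hr, hcr⟩ : ∃ c r, (r = 2 ∨ r = 5) ∧ a = 6 * c + r := ⟨a / 6, a % 6, by omega, by omega⟩
  have h4 := iter6 ζ h6 c r
  rw [← hcr, h1] at h4
  rcases hr with rfl | rfl
  · rw [pow_two, Module.End.mul_apply] at h4
    exact add_eq_left.1 h4
  · have e5 : (ζ ^ 5) s = ζ (ζ (ζ (ζ (ζ s)))) := by
      simp only [pow_succ', pow_zero, Module.End.mul_apply, Module.End.one_apply]
    rw [e5, hE, map_add] at h4
    -- `ζ³ s + ζ s = ζ² s + s`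
    have h7 := congrArg ζ h4
    rw [map_add, map_add, hE] at h7
    -- `ζ³ s + ζ s = ζ² s + s + ζ² s`
    have h8 : ζ (ζ (ζ s)) + ζ s = s := by
      rw [h7]
      have : ζ (ζ s) + s + ζ (ζ s) = (ζ (ζ s) + ζ (ζ s)) + s := by abel
      rw [this, two, zero_add]
    rw [h8] at h4
    have h9 : ζ (ζ s) = 0 := add_eq_right.1 h4
    rw [h9, map_zero, zero_add] at h8
    rw [h8] at h9
    rw [h8] at h9
    exact h9

end alg

variable {F : Type*} [Field F] {ι : Type*} [Fintype ι] [DecidableEq ι]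

/-- left multiplication -/
def lm (Z : Matrix ι ι F) : Matrix ι ι F →ₗ[F] Matrix ι ι F := LinearMap.mulLeft F Z

theorem lm_apply (Z S : Matrix ι ι F) : lm Z S = Z * S := rfl

theorem lm_pow (Z : Matrix ι ι F) (n : ℕ) (S : Matrix ι ι F) : ((lm Z) ^ n) S = Z ^ n * S := by
  unfold lm
  rw [LinearMap.pow_mulLeft, LinearMap.mulLeft_apply]

theorem sx_pow {X Z S : Matrix ι ι F} (h : S * X = Z * S) (n : ℕ) : S * X ^ n = Z ^ n * S := by
  induction n with
  | zero => simp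
  | succ n ih => rw [pow_succ, ← Matrix.mul_assoc, ih, Matrix.mul_assoc, h, ← Matrix.mul_assoc, ← pow_succ]

theorem zpow_mul {X Xi : Matrix ι ι F} (hX : X * Xi = 1) {n m : ℕ} (hm : m ≤ n) : (Xiᵀ) ^ n * (Xᵀ) ^ m = (Xiᵀ) ^ (n - m) := by
  have h1 : Xiᵀ * Xᵀ = 1 := by rw [← transpose_mul, hX, transpose_one]
  have h2 : ∀ k, (Xiᵀ) ^ k * (Xᵀ) ^ k = 1 := by
    intro k
    induction k with
    | zero => simp
    | succ k ih =>
      rw [pow_succ, pow_succ', Matrix.mul_assoc, ← Matrix.mul_assoc Xiᵀ, h1, Matrix.one_mul, ih]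
  have h3 : (Xiᵀ) ^ n = (Xiᵀ) ^ (n - m) * (Xiᵀ) ^ m := by rw [← pow_add]; congr 1; omega
  rw [h3, Matrix.mul_assoc, h2, Matrix.mul_one]

theorem reg_fam {X Xi : Matrix ι ι F} (hX : X * Xi = 1) {a : ℕ} (ha : 1 ≤ a) (h : X ^ a = X + 1)
    (hc : (3 : F) = 0 ∨ a % 3 ≠ 2) : Reg X := by
  intro S _ hS
  have h1 := sx hX hS
  have h2 : ((lm Xiᵀ) ^ a) S = lm Xiᵀ S + S := by
    rw [lm_pow, lm_apply, ← sx_pow h1, h, Matrix.mul_add, Matrix.mul_one, h1]
  have h3 : ∀ m, ((lm Xiᵀ) ^ (a - 1)) m + ((lm Xiᵀ) ^ a) m = m := by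
    intro m
    rw [lm_pow, lm_pow, ← Matrix.add_mul]
    have h4 : (Xᵀ) ^ a = Xᵀ + 1 := by rw [← transpose_pow, h, transpose_add, transpose_one]
    have h5 := zpow_mul hX (le_refl a)
    have h6 := zpow_mul hX ha
    rw [pow_one] at h6
    rw [h4, Matrix.mul_add, Matrix.mul_one, h6, Nat.sub_self, pow_zero] at h5
    rw [h5, Matrix.one_mul]
  rcases hc with hc | hc
  · exact alg3 _ hc ha h2 h3
  · exact alg2 _ ha hc h2 h3

theorem reg_fam2 {X Xi : Matrix ι ι F} (hX : X * Xi = 1) {a : ℕ} (ha : 2 ≤ a) (h : X ^ a = X ^ 2 + 1)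
    (hc : (2 : F) = 0) (ha3 : a % 3 = 2) : Reg X := by
  intro S _ hS
  have h1 := sx hX hS
  have h2 : ((lm Xiᵀ) ^ a) S = lm Xiᵀ (lm Xiᵀ S) + S := by
    rw [lm_pow, lm_apply, lm_apply, ← sx_pow h1, h, Matrix.mul_add, Matrix.mul_one, sx_pow h1, pow_two, Matrix.mul_assoc]
  have h3 : ∀ m, ((lm Xiᵀ) ^ (a - 2)) m + ((lm Xiᵀ) ^ a) m = m := by
    intro m
    rw [lm_pow, lm_pow, ← Matrix.add_mul]
    have h4 : (Xᵀ) ^ a = (Xᵀ) ^ 2 + 1 := by rw [← transpose_pow, h, transpose_add, transpose_one, transpose_pow]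
    have h5 := zpow_mul hX (le_refl a)
    have h6 := zpow_mul hX ha
    rw [h4, Matrix.mul_add, Matrix.mul_one, h6, Nat.sub_self, pow_zero] at h5
    rw [h5, Matrix.one_mul]
  exact alg2b _ hc ha ha3 h2 h3

/-- matrices with a given polynomial -/
theorem exists_mat (f : F[X]) (hf : f.Monic) {n : ℕ} (hn : f.natDegree = n) : ∃ X : Matrix (Fin n) (Fin n) F, aeval X f = 0 := by
  have hdim : (AdjoinRoot.powerBasis' hf).dim = n := by rw [AdjoinRoot.powerBasis'_dim, hn]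
  let b := (AdjoinRoot.powerBasis' hf).basis.reindex (finCongr hdim)
  refine ⟨Algebra.leftMulMatrix b (AdjoinRoot.root f), ?_⟩
  rw [Polynomial.aeval_algHom_apply, AdjoinRoot.aeval_eq, AdjoinRoot.mk_self, map_zero]

theorem nd_X_pow_add {n : ℕ} {r : F[X]} (h : r.degree < (n : WithBot ℕ)) : (X ^ n + r).natDegree = n := by
  apply natDegree_eq_of_degree_eq_some
  rw [degree_add_eq_left_of_degree_lt (by rw [degree_X_pow]; exact h), degree_X_pow]

theorem adm_one_fam {n : ℕ} (hn : 2 ≤ n) (hc : (3 : F) = 0 ∨ n % 3 ≠ 2) : Adm (1 : Matrix (Fin n) (Fin n) F) := by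
  have hdeg : (-X - 1 : F[X]).degree < (n : WithBot ℕ) := by
    have h1 : (-X - 1 : F[X]) = -(X + C 1) := by rw [C_1]; ring
    rw [h1, degree_neg, degree_X_add_C]
    exact_mod_cast hn
  obtain ⟨X, hX⟩ := exists_mat (X ^ n + (-X - 1) : F[X]) (monic_X_pow_add hdeg) (nd_X_pow_add hdeg)
  have hX1 : X ^ n = X + 1 := by
    rw [map_add, map_sub, map_neg, map_pow, aeval_X, map_one] at hX
    rw [← sub_eq_zero, ← hX]; abel
  have hXi : X * (X ^ (n - 1) - 1) = 1 := by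
    rw [Matrix.mul_sub, ← pow_succ', show n - 1 + 1 = n by omega, hX1, Matrix.mul_one]; abel
  refine adm_one hXi (reg_fam hXi (by omega) hX1 hc) (reg_fam (Xi := (X ^ (n - 1) - 1)ᵀ) ?_ (by omega) ?_ hc)
  · rw [← transpose_mul, mul_eq_one_comm.1 hXi, transpose_one]
  · rw [← transpose_pow, hX1, transpose_add, transpose_one]

theorem adm_one_fam2 {n : ℕ} (hn : 3 ≤ n) (hc : (2 : F) = 0) (h3 : n % 3 = 2) : Adm (1 : Matrix (Fin n) (Fin n) F) := by
  have hdeg : (-X ^ 2 - 1 : F[X]).degree < (n : WithBot ℕ) := by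
    have h1 : (-X ^ 2 - 1 : F[X]) = -(X ^ 2 + C 1) := by rw [C_1]; ring
    rw [h1, degree_neg, degree_X_pow_add_C (by norm_num)]
    exact_mod_cast hn
  obtain ⟨X, hX⟩ := exists_mat (X ^ n + (-X ^ 2 - 1) : F[X]) (monic_X_pow_add hdeg) (nd_X_pow_add hdeg)
  have hX1 : X ^ n = X ^ 2 + 1 := by
    rw [map_add, map_sub, map_neg, map_pow, map_pow, aeval_X, map_one] at hX
    rw [← sub_eq_zero, ← hX]; abel
  have hXi : X * (X ^ (n - 1) - X) = 1 := by
    rw [Matrix.mul_sub, ← pow_succ', show n - 1 + 1 = n by omega, hX1, pow_two]; abel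
  refine adm_one hXi (reg_fam2 hXi (by omega) hX1 hc h3) (reg_fam2 (Xi := (X ^ (n - 1) - X)ᵀ) ?_ (by omega) ?_ hc h3)
  · rw [← transpose_mul, mul_eq_one_comm.1 hXi, transpose_one]
  · rw [← transpose_pow, hX1, transpose_add, transpose_one, transpose_pow]

theorem adm_two {n : ℕ} (hn : 3 ≤ n) (hc : (2 : F) = 0) : Adm (1 : Matrix (Fin n) (Fin n) F) := by
  by_cases h : n % 3 = 2
  · exact adm_one_fam2 hn hc h
  · exact adm_one_fam (by omega) (Or.inr h)

end H45.SpJ
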