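import Cfsg.Agent.Lib.H45.SpI
import Cfsg.Agent.Lib.H45.SpJ

/-!
Ore's conjecture for symplectic groups: assembly.
-/
set_option autoImplicit false
set_option linter.unusedSectionVars false

namespace H45.SpK

open Polynomial Module H45.SpA H45.SpB H45.SpE H45.SpF H45.SpG H45.SpH H45.SpI H45.SpJ Matrix

variable {F V : Type*} [Field F] [AddCommGroup V] [Module F V] {ω : V →ₗ[F] V →ₗ[F] F} {g : V ≃ₗ[F] V}

theorem Lag.inf {W L L' : Submodule F V} (h : Lag ω W L L') (hnd : Nd ω W) : L ⊓ L' = ⊥ := by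
  rw [Submodule.eq_bot_iff]
  rintro x ⟨hx, hx'⟩
  exact h.eq_zero hnd hx fun y hy => h.iso' x hx' y hy

theorem Lag.finrank [FiniteDimensional F V] {W L L' : Submodule F V} (h : Lag ω W L L') (hnd : Nd ω W) :
    finrank F W = 2 * finrank F L := by
  have h1 := Submodule.finrank_sup_add_finrank_inf_eq L L'
  rw [h.sup, Lag.inf h hnd, finrank_bot, ← h.finrank_eq hnd] at h1
  omega

theorem neg_one_ne (h2 : (2 : F) ≠ 0) : (-1 : F) ≠ 1 := by
  intro h; apply h2; linear_combination -h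

theorem hasD_one [FiniteDimensional F V] (hs : ∀ x y, ω x y = - ω y x) {W L L' : Submodule F V} (h : Lag ω W L L')
    (hnd : Nd ω W) (hε : ∀ x ∈ L, g x - (1 : F) • x ∈ L') : HasD ω g W (finrank F L) 0 := by
  refine ⟨Fin (finrank F L), inferInstance, inferInstance, fun _ => 1, fun _ => Or.inl rfl, ?_, ?_, ?_⟩
  · rw [ncard_eq]; simp
  · rw [ncard_eq]; simp
  · have := has_scalar hs h hnd 1 hε (finBasis F L)
    rw [one_smul, ← Matrix.diagonal_one] at this
    exact this

theorem hasD_neg [FiniteDimensional F V] (h2 : (2 : F) ≠ 0) (hs : ∀ x y, ω x y = - ω y x) {W L L' : Submodule F V}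
    (h : Lag ω W L L') (hnd : Nd ω W) (hε : ∀ x ∈ L, g x - (-1 : F) • x ∈ L') : HasD ω g W 0 (finrank F L) := by
  refine ⟨Fin (finrank F L), inferInstance, inferInstance, fun _ => -1, fun _ => Or.inr rfl, ?_, ?_, ?_⟩
  · rw [ncard_eq]; simp [neg_one_ne h2]
  · rw [ncard_eq]; simp [neg_one_ne h2]
  · have := has_scalar hs h hnd (-1) hε (finBasis F L)
    rw [neg_one_smul, ← Matrix.diagonal_one, Matrix.diagonal_neg] at this
    exact this

theorem hasD_one' [FiniteDimensional F V] (hi : Iso ω g) (h2 : (2 : F) ≠ 0) {W L L' : Submodule F V} (hW : Stab g W)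
    (h : Lag ω W L L') (hnd : Nd ω W) (hε : ∀ x ∈ L, g x - (1 : F) • x ∈ L') (hne : ¬ ∀ x ∈ W, g x = x) :
    1 ≤ finrank F L ∧ HasD ω g W (finrank F L - 1) 1 := by
  obtain ⟨M, M', hM, hMε, v, hv, hv0⟩ := exists_good hi h2 hW h hnd 1 (one_mul 1) hε (by
    intro h3; apply hne; intro x hx; rw [h3 x hx, one_smul])
  obtain ⟨n, hn, hH⟩ := has_refl hi.alt hi.skew hM hnd 1 hMε hv hv0
  have e1 : finrank F L = n + 1 := by
    have a1 := Lag.finrank h hnd
    have a2 := Lag.finrank hM hnd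
    omega
  refine ⟨by omega, Fin (n + 1), inferInstance, inferInstance, _, ?_, ?_, ?_, hH⟩
  · intro i
    refine Fin.cases ?_ ?_ i
    · right; rfl
    · intro i; left; rfl
  · rw [ncard_eq, Fin.sum_univ_succ]; simp [neg_one_ne h2]; omega
  · rw [ncard_eq, Fin.sum_univ_succ]; simp [neg_one_ne h2]

theorem hasD_neg' [FiniteDimensional F V] (hi : Iso ω g) (h2 : (2 : F) ≠ 0) {W L L' : Submodule F V} (hW : Stab g W)
    (h : Lag ω W L L') (hnd : Nd ω W) (hε : ∀ x ∈ L, g x - (-1 : F) • x ∈ L') (hne : ¬ ∀ x ∈ W, g x = -x) :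
    1 ≤ finrank F L ∧ HasD ω g W 1 (finrank F L - 1) := by
  obtain ⟨M, M', hM, hMε, v, hv, hv0⟩ := exists_good hi h2 hW h hnd (-1) (by norm_num) hε (by
    intro h3; apply hne; intro x hx; rw [h3 x hx, neg_one_smul])
  obtain ⟨n, hn, hH⟩ := has_refl hi.alt hi.skew hM hnd (-1) hMε hv hv0
  have e1 : finrank F L = n + 1 := by
    have a1 := Lag.finrank h hnd
    have a2 := Lag.finrank hM hnd
    omega
  refine ⟨by omega, Fin (n + 1), inferInstance, inferInstance, _, ?_, ?_, ?_, hH⟩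
  · intro i
    refine Fin.cases ?_ ?_ i
    · left; exact neg_neg 1
    · intro i; right; rfl
  · rw [ncard_eq, Fin.sum_univ_succ]; simp [neg_one_ne h2]
  · rw [ncard_eq, Fin.sum_univ_succ]; simp [neg_one_ne h2]; omega

theorem HasD.sup (hs : ∀ x y, ω x y = - ω y x) {W₁ W₂ : Submodule F V} (h12 : ∀ x ∈ W₁, ∀ y ∈ W₂, ω x y = 0)
    (hW1 : Stab g W₁) (hW2 : Stab g W₂) {a k a' k' : ℕ} (h1 : HasD ω g W₁ a k) (h2 : HasD ω g W₂ a' k') :
    HasD ω g (W₁ ⊔ W₂) (a + a') (k + k') := by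
  obtain ⟨ι, _, _, d, hd, ha, hk, hH⟩ := h1
  obtain ⟨κ, _, _, d', hd', ha', hk', hH'⟩ := h2
  refine ⟨ι ⊕ κ, inferInstance, inferInstance, Sum.elim d d', ?_, ?_, ?_, ?_⟩
  · rintro (i | i)
    · exact hd i
    · exact hd' i
  · rw [ncard_eq] at ha ha' ⊢
    rw [Fintype.sum_sum_type, ← ha, ← ha']; rfl
  · rw [ncard_eq] at hk hk' ⊢
    rw [Fintype.sum_sum_type, ← hk, ← hk']; rfl
  · rw [← fromBlocks_diagonal]
    exact Has.sup hs h12 hW1 hW2 hH hH'

theorem ic_id {W : Submodule F V} (h : ∀ x ∈ W, g x = x) : IC ω g W :=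
  ⟨LinearMap.id, LinearMap.id, fun _ _ => rfl, fun _ _ => rfl, fun _ _ => ⟨rfl, rfl⟩, fun _ hx => ⟨hx, hx⟩, fun x hx => h x hx⟩

theorem exists_sq [Fintype F] (h2 : (2 : F) ≠ 0) : ∃ x y : F, x * x + y * y = -1 := by
  have hchar : ringChar F ≠ 2 := by
    intro h
    apply neg_one_ne h2
    have : CharP F 2 := by rw [← h]; infer_instance
    exact CharTwo.neg_eq 1
  have hodd : Fintype.card F % 2 = 1 := FiniteField.odd_card_of_char_ne_two hchar
  obtain ⟨x, y, hxy⟩ := FiniteField.exists_root_sum_quadratic (R := F) (f := Polynomial.X ^ 2)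
    (g := Polynomial.X ^ 2 - Polynomial.C (-1))
    (Polynomial.degree_X_pow 2) (Polynomial.degree_X_pow_sub_C (by decide) _) hodd
  refine ⟨x, y, ?_⟩
  simp at hxy
  linear_combination hxy

theorem anti {n : ℕ} {x y : F} (hxy : x * x + y * y = -1) :
    ∃ p ∈ symplecticGroup (Fin n) F, ∃ q ∈ symplecticGroup (Fin n) F, p * q = -(q * p) := by
  refine ⟨fromBlocks (x • 1) (y • 1) (y • 1) (-(x • 1)), ?_, fromBlocks 0 1 (-1) 0, ?_, ?_⟩
  · apply blk_mem
    · simp [transpose_smul, smul_smul, mul_comm]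
    · simp [transpose_smul, smul_smul, mul_comm]
    · rw [transpose_neg, transpose_smul, transpose_smul, transpose_one]
      simp only [Matrix.mul_neg, Matrix.mul_smul, Matrix.mul_one, smul_smul]
      rw [← neg_smul, ← sub_smul, show -(x * x) - y * y = 1 by linear_combination -hxy, one_smul]
  · apply blk_mem <;> simp
  · rw [fromBlocks_multiply, fromBlocks_multiply, fromBlocks_neg]
    simp

theorem ic_central [Fintype F] [FiniteDimensional F V] (hi : Iso ω g) (h2 : (2 : F) ≠ 0) {W L L' : Submodule F V}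
    (h : Lag ω W L L') (hnd : Nd ω W) (hg : ∀ x ∈ W, g x = -x) : IC ω g W := by
  obtain ⟨x, y, hxy⟩ := exists_sq (F := F) h2
  obtain ⟨n, b, b', hb⟩ : ∃ (n : ℕ) (b b' : Fin n → V), SB ω W b b' := by
    obtain ⟨b', -, hb⟩ := h.dual hi.skew hnd (finBasis F L)
    exact ⟨_, _, b', hb⟩
  obtain ⟨p, hpm, q, hqm, hpq⟩ := anti (n := n) hxy
  have hs := hi.skew
  refine ⟨rho ω b b' p, rho ω b b' q, rho_iso hb hs hpm, rho_iso hb hs hqm, ?_, ?_, ?_⟩
  · intro x hx
    exact ⟨rho_perp hb hs p hx, rho_perp hb hs q hx⟩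
  · intro x hx
    rw [← ee_rr hb hs hx, rho_ee hb hs, rho_ee hb hs]
    exact ⟨ee_mem hb hs _, ee_mem hb hs _⟩
  · intro x hx
    rw [← ee_rr hb hs hx, rho_ee hb hs, rho_ee hb hs, rho_ee hb hs, rho_ee hb hs, hg _ (ee_mem hb hs _),
      Matrix.mulVec_mulVec, Matrix.mulVec_mulVec, hpq, Matrix.neg_mulVec, map_neg]

/-- splitting off the eigenvalue `-1` -/
theorem decomp [FiniteDimensional F V] (hi : Iso ω g) (h2 : (2 : F) ≠ 0) (hnd : Nd ω ⊤) :
    ∃ A B : Submodule F V, A ⊔ B = ⊤ ∧ (∀ x ∈ A, ∀ y ∈ B, ω x y = 0) ∧ Stab g A ∧ Stab g B ∧ Nd ω A ∧ Nd ω B ∧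
      (∀ x ∈ A, g x = -x → x = 0) ∧ (∀ x ∈ B, g x = x → x = 0) := by
  set p : F[X] := X - C (-2) with hp
  have hpi : Irreducible p := irreducible_X_sub_C _
  have hf0 : minpoly F (T g) ≠ 0 := minpoly.ne_zero (Algebra.IsIntegral.isIntegral _)
  obtain ⟨f', hf', hpf'⟩ := (FiniteMultiplicity.of_not_isUnit hpi.not_isUnit hf0).exists_eq_pow_mul_and_not_dvd
  set e := multiplicity p (minpoly F (T g)) with he
  have hcop : IsCoprime (p ^ e) f' := IsCoprime.pow_left ((hpi.coprime_iff_not_dvd).2 hpf')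
  obtain ⟨a, b, hab⟩ := hcop
  have hmin : ∀ x, aeval (T g) (p ^ e * f') x = 0 := by
    intro x
    rw [← hf', minpoly.aeval]; rfl
  set A : Submodule F V := LinearMap.ker (aeval (T g) f') with hA
  set B : Submodule F V := LinearMap.ker (aeval (T g) (p ^ e)) with hB
  have hdec : ∀ x, x = aeval (T g) (a * p ^ e) x + aeval (T g) (b * f') x := by
    intro x
    rw [← LinearMap.add_apply, ← map_add, hab]; simp
  have hsup : A ⊔ B = ⊤ := by
    rw [eq_top_iff]
    intro x _
    rw [hdec x]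
    apply Submodule.add_mem_sup
    · rw [hA, LinearMap.mem_ker, ← pol_mul, show f' * (a * p ^ e) = a * (p ^ e * f') by ring, pol_mul, hmin, map_zero]
    · rw [hB, LinearMap.mem_ker, ← pol_mul, show p ^ e * (b * f') = b * (p ^ e * f') by ring, pol_mul, hmin, map_zero]
  have hperp : ∀ x ∈ A, ∀ y ∈ B, ω x y = 0 := by
    intro x hx y hy
    rw [hA, LinearMap.mem_ker] at hx
    rw [hB, LinearMap.mem_ker] at hy
    rw [hdec y, map_add, pol_mul (g := g) a, hy, map_zero, map_zero, zero_add, ← hi.pol_adj, pol_mul, hx, map_zero,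
      map_zero, LinearMap.zero_apply]
  have hst : ∀ q : F[X], Stab g (LinearMap.ker (aeval (T g) q)) := by
    intro q x hx
    rw [LinearMap.mem_ker] at hx
    rw [LinearMap.mem_ker, LinearMap.mem_ker, pol_g, pol_gs, hx, map_zero, map_zero]
    exact ⟨rfl, rfl⟩
  have hpT : ∀ (c : F) (n : ℕ) (x : V), T g x = c • x → aeval (T g) (p ^ n) x = (c + 2) ^ n • x := by
    intro c n x hx
    induction n with
    | zero => simp
    | succ n ih =>
      have h3 : aeval (T g) p x = (c + 2) • x := by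
        rw [hp, map_sub, aeval_X, aeval_C, LinearMap.sub_apply, Module.algebraMap_end_apply, hx, ← sub_smul, sub_neg_eq_add]
      rw [pow_succ, pol_mul, h3, map_smul, ih, smul_smul, pow_succ, mul_comm]
  have hzero : ∀ x ∈ A, x ∈ B → x = 0 := by
    intro x hx hx'
    apply hnd x Submodule.mem_top
    intro y _
    have hy : y ∈ A ⊔ B := by rw [hsup]; exact Submodule.mem_top
    rw [Submodule.mem_sup] at hy
    obtain ⟨c, hc, d, hd, rfl⟩ := hy
    rw [map_add, hi.skew x c, hperp c hc x hx', hperp x hx d hd]; simp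
  refine ⟨A, B, hsup, hperp, hst _, hst _, ?_, ?_, ?_, ?_⟩
  · intro x hx h
    apply hnd x Submodule.mem_top
    intro y _
    have hy : y ∈ A ⊔ B := by rw [hsup]; exact Submodule.mem_top
    rw [Submodule.mem_sup] at hy
    obtain ⟨c, hc, d, hd, rfl⟩ := hy
    rw [map_add, h c hc, hperp x hx d hd, add_zero]
  · intro x hx h
    apply hnd x Submodule.mem_top
    intro y _
    have hy : y ∈ A ⊔ B := by rw [hsup]; exact Submodule.mem_top
    rw [Submodule.mem_sup] at hy
    obtain ⟨c, hc, d, hd, rfl⟩ := hy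
    rw [map_add, h d hd, hi.skew, hperp c hc x hx]; simp
  · intro x hx h
    apply hzero x hx
    -- `T x = -2 x`
    have hT : T g x = (-2 : F) • x := by
      have h3 : g.symm x = -x := by
        rw [LinearEquiv.symm_apply_eq, map_neg, h, neg_neg]
      rw [T_apply, h, h3, neg_smul, two_smul]; abel
    have he1 : e ≠ 0 ∨ x = 0 := by
      by_cases he0 : e = 0
      · right
        have h4 : aeval (T g) f' x = 0 := hx
        have h5 := hpT (-2) 1 x hT
        rw [pow_one, show (-2 + 2 : F) = 0 by ring, zero_pow one_ne_zero, zero_smul] at h5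
        obtain ⟨c, d, hcd⟩ := (hpi.coprime_iff_not_dvd).2 hpf'
        have h6 : x = aeval (T g) (c * p) x + aeval (T g) (d * f') x := by
          rw [← LinearMap.add_apply, ← map_add, hcd]; simp
        rw [h6, pol_mul, pol_mul, h5, h4, map_zero, map_zero, add_zero]
      · exact Or.inl he0
    rcases he1 with he1 | he1
    · rw [hB, LinearMap.mem_ker, hpT (-2) e x hT, show (-2 + 2 : F) = 0 by ring, zero_pow he1, zero_smul]
    · rw [he1]; exact Submodule.zero_mem _
  · intro x hx h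
    have hT : T g x = (2 : F) • x := by
      have h3 : g.symm x = x := by
        rw [LinearEquiv.symm_apply_eq, h]
      rw [T_apply, h, h3, two_smul]
    have h4 : aeval (T g) (p ^ e) x = 0 := hx
    rw [hpT 2 e x hT] at h4
    have h5 : (2 + 2 : F) ≠ 0 := by
      rw [show (2 + 2 : F) = 2 * 2 by norm_num]; exact mul_ne_zero h2 h2
    exact (smul_eq_zero.1 h4).resolve_left (pow_ne_zero _ h5)

end H45.SpK
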