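import Cfsg.Agent.Lib.H45.SpK

/-!
Ore's conjecture for symplectic groups.
-/
set_option autoImplicit false
set_option linter.unusedSectionVars false

namespace H45.SpL

open Polynomial Module H45.SpA H45.SpB H45.SpE H45.SpF H45.SpG H45.SpH H45.SpI H45.SpJ H45.SpK Matrix

variable {F V : Type*} [Field F] [AddCommGroup V] [Module F V] {ω : V →ₗ[F] V →ₗ[F] F} {g : V ≃ₗ[F] V}

theorem exists_alpha [Fintype F] (h : 4 ≤ Fintype.card F) : ∃ α : F, α ≠ 0 ∧ α * α ≠ 1 := by
  classical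
  obtain ⟨α, hα⟩ : ∃ α : F, α ∉ ({0, 1, -1} : Finset F) := by
    by_contra hcon
    push Not at hcon
    have h1 : (Finset.univ : Finset F) ⊆ {0, 1, -1} := fun x _ => hcon x
    have h2 := Finset.card_le_card h1
    have h3 : ({0, 1, -1} : Finset F).card ≤ 3 := Finset.card_le_three
    rw [Finset.card_univ] at h2
    omega
  simp only [Finset.mem_insert, Finset.mem_singleton, not_or] at hα
  refine ⟨α, hα.1, fun h1 => ?_⟩
  have h2 : (α - 1) * (α + 1) = 0 := by linear_combination h1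
  rcases mul_eq_zero.1 h2 with h3 | h3
  · exact hα.2.1 (sub_eq_zero.1 h3)
  · exact hα.2.2 (eq_neg_of_add_eq_zero_left h3)

theorem three_zero [Fintype F] (h2 : (2 : F) ≠ 0) (h : ¬ 4 ≤ Fintype.card F) : (3 : F) = 0 := by
  have hcast : (Fintype.card F : F) = 0 := FiniteField.cast_card_eq_zero F
  have h1 : 1 < Fintype.card F := Fintype.one_lt_card
  have h3 : Fintype.card F = 2 ∨ Fintype.card F = 3 := by omega
  rcases h3 with h3 | h3
  · rw [h3] at hcast
    exact absurd (by exact_mod_cast hcast) h2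
  · rw [h3] at hcast
    exact_mod_cast hcast

theorem hOne [Fintype F] (h2 : (2 : F) ≠ 0) (n : ℕ) (h : n ≠ 1 ∨ 4 ≤ Fintype.card F) : AdmD F n 0 := by
  by_cases h4 : 4 ≤ Fintype.card F
  · obtain ⟨α, h0, h1⟩ := exists_alpha h4
    exact admD_one (adm_one_scalar α h0 h1)
  · have h3 := three_zero h2 h4
    have hn := h.resolve_right h4
    rcases Nat.eq_zero_or_pos n with rfl | hn0
    · exact admD_even h2 0
    · exact admD_one (adm_one_fam (by omega) (Or.inl h3))

theorem ic_top_odd [Fintype F] [FiniteDimensional F V] (hi : Iso ω g) (h2 : (2 : F) ≠ 0) (hnd : Nd ω ⊤) (m : ℕ)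
    (hm : finrank F V = 2 * m) (hm1 : 1 ≤ m) (h1 : m = 1 → 4 ≤ Fintype.card F) : IC ω g ⊤ := by
  have hs := hi.skew
  obtain ⟨A, B, hAB, hperp, hsA, hsB, hnA, hnB, hA1, hB1⟩ := decomp hi h2 hnd
  obtain ⟨LA, LA', a1, a2, a3, a4⟩ := SpD.main hi _ A rfl hnA hsA (Or.inl hA1)
  have hLA : Lag ω A LA LA' := ⟨a1, a2, a3⟩
  have hεA : ∀ x ∈ LA, g x - (1 : F) • x ∈ LA' := by
    intro x hx; rw [one_smul]; exact a4 x hx
  -- the negative
  set g' : V ≃ₗ[F] V := g.trans (LinearEquiv.neg F) with hg'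
  have hg'1 : ∀ x, g' x = -(g x) := fun _ => rfl
  have hg'2 : ∀ x, g'.symm x = -(g.symm x) := by
    intro x
    rw [LinearEquiv.symm_apply_eq, hg'1, map_neg, LinearEquiv.apply_symm_apply, neg_neg]
  have hi' : Iso ω g' := by
    refine ⟨hi.alt, fun x y => ?_⟩
    rw [hg'1, hg'1]; simp only [map_neg, LinearMap.neg_apply, neg_neg]; exact hi.inv x y
  have hsB' : Stab g' B := by
    intro x hx
    rw [hg'1, hg'2]
    exact ⟨B.neg_mem (hsB x hx).1, B.neg_mem (hsB x hx).2⟩
  obtain ⟨LB, LB', b1, b2, b3, b4⟩ := SpD.main hi' _ B rfl hnB hsB' (Or.inl (by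
    intro x hx h
    rw [hg'1, neg_inj] at h
    exact hB1 x hx h))
  have hLB : Lag ω B LB LB' := ⟨b1, b2, b3⟩
  have hεB : ∀ x ∈ LB, g x - (-1 : F) • x ∈ LB' := by
    intro x hx
    have h3 := b4 x hx
    rw [Z_apply, hg'1] at h3
    have h4 : g x - (-1 : F) • x = -(-(g x) - x) := by rw [neg_one_smul]; abel
    rw [h4]
    exact LB'.neg_mem h3
  set a := finrank F LA with ha
  set k := finrank F LB with hk
  have hak : a + k = m := by
    have e1 := Lag.finrank hLA hnA
    have e2 := Lag.finrank hLB hnB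
    have e3 := Submodule.finrank_sup_add_finrank_inf_eq A B
    have e4 : A ⊓ B = ⊥ := by
      rw [Submodule.eq_bot_iff]
      rintro x ⟨hx, hx'⟩
      exact hnA x hx fun y hy => by rw [hs, hperp y hy x hx', neg_zero]
    rw [hAB, e4, finrank_bot, finrank_top, hm] at e3
    omega
  have hasA := hasD_one (g := g) hs hLA hnA hεA
  have hasB := hasD_neg (g := g) h2 hs hLB hnB hεB
  have key : HasD ω g ⊤ (a + 0) (0 + k) := by
    have := HasD.sup hs hperp hsA hsB hasA hasB
    rwa [hAB] at this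
  have hst : Stab g ⊤ := fun x _ => ⟨Submodule.mem_top, Submodule.mem_top⟩
  have icA : (a ≠ 1 ∨ 4 ≤ Fintype.card F ∨ ∀ x ∈ A, g x = x) → IC ω g A := by
    intro h
    rcases h with h | h | h
    · exact HasD.ic hi hsA hasA (hOne h2 a (Or.inl h))
    · exact HasD.ic hi hsA hasA (hOne h2 a (Or.inr h))
    · exact ic_id h
  have icB : (k ≠ 1 ∨ 4 ≤ Fintype.card F ∨ ∀ x ∈ B, g x = -x) → IC ω g B := by
    intro h
    by_cases hc : ∀ x ∈ B, g x = -x
    · exact ic_central hi h2 hLB hnB hc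
    · obtain ⟨hk1, hB⟩ := hasD_neg' hi h2 hsB hLB hnB hεB hc
      rcases Nat.even_or_odd' k with ⟨j, hj | hj⟩
      · rw [← hk, hj] at hasB
        exact HasD.ic hi hsB hasB (admD_even h2 j)
      · rcases Nat.eq_zero_or_pos j with rfl | hj0
        · have h4 : 4 ≤ Fintype.card F := by
            rcases h with h | h | h
            · omega
            · exact h
            · exact absurd h hc
          rw [← hk, hj] at hB
          exact HasD.ic hi hsB hB (hOne h2 1 (Or.inr h4))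
        · rw [← hk, hj, show 2 * j + 1 - 1 = 2 * j by omega] at hB
          exact HasD.ic hi hsB hB (admD_odd h2 j hj0)
  by_cases hgA : a ≠ 1 ∨ 4 ≤ Fintype.card F ∨ ∀ x ∈ A, g x = x
  · by_cases hgB : k ≠ 1 ∨ 4 ≤ Fintype.card F ∨ ∀ x ∈ B, g x = -x
    · rw [← hAB]
      exact IC.sup hs hperp (icA hgA) (icB hgB)
    · push Not at hgB
      obtain ⟨hk1, hc4, hc⟩ := hgB
      have hc' : ¬ ∀ x ∈ B, g x = -x := by push Not; exact hc
      obtain ⟨-, hB⟩ := hasD_neg' hi h2 hsB hLB hnB hεB hc'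
      have hsum := HasD.sup hs hperp hsA hsB hasA hB
      rw [hAB, ← hk, hk1] at hsum
      refine HasD.ic hi hst hsum (hOne h2 (a + 1) (Or.inl ?_))
      intro h
      have := h1 (by omega)
      omega
  · push Not at hgA
    obtain ⟨ha1, hc4, hc⟩ := hgA
    have hc' : ¬ ∀ x ∈ A, g x = x := by push Not; exact hc
    have hk1 : 1 ≤ k := by
      by_contra hcon
      have := h1 (by omega)
      omega
    rcases Nat.even_or_odd' k with ⟨j, hj | hj⟩
    · rw [ha1, hj, zero_add, add_zero] at key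
      exact HasD.ic hi hst key (admD_odd h2 j (by omega))
    · obtain ⟨-, hA⟩ := hasD_one' hi h2 hsA hLA hnA hεA hc'
      have hsum := HasD.sup hs hperp hsA hsB hA hasB
      rw [hAB, ← ha, ha1, ← hk, hj, show 1 - 1 + 0 = 0 by norm_num, show 1 + (2 * j + 1) = 2 * (j + 1) by ring] at hsum
      exact HasD.ic hi hst hsum (admD_even h2 (j + 1))

theorem ic_top_even [Fintype F] [FiniteDimensional F V] (hi : Iso ω g) (h2 : (2 : F) = 0) (hnd : Nd ω ⊤) (m : ℕ)
    (hm : finrank F V = 2 * m) (h : 4 ≤ Fintype.card F ∨ 3 ≤ m) : IC ω g ⊤ := by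
  have hst : Stab g ⊤ := fun x _ => ⟨Submodule.mem_top, Submodule.mem_top⟩
  obtain ⟨L, L', a1, a2, a3, a4⟩ := SpD.main hi _ ⊤ rfl hnd hst (Or.inr h2)
  have hL : Lag ω ⊤ L L' := ⟨a1, a2, a3⟩
  have hε : ∀ x ∈ L, g x - (1 : F) • x ∈ L' := by
    intro x hx; rw [one_smul]; exact a4 x hx
  have hfr := Lag.finrank hL hnd
  rw [finrank_top, hm] at hfr
  have hL2 : finrank F L = m := by omega
  have hH := has_scalar (g := g) hi.skew hL hnd 1 hε (finBasis F L)
  rw [one_smul] at hH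
  apply ic_of_has hi hst hH
  rcases h with h | h
  · obtain ⟨α, h0, h1⟩ := exists_alpha h
    exact adm_one_scalar α h0 h1
  · exact adm_two (by omega) h2

/-- the standard form -/
def om (m : ℕ) (F : Type*) [Field F] : (Fin m ⊕ Fin m → F) →ₗ[F] (Fin m ⊕ Fin m → F) →ₗ[F] F :=
  LinearMap.mk₂ F (fun x y => x ⬝ᵥ (J (Fin m) F *ᵥ y)) (fun x y z => add_dotProduct _ _ _)
    (fun c x y => smul_dotProduct _ _ _) (fun x y z => by rw [Matrix.mulVec_add, dotProduct_add])
    (fun c x y => by rw [Matrix.mulVec_smul, dotProduct_smul])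

theorem om_apply {m : ℕ} (x y : Fin m ⊕ Fin m → F) : om m F x y = x ⬝ᵥ (J (Fin m) F *ᵥ y) := rfl

theorem om_alt {m : ℕ} (x : Fin m ⊕ Fin m → F) : om m F x x = 0 := by
  have hJ1 : ∀ i, (J (Fin m) F *ᵥ x) (Sum.inl i) = - x (Sum.inr i) := by
    intro i
    simp [J, Matrix.fromBlocks_mulVec, Matrix.neg_mulVec]
  have hJ2 : ∀ i, (J (Fin m) F *ᵥ x) (Sum.inr i) = x (Sum.inl i) := by
    intro i
    simp [J, Matrix.fromBlocks_mulVec]
  rw [om_apply, dotProduct, Fintype.sum_sum_type]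
  simp only [hJ1, hJ2]
  rw [← Finset.sum_add_distrib]
  apply Finset.sum_eq_zero
  intro i _; ring

theorem om_nd {m : ℕ} : Nd (om m F) ⊤ := by
  intro x _ h
  funext j
  have h1 := h (-(J (Fin m) F *ᵥ Pi.single j 1)) Submodule.mem_top
  rw [om_apply, Matrix.mulVec_neg, Matrix.mulVec_mulVec, J_squared, Matrix.neg_mulVec, Matrix.one_mulVec, neg_neg,
    dotProduct_single_one] at h1
  exact h1

theorem mem_of_iso {m : ℕ} (M : Matrix (Fin m ⊕ Fin m) (Fin m ⊕ Fin m) F)
    (key : ∀ c d, (M *ᵥ c) ⬝ᵥ (J (Fin m) F *ᵥ (M *ᵥ d)) = c ⬝ᵥ (J (Fin m) F *ᵥ d)) : M ∈ symplecticGroup (Fin m) F := by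
  rw [SymplecticGroup.mem_iff']
  ext i j
  have h2 := key (Pi.single i 1) (Pi.single j 1)
  have h3 : ∀ (N : Matrix (Fin m ⊕ Fin m) (Fin m ⊕ Fin m) F),
      (Pi.single i (1 : F) : Fin m ⊕ Fin m → F) ⬝ᵥ (N *ᵥ Pi.single j 1) = N i j := by
    intro N
    rw [single_one_dotProduct, Matrix.mulVec_single_one]; rfl
  rw [← h3 (Mᵀ * J (Fin m) F * M), ← h3 (J (Fin m) F), ← h2, ← Matrix.mulVec_mulVec, ← Matrix.mulVec_mulVec,
    Matrix.dotProduct_mulVec (Pi.single i 1), ← Matrix.mulVec_transpose, transpose_transpose]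

theorem main [Fintype F] (m : ℕ) (hm : 1 ≤ m) (h1 : m = 1 → 4 ≤ Fintype.card F)
    (h2 : m = 2 → 3 ≤ Fintype.card F) (g : symplecticGroup (Fin m) F) :
    ∃ a b : symplecticGroup (Fin m) F, g = a * b * a⁻¹ * b⁻¹ := by
  let ge : (Fin m ⊕ Fin m → F) ≃ₗ[F] (Fin m ⊕ Fin m → F) :=
    LinearEquiv.ofLinear (g : Matrix _ _ F).mulVecLin ((g⁻¹ : symplecticGroup (Fin m) F) : Matrix _ _ F).mulVecLin
      (by
        apply LinearMap.ext
        intro x
        rw [LinearMap.comp_apply, Matrix.mulVecLin_apply, Matrix.mulVecLin_apply, Matrix.mulVec_mulVec,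
          ← Submonoid.coe_mul, mul_inv_cancel, Submonoid.coe_one, Matrix.one_mulVec]; rfl)
      (by
        apply LinearMap.ext
        intro x
        rw [LinearMap.comp_apply, Matrix.mulVecLin_apply, Matrix.mulVecLin_apply, Matrix.mulVec_mulVec,
          ← Submonoid.coe_mul, inv_mul_cancel, Submonoid.coe_one, Matrix.one_mulVec]; rfl)
  have hge : ∀ x, ge x = (g : Matrix _ _ F) *ᵥ x := fun _ => rfl
  have hi : Iso (om m F) ge := by
    refine ⟨om_alt, fun x y => ?_⟩
    rw [hge, hge, om_apply, om_apply]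
    exact J_inv_of g.2 x y
  have hfr : finrank F (Fin m ⊕ Fin m → F) = 2 * m := by
    rw [finrank_fintype_fun_eq_card, Fintype.card_sum, Fintype.card_fin]; ring
  have hIC : IC (om m F) ge ⊤ := by
    by_cases hc : (2 : F) = 0
    · apply ic_top_even hi hc om_nd m hfr
      by_cases h4 : 4 ≤ Fintype.card F
      · exact Or.inl h4
      · right
        have hcast : (Fintype.card F : F) = 0 := FiniteField.cast_card_eq_zero F
        by_contra hcon
        have hm2 : m = 2 := by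
          by_contra hne
          exact h4 (h1 (by omega))
        have h3 := h2 hm2
        have h5 : Fintype.card F = 3 := by omega
        rw [h5] at hcast
        have h6 : (3 : F) = 2 + 1 := by norm_num
        have h7 : (3 : F) = 0 := by exact_mod_cast hcast
        rw [h7, hc, zero_add] at h6
        exact zero_ne_one h6
    · exact ic_top_odd hi hc om_nd m hfr hm h1
  obtain ⟨a, b, ha, hb, -, -, hab⟩ := hIC
  have hmem : ∀ f : (Fin m ⊕ Fin m → F) →ₗ[F] (Fin m ⊕ Fin m → F), (∀ x y, om m F (f x) (f y) = om m F x y) →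
      LinearMap.toMatrix' f ∈ symplecticGroup (Fin m) F := by
    intro f hf
    apply mem_of_iso
    intro c d
    have := hf c d
    rw [om_apply, om_apply] at this
    rw [LinearMap.toMatrix'_mulVec, LinearMap.toMatrix'_mulVec]
    exact this
  refine ⟨⟨_, hmem a ha⟩, ⟨_, hmem b hb⟩, ?_⟩
  rw [eq_mul_inv_iff_mul_eq, eq_mul_inv_iff_mul_eq]
  apply Subtype.ext
  change (g : Matrix _ _ F) * LinearMap.toMatrix' b * LinearMap.toMatrix' a = LinearMap.toMatrix' a * LinearMap.toMatrix' b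
  apply Matrix.toLin'.injective
  apply LinearMap.ext
  intro x
  rw [Matrix.toLin'_apply, Matrix.toLin'_apply, ← Matrix.mulVec_mulVec, ← Matrix.mulVec_mulVec, ← Matrix.mulVec_mulVec,
    LinearMap.toMatrix'_mulVec, LinearMap.toMatrix'_mulVec, LinearMap.toMatrix'_mulVec, LinearMap.toMatrix'_mulVec,
    ← hge]
  exact hab x Submodule.mem_top

end H45.SpL
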